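import Mathlib
import Cfsg.Agent.H75.Basic

/-!
Conjugation, relative centralisers and the subgroups of largest measure inside a finite subgroup.
-/

set_option autoImplicit false

namespace Cfsg.Agent.H73.GN

open Subgroup

variable {W : Type*} [Group W]

/-- The conjugate `g H g⁻¹`. -/
def cj (g : W) (H : Subgroup W) : Subgroup W := H.map (MulAut.conj g).toMonoidHom

theorem mem_cj {g x : W} {H : Subgroup W} : x ∈ cj g H ↔ g⁻¹ * x * g ∈ H := by
  rw [cj, mem_map_equiv, MulAut.conj_symm_apply]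

theorem conj_mem_cj {g x : W} {H : Subgroup W} (hx : x ∈ H) : g * x * g⁻¹ ∈ cj g H :=
  ⟨x, hx, rfl⟩

theorem cj_one (H : Subgroup W) : cj 1 H = H := by
  ext x; simp [mem_cj]

theorem cj_mul (g h : W) (H : Subgroup W) : cj (g * h) H = cj g (cj h H) := by
  ext x; simp [mem_cj, mul_assoc]

theorem cj_inv_cj (g : W) (H : Subgroup W) : cj g⁻¹ (cj g H) = H := by
  rw [← cj_mul, inv_mul_cancel, cj_one]

theorem cj_cj_inv (g : W) (H : Subgroup W) : cj g (cj g⁻¹ H) = H := by
  rw [← cj_mul, mul_inv_cancel, cj_one]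

theorem cj_mono (g : W) {H K : Subgroup W} (h : H ≤ K) : cj g H ≤ cj g K := map_mono h

theorem cj_le_iff {g : W} {H K : Subgroup W} : cj g H ≤ cj g K ↔ H ≤ K :=
  map_le_map_iff_of_injective (MulAut.conj g).injective

theorem cj_le_iff' {g : W} {H K : Subgroup W} : cj g H ≤ K ↔ H ≤ cj g⁻¹ K :=
  ⟨fun h => by simpa [cj_inv_cj] using cj_mono g⁻¹ h, fun h => by
    simpa [cj_cj_inv] using cj_mono g h⟩

theorem cj_inj {g : W} {H K : Subgroup W} : cj g H = cj g K ↔ H = K :=
  ⟨fun h => by simpa [cj_inv_cj] using congrArg (cj g⁻¹) h, fun h => h ▸ rfl⟩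

theorem cj_sup (g : W) (H K : Subgroup W) : cj g (H ⊔ K) = cj g H ⊔ cj g K := map_sup _ _ _

theorem cj_inf (g : W) (H K : Subgroup W) : cj g (H ⊓ K) = cj g H ⊓ cj g K :=
  map_inf _ _ _ (MulAut.conj g).injective

theorem card_cj (g : W) (H : Subgroup W) : Nat.card (cj g H) = Nat.card H :=
  (Nat.card_congr (H.equivMapOfInjective _ (MulAut.conj g).injective).toEquiv).symm

theorem mem_centralizer_iff' {x : W} {H : Subgroup W} :
    x ∈ centralizer (H : Set W) ↔ ∀ h ∈ H, h * x = x * h := mem_centralizer_iff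

theorem cj_centralizer (g : W) (H : Subgroup W) :
    cj g (centralizer (H : Set W)) = centralizer (cj g H : Set W) := by
  ext x
  rw [mem_cj, mem_centralizer_iff', mem_centralizer_iff']
  constructor
  · intro h y hy
    have := congrArg (fun z => g * z * g⁻¹) (h _ (mem_cj.mp hy))
    simpa [mul_assoc] using this
  · intro h y hy
    have := congrArg (fun z => g⁻¹ * z * g) (h _ (conj_mem_cj (g := g) hy))
    simpa [mul_assoc] using this

theorem cj_eq_of_mem_normalizer {g : W} {H : Subgroup W} (hg : g ∈ normalizer (H : Set W)) :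
    cj g H = H := by
  ext x
  rw [mem_cj]
  have h := mem_normalizer_iff.mp (inv_mem hg) x
  simp only [inv_inv] at h
  exact h.symm

theorem cj_eq_of_mem {g : W} {H : Subgroup W} (hg : g ∈ H) : cj g H = H :=
  cj_eq_of_mem_normalizer (le_normalizer hg)

theorem mem_normalizer_of_cj_eq {g : W} {H : Subgroup W} (h : cj g H = H) :
    g ∈ normalizer (H : Set W) := by
  refine mem_normalizer_iff.mpr fun x => ⟨fun hx => h ▸ conj_mem_cj hx, fun hx => ?_⟩
  rw [← h, mem_cj] at hx
  simpa [mul_assoc] using hx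

theorem mem_normalizer_cj {g x : W} {H : Subgroup W} (hx : x ∈ normalizer (H : Set W)) :
    g * x * g⁻¹ ∈ normalizer (cj g H : Set W) := by
  refine mem_normalizer_of_cj_eq ?_
  rw [← cj_mul, inv_mul_cancel_right, cj_mul, cj_eq_of_mem_normalizer hx]

theorem le_centralizer_symm {H K : Subgroup W} (h : H ≤ centralizer (K : Set W)) :
    K ≤ centralizer (H : Set W) := le_centralizer_iff.mp h

theorem commute_of_le_centralizer {H K : Subgroup W} (h : H ≤ centralizer (K : Set W)) {x y : W}
    (hx : x ∈ H) (hy : y ∈ K) : Commute x y :=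
  ((mem_centralizer_iff.mp (h hx)) y hy).symm

theorem sup_le_centralizer_self {H K : Subgroup W} (hH : H ≤ centralizer (H : Set W))
    (hK : K ≤ centralizer (K : Set W)) (hHK : H ≤ centralizer (K : Set W)) :
    H ⊔ K ≤ centralizer ((H ⊔ K : Subgroup W) : Set W) :=
  sup_le (le_centralizer_iff.mpr (sup_le hH (le_centralizer_symm hHK)))
    (le_centralizer_iff.mpr (sup_le hHK hK))

/-- The centralizer of `H` in `E`. -/
def cen (E H : Subgroup W) : Subgroup W := E ⊓ centralizer (H : Set W)

theorem cen_le (E H : Subgroup W) : cen E H ≤ E := inf_le_left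

theorem cen_le_centralizer (E H : Subgroup W) : cen E H ≤ centralizer (H : Set W) := inf_le_right

theorem cen_anti (E : Subgroup W) {H K : Subgroup W} (h : H ≤ K) : cen E K ≤ cen E H :=
  inf_le_inf_left _ (centralizer_le h)

theorem cen_sup (E H K : Subgroup W) : cen E (H ⊔ K) = cen E H ⊓ cen E K := by
  refine le_antisymm (le_inf (cen_anti E le_sup_left) (cen_anti E le_sup_right)) ?_
  refine le_inf (inf_le_left.trans (cen_le E H)) (le_centralizer_iff.mpr (sup_le ?_ ?_))
  · exact le_centralizer_iff.mp (inf_le_left.trans (cen_le_centralizer E H))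
  · exact le_centralizer_iff.mp (inf_le_right.trans (cen_le_centralizer E K))

theorem le_cen {E H K : Subgroup W} (hE : H ≤ E) (hc : H ≤ centralizer (K : Set W)) :
    H ≤ cen E K := le_inf hE hc

theorem le_cen_cen {E H : Subgroup W} (hE : H ≤ E) : H ≤ cen E (cen E H) :=
  le_cen hE (le_centralizer_iff.mp (cen_le_centralizer E H))

theorem cen_self_le (E : Subgroup W) {H : Subgroup W} (hE : H ≤ E) : cen E E ≤ cen E H :=
  cen_anti E hE

theorem cj_cen (g : W) (E H : Subgroup W) : cj g (cen E H) = cen (cj g E) (cj g H) := by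
  rw [cen, cen, cj_inf, cj_centralizer]

/-- `H` is a subgroup of `E` of largest measure `|H| |C_E(H)|`. -/
def Mem (E H : Subgroup W) : Prop :=
  H ≤ E ∧ Nat.card H * Nat.card (cen E H) = Nat.card E * Nat.card (cen E E)

/-- The standing hypotheses on the `p`-group `E`. -/
structure Nice (p : ℕ) (E : Subgroup W) : Prop where
  pgrp : IsPGroup p E
  le_measure : ∀ H : Subgroup W, H ≤ E →
    Nat.card H * Nat.card (cen E H) ≤ Nat.card E * Nat.card (cen E E)
  center_pow : ∀ z ∈ cen E E, z ^ p = 1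
  exists_outside : ∀ R : Subgroup W, ¬ E ≤ R → ∃ A : Subgroup W, Mem E A ∧ cen E A = A ∧ ¬ A ≤ R

theorem Mem.le {E H : Subgroup W} (h : Mem E H) : H ≤ E := h.1

theorem Mem.cj {E H : Subgroup W} (h : Mem E H) (g : W) : Mem (cj g E) (cj g H) := by
  refine ⟨cj_mono g h.1, ?_⟩
  rw [← cj_cen, ← cj_cen, card_cj, card_cj, card_cj, card_cj]
  exact h.2

theorem Nice.cj {p : ℕ} {E : Subgroup W} (h : Nice p E) (g : W) : Nice p (cj g E) where
  pgrp := h.pgrp.map _
  le_measure H hH := by
    have h1 := h.le_measure (GN.cj g⁻¹ H) (by simpa [cj_inv_cj] using cj_mono g⁻¹ hH)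
    rw [← card_cj g (cen E _), cj_cen, cj_cj_inv, card_cj] at h1
    rw [← cj_cen g E E, card_cj, card_cj]
    exact h1
  center_pow z hz := by
    rw [← cj_cen, mem_cj] at hz
    have := h.center_pow _ hz
    have h2 : z = g * (g⁻¹ * z * g) * g⁻¹ := by group
    rw [h2, conj_pow, this, mul_one, mul_inv_cancel]
  exists_outside R hR := by
    obtain ⟨A, hA1, hA2, hA3⟩ := h.exists_outside (GN.cj g⁻¹ R) (fun hle => hR (cj_le_iff'.mpr hle))
    exact ⟨GN.cj g A, hA1.cj g, by rw [← cj_cen, hA2], fun hle => hA3 (cj_le_iff'.mp hle)⟩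

variable [Finite W]

theorem card_pos' (H : Subgroup W) : 0 < Nat.card H := Nat.card_pos

theorem card_le_of_le {H K : Subgroup W} (h : H ≤ K) : Nat.card H ≤ Nat.card K :=
  Nat.le_of_dvd Nat.card_pos (card_dvd_of_le h)

theorem eq_of_le_card {H K : Subgroup W} (h : H ≤ K) (hc : Nat.card K ≤ Nat.card H) : H = K :=
  eq_of_le_of_card_ge h hc

theorem card_mul_le (H K : Subgroup W) :
    Nat.card H * Nat.card K ≤ Nat.card (H ⊓ K : Subgroup W) * Nat.card (H ⊔ K : Subgroup W) :=
  H75.card_mul_card_le H K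

/-- Product formula when one factor normalizes the other. -/
theorem card_sup_mul_inf {H K : Subgroup W}
    (hn : H ≤ normalizer (K : Set W)) :
    Nat.card (H ⊔ K : Subgroup W) * Nat.card (H ⊓ K : Subgroup W) = Nat.card H * Nat.card K := by
  haveI : (K.subgroupOf (H ⊔ K)).Normal :=
    (normal_subgroupOf_iff_le_normalizer le_sup_right).2 (sup_le hn Subgroup.le_normalizer)
  have hmul : ∀ {A B : Subgroup W}, A ≤ B → Nat.card A * A.relIndex B = Nat.card B := fun hAB => by
    have := Subgroup.relIndex_mul_relIndex (⊥ : Subgroup W) _ _ bot_le hAB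
    rwa [relIndex_bot_left, relIndex_bot_left] at this
  have h1 : Nat.card K * K.relIndex (H ⊔ K) = Nat.card (H ⊔ K : Subgroup W) := hmul le_sup_right
  have h2 : Nat.card (H ⊓ K : Subgroup W) * (H ⊓ K).relIndex H = Nat.card H := hmul inf_le_left
  have h3 : K.relIndex (H ⊔ K) = K.relIndex H := by
    have := Subgroup.relIndex_sup_right (H := H.subgroupOf (H ⊔ K)) (K := K.subgroupOf (H ⊔ K))
    rw [← Subgroup.subgroupOf_sup le_sup_left le_sup_right, Subgroup.relIndex_subgroupOf le_sup_left,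
      Subgroup.relIndex_subgroupOf le_rfl] at this
    exact this
  rw [inf_relIndex_left] at h2
  rw [← h1, h3, ← h2]
  ring

theorem top_mem (E : Subgroup W) : Mem E E := ⟨le_rfl, rfl⟩

/-- The centre of `E` is a member. -/
theorem center_mem {p : ℕ} {E : Subgroup W} (hN : Nice p E) : Mem E (cen E E) := by
  refine ⟨cen_le E E, le_antisymm (hN.le_measure _ (cen_le E E)) ?_⟩
  rw [mul_comm (Nat.card E)]
  exact Nat.mul_le_mul_left _ (card_le_of_le (le_cen_cen le_rfl))

/-- Join and meet of members. -/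
theorem Mem.sup_inf {p : ℕ} {E H K : Subgroup W} (hN : Nice p E) (hH : Mem E H) (hK : Mem E K) :
    Mem E (H ⊔ K) ∧ Mem E (H ⊓ K) ∧
      Nat.card (H ⊓ K : Subgroup W) * Nat.card (H ⊔ K : Subgroup W) = Nat.card H * Nat.card K ∧
      cen E (H ⊓ K) = cen E H ⊔ cen E K := by
  have hjle : H ⊔ K ≤ E := sup_le hH.1 hK.1
  have hmle : H ⊓ K ≤ E := inf_le_left.trans hH.1
  set f := Nat.card E * Nat.card (cen E E) with hf
  have h1 := hN.le_measure _ hjle
  have h2 := hN.le_measure _ hmle
  have k1 := card_mul_le H K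
  have k2 := card_mul_le (cen E H) (cen E K)
  have hsup : cen E H ⊔ cen E K ≤ cen E (H ⊓ K) :=
    sup_le (cen_anti E inf_le_left) (cen_anti E inf_le_right)
  have k3 : Nat.card (cen E H ⊔ cen E K : Subgroup W) ≤ Nat.card (cen E (H ⊓ K)) :=
    card_le_of_le hsup
  rw [← cen_sup] at k2
  set a := Nat.card (H ⊓ K : Subgroup W) with ha
  set b := Nat.card (H ⊔ K : Subgroup W) with hb
  set cb := Nat.card (cen E (H ⊔ K)) with hcb
  set cs := Nat.card (cen E H ⊔ cen E K : Subgroup W) with hcs
  set ca := Nat.card (cen E (H ⊓ K)) with hca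
  have pos1 : 0 < a := Nat.card_pos
  have pos2 : 0 < b := Nat.card_pos
  have pos3 : 0 < cb := Nat.card_pos
  have pos4 : 0 < ca := Nat.card_pos
  have hH2 : Nat.card H * Nat.card (cen E H) = f := hH.2
  have hK2 : Nat.card K * Nat.card (cen E K) = f := hK.2
  have hff : f * f ≤ (a * cs) * (b * cb) := by
    calc f * f = (Nat.card H * Nat.card (cen E H)) * (Nat.card K * Nat.card (cen E K)) := by
          rw [hH2, hK2]
      _ = (Nat.card H * Nat.card K) * (Nat.card (cen E H) * Nat.card (cen E K)) := by ring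
      _ ≤ (a * b) * (cb * cs) := Nat.mul_le_mul k1 k2
      _ = (a * cs) * (b * cb) := by ring
  have hfpos : 0 < f := Nat.mul_pos Nat.card_pos Nat.card_pos
  have e2 : b * cb = f := by
    refine le_antisymm h1 ?_
    by_contra hlt
    push Not at hlt
    have : (a * cs) * (b * cb) < f * f :=
      lt_of_le_of_lt (Nat.mul_le_mul_right _ ((Nat.mul_le_mul_left _ k3).trans h2))
        (Nat.mul_lt_mul_of_pos_left hlt hfpos)
    omega
  have e1 : a * cs = f := by
    refine le_antisymm ((Nat.mul_le_mul_left _ k3).trans h2) ?_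
    rw [e2] at hff
    exact Nat.le_of_mul_le_mul_right hff hfpos
  have e3 : a * ca = f := le_antisymm h2 (e1 ▸ Nat.mul_le_mul_left _ k3)
  refine ⟨⟨hjle, e2⟩, ⟨hmle, e3⟩, le_antisymm ?_ k1, (eq_of_le_card hsup ?_).symm⟩
  · by_contra hlt
    push Not at hlt
    have : (Nat.card H * Nat.card K) * (Nat.card (cen E H) * Nat.card (cen E K)) <
        (a * b) * (cb * cs) :=
      lt_of_le_of_lt (Nat.mul_le_mul_left _ k2)
        (Nat.mul_lt_mul_of_pos_right hlt (Nat.mul_pos pos3 Nat.card_pos))
    rw [show (Nat.card H * Nat.card K) * (Nat.card (cen E H) * Nat.card (cen E K)) =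
        (Nat.card H * Nat.card (cen E H)) * (Nat.card K * Nat.card (cen E K)) by ring, hH2, hK2,
      show (a * b) * (cb * cs) = (a * cs) * (b * cb) by ring, e1, e2] at this
    exact lt_irrefl _ this
  · exact Nat.le_of_mul_le_mul_left (by rw [e1, e3]) pos1

theorem Mem.sup {p : ℕ} {E H K : Subgroup W} (hN : Nice p E) (hH : Mem E H) (hK : Mem E K) :
    Mem E (H ⊔ K) := (hH.sup_inf hN hK).1

theorem Mem.inf {p : ℕ} {E H K : Subgroup W} (hN : Nice p E) (hH : Mem E H) (hK : Mem E K) :
    Mem E (H ⊓ K) := (hH.sup_inf hN hK).2.1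

theorem Mem.card_sup {p : ℕ} {E H K : Subgroup W} (hN : Nice p E) (hH : Mem E H) (hK : Mem E K) :
    Nat.card (H ⊓ K : Subgroup W) * Nat.card (H ⊔ K : Subgroup W) = Nat.card H * Nat.card K :=
  (hH.sup_inf hN hK).2.2.1

theorem Mem.cen_inf {p : ℕ} {E H K : Subgroup W} (hN : Nice p E) (hH : Mem E H) (hK : Mem E K) :
    cen E (H ⊓ K) = cen E H ⊔ cen E K := (hH.sup_inf hN hK).2.2.2

/-- The centralizer of a member is a member, and the member is its own double centralizer. -/
theorem Mem.centralizer {p : ℕ} {E H : Subgroup W} (hN : Nice p E) (hH : Mem E H) :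
    Mem E (cen E H) ∧ cen E (cen E H) = H := by
  have h1 := hN.le_measure (cen E H) (cen_le E H)
  have h2 : cen E (cen E H) = H := by
    refine (eq_of_le_card (le_cen_cen hH.1) (Nat.le_of_mul_le_mul_left ?_ (card_pos' (cen E H)))).symm
    refine h1.trans ?_
    rw [← hH.2, mul_comm]
  refine ⟨⟨cen_le E H, ?_⟩, h2⟩
  rw [h2, mul_comm]
  exact hH.2

/-- Change of frame: a member whose centralizer also lies in `E'` is a member there too. -/
theorem Mem.transfer {p : ℕ} {E E' X : Subgroup W} (hN' : Nice p E') (hX : Mem E X)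
    (hc : Nat.card E' * Nat.card (cen E' E') = Nat.card E * Nat.card (cen E E))
    (h1 : X ≤ E') (h2 : cen E X ≤ E') : Mem E' X ∧ cen E' X = cen E X := by
  have hle : cen E X ≤ cen E' X := le_cen h2 (cen_le_centralizer E X)
  have h3 : Nat.card X * Nat.card (cen E' X) ≤ Nat.card X * Nat.card (cen E X) := by
    rw [hX.2, ← hc]
    exact hN'.le_measure X h1
  have he : cen E X = cen E' X := eq_of_le_card hle (Nat.le_of_mul_le_mul_left h3 (card_pos' X))
  refine ⟨⟨h1, ?_⟩, he.symm⟩
  rw [← he, hc]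
  exact hX.2

end Cfsg.Agent.H73.GN
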