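import Mathlib
import Cfsg.Prelude.Def_PLocal
import Cfsg.Agent.H73.GN.Basic
import Cfsg.Agent.H74.PushingUpCL

/-!
The subgroup `S₀` of a `p`-group inside an ambient group, and its behaviour under injective homomorphisms.
-/

set_option autoImplicit false

namespace Cfsg.Agent.H73.GN

open Subgroup
open scoped commutatorElement

variable {W W' : Type*} [Group W] [Group W']

/-- The Frattini subgroup of a subgroup, inside the ambient group. -/
def phi (H : Subgroup W) : Subgroup W := (frattini ↥H).map H.subtype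

theorem phi_le (H : Subgroup W) : phi H ≤ H := map_subtype_le _

theorem phi_map {f : W →* W'} (hf : Function.Injective f) (H : Subgroup W) :
    phi (H.map f) = (phi H).map f := by
  let e := H.equivMapOfInjective f hf
  have h1 : (frattini ↥H).map e.toMonoidHom = frattini ↥(H.map f) := by
    refine le_antisymm (map_le_iff_le_comap.mpr
      (frattini_le_comap_frattini_of_surjective (φ := e.toMonoidHom) e.surjective)) ?_
    intro x hx
    exact ⟨e.symm x, frattini_le_comap_frattini_of_surjective (φ := e.symm.toMonoidHom)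
      e.symm.surjective hx, by simp⟩
  rw [phi, phi, ← h1, map_map, map_map]
  rfl

/-- `S₀`. -/
def sZero (p : ℕ) (H : Subgroup W) : Subgroup W :=
  if p = 2 then ⁅phi H, H⁆ ⊔ phi (phi H)
  else if p = 3 then ⁅⁅phi H, H⁆, H⁆ ⊔ phi (phi H)
  else ⁅phi H, H⁆ ⊔ Cfsg.powerClosure p 1 H

theorem powerClosure_map (p : ℕ) (f : W →* W') (H : Subgroup W) :
    Cfsg.powerClosure p 1 (H.map f) = (Cfsg.powerClosure p 1 H).map f := by
  rw [Cfsg.powerClosure, Cfsg.powerClosure, MonoidHom.map_closure]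
  congr 1
  ext y
  simp only [Set.mem_ofPred_eq, Set.mem_image]
  constructor
  · rintro ⟨_, ⟨x, hx, rfl⟩, rfl⟩
    exact ⟨x ^ p ^ 1, ⟨x, hx, rfl⟩, map_pow _ _ _⟩
  · rintro ⟨_, ⟨x, hx, rfl⟩, rfl⟩
    exact ⟨f x, ⟨x, hx, rfl⟩, map_pow _ _ _⟩

theorem sZero_map {f : W →* W'} (hf : Function.Injective f) (p : ℕ) (H : Subgroup W) :
    sZero p (H.map f) = (sZero p H).map f := by
  unfold sZero
  split_ifs <;> simp only [phi_map hf, Subgroup.map_sup, map_commutator, powerClosure_map]

theorem sZero_le (p : ℕ) (H : Subgroup W) : sZero p H ≤ H := by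
  have h0 := phi_le H
  have h1 : ⁅phi H, H⁆ ≤ H := (commutator_mono h0 le_rfl).trans (commutator_le_self H)
  unfold sZero
  split_ifs
  · exact sup_le h1 ((phi_le _).trans h0)
  · exact sup_le ((commutator_mono h1 le_rfl).trans (commutator_le_self H)) ((phi_le _).trans h0)
  · refine sup_le h1 ((closure_le _).mpr ?_)
    rintro _ ⟨x, hx, rfl⟩
    exact pow_mem hx _

/-- The part of `S₀` in the centre. -/
def zBad (p : ℕ) (E : Subgroup W) : Subgroup W := cen E E ⊓ sZero p E

theorem zBad_cj (p : ℕ) (g : W) (E : Subgroup W) : zBad p (cj g E) = cj g (zBad p E) := by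
  rw [zBad, zBad, cj_inf, cj_cen]
  congr 1
  exact sZero_map (MulAut.conj g).injective p E

/-- Containment of the Frattini subgroup. -/
theorem phi_le_of [Finite W] {p : ℕ} [Fact p.Prime] {H N : Subgroup W}
    (hc : ∀ a ∈ H, ∀ b ∈ H, ⁅a, b⁆ ∈ N) (hpw : ∀ a ∈ H, a ^ p ∈ N) : phi H ≤ N :=
  H74.map_frattini_le_of (p := p) hc hpw

theorem commutator_mem_phi [Finite W] {p : ℕ} [Fact p.Prime] {H : Subgroup W} (hH : IsPGroup p H)
    {a b : W} (ha : a ∈ H) (hb : b ∈ H) : ⁅a, b⁆ ∈ phi H :=
  H74.commutator_mem_frattini_map hH ha hb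

theorem pow_mem_phi [Finite W] {p : ℕ} [Fact p.Prime] {H : Subgroup W} (hH : IsPGroup p H)
    {a : W} (ha : a ∈ H) : a ^ p ∈ phi H :=
  H74.pow_mem_frattini_map hH ha

end Cfsg.Agent.H73.GN
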