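import Mathlib
import Cfsg.Agent.H73.GN.SZero

/-!
The properties of a bad vertex `(G, E)`: `E` is a Sylow subgroup of `G` in the pushing-up situation.
-/

set_option autoImplicit false

namespace Cfsg.Agent.H73.GN

open Subgroup
open scoped commutatorElement

variable {W : Type*} [Group W]

/-- `O_p(G)` inside the ambient group. -/
def oP (p : ℕ) (G : Subgroup W) : Subgroup W := (Cfsg.pCore p ↥G).map G.subtype

/-- `Z(O_p(G))` inside the ambient group. -/
def wP (p : ℕ) (G : Subgroup W) : Subgroup W := cen (oP p G) (oP p G)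

theorem oP_le (p : ℕ) (G : Subgroup W) : oP p G ≤ G := map_subtype_le _

theorem le_normalizer_oP (p : ℕ) (G : Subgroup W) : G ≤ normalizer (oP p G : Set W) := by
  intro g hg
  refine mem_normalizer_of_cj_eq ?_
  rw [oP, cj, map_map]
  haveI : (Cfsg.pCore p ↥G).Normal := Cfsg.Agent.H44.pCore_normal' p
  have h := cj_eq_of_mem_normalizer (W := ↥G) (g := ⟨g, hg⟩) (H := Cfsg.pCore p ↥G)
    (by rw [normalizer_eq_top]; exact mem_top _)
  conv_rhs => rw [← h]
  rw [cj, map_map]
  rfl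

theorem oP_isPGroup [Finite W] (p : ℕ) [Fact p.Prime] (G : Subgroup W) : IsPGroup p (oP p G) :=
  (Cfsg.Agent.H44.pCore_isPGroup' (G := ↥G) p).map _

theorem le_oP {p : ℕ} {G N : Subgroup W} (hN : N ≤ G) (hn : G ≤ normalizer (N : Set W))
    (hp : IsPGroup p N) : N ≤ oP p G := by
  have h1 : N.subgroupOf G ≤ Cfsg.pCore p ↥G :=
    le_sSup ⟨normal_subgroupOf_of_le_normalizer hn, hp.of_equiv (subgroupOfEquivOfLe hN).symm⟩
  intro x hx
  exact ⟨⟨x, hN hx⟩, h1 (mem_subgroupOf.mpr hx), rfl⟩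

theorem oP_cj [Finite W] (p : ℕ) [Fact p.Prime] (g : W) (G : Subgroup W) :
    oP p (cj g G) = cj g (oP p G) := by
  have key : ∀ (g : W) (G : Subgroup W), cj g (oP p G) ≤ oP p (cj g G) := fun g G =>
    le_oP (cj_mono g (oP_le p G)) (fun x hx => by
      have := mem_normalizer_cj (g := g) (le_normalizer_oP p G (mem_cj.mp hx))
      simpa [mul_assoc] using this) ((oP_isPGroup p G).map _)
  refine le_antisymm ?_ (key g G)
  have := key g⁻¹ (cj g G)
  rw [cj_inv_cj, cj_le_iff', inv_inv] at this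
  exact this

theorem wP_cj [Finite W] (p : ℕ) [Fact p.Prime] (g : W) (G : Subgroup W) :
    wP p (cj g G) = cj g (wP p G) := by rw [wP, wP, cj_cen, oP_cj]

/-- A bad vertex. -/
structure Vx (p : ℕ) (G E : Subgroup W) : Prop where
  nice : Nice p E
  le : E ≤ G
  oP_le_E : oP p G ≤ E
  not_le : ¬ E ≤ oP p G
  dich : ∀ N : Subgroup W, N ≤ G → G ≤ normalizer (N : Set W) → N ⊔ E = G ∨ N ⊓ E ≤ oP p G
  sup_ne : ∀ H₁ H₂ : Subgroup W, E ≤ H₁ → H₁ < G → E ≤ H₂ → H₂ < G → H₁ ⊔ H₂ ≠ G
  exists_conj : ∃ g ∈ G, E ⊔ cj g E = G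
  sylow : ∀ P : Subgroup W, P ≤ G → IsPGroup p P → ∃ g ∈ G, P ≤ cj g E
  mem_wP : Mem E (wP p G)
  cen_wP : cen E (wP p G) = oP p G
  wP_pow : ∀ w ∈ wP p G, w ^ p = 1
  center_le : cen E E ≤ wP p G
  wP_le_of : ∀ N : Subgroup W, cen E E ≤ N → G ≤ normalizer (N : Set W) → wP p G ≤ N
  not_commute : ∀ w ∈ wP p G, w ∉ cen E E → ∀ x ∈ E, x ∉ oP p G → ¬ Commute x w
  comm_mem : ∀ x ∈ E, ∀ y ∈ E, ⁅x, y⁆ ∈ oP p G
  pow_mem' : ∀ x ∈ E, x ^ p ∈ oP p G
  bad : ¬ zBad p E ≤ centralizer (G : Set W)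

variable [Finite W] {p : ℕ} [Fact p.Prime] {G E : Subgroup W}

theorem Vx.cj (h : Vx p G E) (g : W) : Vx p (GN.cj g G) (GN.cj g E) where
  nice := h.nice.cj g
  le := cj_mono g h.le
  oP_le_E := by rw [oP_cj]; exact cj_mono g h.oP_le_E
  not_le := by rw [oP_cj]; exact fun hle => h.not_le (cj_le_iff.mp hle)
  dich N hN hn := by
    have hn' : G ≤ normalizer (GN.cj g⁻¹ N : Set W) := fun x hx => by
      have := mem_normalizer_cj (g := g⁻¹) (hn (conj_mem_cj (g := g) hx))
      simpa [mul_assoc] using this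
    rcases h.dich (GN.cj g⁻¹ N) (cj_le_iff'.mpr (by rw [inv_inv]; exact hN)) hn' with h1 | h1
    · left; rw [← h1, cj_sup, cj_cj_inv]
    · right; rw [oP_cj, ← cj_cj_inv g N, ← cj_inf]; exact cj_mono g h1
  sup_ne H₁ H₂ h1 h1' h2 h2' := by
    intro he
    have a1 : E ≤ GN.cj g⁻¹ H₁ := cj_le_iff'.mp h1
    have a2 : E ≤ GN.cj g⁻¹ H₂ := cj_le_iff'.mp h2
    have lt : ∀ H, H < GN.cj g G → GN.cj g⁻¹ H < G := fun H hH => by
      refine lt_of_le_of_ne (by simpa [cj_inv_cj] using cj_mono g⁻¹ hH.le) fun e => hH.ne ?_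
      rw [← e, cj_cj_inv]
    refine h.sup_ne _ _ a1 (lt _ h1') a2 (lt _ h2') ?_
    rw [← cj_sup, he, cj_inv_cj]
  exists_conj := by
    obtain ⟨x, hx, hx'⟩ := h.exists_conj
    refine ⟨g * x * g⁻¹, conj_mem_cj hx, ?_⟩
    rw [← cj_mul, inv_mul_cancel_right, cj_mul, ← cj_sup, hx']
  sylow P hP hp := by
    obtain ⟨x, hx, hle⟩ := h.sylow (GN.cj g⁻¹ P) (cj_le_iff'.mpr (by rw [inv_inv]; exact hP)) (hp.map _)
    refine ⟨g * x * g⁻¹, conj_mem_cj hx, ?_⟩
    rw [← cj_mul, inv_mul_cancel_right, cj_mul, ← cj_cj_inv g P]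
    exact cj_mono g hle
  mem_wP := by rw [wP_cj]; exact h.mem_wP.cj g
  cen_wP := by rw [wP_cj, oP_cj, ← cj_cen, h.cen_wP]
  wP_pow w hw := by
    rw [wP_cj, mem_cj] at hw
    have := h.wP_pow _ hw
    rw [show w = g * (g⁻¹ * w * g) * g⁻¹ by group, conj_pow, this, mul_one, mul_inv_cancel]
  center_le := by rw [wP_cj, ← cj_cen]; exact cj_mono g h.center_le
  wP_le_of N hN hn := by
    rw [wP_cj, cj_le_iff']
    refine h.wP_le_of _ (by rw [← cj_cen, cj_le_iff'] at hN; exact hN) fun x hx => ?_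
    have := mem_normalizer_cj (g := g⁻¹) (hn (conj_mem_cj (g := g) hx))
    simpa [mul_assoc] using this
  not_commute w hw hwz x hx hxQ hc := by
    rw [wP_cj, mem_cj] at hw
    rw [← cj_cen, mem_cj] at hwz
    rw [mem_cj] at hx
    rw [oP_cj, mem_cj] at hxQ
    refine h.not_commute _ hw hwz _ hx hxQ ?_
    have : Commute (g⁻¹ * x * g) (g⁻¹ * w * g) := by
      show _ * _ = _ * _
      calc g⁻¹ * x * g * (g⁻¹ * w * g) = g⁻¹ * (x * w) * g := by group
        _ = g⁻¹ * (w * x) * g := by rw [hc.eq]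
        _ = g⁻¹ * w * g * (g⁻¹ * x * g) := by group
    exact this
  comm_mem x hx y hy := by
    rw [mem_cj] at hx hy
    rw [oP_cj, mem_cj]
    have := h.comm_mem _ hx _ hy
    convert this using 1
    simp only [commutatorElement_def]; group
  pow_mem' x hx := by
    rw [mem_cj] at hx
    rw [oP_cj, mem_cj]
    have := h.pow_mem' _ hx
    convert this using 1
    calc g⁻¹ * x ^ p * g = g⁻¹ * x ^ p * g⁻¹⁻¹ := by rw [inv_inv]
      _ = (g⁻¹ * x * g⁻¹⁻¹) ^ p := (conj_pow).symm
      _ = _ := by rw [inv_inv]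
  bad := by
    rw [zBad_cj, ← cj_centralizer]
    exact fun hle => h.bad (cj_le_iff.mp hle)

/-- Conjugation inside `G`. -/
theorem Vx.cj_of_mem (h : Vx p G E) {g : W} (hg : g ∈ G) : Vx p G (GN.cj g E) := by
  simpa [cj_eq_of_mem hg] using h.cj g

theorem Vx.normalizer_wP (_h : Vx p G E) : G ≤ normalizer (wP p G : Set W) := fun g hg => by
  refine mem_normalizer_of_cj_eq ?_
  rw [← wP_cj, cj_eq_of_mem hg]

theorem wP_le_oP (p : ℕ) (G : Subgroup W) : wP p G ≤ oP p G := cen_le _ _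

theorem oP_le_centralizer_wP (p : ℕ) (G : Subgroup W) : oP p G ≤ centralizer (wP p G : Set W) :=
  le_centralizer_symm (cen_le_centralizer _ _)

theorem wP_abelian (p : ℕ) (G : Subgroup W) : wP p G ≤ centralizer (wP p G : Set W) :=
  (cen_le_centralizer _ _).trans (centralizer_le (cen_le _ _))

theorem Vx.wP_le_E (h : Vx p G E) : wP p G ≤ E := (wP_le_oP p G).trans h.oP_le_E

theorem Vx.center_le_oP (h : Vx p G E) : cen E E ≤ oP p G := h.center_le.trans (wP_le_oP p G)

theorem Vx.cen_oP (h : Vx p G E) : cen E (oP p G) = wP p G := by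
  rw [← h.cen_wP, (h.mem_wP.centralizer h.nice).2]

theorem Vx.mem_oP (h : Vx p G E) : Mem E (oP p G) := by
  rw [← h.cen_wP]; exact (h.mem_wP.centralizer h.nice).1

theorem Vx.card_mul (h : Vx p G E) :
    Nat.card (wP p G) * Nat.card (oP p G) = Nat.card E * Nat.card (cen E E) := by
  rw [← h.cen_wP]; exact h.mem_wP.2

/-- An element of `E` commuting with `W` lies in `O_p(G)`. -/
theorem Vx.mem_oP_of_commute (h : Vx p G E) {x : W} (hx : x ∈ E)
    (hc : ∀ w ∈ wP p G, Commute x w) : x ∈ oP p G := by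
  rw [← h.cen_wP]
  exact mem_inf.mpr ⟨hx, mem_centralizer_iff.mpr fun w hw => ((hc w hw).eq).symm⟩

theorem Vx.le_oP_of_commute (h : Vx p G E) {X : Subgroup W} (hX : X ≤ E)
    (hc : X ≤ centralizer (wP p G : Set W)) : X ≤ oP p G := by
  rw [← h.cen_wP]; exact le_cen hX hc

/-- Elements of `W` commuting with an element outside `O_p(G)` are central in `E`. -/
theorem Vx.mem_center_of_commute (h : Vx p G E) {w x : W} (hw : w ∈ wP p G) (hx : x ∈ E)
    (hxQ : x ∉ oP p G) (hc : Commute x w) : w ∈ cen E E :=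
  by_contra fun hn => h.not_commute w hw hn x hx hxQ hc

theorem Vx.card_eq (h : Vx p G E) {E' : Subgroup W} (h' : Vx p G E') : Nat.card E = Nat.card E' := by
  obtain ⟨g, hg, h1⟩ := h.sylow E' h'.le h'.nice.pgrp
  obtain ⟨g', hg', h2⟩ := h'.sylow E h.le h.nice.pgrp
  have a := card_le_of_le h1
  have b := card_le_of_le h2
  rw [card_cj] at a b
  exact le_antisymm b a

theorem Vx.exists_eq_cj (h : Vx p G E) {E' : Subgroup W} (h' : Vx p G E') :
    ∃ g ∈ G, E' = GN.cj g E := by
  obtain ⟨g, hg, h1⟩ := h.sylow E' h'.le h'.nice.pgrp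
  exact ⟨g, hg, eq_of_le_card h1 (by rw [card_cj, h.card_eq h'])⟩

theorem Vx.card_center_eq (h : Vx p G E) {E' : Subgroup W} (h' : Vx p G E') :
    Nat.card (cen E E) = Nat.card (cen E' E') := by
  obtain ⟨g, -, rfl⟩ := h.exists_eq_cj h'
  rw [← cj_cen, card_cj]

/-- Opposite Sylow subgroups. -/
def Opp (G E E' : Subgroup W) : Prop := E ⊔ E' = G

theorem Opp.symm {G E E' : Subgroup W} (h : Opp G E E') : Opp G E' E := by
  rw [Opp, sup_comm]; exact h

theorem Opp.cj {G E E' : Subgroup W} (h : Opp G E E') (g : W) :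
    Opp (GN.cj g G) (GN.cj g E) (GN.cj g E') := by
  rw [Opp, ← cj_sup, h]

theorem Opp.cj_of_mem {G E E' : Subgroup W} (h : Opp G E E') {g : W} (hg : g ∈ G) :
    Opp G (GN.cj g E) (GN.cj g E') := by
  simpa [cj_eq_of_mem hg] using h.cj g

theorem Vx.exists_opp (h : Vx p G E) : ∃ g ∈ G, Opp G E (GN.cj g E) := h.exists_conj

/-- A normal subgroup centralized from outside `O_p(G)` meets the centre of `E` in central elements. -/
theorem Vx.central_criterion (h : Vx p G E) {N X : Subgroup W} (hn : G ≤ normalizer (N : Set W))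
    (hX : X ≤ E) (hXQ : ¬ X ≤ oP p G) (hc : X ≤ centralizer (N : Set W)) :
    N ⊓ cen E E ≤ centralizer (G : Set W) := by
  set C := G ⊓ centralizer (N : Set W) with hC
  have hCn : G ≤ normalizer (C : Set W) := fun g hg => by
    refine mem_normalizer_of_cj_eq ?_
    rw [hC, cj_inf, cj_centralizer, cj_eq_of_mem hg, cj_eq_of_mem_normalizer (hn hg)]
  rcases h.dich C inf_le_left hCn with h1 | h1
  · refine le_centralizer_symm (h1.ge.trans (sup_le ?_ ?_))
    · exact inf_le_right.trans (centralizer_le inf_le_left)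
    · exact le_centralizer_symm (inf_le_right.trans (cen_le_centralizer E E))
  · exact absurd ((le_inf (le_inf (hX.trans h.le) hc) hX).trans h1) hXQ

theorem Vx.center_not_central (h : Vx p G E) : ¬ cen E E ≤ centralizer (G : Set W) :=
  fun hle => h.bad (inf_le_left.trans hle)

/-- A subgroup of `E` outside `O_p(G)` generates `G` together with any opposite Sylow subgroup. -/
theorem Vx.sup_eq_of_not_le (h : Vx p G E) {E' : Subgroup W} (h' : Vx p G E') (ho : Opp G E E')
    {X : Subgroup W} (hX : X ≤ E) (hXQ : ¬ X ≤ oP p G) : X ⊔ E' = G := by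
  obtain ⟨x, hxX, hxQ⟩ := SetLike.not_le_iff_exists.mp hXQ
  by_contra hne
  set H := X ⊔ E' with hH
  have hHG : H < G := lt_of_le_of_ne (sup_le (hX.trans h.le) h'.le) hne
  obtain ⟨P, hP⟩ := (h'.nice.pgrp.of_equiv
    (subgroupOfEquivOfLe (le_sup_right : E' ≤ H)).symm).exists_le_sylow
  have hx : IsPGroup p ↥((zpowers x).subgroupOf H) :=
    ((h.nice.pgrp.to_le (zpowers_le.mpr (hX hxX))).of_equiv
      (subgroupOfEquivOfLe (zpowers_le.mpr (mem_sup_left hxX) : zpowers x ≤ H)).symm)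
  obtain ⟨R, hR⟩ := hx.exists_le_sylow
  obtain ⟨u, hu⟩ := MulAction.exists_smul_eq ↥H P R
  have hPmap : (P : Subgroup ↥H).map H.subtype = E' := by
    have h1 : E' ≤ (P : Subgroup ↥H).map H.subtype := fun e he =>
      ⟨⟨e, mem_sup_right he⟩, hP (mem_subgroupOf.mpr he), rfl⟩
    refine (eq_of_le_card h1 ?_).symm
    obtain ⟨g, -, hg⟩ := h'.sylow ((P : Subgroup ↥H).map H.subtype)
      ((map_subtype_le _).trans hHG.le) (P.isPGroup'.map _)
    have := card_le_of_le hg
    rwa [card_cj] at this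
  set E'' := GN.cj (u : W) E' with hE''
  have hxE'' : x ∈ E'' := by
    have h1 : (⟨x, mem_sup_left hxX⟩ : ↥H) ∈ (R : Subgroup ↥H) :=
      hR (mem_subgroupOf.mpr (mem_zpowers x))
    rw [← hu, Sylow.coe_subgroup_smul] at h1
    obtain ⟨y, hy, hy'⟩ := h1
    refine ⟨(y : W), hPmap ▸ ⟨y, hy, rfl⟩, ?_⟩
    have := congrArg (fun z : ↥H => (z : W)) hy'
    simpa using this
  have h'' : Vx p G E'' := h'.cj_of_mem (hHG.le u.2)
  have hE''H : E'' ≤ H := (cj_mono (u : W) le_sup_right).trans (cj_eq_of_mem u.2).le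
  have hZZ : cen E'' E'' = cen E E := by
    refine eq_of_le_card (fun z hz => ?_) (h.card_center_eq h'').le
    exact h.mem_center_of_commute (h''.center_le hz) (hX hxX) hxQ
      (commute_of_le_centralizer (cen_le_centralizer E'' E'') hz hxE'').symm
  set C := G ⊓ centralizer (cen E E : Set W) with hC
  have hCG : C < G := lt_of_le_of_ne inf_le_left fun e =>
    h.center_not_central (le_centralizer_symm (e.ge.trans inf_le_right))
  have hEC : E ≤ C := le_inf h.le (le_centralizer_symm (cen_le_centralizer E E))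
  have hE''C : E'' ≤ C := le_inf h''.le (hZZ ▸ le_centralizer_symm (cen_le_centralizer E'' E''))
  refine h''.sup_ne C H hE''C hCG hE''H hHG (le_antisymm (sup_le hCG.le hHG.le) ?_)
  exact ho.ge.trans (sup_le_sup hEC le_sup_right)

theorem Vx.center_inf_eq (h : Vx p G E) {E' : Subgroup W} (h' : Vx p G E') (ho : Opp G E E') :
    cen E E ⊓ cen E' E' = cen E E ⊓ centralizer (G : Set W) := by
  refine le_antisymm (le_inf inf_le_left (le_centralizer_symm (ho.ge.trans (sup_le ?_ ?_)))) ?_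
  · exact le_centralizer_symm (inf_le_left.trans (cen_le_centralizer E E))
  · exact le_centralizer_symm (inf_le_right.trans (cen_le_centralizer E' E'))
  · refine le_inf inf_le_left ?_
    rintro z ⟨hz, hzG⟩
    have hzW := h.center_le hz
    exact mem_inf.mpr ⟨h'.wP_le_E hzW, centralizer_le h'.le hzG⟩

/-- The `G`-central part of the centre. -/
def fixC (G E : Subgroup W) : Subgroup W := cen E E ⊓ centralizer (G : Set W)

theorem Vx.wP_inf_centralizer (h : Vx p G E) :
    wP p G ⊓ centralizer (G : Set W) = fixC G E := by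
  refine le_antisymm (le_inf (fun w hw => mem_inf.mpr ⟨h.wP_le_E hw.1, centralizer_le h.le hw.2⟩)
    inf_le_right) (inf_le_inf_right _ h.center_le)

/-- `[W, E] ≤ Z(E)`. -/
def Nat2 (p : ℕ) (G E : Subgroup W) : Prop :=
  ∀ w ∈ wP p G, ∀ x ∈ E, ⁅w, x⁆ ∈ cen E E

theorem Nat2.cj (hq : Nat2 p G E) (g : W) : Nat2 p (GN.cj g G) (GN.cj g E) := by
  intro w hw x hx
  rw [wP_cj, mem_cj] at hw
  rw [mem_cj] at hx
  have := conj_mem_cj (g := g) (hq _ hw _ hx)
  rw [cj_cen] at this
  convert this using 1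
  simp only [commutatorElement_def]
  group

theorem Nat2.of_vx (hq : Nat2 p G E) (h : Vx p G E) {E' : Subgroup W} (h' : Vx p G E') :
    Nat2 p G E' := by
  obtain ⟨g, hg, rfl⟩ := h.exists_eq_cj h'
  simpa [cj_eq_of_mem hg] using hq.cj g

/-- Commutators with a subgroup normalizing. -/
theorem mem_normalizer_of_commutator {K : Subgroup W} {x : W}
    (hx : ∀ k ∈ K, ⁅k, x⁆ ∈ K ∧ ⁅k, x⁻¹⁆ ∈ K) : x ∈ normalizer (K : Set W) := by
  refine mem_normalizer_iff.mpr fun k => ⟨fun hk => ?_, fun hk => ?_⟩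
  · have := mul_mem (inv_mem (hx _ (inv_mem hk)).1) (one_mem K)
    have e : x * k * x⁻¹ = k * ⁅k⁻¹, x⁆ := by simp only [commutatorElement_def]; group
    rw [e]; exact mul_mem hk (hx _ (inv_mem hk)).1
  · set m := x * k * x⁻¹ with hm
    have e : k = m * ⁅m⁻¹, x⁻¹⁆ := by simp only [commutatorElement_def, hm]; group
    rw [e]; exact mul_mem hk (hx _ (inv_mem hk)).2

theorem Vx.wP_eq_center_sup (h : Vx p G E) (hq : Nat2 p G E) {E' : Subgroup W} (h' : Vx p G E')
    (ho : Opp G E E') : wP p G = cen E E ⊔ cen E' E' := by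
  refine le_antisymm (h.wP_le_of _ le_sup_left ?_) (sup_le h.center_le h'.center_le)
  have hsub : cen E E ⊔ cen E' E' ≤ wP p G := sup_le h.center_le h'.center_le
  refine ho.ge.trans (sup_le (fun x hx => ?_) (fun x hx => ?_)) <;>
    refine mem_normalizer_of_commutator fun k hk => ⟨?_, ?_⟩
  · exact mem_sup_left (hq k (hsub hk) x hx)
  · exact mem_sup_left (hq k (hsub hk) _ (inv_mem hx))
  · exact mem_sup_right (hq.of_vx h h' k (hsub hk) x hx)
  · exact mem_sup_right (hq.of_vx h h' k (hsub hk) _ (inv_mem hx))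

/-- The key injectivity: elements of `W` whose commutator with an outside element is `G`-central
are central in `E`. -/
theorem Vx.inj (h : Vx p G E) (hq : Nat2 p G E) {w x : W} (hw : w ∈ wP p G) (hx : x ∈ E)
    (hxQ : x ∉ oP p G) (hc : ⁅w, x⁆ ∈ centralizer (G : Set W)) : w ∈ cen E E := by
  obtain ⟨g, hg, ho⟩ := h.exists_opp
  have h' := h.cj_of_mem hg
  set E' := GN.cj g E
  rw [h.wP_eq_center_sup hq h' ho] at hw
  have hn : cen E' E' ≤ centralizer (cen E E : Set W) :=
    h'.center_le.trans ((wP_abelian p G).trans (centralizer_le h.center_le))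
  have hset := coe_mul_of_right_le_normalizer_left (cen E E) (cen E' E')
    (hn.trans (centralizer_le_normalizer _))
  rw [← SetLike.mem_coe, hset] at hw
  obtain ⟨z, hz, n, hn', rfl⟩ := hw
  refine mul_mem hz ?_
  have hzx : Commute z x := commute_of_le_centralizer (cen_le_centralizer E E) hz hx
  have hcn : ⁅n, x⁆ ∈ centralizer (G : Set W) := by
    have e : ⁅z * n, x⁆ = ⁅n, x⁆ := by
      have hzn : Commute z (⁅n, x⁆) := by
        refine commute_of_le_centralizer (cen_le_centralizer E E) hz ?_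
        rw [commutatorElement_def]
        have hnE := h.wP_le_E (h'.center_le hn')
        exact mul_mem (mul_mem (mul_mem hnE hx) (inv_mem hnE)) (inv_mem hx)
      calc ⁅z * n, x⁆ = z * ⁅n, x⁆ * (x * z⁻¹ * x⁻¹) := by simp only [commutatorElement_def]; group
        _ = ⁅n, x⁆ * z * (z⁻¹ * x * x⁻¹) := by rw [hzn.eq, (hzx.inv_left).eq]
        _ = ⁅n, x⁆ := by group
    rwa [e] at hc
  set C := G ⊓ centralizer ({n} : Set W) with hC
  have hxG := h.le hx
  have hnG : n ∈ G := h.le (h.wP_le_E (h'.center_le hn'))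
  have hcG : ⁅n, x⁆ ∈ G := by
    rw [commutatorElement_def]
    exact mul_mem (mul_mem (mul_mem hnG hxG) (inv_mem hnG)) (inv_mem hxG)
  have hxn : x * n * x⁻¹ = ⁅n, x⁆⁻¹ * n := by simp only [commutatorElement_def]; group
  have hxC : x ∈ normalizer (C : Set W) := by
    refine mem_normalizer_iff.mpr fun y => ?_
    rw [hC, mem_inf, mem_inf, mem_centralizer_singleton_iff, mem_centralizer_singleton_iff]
    constructor
    · rintro ⟨hy, hyn⟩
      refine ⟨mul_mem (mul_mem hxG hy) (inv_mem hxG), ?_⟩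
      have hy' : x * y * x⁻¹ ∈ G := mul_mem (mul_mem hxG hy) (inv_mem hxG)
      have c1 : Commute (x * y * x⁻¹) (x * n * x⁻¹) := by
        show _ = _
        calc x * y * x⁻¹ * (x * n * x⁻¹) = x * (y * n) * x⁻¹ := by group
          _ = x * (n * y) * x⁻¹ := by rw [hyn]
          _ = x * n * x⁻¹ * (x * y * x⁻¹) := by group
      rw [hxn] at c1
      have c2 : Commute (x * y * x⁻¹) ⁅n, x⁆ := mem_centralizer_iff.mp hcn _ hy'
      have := c2.mul_right c1
      rwa [mul_inv_cancel_left] at this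
    · rintro ⟨hy, hyn⟩
      have hy0 : y ∈ G := by
        have := mul_mem (mul_mem (inv_mem hxG) hy) hxG
        simpa [mul_assoc] using this
      refine ⟨hy0, ?_⟩
      have c2 : Commute (x * y * x⁻¹) ⁅n, x⁆⁻¹ :=
        Commute.inv_right (mem_centralizer_iff.mp hcn _ hy)
      have c1 : Commute (x * y * x⁻¹) (x * n * x⁻¹) := by
        rw [hxn]; exact c2.mul_right hyn
      have := congrArg (fun t => x⁻¹ * t * x) c1.eq
      simpa [mul_assoc, commute_iff_eq] using this
  have hE'C : E' ≤ C := le_inf h'.le fun e he =>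
    mem_centralizer_singleton_iff.mpr (commute_of_le_centralizer (cen_le_centralizer E' E') hn' he).symm
  have hzx' : zpowers x ⊔ E' = G := h.sup_eq_of_not_le h' ho (zpowers_le.mpr hx)
    fun hle => hxQ (hle (mem_zpowers x))
  have hCn : G ≤ normalizer (C : Set W) :=
    hzx'.ge.trans (sup_le (zpowers_le.mpr hxC) (hE'C.trans le_normalizer))
  have hG : G ≤ C := by
    rcases h'.dich C inf_le_left hCn with h1 | h1
    · exact h1.ge.trans (sup_le le_rfl hE'C)
    · exact absurd ((le_inf hE'C le_rfl).trans h1) h'.not_le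
  refine mem_inf.mpr ⟨h.wP_le_E (h'.center_le hn'), mem_centralizer_iff.mpr fun e he => ?_⟩
  exact mem_centralizer_singleton_iff.mp (mem_inf.mp (hG (h.le he))).2

theorem Vx.card_wP_mul (h : Vx p G E) (hq : Nat2 p G E) {E' : Subgroup W} (h' : Vx p G E')
    (ho : Opp G E E') :
    Nat.card (wP p G) * Nat.card (fixC G E) = Nat.card (cen E E) * Nat.card (cen E' E') := by
  rw [fixC, ← h.center_inf_eq h' ho, h.wP_eq_center_sup hq h' ho, mul_comm]
  refine le_antisymm ?_ (card_mul_le _ _)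
  have hn : cen E' E' ≤ normalizer (cen E E : Set W) :=
    (h'.center_le.trans ((wP_abelian p G).trans (centralizer_le h.center_le))).trans
      (centralizer_le_normalizer _)
  have := card_sup_mul_inf hn
  rw [sup_comm, inf_comm] at this
  nlinarith

end Cfsg.Agent.H73.GN
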