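import Mathlib
import Cfsg.Agent.H73.GN.Vertex

/-!
Paths of bad vertices, and the facts about a shortest noncommuting one.
-/

set_option autoImplicit false

namespace Cfsg.Agent.H73.GN

open Subgroup
open scoped commutatorElement

variable {W : Type*} [Group W]

/-- A path `V 0 — Ed 1 — V 1 — … — Ed n — V n` with opposite consecutive edges. -/
structure Path (p n : ℕ) (V Ed : ℕ → Subgroup W) : Prop where
  vl : ∀ i, i < n → Vx p (V i) (Ed (i + 1))
  vr : ∀ i, i < n → Vx p (V (i + 1)) (Ed (i + 1))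
  opp : ∀ i, i + 1 < n → Opp (V (i + 1)) (Ed (i + 1)) (Ed (i + 2))

/-- All paths shorter than `b` have commuting ends. -/
def CommBelow (W : Type*) [Group W] (p b : ℕ) : Prop :=
  ∀ n, n < b → ∀ V Ed : ℕ → Subgroup W, Path p n V Ed → wP p (V 0) ≤ centralizer (wP p (V n) : Set W)

variable {p n : ℕ} {V Ed : ℕ → Subgroup W}

theorem Path.drop (h : Path p n V Ed) {m n' : ℕ} (hm : m + n' ≤ n) :
    Path p n' (fun i => V (m + i)) (fun i => Ed (m + i)) where
  vl i hi := by
    have := h.vl (m + i) (by omega)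
    rwa [show m + i + 1 = m + (i + 1) by omega] at this
  vr i hi := by
    have := h.vr (m + i) (by omega)
    rwa [show m + i + 1 = m + (i + 1) by omega] at this
  opp i hi := by
    have := h.opp (m + i) (by omega)
    rwa [show m + i + 1 = m + (i + 1) by omega, show m + i + 2 = m + (i + 2) by omega] at this

theorem Path.take (h : Path p n V Ed) {n' : ℕ} (hm : n' ≤ n) : Path p n' V Ed where
  vl i hi := h.vl i (by omega)
  vr i hi := h.vr i (by omega)
  opp i hi := h.opp i (by omega)

theorem Path.rev (h : Path p n V Ed) : Path p n (fun i => V (n - i)) (fun i => Ed (n + 1 - i)) where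
  vl i hi := by
    have := h.vr (n - i - 1) (by omega)
    rw [show n - i - 1 + 1 = n - i by omega] at this
    rw [show n + 1 - (i + 1) = n - i by omega]
    exact this
  vr i hi := by
    have := h.vl (n - i - 1) (by omega)
    rwa [show n - i - 1 + 1 = n + 1 - (i + 1) by omega, show n - i - 1 = n - (i + 1) by omega] at this
  opp i hi := by
    have := h.opp (n - i - 2) (by omega)
    rw [show n - i - 2 + 1 = n - (i + 1) by omega, show n - i - 2 + 2 = n - i by omega] at this
    rw [Opp, sup_comm, show n + 1 - (i + 1) = n - i by omega,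
      show n + 1 - (i + 2) = n - (i + 1) by omega]
    exact this

/-- Prepend a vertex and an edge. -/
def consV (G : Subgroup W) (V : ℕ → Subgroup W) : ℕ → Subgroup W
  | 0 => G
  | i + 1 => V i

/-- Prepend an edge. -/
def consE (E : Subgroup W) (Ed : ℕ → Subgroup W) : ℕ → Subgroup W
  | 0 => E
  | 1 => E
  | i + 2 => Ed (i + 1)

theorem Path.cons (h : Path p n V Ed) {G E : Subgroup W} (h1 : Vx p G E) (h2 : Vx p (V 0) E)
    (h3 : 0 < n → Opp (V 0) E (Ed 1)) : Path p (n + 1) (consV G V) (consE E Ed) where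
  vl i hi := by
    match i with
    | 0 => exact h1
    | i + 1 => exact h.vl i (by omega)
  vr i hi := by
    match i with
    | 0 => exact h2
    | i + 1 => exact h.vr i (by omega)
  opp i hi := by
    match i with
    | 0 => exact h3 (by omega)
    | i + 1 => exact h.opp i (by omega)

variable [Finite W] [Fact p.Prime]

theorem Path.cj (h : Path p n V Ed) (g : W) :
    Path p n (fun i => GN.cj g (V i)) (fun i => GN.cj g (Ed i)) where
  vl i hi := (h.vl i hi).cj g
  vr i hi := (h.vr i hi).cj g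
  opp i hi := (h.opp i hi).cj g

variable {b : ℕ}

theorem Path.comm (h : Path p n V Ed) (hb : CommBelow W p b) {i j : ℕ} (hij : i ≤ j) (hj : j ≤ n)
    (hlt : j - i < b) : wP p (V i) ≤ centralizer (wP p (V j) : Set W) := by
  have := hb (j - i) hlt _ _ (h.drop (m := i) (n' := j - i) (by omega))
  rwa [show i + (j - i) = j by omega] at this

/-- `W₀` travels along a path while it commutes. -/
theorem Path.left_le (h : Path p n V Ed) (hb : CommBelow W p b) :
    ∀ i, i < n → i < b → wP p (V 0) ≤ Ed (i + 1) ∧ wP p (V 0) ≤ oP p (V i) := by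
  intro i
  induction i with
  | zero =>
    intro h0 _
    exact ⟨(h.vl 0 h0).wP_le_E, wP_le_oP p _⟩
  | succ i ih =>
    intro hi hib
    obtain ⟨h1, -⟩ := ih (by omega) (by omega)
    have h2 : wP p (V 0) ≤ oP p (V (i + 1)) :=
      (h.vr i (by omega)).le_oP_of_commute h1 (h.comm hb (Nat.zero_le _) (by omega) (by omega))
    exact ⟨h2.trans (h.vl (i + 1) hi).oP_le_E, h2⟩

/-- `Wᵢ` lies in the edge below `V j`, for `i < j`. -/
theorem Path.le_edge (h : Path p n V Ed) (hb : CommBelow W p b) {i j : ℕ} (hij : i < j) (hj : j ≤ n)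
    (hlt : j - i ≤ b) : wP p (V i) ≤ Ed j := by
  have := ((h.drop (m := i) (n' := j - i) (by omega)).left_le hb (j - i - 1) (by omega) (by omega)).1
  rwa [show i + (j - i - 1 + 1) = j by omega] at this

theorem Path.le_oP (h : Path p n V Ed) (hb : CommBelow W p b) {i j : ℕ} (hij : i ≤ j) (hj : j ≤ n)
    (hlt : j - i < b) : wP p (V i) ≤ oP p (V j) := by
  rcases hij.eq_or_lt with rfl | hlt'
  · exact wP_le_oP p _
  · have := h.vr (j - 1) (by omega)
    rw [show j - 1 + 1 = j by omega] at this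
    exact this.le_oP_of_commute (h.le_edge hb hlt' hj hlt.le) (h.comm hb hij hj hlt)

theorem Path.le_edge' (h : Path p n V Ed) (hb : CommBelow W p b) {i j : ℕ} (hji : j ≤ i) (hj : 1 ≤ j)
    (hi : i ≤ n) (hlt : i - j + 1 ≤ b) : wP p (V i) ≤ Ed j := by
  have := h.rev.le_edge hb (i := n - i) (j := n + 1 - j) (by omega) (by omega) (by omega)
  rwa [show n - (n - i) = i by omega, show n + 1 - (n + 1 - j) = j by omega] at this

theorem Path.le_oP' (h : Path p n V Ed) (hb : CommBelow W p b) {i j : ℕ} (hji : j ≤ i) (hi : i ≤ n)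
    (hlt : i - j < b) : wP p (V i) ≤ oP p (V j) := by
  have := h.rev.le_oP hb (i := n - i) (j := n - j) (by omega) (by omega) (by omega)
  rwa [show n - (n - i) = i by omega, show n - (n - j) = j by omega] at this

theorem Path.card_edge (h : Path p n V Ed) : ∀ i, i < n → Nat.card (Ed (i + 1)) = Nat.card (Ed 1) ∧
    Nat.card (cen (Ed (i + 1)) (Ed (i + 1))) = Nat.card (cen (Ed 1) (Ed 1)) := by
  intro i
  induction i with
  | zero => exact fun _ => ⟨rfl, rfl⟩
  | succ i ih =>
    intro hi
    obtain ⟨h1, h2⟩ := ih (by omega)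
    have a := h.vl (i + 1) hi
    have b := h.vr i (by omega)
    exact ⟨(a.card_eq b).trans h1, (a.card_center_eq b).trans h2⟩

/-- A shortest noncommuting path. -/
structure Crit (p b : ℕ) (V Ed : ℕ → Subgroup W) : Prop where
  path : Path p b V Ed
  below : CommBelow W p b
  pos : 1 ≤ b
  ne : ¬ wP p (V 0) ≤ centralizer (wP p (V b) : Set W)

theorem Crit.rev (h : Crit p b V Ed) :
    Crit p b (fun i => V (b - i)) (fun i => Ed (b + 1 - i)) where
  path := h.path.rev
  below := h.below
  pos := h.pos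
  ne := by
    simp only [Nat.sub_zero, Nat.sub_self]
    exact fun hle => h.ne (le_centralizer_symm hle)

theorem Crit.vx0 (h : Crit p b V Ed) : Vx p (V 0) (Ed 1) := h.path.vl 0 h.pos

theorem Crit.vx1 (h : Crit p b V Ed) : Vx p (V 1) (Ed 1) := h.path.vr 0 h.pos

theorem Crit.last_le (h : Crit p b V Ed) : wP p (V b) ≤ Ed 1 :=
  h.path.le_edge' h.below h.pos le_rfl le_rfl (by have := h.pos; omega)

theorem Crit.first_le (h : Crit p b V Ed) : wP p (V 0) ≤ Ed b :=
  h.path.le_edge h.below h.pos le_rfl le_rfl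

theorem Crit.last_not_le (h : Crit p b V Ed) : ¬ wP p (V b) ≤ oP p (V 0) :=
  fun hle => h.ne (le_centralizer_symm (hle.trans (oP_le_centralizer_wP p (V 0))))

theorem Crit.last_inf (h : Crit p b V Ed) :
    wP p (V b) ⊓ oP p (V 0) = cen (Ed b) (Ed b) := by
  have hb := h.rev
  have h0 : Vx p (V b) (Ed b) := by
    have := hb.vx0
    simpa using this
  refine le_antisymm ?_ (le_inf h0.center_le ?_)
  · obtain ⟨y, hy, hyQ⟩ := SetLike.not_le_iff_exists.mp hb.last_not_le
    simp only [Nat.sub_self, Nat.sub_zero] at hy hyQ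
    rintro x ⟨hx, hxQ⟩
    refine h0.mem_center_of_commute hx (h.first_le hy) hyQ ?_
    exact (commute_of_le_centralizer (oP_le_centralizer_wP p (V 0)) hxQ hy).symm
  · refine h.vx0.le_oP_of_commute (le_trans h0.center_le h.last_le) ?_
    exact le_centralizer_symm (h.first_le.trans (le_centralizer_symm (cen_le_centralizer _ _)))

theorem Crit.card_edge_last (h : Crit p b V Ed) : Nat.card (Ed b) = Nat.card (Ed 1) ∧
    Nat.card (cen (Ed b) (Ed b)) = Nat.card (cen (Ed 1) (Ed 1)) := by
  have := h.path.card_edge (b - 1) (by have := h.pos; omega)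
  rwa [show b - 1 + 1 = b by have := h.pos; omega] at this

theorem Crit.sup_eq (h : Crit p b V Ed) : wP p (V b) ⊔ oP p (V 0) = Ed 1 := by
  have hsup : wP p (V b) ⊔ oP p (V 0) ≤ Ed 1 := sup_le h.last_le h.vx0.oP_le_E
  refine eq_of_le_card hsup ?_
  have e1 := card_sup_mul_inf (H := wP p (V b)) (K := oP p (V 0))
    ((h.last_le.trans h.vx0.le).trans (le_normalizer_oP p _))
  have hr := h.rev
  have e2 := card_sup_mul_inf (H := wP p (V 0)) (K := oP p (V b))
    (by
      have := (hr.last_le.trans hr.vx0.le).trans (le_normalizer_oP p _)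
      simpa using this)
  have i1 := h.last_inf
  have i2 := hr.last_inf
  simp only [Nat.sub_zero, Nat.sub_self, Nat.add_sub_cancel_left] at i2
  rw [i1] at e1
  rw [i2] at e2
  have s2 := card_le_of_le (sup_le hr.last_le hr.vx0.oP_le_E)
  simp only [Nat.sub_zero, Nat.sub_self, Nat.add_sub_cancel] at s2
  have c0 := h.vx0.card_mul
  have cb := hr.vx0.card_mul
  simp only [Nat.sub_zero, Nat.add_sub_cancel] at cb
  obtain ⟨d1, d2⟩ := h.card_edge_last
  rw [d1, d2] at cb
  rw [d1] at s2
  rw [d2] at e1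
  set z := Nat.card (cen (Ed 1) (Ed 1))
  set e := Nat.card (Ed 1)
  set w0 := Nat.card (wP p (V 0))
  set wb := Nat.card (wP p (V b))
  set q0 := Nat.card (oP p (V 0))
  set qb := Nat.card (oP p (V b))
  have zpos : 0 < z := Nat.card_pos
  have w0pos : 0 < w0 := Nat.card_pos
  have q0pos : 0 < q0 := Nat.card_pos
  -- `wb = w0`
  have h2 : w0 * qb ≤ e * z := by rw [← e2]; exact Nat.mul_le_mul_right _ s2
  have h3 : w0 ≤ wb := by
    refine Nat.le_of_mul_le_mul_right ?_ (Nat.card_pos (α := ↥(oP p (V b))))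
    rw [cb]
    exact h2
  refine Nat.le_of_mul_le_mul_right ?_ zpos
  rw [e1, ← c0]
  exact Nat.mul_le_mul_right _ h3

theorem Crit.nat2 (h : Crit p b V Ed) : Nat2 p (V 0) (Ed 1) := by
  intro w hw x hx
  have hn : wP p (V b) ≤ normalizer (oP p (V 0) : Set W) :=
    (h.last_le.trans h.vx0.le).trans (le_normalizer_oP p _)
  rw [← h.sup_eq, ← SetLike.mem_coe, coe_mul_of_left_le_normalizer_right _ _ hn] at hx
  obtain ⟨x', hx', q, hq, rfl⟩ := hx
  have hqw : Commute q w := commute_of_le_centralizer (oP_le_centralizer_wP p _) hq hw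
  have e : ⁅w, x' * q⁆ = ⁅w, x'⁆ := by
    calc ⁅w, x' * q⁆ = w * x' * (q * w⁻¹) * q⁻¹ * x'⁻¹ := by simp only [commutatorElement_def]; group
      _ = w * x' * (w⁻¹ * q) * q⁻¹ * x'⁻¹ := by rw [hqw.inv_right.eq]
      _ = ⁅w, x'⁆ := by simp only [commutatorElement_def]; group
  rw [e]
  have hwn : w ∈ normalizer (wP p (V b) : Set W) := by
    have h1 := h.rev.vx0
    simp only [Nat.sub_zero, Nat.add_sub_cancel] at h1
    exact h1.normalizer_wP (h1.le (h.first_le hw))
  have hxn : x' ∈ normalizer (wP p (V 0) : Set W) := h.vx0.normalizer_wP (h.vx0.le (h.last_le hx'))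
  have c1 : ⁅w, x'⁆ ∈ wP p (V b) := by
    rw [commutatorElement_def]
    exact mul_mem ((mem_normalizer_iff.mp hwn x').mp hx') (inv_mem hx')
  have c0 : ⁅w, x'⁆ ∈ wP p (V 0) := by
    rw [commutatorElement_def, show w * x' * w⁻¹ * x'⁻¹ = w * (x' * w⁻¹ * x'⁻¹) by group]
    exact mul_mem hw ((mem_normalizer_iff.mp hxn _).mp (inv_mem hw))
  obtain ⟨y, hy, hyQ⟩ := SetLike.not_le_iff_exists.mp h.last_not_le
  exact h.vx0.mem_center_of_commute c0 (h.last_le hy) hyQ
    (commute_of_le_centralizer (wP_abelian p (V b)) hy c1)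

theorem Crit.comm_mid (h : Crit p b V Ed) {i j : ℕ} (hij : i ≤ j) (hj : j ≤ b) (hlt : j - i < b) :
    wP p (V i) ≤ centralizer (wP p (V j) : Set W) :=
  h.path.comm h.below hij hj hlt

end Cfsg.Agent.H73.GN
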