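import Mathlib
import Cfsg.Agent.H73.GN.Path

/-!
Adjacent vertices: either `G₁` normalizes `W₀W₁`, or `[W₀, E]` is central in `G₁`.
-/

set_option autoImplicit false

namespace Cfsg.Agent.H73.GN

open Subgroup
open scoped commutatorElement

variable {W : Type*} [Group W]

theorem comm_mul_left (a b c : W) : ⁅a * b, c⁆ = a * ⁅b, c⁆ * a⁻¹ * ⁅a, c⁆ := by
  simp only [commutatorElement_def]; group

theorem comm_mul_right (a b c : W) : ⁅a, b * c⁆ = ⁅a, b⁆ * (b * ⁅a, c⁆ * b⁻¹) := by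
  simp only [commutatorElement_def]; group

theorem comm_eq_one_of_commute {a b : W} (h : Commute a b) : ⁅a, b⁆ = 1 :=
  commutatorElement_eq_one_iff_commute.mpr h

theorem commute_of_comm_eq_one {a b : W} (h : ⁅a, b⁆ = 1) : Commute a b :=
  commutatorElement_eq_one_iff_commute.mp h

theorem comm_mul_left_of_commute {a b c : W} (h : Commute b c) : ⁅a * b, c⁆ = ⁅a, c⁆ := by
  rw [comm_mul_left, comm_eq_one_of_commute h]; group

theorem cj_comm (s a c : W) : s * ⁅a, c⁆ * s⁻¹ = ⁅s * a * s⁻¹, s * c * s⁻¹⁆ := by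
  simp only [commutatorElement_def]; group

theorem exists_mul_of_mem_sup {H K : Subgroup W} (hn : K ≤ normalizer (H : Set W)) {x : W}
    (hx : x ∈ H ⊔ K) : ∃ a ∈ H, ∃ c ∈ K, a * c = x := by
  rw [← SetLike.mem_coe, coe_mul_of_right_le_normalizer_left H K hn] at hx
  exact hx

theorem le_normalizer_of_le_centralizer {H K : Subgroup W} (h : K ≤ centralizer (H : Set W)) :
    K ≤ normalizer (H : Set W) := h.trans (centralizer_le_normalizer _)

variable [Finite W] {p : ℕ} [Fact p.Prime] {G₀ G₁ E : Subgroup W}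

/-- Facts about two adjacent commuting vertices with different cores. -/
structure Adj (p : ℕ) (G₀ G₁ E : Subgroup W) : Prop where
  h0 : Vx p G₀ E
  h1 : Vx p G₁ E
  comm : wP p G₀ ≤ centralizer (wP p G₁ : Set W)
  ne : oP p G₀ ≠ oP p G₁

theorem Adj.symm (h : Adj p G₀ G₁ E) : Adj p G₁ G₀ E :=
  ⟨h.h1, h.h0, le_centralizer_symm h.comm, h.ne.symm⟩

theorem Adj.left_le (h : Adj p G₀ G₁ E) : wP p G₀ ≤ oP p G₁ :=
  h.h1.le_oP_of_commute h.h0.wP_le_E h.comm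

theorem Adj.right_le (h : Adj p G₀ G₁ E) : wP p G₁ ≤ oP p G₀ := h.symm.left_le

theorem Adj.inf_eq (h : Adj p G₀ G₁ E) : wP p G₀ ⊓ wP p G₁ = cen E E := by
  refine le_antisymm ?_ (le_inf h.h0.center_le h.h1.center_le)
  rintro n ⟨hn0, hn1⟩
  by_contra hz
  refine h.ne (le_antisymm ?_ ?_)
  · intro y hy
    by_contra hy1
    exact h.h1.not_commute n hn1 hz y (h.h0.oP_le_E hy) hy1
      (commute_of_le_centralizer (oP_le_centralizer_wP p G₀) hy hn0)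
  · intro y hy
    by_contra hy0
    exact h.h0.not_commute n hn0 hz y (h.h1.oP_le_E hy) hy0
      (commute_of_le_centralizer (oP_le_centralizer_wP p G₁) hy hn1)

theorem Adj.sup_oP (h : Adj p G₀ G₁ E) : oP p G₀ ⊔ oP p G₁ = E := by
  have := h.h0.mem_wP.cen_inf h.h0.nice h.h1.mem_wP
  rw [h.inf_eq, h.h0.cen_wP, h.h1.cen_wP, ((top_mem E).centralizer h.h0.nice).2] at this
  exact this.symm

theorem Adj.mem_sup (h : Adj p G₀ G₁ E) : Mem E (wP p G₀ ⊔ wP p G₁) :=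
  h.h0.mem_wP.sup h.h0.nice h.h1.mem_wP

theorem Adj.cen_sup (h : Adj p G₀ G₁ E) :
    cen E (wP p G₀ ⊔ wP p G₁) = oP p G₀ ⊓ oP p G₁ := by
  rw [GN.cen_sup, h.h0.cen_wP, h.h1.cen_wP]

theorem Adj.cen_inf_oP (h : Adj p G₀ G₁ E) :
    cen E (oP p G₀ ⊓ oP p G₁) = wP p G₀ ⊔ wP p G₁ := by
  rw [← h.cen_sup, (h.mem_sup.centralizer h.h0.nice).2]

theorem Adj.sup_le_oP (h : Adj p G₀ G₁ E) : wP p G₀ ⊔ wP p G₁ ≤ oP p G₁ :=
  sup_le h.left_le (wP_le_oP p G₁)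

theorem Adj.sup_abelian (h : Adj p G₀ G₁ E) :
    wP p G₀ ⊔ wP p G₁ ≤ centralizer ((wP p G₀ ⊔ wP p G₁ : Subgroup W) : Set W) :=
  sup_le_centralizer_self (wP_abelian p G₀) (wP_abelian p G₁) h.comm

theorem Adj.mem_mul (h : Adj p G₀ G₁ E) {n : W} (hn : n ∈ wP p G₀ ⊔ wP p G₁) :
    ∃ a ∈ wP p G₀, ∃ c ∈ wP p G₁, a * c = n :=
  exists_mul_of_mem_sup (le_normalizer_of_le_centralizer (le_centralizer_symm h.comm)) hn

/-- An element of `W₀W₁` outside `W₁` has centralizer `Q₀ ∩ Q₁` in `Q₁`. -/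
theorem Adj.mem_oP_of_commute (h : Adj p G₀ G₁ E) {n y : W} (hn : n ∈ wP p G₀ ⊔ wP p G₁)
    (hn1 : n ∉ wP p G₁) (hy : y ∈ oP p G₁) (hc : Commute y n) : y ∈ oP p G₀ := by
  obtain ⟨a, ha, c, hc', rfl⟩ := h.mem_mul hn
  have haz : a ∉ cen E E := fun hz => hn1 (mul_mem (h.h1.center_le hz) hc')
  by_contra hy0
  refine h.h0.not_commute a ha haz y (h.h1.oP_le_E hy) hy0 ?_
  have h2 : Commute y c := commute_of_le_centralizer (oP_le_centralizer_wP p G₁) hy hc'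
  have := hc.mul_right h2.inv_right
  rwa [mul_inv_cancel_right] at this

/-- `[W₀, E]` is generated by commutators with `Q₁`. -/
theorem Adj.comm_generated (h : Adj p G₀ G₁ E) (hq : Nat2 p G₀ E) {N : Subgroup W}
    (hN : ∀ a ∈ wP p G₀, ∀ y ∈ oP p G₁, ⁅a, y⁆ ∈ N) : ⁅wP p G₀, E⁆ ≤ N := by
  refine commutator_le.mpr fun a ha x hx => ?_
  rw [← h.sup_oP] at hx
  obtain ⟨q0, hq0, q1, hq1, rfl⟩ := exists_mul_of_mem_sup
    ((h.h1.oP_le_E.trans h.h0.le).trans (le_normalizer_oP p G₀)) hx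
  have hc : Commute q0 a := commute_of_le_centralizer (oP_le_centralizer_wP p G₀) hq0 ha
  have hz := hq a ha q1 (h.h1.oP_le_E hq1)
  have hcz : Commute q0 ⁅a, q1⁆ :=
    (commute_of_le_centralizer (cen_le_centralizer E E) hz (h.h0.oP_le_E hq0)).symm
  rw [comm_mul_right, comm_eq_one_of_commute hc.symm, one_mul, hcz.eq, mul_inv_cancel_right]
  exact hN a ha q1 hq1

/-- **Either `G₁` normalizes `W₀W₁` or `[W₀, E]` is central in `G₁`.** -/
theorem Adj.comm_central (h : Adj p G₀ G₁ E) (hq : Nat2 p G₀ E)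
    (hU : ¬ G₁ ≤ normalizer ((wP p G₀ ⊔ wP p G₁ : Subgroup W) : Set W)) :
    ⁅wP p G₀, E⁆ ≤ centralizer (G₁ : Set W) := by
  have hN := h.h1.nice
  set U := wP p G₀ ⊔ wP p G₁ with hUdef
  set Q₁ := oP p G₁ with hQ₁
  set W₁ := wP p G₁ with hW₁
  have hW₁Q : Q₁ ≤ centralizer (W₁ : Set W) := oP_le_centralizer_wP p G₁
  obtain ⟨A, hA, hAA, hAQ⟩ := hN.exists_outside Q₁ h.h1.not_le
  obtain ⟨s, hsA, hsQ⟩ := SetLike.not_le_iff_exists.mp hAQ
  have hsE : s ∈ E := hA.1 hsA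
  have hsG : s ∈ G₁ := h.h1.le hsE
  have hAab : A ≤ centralizer (A : Set W) := hAA.ge.trans (cen_le_centralizer E A)
  set A₁ := (A ⊓ Q₁) ⊔ W₁ with hA₁
  have hA₁mem : Mem E A₁ := (hA.inf hN h.h1.mem_oP).sup hN h.h1.mem_wP
  have hAW : A ≤ normalizer (W₁ : Set W) := (hA.1.trans h.h1.le).trans h.h1.normalizer_wP
  have hA₁cen : cen E A₁ = A₁ := by
    rw [hA₁, GN.cen_sup, h.h1.cen_wP, hA.cen_inf hN h.h1.mem_oP, hAA, h.h1.cen_oP]
    refine le_antisymm ?_ (le_inf (sup_le (inf_le_left.trans le_sup_left) le_sup_right)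
      (sup_le inf_le_right (wP_le_oP p G₁)))
    rintro x ⟨hx, hxQ⟩
    rw [sup_comm] at hx
    obtain ⟨w, hw, a, ha, rfl⟩ := exists_mul_of_mem_sup hAW hx
    have haQ : a ∈ Q₁ := by
      have := mul_mem (inv_mem (wP_le_oP p G₁ hw)) hxQ
      rwa [inv_mul_cancel_left] at this
    exact mul_mem (mem_sup_right hw) (mem_sup_left (mem_inf.mpr ⟨ha, haQ⟩))
  have hA₁Q : A₁ ≤ Q₁ := sup_le inf_le_right (wP_le_oP p G₁)
  have hsW : ∀ {w : W}, w ∈ W₁ → s * w * s⁻¹ ∈ W₁ := fun {w} hw =>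
    (mem_normalizer_iff.mp (h.h1.normalizer_wP hsG) w).mp hw
  have hsW' : ∀ {w : W}, w ∈ W₁ → s⁻¹ * w * s ∈ W₁ := fun {w} hw => by
    have := (mem_normalizer_iff.mp (h.h1.normalizer_wP (inv_mem hsG)) w).mp hw
    rwa [inv_inv] at this
  have hsy : ∀ {y : W}, y ∈ A₁ → ∃ w ∈ W₁, s⁻¹ * y * s = y * w := by
    intro y hy
    obtain ⟨a, ha, w, hw, rfl⟩ := exists_mul_of_mem_sup
      (le_normalizer_of_le_centralizer (le_centralizer_symm (inf_le_right.trans hW₁Q))) hy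
    refine ⟨w⁻¹ * (s⁻¹ * w * s), mul_mem (inv_mem hw) (hsW' hw), ?_⟩
    have hc : Commute s a := commute_of_le_centralizer hAab hsA (mem_inf.mp ha).1
    calc s⁻¹ * (a * w) * s = (s⁻¹ * a) * w * s := by group
      _ = (a * s⁻¹) * w * s := by rw [hc.inv_left.eq]
      _ = _ := by group
  obtain ⟨k, hkG, hko⟩ := h.h1.exists_opp
  have hE' := h.h1.cj_of_mem hkG
  have hgen : zpowers s ⊔ cj k E = G₁ :=
    h.h1.sup_eq_of_not_le hE' hko (zpowers_le.mpr hsE) fun hle => hsQ (hle (mem_zpowers s))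
  set U₁ := cj k U with hU₁
  have hQ₁k : cj k Q₁ = Q₁ := cj_eq_of_mem_normalizer (le_normalizer_oP p G₁ hkG)
  have hW₁k : cj k W₁ = W₁ := cj_eq_of_mem_normalizer (h.h1.normalizer_wP hkG)
  have hU₁Q : U₁ ≤ Q₁ := hQ₁k ▸ cj_mono k h.sup_le_oP
  have hW₁U₁ : W₁ ≤ U₁ := hW₁k ▸ cj_mono k le_sup_right
  have hcU : cen E U ≤ Q₁ := by rw [h.cen_sup]; exact inf_le_right
  have hcU' : cj k (cen E U) ≤ Q₁ := hQ₁k ▸ cj_mono k hcU
  have htr := (h.mem_sup.cj k).transfer hN (by rw [← cj_cen, card_cj, card_cj])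
    (hU₁Q.trans h.h1.oP_le_E) (by rw [← cj_cen]; exact hcU'.trans h.h1.oP_le_E)
  rw [← cj_cen] at htr
  have hU₁m : Mem E U₁ := htr.1
  set C₁ := cen E U₁ with hC₁
  have hC₁eq : C₁ = cj k (cen E U) := htr.2
  have hEU : E ≤ normalizer (U : Set W) := fun x hx => mem_normalizer_of_cj_eq (by
    rw [hUdef, cj_sup, cj_eq_of_mem_normalizer (h.h0.normalizer_wP (h.h0.le hx)),
      cj_eq_of_mem_normalizer (h.h1.normalizer_wP (h.h1.le hx))])
  have hU₁E' : cj k E ≤ normalizer (U₁ : Set W) := fun x hx => by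
    have := mem_normalizer_cj (g := k) (hEU (mem_cj.mp hx))
    simpa [mul_assoc] using this
  have hinf : A₁ ⊓ U₁ = W₁ := by
    refine le_antisymm ?_ (le_inf le_sup_right hW₁U₁)
    by_contra hnot
    obtain ⟨n, hn, hnW⟩ := SetLike.not_le_iff_exists.mp hnot
    have hm := hA₁mem.inf hN hU₁m
    have hsub : cen E (A₁ ⊓ U₁) ≤ C₁ := by
      intro y hy
      have hyQ : y ∈ Q₁ := by
        rw [hQ₁, ← h.h1.cen_wP]
        exact cen_anti E (le_inf le_sup_right hW₁U₁) hy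
      rw [hC₁eq, mem_cj, h.cen_sup]
      have hyn : Commute y n := (commute_of_le_centralizer (le_centralizer_symm
        (cen_le_centralizer E (A₁ ⊓ U₁))) hn hy).symm
      have hn' : k⁻¹ * n * k ∈ U := mem_cj.mp hn.2
      have hn'' : k⁻¹ * n * k ∉ W₁ := fun h' => hnW (by rw [← hW₁k, mem_cj]; exact h')
      have hy' : k⁻¹ * y * k ∈ Q₁ := by rw [← mem_cj, hQ₁k]; exact hyQ
      refine mem_inf.mpr ⟨h.mem_oP_of_commute hn' hn'' hy' ?_, hy'⟩
      have := hyn.map (MulAut.conj k⁻¹).toMonoidHom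
      simpa [mul_assoc] using this
    have hle : U₁ ≤ A₁ ⊓ U₁ := by
      rw [← (hm.centralizer hN).2]
      exact ((hU₁m.centralizer hN).2).ge.trans (cen_anti E hsub)
    apply hU
    have hsn : s ∈ normalizer (U₁ : Set W) := by
      refine mem_normalizer_of_cj_eq (eq_of_le_card ?_ (card_cj s U₁).ge)
      rw [cj_le_iff']
      intro y hy
      rw [mem_cj, inv_inv]
      obtain ⟨w, hw, hyw⟩ := hsy (le_trans hle inf_le_left hy)
      have h2 : s * y * s⁻¹ = y * (s * w * s⁻¹)⁻¹ := by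
        have : s * (s⁻¹ * y * s) * s⁻¹ = s * (y * w) * s⁻¹ := by rw [hyw]
        calc s * y * s⁻¹ = (s * (y * w) * s⁻¹) * (s * w⁻¹ * s⁻¹) := by group
          _ = (s * (s⁻¹ * y * s) * s⁻¹) * (s * w⁻¹ * s⁻¹) := by rw [this]
          _ = y * (s * w * s⁻¹)⁻¹ := by group
      rw [h2]
      exact mul_mem hy (hW₁U₁ (inv_mem (hsW hw)))
    have hGn : G₁ ≤ normalizer (U₁ : Set W) := by
      rw [← hgen]; exact sup_le (zpowers_le.mpr hsn) hU₁E'
    intro x hx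
    have hxk : k * x * k⁻¹ ∈ G₁ := mul_mem (mul_mem hkG hx) (inv_mem hkG)
    have := mem_normalizer_cj (g := k⁻¹) (hGn hxk)
    rw [hU₁, cj_inv_cj] at this
    simpa [mul_assoc] using this
  have hAC : A₁ ⊔ C₁ = Q₁ := by
    have h2 := hA₁mem.cen_inf hN hU₁m
    rw [hinf, h.h1.cen_wP, hA₁cen] at h2
    exact h2.symm
  set U₂ := cj s U₁ with hU₂
  have hcjE : cj s E = E := cj_eq_of_mem hsE
  have hU₂m : Mem E U₂ := by have := hU₁m.cj s; rwa [hcjE] at this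
  set C₂ := cen E U₂ with hC₂
  have hC₂eq : C₂ = cj s C₁ := by rw [hC₁, cj_cen, hcjE]
  have hW₁C₁ : W₁ ≤ C₁ := le_cen h.h1.wP_le_E (le_centralizer_symm (hU₁Q.trans hW₁Q))
  have hAC2 : A₁ ⊓ C₁ ≤ C₂ := by
    rintro y ⟨hyA, hyC⟩
    rw [hC₂eq, mem_cj]
    obtain ⟨w, hw, hyw⟩ := hsy hyA
    rw [hyw]
    exact mul_mem hyC (hW₁C₁ hw)
  have hU₁₂ : Mem E (U₁ ⊔ U₂) := hU₁m.sup hN hU₂m
  have hC12 : cen E (U₁ ⊔ U₂) = C₁ ⊓ C₂ := GN.cen_sup E U₁ U₂
  have hC12m : Mem E (C₁ ⊓ C₂) := hC12 ▸ (hU₁₂.centralizer hN).1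
  have hC1m : Mem E C₁ := (hU₁m.centralizer hN).1
  set P := A₁ ⊔ (C₁ ⊓ C₂) with hP
  have hPm : Mem E P := hA₁mem.sup hN hC12m
  set I := cen E P with hI
  have hIm : Mem E I := (hPm.centralizer hN).1
  have hIle : I ≤ A₁ := by rw [hI, hP, GN.cen_sup, hA₁cen]; exact inf_le_left
  have hI12 : I ≤ U₁ ⊔ U₂ := by
    rw [hI, hP, GN.cen_sup, ← hC12, (hU₁₂.centralizer hN).2]; exact inf_le_right
  have hIU : I ⊔ U₁ = U₁ ⊔ U₂ := by
    refine eq_of_le_card (sup_le hI12 le_sup_left) ?_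
    have e1 := hA₁mem.card_sup hN hC12m
    rw [← inf_assoc, inf_eq_left.mpr hAC2, ← hP] at e1
    have e2 := hA₁mem.card_sup hN hC1m
    rw [hAC] at e2
    have e3 := hIm.card_sup hN hU₁m
    have e4 : Nat.card ↥(I ⊓ U₁) ≤ Nat.card W₁ :=
      card_le_of_le (hinf ▸ inf_le_inf_right _ hIle)
    have f1 : Nat.card P * Nat.card I = Nat.card E * Nat.card (cen E E) := hPm.2
    have f2 : Nat.card ↥(U₁ ⊔ U₂) * Nat.card ↥(C₁ ⊓ C₂) = Nat.card E * Nat.card (cen E E) := by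
      rw [← hC12]; exact hU₁₂.2
    have f3 : Nat.card U₁ * Nat.card C₁ = Nat.card E * Nat.card (cen E E) := hU₁m.2
    have f4 : Nat.card W₁ * Nat.card Q₁ = Nat.card E * Nat.card (cen E E) := h.h1.card_mul
    set f := Nat.card E * Nat.card (cen E E)
    set a := Nat.card A₁
    set w := Nat.card W₁
    set m := Nat.card ↥(A₁ ⊓ C₁)
    set i := Nat.card I
    set d := Nat.card ↥(C₁ ⊓ C₂)
    set c := Nat.card C₁
    have mpos : 0 < m := Nat.card_pos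
    have cpos : 0 < c := Nat.card_pos
    have dpos : 0 < d := Nat.card_pos
    have apos : 0 < a := Nat.card_pos
    have wpos : 0 < w := Nat.card_pos
    -- `i * |U₁| = |U₁ ⊔ U₂| * w`
    have g1 : i * Nat.card U₁ = Nat.card ↥(U₁ ⊔ U₂) * w := by
      have key : (i * Nat.card U₁) * (m * Nat.card P * c) =
          (Nat.card ↥(U₁ ⊔ U₂) * w) * (m * Nat.card P * c) := by
        calc (i * Nat.card U₁) * (m * Nat.card P * c) = m * (Nat.card P * i) * (Nat.card U₁ * c) := by ring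
          _ = m * f * f := by rw [f1, f3]
          _ = m * (Nat.card W₁ * Nat.card Q₁) * (Nat.card ↥(U₁ ⊔ U₂) * d) := by rw [f4, f2]
          _ = (m * Nat.card Q₁) * d * (Nat.card ↥(U₁ ⊔ U₂) * w) := by ring
          _ = (a * d) * c * (Nat.card ↥(U₁ ⊔ U₂) * w) := by rw [e2]; ring
          _ = (m * Nat.card P) * c * (Nat.card ↥(U₁ ⊔ U₂) * w) := by rw [e1]
          _ = _ := by ring
      exact Nat.eq_of_mul_eq_mul_right (Nat.mul_pos (Nat.mul_pos mpos Nat.card_pos) cpos) key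
    rw [g1] at e3
    refine Nat.le_of_mul_le_mul_left ?_ wpos
    rw [mul_comm w, ← e3]
    exact Nat.mul_le_mul_right _ e4
  -- the commutator subgroups
  set R := ⁅wP p G₀, E⁆ with hR
  have hRZ : R ≤ cen E E := commutator_le.mpr fun a ha x hx => hq a ha x hx
  set R₁ := cj k R with hR₁
  have hR₁W : R₁ ≤ W₁ := hW₁k ▸ cj_mono k (hRZ.trans h.h1.center_le)
  have hcomm₁ : ∀ {u y : W}, u ∈ U₁ → y ∈ Q₁ → ⁅u, y⁆ ∈ R₁ := by
    intro u y hu hy
    obtain ⟨w0, hw0, w1, hw1, he⟩ := h.mem_mul (mem_cj.mp hu)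
    have hy' : k⁻¹ * y * k ∈ Q₁ := by rw [← mem_cj, hQ₁k]; exact hy
    rw [hR₁, mem_cj]
    have e : k⁻¹ * ⁅u, y⁆ * k = ⁅w0 * w1, k⁻¹ * y * k⁆ := by
      rw [he]; simp only [commutatorElement_def]; group
    rw [e, comm_mul_left_of_commute (commute_of_le_centralizer hW₁Q hy' hw1).symm]
    exact commutator_mem_commutator hw0 (h.h1.oP_le_E hy')
  have hR₁le : R₁ ≤ cj s⁻¹ R₁ := by
    rw [hR₁, cj_le_iff']
    refine h.comm_generated hq fun a ha y hy => ?_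
    rw [mem_cj, inv_inv, mem_cj, inv_inv]
    set u := k * a * k⁻¹ with hu
    have huU : u ∈ U₁ := conj_mem_cj (mem_sup_left ha)
    set y' := k * y * k⁻¹ with hy'
    have hy'Q : y' ∈ Q₁ := hQ₁k ▸ conj_mem_cj hy
    have e : k * ⁅a, y⁆ * k⁻¹ = ⁅u, y'⁆ := cj_comm k a y
    rw [e]
    rw [← hAC] at hy'Q
    rw [← SetLike.mem_coe, H75.coe_sup_eq_mul_of_card_eq (hA₁mem.card_sup hN hC1m).symm] at hy'Q
    obtain ⟨a1, ha1, c1, hc1, hy''⟩ := hy'Q
    have hcu : Commute u c1 := commute_of_le_centralizer (le_centralizer_symm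
      (cen_le_centralizer E U₁)) huU hc1
    rw [← hy'', comm_mul_right, comm_eq_one_of_commute hcu, mul_one, mul_inv_cancel, mul_one,
      cj_comm]
    obtain ⟨i, hi, v, hv, hiv⟩ : ∃ i ∈ I, ∃ v ∈ U₁, i * v = s * u * s⁻¹ := by
      have hin : s * u * s⁻¹ ∈ I ⊔ U₁ := hIU ▸ mem_sup_right (conj_mem_cj huU)
      rw [← SetLike.mem_coe, H75.coe_sup_eq_mul_of_card_eq (hIm.card_sup hN hU₁m).symm] at hin
      exact hin
    rw [← hiv]
    have hsa : s * a1 * s⁻¹ ∈ A₁ := by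
      obtain ⟨w, hw, hyw⟩ := hsy ha1
      have : s * a1 * s⁻¹ = a1 * (s * w * s⁻¹)⁻¹ := by
        calc s * a1 * s⁻¹ = (s * (a1 * w) * s⁻¹) * (s * w⁻¹ * s⁻¹) := by group
          _ = (s * (s⁻¹ * a1 * s) * s⁻¹) * (s * w⁻¹ * s⁻¹) := by rw [hyw]
          _ = _ := by group
      rw [this]
      exact mul_mem ha1 (mem_sup_right (inv_mem (hsW hw)))
    have hia : Commute i (s * a1 * s⁻¹) :=
      commute_of_le_centralizer (cen_le_centralizer E P) hi (mem_sup_left hsa)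
    rw [comm_mul_left, comm_eq_one_of_commute hia, mul_one]
    have hr : ⁅v, s * a1 * s⁻¹⁆ ∈ R₁ := hcomm₁ hv (hA₁Q hsa)
    have hiQ : i ∈ Q₁ := hA₁Q (hIle hi)
    have hci : Commute i ⁅v, s * a1 * s⁻¹⁆ := commute_of_le_centralizer hW₁Q hiQ (hR₁W hr)
    rw [hci.eq, mul_inv_cancel_right]
    exact hr
  have hsR : s ∈ normalizer (R₁ : Set W) := by
    refine mem_normalizer_of_cj_eq (eq_of_le_card (cj_le_iff'.mpr hR₁le) ?_)
    exact (card_cj s R₁).ge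
  have hE'R : cj k E ≤ centralizer (R₁ : Set W) := by
    rw [hR₁, ← cj_centralizer]
    exact cj_mono k (le_centralizer_symm (hRZ.trans (cen_le_centralizer E E)))
  have hn : G₁ ≤ normalizer (R₁ : Set W) := by
    rw [← hgen]
    exact sup_le (zpowers_le.mpr hsR) (hE'R.trans (centralizer_le_normalizer _))
  have hcr : R₁ ≤ centralizer (G₁ : Set W) := by
    refine le_trans (le_inf le_rfl ?_) (hE'.central_criterion hn le_rfl hE'.not_le hE'R)
    rw [hR₁, ← cj_cen]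
    exact cj_mono k hRZ
  rw [hR₁, cj_le_iff', cj_centralizer, cj_eq_of_mem (inv_mem hkG)] at hcr
  exact hcr

end Cfsg.Agent.H73.GN
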