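import Mathlib
import Cfsg.Agent.H73.GN.RC

/-!
A shortest noncommuting path has length at most two.
-/

set_option autoImplicit false

namespace Cfsg.Agent.H73.GN

open Subgroup
open scoped commutatorElement

variable {W : Type*} [Group W]

/-- Change the first vertex of a path. -/
def headV (G : Subgroup W) (V : ℕ → Subgroup W) : ℕ → Subgroup W
  | 0 => G
  | i + 1 => V (i + 1)

theorem Path.head {p n : ℕ} {V Ed : ℕ → Subgroup W} (h : Path p n V Ed) {G : Subgroup W}
    (hG : 0 < n → Vx p G (Ed 1)) : Path p n (headV G V) Ed where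
  vl i hi := by
    match i with
    | 0 => exact hG hi
    | i + 1 => exact h.vl (i + 1) hi
  vr i hi := h.vr i hi
  opp i hi := h.opp i hi

theorem inf_centralizer_normalizer {A B : Subgroup W} {x : W} (hA : x ∈ normalizer (A : Set W))
    (hB : x ∈ normalizer (B : Set W)) :
    x ∈ normalizer ((A ⊓ centralizer (B : Set W) : Subgroup W) : Set W) :=
  mem_normalizer_of_cj_eq (by
    rw [cj_inf, cj_centralizer, cj_eq_of_mem_normalizer hA, cj_eq_of_mem_normalizer hB])

theorem sup_normalizer {A B : Subgroup W} {x : W} (hA : x ∈ normalizer (A : Set W))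
    (hB : x ∈ normalizer (B : Set W)) : x ∈ normalizer ((A ⊔ B : Subgroup W) : Set W) :=
  mem_normalizer_of_cj_eq (by rw [cj_sup, cj_eq_of_mem_normalizer hA, cj_eq_of_mem_normalizer hB])

variable [Finite W] {p b : ℕ} [Fact p.Prime] {V Ed : ℕ → Subgroup W}

theorem Crit.adj (h : Crit p b V Ed) (hb : 2 ≤ b) : Adj p (V 0) (V 1) (Ed 1) := by
  refine ⟨h.vx0, h.vx1, h.comm_mid (Nat.zero_le _) (by omega) (by omega), fun he => h.last_not_le ?_⟩
  rw [he]
  exact h.path.le_oP' h.below h.pos le_rfl (by omega)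

/-- The second vertex does not normalize `W₀W₁`. -/
theorem Crit.not_normalizer (h : Crit p b V Ed) (hb : 2 ≤ b) :
    ¬ V 1 ≤ normalizer ((wP p (V 0) ⊔ wP p (V 1) : Subgroup W) : Set W) := by
  intro hn
  have h2 : Vx p (V 1) (Ed 2) := h.path.vl 1 (by omega)
  obtain ⟨k, hk, hke⟩ := h.vx1.exists_eq_cj h2
  have hv : Vx p (GN.cj k (V 0)) (Ed 2) := hke ▸ h.vx0.cj k
  have hP := (h.path.drop (m := 1) (n' := b - 1) (by omega)).head (G := GN.cj k (V 0))
    (fun _ => hv)
  have hc := h.below (b - 1) (by omega) _ _ hP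
  obtain ⟨d, rfl⟩ : ∃ d, b = d + 2 := ⟨b - 2, by omega⟩
  simp only [show d + 2 - 1 = d + 1 by omega, headV, show 1 + (d + 1) = d + 2 by omega] at hc
  refine h.ne (le_trans ?_ (sup_le hc (h.comm_mid (i := 1) (by omega) le_rfl (by omega))))
  have hW1 : GN.cj k (wP p (V 1)) = wP p (V 1) := cj_eq_of_mem_normalizer (h.vx1.normalizer_wP hk)
  have he := cj_eq_of_mem_normalizer (hn hk)
  rw [cj_sup, hW1, ← wP_cj] at he
  rw [he]
  exact le_sup_left

theorem Crit.comm_central (h : Crit p b V Ed) (hb : 2 ≤ b) :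
    ⁅wP p (V 0), Ed 1⁆ ≤ centralizer (V 1 : Set W) :=
  (h.adj hb).comm_central h.nat2 (h.not_normalizer hb)

/-- Commutators of `Ed b` with `X` lie in `W₀`. -/
theorem Crit.comm_mem_left (h : Crit p b V Ed) {w x : W} (hw : w ∈ Ed b) (hx : x ∈ wP p (V b)) :
    ⁅w, x⁆ ∈ wP p (V 0) := by
  have hr := h.rev
  have h1 := hr.sup_eq
  have hn : wP p (V 0) ≤ normalizer (oP p (V b) : Set W) := by
    have := (hr.last_le.trans hr.vx0.le).trans (le_normalizer_oP p _)
    simpa using this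
  simp only [Nat.sub_zero, Nat.sub_self, Nat.add_sub_cancel] at h1
  rw [← h1, ← SetLike.mem_coe, coe_mul_of_left_le_normalizer_right _ _ hn] at hw
  obtain ⟨w0, hw0, q, hq, rfl⟩ := hw
  rw [comm_mul_left_of_commute (commute_of_le_centralizer (oP_le_centralizer_wP p _) hq hx)]
  have hxn : x ∈ normalizer (wP p (V 0) : Set W) := h.vx0.normalizer_wP (h.vx0.le (h.last_le hx))
  rw [commutatorElement_def, show w0 * x * w0⁻¹ * x⁻¹ = w0 * (x * w0⁻¹ * x⁻¹) by group]
  exact mul_mem hw0 ((mem_normalizer_iff.mp hxn _).mp (inv_mem hw0))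

/-- A left extension that commutes with the last but one vertex is absorbed. -/
theorem Crit.ext_normal (h : Crit p b V Ed) (hb : 2 ≤ b) {G' E' : Subgroup W}
    (h1 : Vx p G' E') (h2 : Vx p (V 0) E') (ho : Opp (V 0) E' (Ed 1))
    (hc : wP p G' ≤ centralizer (wP p (V (b - 1)) : Set W)) :
    V 0 ≤ normalizer ((wP p (V 0) ⊔ wP p G' : Subgroup W) : Set W) := by
  obtain ⟨d, rfl⟩ : ∃ d, b = d + 2 := ⟨b - 2, by omega⟩
  simp only [show d + 2 - 1 = d + 1 by omega] at hc
  have hP : Path p (d + 2) (consV G' V) (consE E' Ed) :=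
    (h.path.take (n' := d + 1) (by omega)).cons h1 h2 (fun _ => ho)
  have hle1 : wP p G' ≤ Ed (d + 1) := by
    have := hP.le_edge h.below (i := 0) (j := d + 2) (by omega) le_rfl (by omega)
    simpa [consV, consE] using this
  have hle2 : wP p G' ≤ Ed (d + 2) :=
    ((h.path.vr d (by omega)).le_oP_of_commute hle1 hc).trans (h.path.vl (d + 1) (by omega)).oP_le_E
  refine (h.vx0.sup_eq_of_not_le h2 ho.symm h.last_le h.last_not_le).ge.trans ?_
  refine sup_le (fun x hx => ?_) (fun x hx => ?_)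
  · refine mem_normalizer_of_commutator fun k hk => ?_
    obtain ⟨a, ha, c, hc', rfl⟩ := exists_mul_of_mem_sup
      ((h1.wP_le_E.trans h2.le).trans h.vx0.normalizer_wP) hk
    have haE : a ∈ Ed (d + 2) := h.first_le ha
    refine ⟨mem_sup_left (h.comm_mem_left (mul_mem haE (hle2 hc')) hx),
      mem_sup_left (h.comm_mem_left (mul_mem haE (hle2 hc')) (inv_mem hx))⟩
  · exact sup_normalizer (h2.normalizer_wP (h2.le hx)) (h1.normalizer_wP (h1.le hx))

/-- **No shortest noncommuting path has length three or more.** -/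
theorem Crit.not_long (h : Crit p b V Ed) (hb : 3 ≤ b) : False := by
  obtain ⟨d, rfl⟩ : ∃ d, b = d + 3 := ⟨b - 3, by omega⟩
  have h0 := h.vx0
  have h1 := h.vx1
  have hadj := h.adj (by omega)
  have hq := h.nat2
  have hRc := h.comm_central (by omega)
  set R := ⁅wP p (V 0), Ed 1⁆ with hR
  have hRZ : R ≤ cen (Ed 1) (Ed 1) := commutator_le.mpr fun a ha x hx => hq a ha x hx
  have hRfix : ∀ {k : W}, k ∈ V 1 → ∀ {r : W}, r ∈ R → k * r * k⁻¹ = r := fun {k} hk {r} hr =>
    mul_inv_eq_iff_eq_mul.mpr (mem_centralizer_iff.mp (hRc hr) k hk)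
  obtain ⟨g, hg, hog⟩ := h0.exists_opp
  obtain ⟨k, hk, hok⟩ := h1.exists_opp
  set E₀ := GN.cj g (Ed 1) with hE₀
  have hE₀v : Vx p (V 0) E₀ := h0.cj_of_mem hg
  set Gm := GN.cj g (V 1) with hGm
  have hGmE : Vx p Gm E₀ := h1.cj g
  set Ev := GN.cj g (GN.cj k (Ed 1)) with hEv
  set Gv := GN.cj g (GN.cj k (V 0)) with hGv
  have hGvE : Vx p Gv Ev := (h0.cj k).cj g
  have hGmEv : Vx p Gm Ev := (h1.cj_of_mem hk).cj g
  have hom : Opp Gm Ev E₀ := hok.symm.cj g
  have hqv : Nat2 p Gv Ev := (hq.cj k).cj g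
  have P1 : Path p (d + 3) (consV Gm V) (consE E₀ Ed) :=
    (h.path.take (n' := d + 2) (by omega)).cons hGmE hE₀v (fun _ => hog.symm)
  have hq' : ∀ {w x : W}, w ∈ wP p Gv → x ∈ Ev → ∃ r ∈ R, ⁅w, x⁆ = g * r * g⁻¹ := by
    intro w x hw hx
    rw [hGv, wP_cj, mem_cj, wP_cj, mem_cj] at hw
    rw [hEv, mem_cj, mem_cj] at hx
    set r := ⁅k⁻¹ * (g⁻¹ * w * g) * k, k⁻¹ * (g⁻¹ * x * g) * k⁆ with hrdef
    have hr : r ∈ R := commutator_mem_commutator hw hx
    refine ⟨r, hr, ?_⟩
    have e : k * r * k⁻¹ = g⁻¹ * ⁅w, x⁆ * g := by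
      simp only [hrdef, commutatorElement_def]; group
    rw [hRfix hk hr] at e
    rw [e]; group
  -- the claim
  have claim : ∀ j, j ≤ d + 2 →
      (j + 1 < d + 3 ∨ wP p Gm ≤ centralizer (wP p (V (d + 2)) : Set W)) →
      wP p Gv ≤ oP p (V j) := by
    intro j
    induction j with
    | zero =>
      intro _ _
      have P2 : Path p (1 + 1) (consV Gv (consV Gm V)) (consE Ev (consE E₀ Ed)) :=
        (P1.take (n' := 1) (by omega)).cons hGvE hGmEv (fun _ => hom)
      have := P2.le_oP h.below (i := 0) (j := 2) (by omega) le_rfl (by omega)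
      simpa [consV] using this
    | succ j ih =>
      intro hj hor
      have ih' := ih (by omega) (Or.inl (by omega))
      have hvj : wP p Gv ≤ Ed (j + 1) := ih'.trans (h.path.vl j (by omega)).oP_le_E
      have hvx := h.path.vr j (by omega)
      refine hvx.le_oP_of_commute hvj fun w hw => mem_centralizer_iff.mpr fun y hy => ?_
      have hWj0 : wP p (V (j + 1)) ≤ oP p (V 0) :=
        h.path.le_oP' h.below (Nat.zero_le _) (by omega) (by omega)
      have hcm : wP p Gm ≤ centralizer (wP p (V (j + 1)) : Set W) := by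
        by_cases hlt : j + 2 < d + 3
        · have := P1.comm h.below (i := 0) (j := j + 2) (by omega) (by omega) (by omega)
          simpa [consV] using this
        · rcases hor with h' | h'
          · omega
          · rwa [show j + 1 = d + 2 by omega]
      have hWjm : wP p (V (j + 1)) ≤ oP p Gm :=
        hGmE.le_oP_of_commute (hWj0.trans hE₀v.oP_le_E) (le_centralizer_symm hcm)
      have hyE : y ∈ Ev := hGmEv.oP_le_E (hWjm hy)
      obtain ⟨r, hr, hre⟩ := hq' hw hyE
      have hrj : ⁅w, y⁆ ∈ wP p (V (j + 1)) := by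
        rw [commutatorElement_def]
        exact mul_mem ((mem_normalizer_iff.mp (hvx.normalizer_wP (hvx.le (hvj hw))) y).mp hy) (inv_mem hy)
      have hr0 : ⁅w, y⁆ ∈ cen E₀ E₀ := by
        rw [hre, hE₀, ← cj_cen]; exact conj_mem_cj (hRZ hr)
      obtain ⟨x, hx, hxQ⟩ := SetLike.not_le_iff_exists.mp h.last_not_le
      have hcx : Commute x ⁅w, y⁆ := (commute_of_le_centralizer
        (h.comm_mid (i := j + 1) (j := d + 3) (by omega) le_rfl (by omega)) hrj hx).symm
      have hr1 : ⁅w, y⁆ ∈ cen (Ed 1) (Ed 1) :=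
        h0.mem_center_of_commute (hE₀v.center_le hr0) (h.last_le hx) hxQ hcx
      have hrc : ⁅w, y⁆ ∈ centralizer (V 0 : Set W) := by
        have := (h0.center_inf_eq hE₀v hog).le (mem_inf.mpr ⟨hr1, hr0⟩)
        exact this.2
      have hgr : r = ⁅w, y⁆ := by
        have h3 := mem_centralizer_iff.mp hrc g hg
        calc r = g⁻¹ * (g * r * g⁻¹) * g := by group
          _ = g⁻¹ * (⁅w, y⁆ * g) := by rw [← hre, mul_assoc]
          _ = g⁻¹ * (g * ⁅w, y⁆) := by rw [h3]
          _ = ⁅w, y⁆ := by group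
      by_cases hyQ : y ∈ oP p Gv
      · exact (commute_of_le_centralizer (oP_le_centralizer_wP p Gv) hyQ hw).eq
      have hrv : ⁅w, y⁆ ∈ centralizer (Gv : Set W) := by
        have hrk : k * r * k⁻¹ = r := hRfix hk hr
        rw [hre, hGv, ← cj_centralizer, ← cj_centralizer]
        refine conj_mem_cj (hrk ▸ conj_mem_cj ?_)
        rw [hgr]; exact hrc
      have hwz := hGvE.inj hqv hw hyE hyQ hrv
      exact (commute_of_le_centralizer (cen_le_centralizer Ev Ev) hwz hyE).symm.eq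
  by_cases habs : wP p Gm ≤ centralizer (wP p (V (d + 2)) : Set W)
  swap
  · -- the extension is again critical
    have hC1 : Crit p (d + 3) (consV Gm V) (consE E₀ Ed) :=
      ⟨P1, h.below, by omega, by simpa [consV] using habs⟩
    have hc : wP p Gv ≤ centralizer (wP p ((consV Gm V) (d + 3 - 1)) : Set W) := by
      rw [show d + 3 - 1 = (d + 1) + 1 by omega]
      exact (claim (d + 1) (by omega) (Or.inl (by omega))).trans (oP_le_centralizer_wP p _)
    have hn := hC1.ext_normal (by omega) hGvE hGmEv hom hc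
    simp only [consV] at hn
    refine h.not_normalizer (by omega) ?_
    have e : wP p Gm ⊔ wP p Gv = GN.cj g (GN.cj k (wP p (V 0) ⊔ wP p (V 1))) := by
      rw [hGm, hGv, wP_cj, wP_cj, wP_cj, ← cj_sup]
      congr 1
      rw [cj_sup, cj_eq_of_mem_normalizer (h1.normalizer_wP hk), sup_comm]
    intro z hz
    have hz' : g * (k * z * k⁻¹) * g⁻¹ ∈ Gm := conj_mem_cj (mul_mem (mul_mem hk hz) (inv_mem hk))
    have hz2 := hn hz'
    rw [e] at hz2
    have := mem_normalizer_cj (g := k⁻¹) (mem_normalizer_cj (g := g⁻¹) hz2)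
    rw [cj_inv_cj, cj_inv_cj] at this
    simpa [mul_assoc] using this
  -- the absorbed case
  set U := wP p (V 0) ⊔ wP p (V 1) with hUdef
  have hUn : V 0 ≤ normalizer (U : Set W) := by
    have hn := h.ext_normal (by omega) hGmE hE₀v hog.symm
      (by rwa [show d + 3 - 1 = d + 2 by omega])
    have e : wP p (V 0) ⊔ wP p Gm = GN.cj g U := by
      rw [hGm, wP_cj, hUdef, cj_sup, cj_eq_of_mem_normalizer (h0.normalizer_wP hg)]
    intro x hx
    have hx' : g * x * g⁻¹ ∈ V 0 := mul_mem (mul_mem hg hx) (inv_mem hg)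
    have hx2 := hn hx'
    rw [e] at hx2
    have := mem_normalizer_cj (g := g⁻¹) hx2
    rw [cj_inv_cj] at this
    simpa [mul_assoc] using this
  set Q₀ := oP p (V 0) with hQ₀
  set Q₁ := oP p (V 1) with hQ₁
  set C := Q₀ ⊓ Q₁ with hCdef
  have hCeq : C = Q₀ ⊓ centralizer (U : Set W) := by
    refine le_antisymm (le_inf inf_le_left (le_centralizer_symm (sup_le ?_ ?_))) ?_
    · exact le_centralizer_symm (inf_le_left.trans (oP_le_centralizer_wP p _))
    · exact le_centralizer_symm (inf_le_right.trans (oP_le_centralizer_wP p _))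
    · exact le_inf inf_le_left (h1.le_oP_of_commute (inf_le_left.trans h0.oP_le_E)
        (inf_le_right.trans (centralizer_le (le_sup_right : wP p (V 1) ≤ U))))
  have hCn : V 0 ≤ normalizer (C : Set W) := fun x hx => by
    rw [hCeq]; exact inf_centralizer_normalizer (le_normalizer_oP p _ hx) (hUn hx)
  set A := GN.cj k (wP p (V 0)) with hA
  have hAQ1 : A ≤ Q₁ := by
    rw [hA, hQ₁, ← cj_eq_of_mem_normalizer (le_normalizer_oP p (V 1) hk)]
    exact cj_mono k hadj.left_le
  have hAcomm : A ≤ centralizer (wP p (V 0) : Set W) := by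
    have hPk : Path p (1 + 1) (consV (GN.cj k (V 0)) (headV (V 1) (fun i => V (1 - i))))
        (consE (GN.cj k (Ed 1)) (fun i => Ed (1 + 1 - i))) :=
      ((h.path.take (n' := 1) (by omega)).rev.head (G := V 1) (fun _ => h1)).cons (h0.cj k)
        (h1.cj_of_mem hk) (fun _ => hok.symm)
    have := hPk.comm h.below (i := 0) (j := 2) (by omega) le_rfl (by omega)
    simpa [consV, headV, wP_cj] using this
  have hAC : A ≤ C := le_inf (h0.le_oP_of_commute (hAQ1.trans h1.oP_le_E) hAcomm) hAQ1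
  have hAcR : ∀ {a y : W}, a ∈ A → y ∈ Q₁ → ⁅a, y⁆ ∈ R := by
    intro a y ha hy
    have hy' : k⁻¹ * y * k ∈ Q₁ := by
      have := (mem_normalizer_iff.mp (le_normalizer_oP p (V 1) (inv_mem hk)) y).mp hy
      rwa [inv_inv] at this
    set r := ⁅k⁻¹ * a * k, k⁻¹ * y * k⁆ with hrdef
    have hr : r ∈ R := commutator_mem_commutator (mem_cj.mp ha) (h1.oP_le_E hy')
    have e : k * r * k⁻¹ = ⁅a, y⁆ := by simp only [hrdef, commutatorElement_def]; group
    rw [← e, hRfix hk hr]; exact hr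
  set T := ⁅A, C⁆ with hT
  have hTR : T ≤ R := commutator_le.mpr fun a ha c hc => hAcR ha hc.2
  set X := wP p (V (d + 3)) with hX
  have hXQ1 : X ≤ Q₁ := h.path.le_oP' h.below (by omega) le_rfl (by omega)
  have hXU : ∀ {x a : W}, x ∈ X ⊔ GN.cj g⁻¹ X → a ∈ A → ⁅x, a⁆ ∈ U := by
    have hax : ∀ {x a : W}, x ∈ X → a ∈ A → ⁅x, a⁆ ∈ U := fun {x a} hx ha => by
      rw [← commutatorElement_inv a x]
      exact inv_mem (mem_sup_left (h0.center_le (hRZ (hAcR ha (hXQ1 hx)))))
    have hax' : ∀ {x a : W}, x ∈ GN.cj g⁻¹ X → a ∈ A → ⁅x, a⁆ ∈ U := by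
      intro x a hx ha
      rw [mem_cj, inv_inv] at hx
      have hv : g * a * g⁻¹ ∈ wP p Gv := by
        rw [hGv, wP_cj, wP_cj]; exact conj_mem_cj ha
      have hvE : g * a * g⁻¹ ∈ Ed (d + 3) :=
        (h.path.vl (d + 2) (by omega)).oP_le_E (claim (d + 2) le_rfl (Or.inr habs) hv)
      have h2 := h.comm_mem_left hvE hx
      have e : ⁅x, a⁆ = g⁻¹ * ⁅g * a * g⁻¹, g * x * g⁻¹⁆⁻¹ * g := by
        simp only [commutatorElement_def]; group
      rw [e]
      refine mem_sup_left ?_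
      have := (mem_normalizer_iff.mp (h0.normalizer_wP (inv_mem hg)) _).mp (inv_mem h2)
      rwa [inv_inv] at this
    intro x a hx ha
    have hUnX : ∀ {y : W}, y ∈ X ⊔ GN.cj g⁻¹ X → y ∈ normalizer (U : Set W) := fun {y} hy => by
      refine hUn (sup_le (h.last_le.trans h0.le) ?_ hy)
      rw [cj_le_iff', inv_inv, cj_eq_of_mem hg]
      exact h.last_le.trans h0.le
    rw [sup_eq_closure] at hx
    refine closure_induction (p := fun y hy => ⁅y, a⁆ ∈ U) ?_ (by simp) ?_ ?_ hx
    · rintro y (hy | hy)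
      · exact hax hy ha
      · exact hax' hy ha
    · intro y z hy hz h1' h2'
      rw [← sup_eq_closure] at hy
      rw [comm_mul_left]
      exact mul_mem ((mem_normalizer_iff.mp (hUnX hy) _).mp h2') h1'
    · intro y hy h1'
      rw [← sup_eq_closure] at hy
      have e : ⁅y⁻¹, a⁆ = y⁻¹ * ⁅y, a⁆⁻¹ * y := by simp only [commutatorElement_def]; group
      rw [e]
      have := (mem_normalizer_iff.mp (hUnX (inv_mem hy)) _).mp (inv_mem h1')
      rwa [inv_inv] at this
  have hXV : X ⊔ GN.cj g⁻¹ X ≤ V 0 := by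
    refine sup_le (h.last_le.trans h0.le) ?_
    rw [cj_le_iff', inv_inv, cj_eq_of_mem hg]
    exact h.last_le.trans h0.le
  have hTn : X ⊔ GN.cj g⁻¹ X ≤ normalizer (T : Set W) := by
    intro x hx
    refine mem_normalizer_of_cj_eq (eq_of_le_card ?_ (card_cj x T).ge)
    rw [hT, cj_le_iff', commutator_le]
    intro a ha c hc
    rw [mem_cj, inv_inv, cj_comm]
    have hu := hXU hx ha
    have hc' : x * c * x⁻¹ ∈ C := (mem_normalizer_iff.mp (hCn (hXV hx)) c).mp hc
    have e : x * a * x⁻¹ = ⁅x, a⁆ * a := by simp only [commutatorElement_def]; group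
    have hcU : Commute ⁅x, a⁆ (x * c * x⁻¹) :=
      (commute_of_le_centralizer (hCeq ▸ inf_le_right : C ≤ centralizer (U : Set W)) hc' hu).symm
    have hr := hTR (commutator_mem_commutator ha hc' : ⁅a, x * c * x⁻¹⁆ ∈ T)
    have hrU : ⁅a, x * c * x⁻¹⁆ ∈ U := mem_sup_left (h0.center_le (hRZ hr))
    rw [e, comm_mul_left, comm_eq_one_of_commute hcU, mul_one,
      (commute_of_le_centralizer hadj.sup_abelian hu hrU).eq, mul_inv_cancel_right]
    exact commutator_mem_commutator ha hc'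
  have hTz : T ≤ cen (Ed 1) (Ed 1) := hTR.trans hRZ
  have hE1T : Ed 1 ≤ centralizer (T : Set W) :=
    le_centralizer_symm (hTz.trans (cen_le_centralizer _ _))
  have hXsup : X ⊔ Q₀ = Ed 1 := h.sup_eq
  have hVgen : (X ⊔ GN.cj g⁻¹ X) ⊔ Q₀ = V 0 := by
    have h2 := hog.cj_of_mem (inv_mem hg)
    rw [cj_inv_cj] at h2
    have hq0 : GN.cj g⁻¹ Q₀ = Q₀ := cj_eq_of_mem_normalizer (le_normalizer_oP p _ (inv_mem hg))
    rw [← h2, ← hXsup, cj_sup, hq0]
    ac_rfl
  have hV0T : V 0 ≤ normalizer (T : Set W) := by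
    rw [← hVgen]
    exact sup_le hTn ((h0.oP_le_E.trans hE1T).trans (centralizer_le_normalizer _))
  have hTc : T ≤ centralizer (V 0 : Set W) :=
    (le_inf le_rfl hTz).trans (h0.central_criterion hV0T le_rfl h0.not_le hE1T)
  obtain ⟨w, hw, hwZ⟩ : ∃ w, w ∈ wP p (V 0) ∧ w ∉ cen (Ed 1) (Ed 1) := by
    by_contra hno
    push Not at hno
    exact h.ne fun w hw => centralizer_le h.last_le (hno w hw).2
  have hkC : k⁻¹ ∈ normalizer (C : Set W) := by
    refine mem_normalizer_of_cj_eq (eq_of_le_card ?_ (card_cj _ C).ge)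
    intro y hy
    rw [mem_cj, inv_inv] at hy
    have hyQ1 : y ∈ Q₁ := by
      have := (mem_normalizer_iff.mp (le_normalizer_oP p (V 1) hk) y).mpr hy.2
      exact this
    refine mem_inf.mpr ⟨by_contra fun hyQ => hwZ ?_, hyQ1⟩
    refine h0.inj hq hw (h1.oP_le_E hyQ1) hyQ ?_
    have hr : ⁅w, y⁆ ∈ R := commutator_mem_commutator hw (h1.oP_le_E hyQ1)
    have e : k * ⁅w, y⁆ * k⁻¹ = ⁅k * w * k⁻¹, k * y * k⁻¹⁆ := cj_comm _ _ _
    rw [hRfix hk hr] at e
    rw [e]
    exact hTc (commutator_mem_commutator (conj_mem_cj hw) hy)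
  have hE1C : Ed 1 ≤ normalizer (C : Set W) := h0.le.trans hCn
  have hV1C : V 1 ≤ normalizer (C : Set W) := by
    rw [← hok]
    refine sup_le hE1C fun x hx => ?_
    have := mul_mem (mul_mem (inv_mem hkC) (hE1C (mem_cj.mp hx))) hkC
    simpa [mul_assoc] using this
  refine h.not_normalizer (by omega) fun x hx => ?_
  have hU' : U = Q₁ ⊓ centralizer (C : Set W) := by
    rw [hUdef, ← hadj.cen_inf_oP]
    refine le_antisymm (le_inf ?_ (cen_le_centralizer _ _))
      (le_cen (inf_le_left.trans h1.oP_le_E) inf_le_right)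
    rw [hadj.cen_inf_oP]
    exact hadj.sup_le_oP
  rw [← hUdef, hU']
  exact inf_centralizer_normalizer (le_normalizer_oP p _ hx) (hV1C hx)

end Cfsg.Agent.H73.GN
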