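import Mathlib
import Cfsg.Agent.H73.GN.RC

/-!
Bounds for `S₀`; no shortest noncommuting path has length one.
-/

set_option autoImplicit false

namespace Cfsg.Agent.H73.GN

open Subgroup
open scoped commutatorElement

variable {W : Type*} [Group W]

/-- Powers of a product with a commutator commuting with both factors. -/
theorem mul_pow_of_comm {a b : W} (ha : Commute a ⁅b, a⁆) (hb : Commute b ⁅b, a⁆) (n : ℕ) :
    (a * b) ^ n = a ^ n * b ^ n * ⁅b, a⁆ ^ n.choose 2 := by
  set c := ⁅b, a⁆ with hc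
  have hba : b * a = c * (a * b) := by simp only [hc, commutatorElement_def]; group
  have hbn : ∀ m : ℕ, b ^ m * a = c ^ m * (a * b ^ m) := by
    intro m
    induction m with
    | zero => simp
    | succ m ih =>
      rw [pow_succ b m, mul_assoc, hba, ← mul_assoc (b ^ m), (hb.pow_left m).eq, mul_assoc c,
        ← mul_assoc (b ^ m), ih, ← mul_assoc, ← mul_assoc, ← pow_succ' c m]
      group
  induction n with
  | zero => simp
  | succ n ih =>
    have hch : (n + 1).choose 2 = n + n.choose 2 := by rw [Nat.choose_succ_succ, Nat.choose_one_right]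
    have c1 : Commute (a * b) (c ^ n.choose 2) := (ha.mul_left hb).pow_right _
    calc (a * b) ^ (n + 1) = a ^ n * b ^ n * c ^ n.choose 2 * (a * b) := by rw [pow_succ, ih]
      _ = a ^ n * b ^ n * (c ^ n.choose 2 * (a * b)) := by rw [mul_assoc]
      _ = a ^ n * b ^ n * ((a * b) * c ^ n.choose 2) := by rw [c1.eq]
      _ = a ^ n * (b ^ n * a) * b * c ^ n.choose 2 := by group
      _ = a ^ n * (c ^ n * (a * b ^ n)) * b * c ^ n.choose 2 := by rw [hbn]
      _ = a ^ n * ((a * b ^ n) * c ^ n) * b * c ^ n.choose 2 := by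
          rw [((ha.mul_left (hb.pow_left n)).pow_right n).eq]
      _ = a ^ n * a * b ^ n * (c ^ n * b) * c ^ n.choose 2 := by group
      _ = a ^ n * a * b ^ n * (b * c ^ n) * c ^ n.choose 2 := by rw [(hb.pow_right n).eq]
      _ = a ^ (n + 1) * b ^ (n + 1) * (c ^ n * c ^ n.choose 2) := by
          rw [pow_succ a n, pow_succ b n]; group
      _ = _ := by rw [← pow_add, hch]

variable [Finite W] {p : ℕ} [Fact p.Prime]

theorem phi_mono {H K : Subgroup W} (hK : IsPGroup p K) (h : H ≤ K) : phi H ≤ phi K :=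
  phi_le_of (p := p) (fun _ ha _ hb => commutator_mem_phi hK (h ha) (h hb))
    (fun _ ha => pow_mem_phi hK (h ha))

theorem phi_normalizer {H : Subgroup W} (hH : IsPGroup p H) {x : W}
    (hx : x ∈ normalizer (H : Set W)) : x ∈ normalizer (phi H : Set W) := by
  refine mem_normalizer_of_cj_eq (eq_of_le_card ?_ (card_cj x _).ge)
  rw [cj_le_iff']
  refine phi_le_of (p := p) (fun a ha b hb => ?_) (fun a ha => ?_) <;> rw [mem_cj, inv_inv]
  · rw [cj_comm]
    exact commutator_mem_phi hH ((mem_normalizer_iff.mp hx a).mp ha) ((mem_normalizer_iff.mp hx b).mp hb)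
  · rw [← conj_pow]
    exact pow_mem_phi hH ((mem_normalizer_iff.mp hx a).mp ha)

/-- A bound for `S₀`. -/
theorem sZero_le_of {E T N : Subgroup W} (hE : IsPGroup p E) (hTE : T ≤ E) (h1 : phi E ≤ T)
    (h2 : phi T ≤ N) (h3 : p ≠ 3 → ∀ t ∈ T, ∀ e ∈ E, ⁅t, e⁆ ∈ N)
    (h3' : p = 3 → ∀ t ∈ T, ∀ e ∈ E, ∀ e' ∈ E, ⁅⁅t, e⁆, e'⁆ ∈ N)
    (h4 : p ≠ 2 → p ≠ 3 → ∀ e ∈ E, e ^ p ∈ N)
    (hN : E ≤ normalizer (N : Set W)) : sZero p E ≤ N := by
  have hpp : phi (phi E) ≤ N := (phi_mono (hE.to_le hTE) h1).trans h2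
  unfold sZero
  split_ifs with hp2 hp3
  · exact sup_le (commutator_le.mpr fun t ht e he => h3 (by omega) t (h1 ht) e he) hpp
  · refine sup_le (commutator_le.mpr fun s hs e' he' => ?_) hpp
    have hsE : ∀ y ∈ ⁅phi E, E⁆, y ∈ normalizer (N : Set W) := fun y hy =>
      hN ((commutator_mono (phi_le E) le_rfl).trans (commutator_le_self E) hy)
    rw [Subgroup.commutator_def] at hs
    refine closure_induction (p := fun s _ => ⁅s, e'⁆ ∈ N) ?_ (by simp) ?_ ?_ hs
    · rintro _ ⟨t, ht, e, he, rfl⟩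
      exact h3' hp3 t (h1 ht) e he e' he'
    · intro x y hx _ hx' hy'
      rw [← Subgroup.commutator_def] at hx
      rw [comm_mul_left]
      exact mul_mem ((mem_normalizer_iff.mp (hsE x hx) _).mp hy') hx'
    · intro x hx hx'
      rw [← Subgroup.commutator_def] at hx
      have e : ⁅x⁻¹, e'⁆ = x⁻¹ * ⁅x, e'⁆⁻¹ * x := by simp only [commutatorElement_def]; group
      rw [e]
      have := (mem_normalizer_iff.mp (hsE _ (inv_mem hx)) _).mp (inv_mem hx')
      rwa [inv_inv] at this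
  · refine sup_le (commutator_le.mpr fun t ht e he => h3 hp3 t (h1 ht) e he) ((closure_le _).mpr ?_)
    rintro _ ⟨x, hx, rfl⟩
    rw [pow_one]
    exact h4 hp2 hp3 x hx

variable {b : ℕ} {V Ed : ℕ → Subgroup W}

theorem Crit.bad (h : Crit p b V Ed) : ¬ zBad p (Ed 1) ≤ centralizer (V 0 : Set W) := h.vx0.bad

/-- **No shortest noncommuting path has length one.** -/
theorem Crit.not_one (h : Crit p 1 V Ed) : False := by
  have h0 := h.vx0
  have h1 := h.vx1
  have hN := h0.nice
  set E := Ed 1 with hE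
  set Z := cen E E with hZ
  set W₀ := wP p (V 0) with hW₀
  set W₁ := wP p (V 1) with hW₁
  set D := oP p (V 0) ⊓ oP p (V 1) with hD
  have hW₀E : W₀ ≤ E := h0.wP_le_E
  have hW₁E : W₁ ≤ E := h1.wP_le_E
  have hDE : D ≤ E := inf_le_left.trans h0.oP_le_E
  have hD0 : D ≤ centralizer (W₀ : Set W) := inf_le_left.trans (oP_le_centralizer_wP p _)
  have hD1 : D ≤ centralizer (W₁ : Set W) := inf_le_right.trans (oP_le_centralizer_wP p _)
  have hPm : Mem E (W₀ ⊔ W₁) := h0.mem_wP.sup hN h1.mem_wP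
  have hDm : Mem E D := by
    have := (hPm.centralizer hN).1
    rwa [GN.cen_sup, h0.cen_wP, h1.cen_wP] at this
  have hcD : cen E D = W₀ ⊔ W₁ := by
    have := (hPm.centralizer hN).2
    rwa [GN.cen_sup, h0.cen_wP, h1.cen_wP] at this
  have hZ01 : ∀ a ∈ W₀, ∀ c ∈ W₁, ⁅a, c⁆ ∈ Z := fun a ha c hc => h.nat2 a ha c (hW₁E hc)
  have hW₁W₀ : W₀ ≤ normalizer (W₁ : Set W) := (hW₀E.trans h1.le).trans h1.normalizer_wP
  -- `Q₀ = W₀ D`
  have hQ0 : oP p (V 0) = W₀ ⊔ D := by
    have hm : Mem E (W₀ ⊔ D) := h0.mem_wP.sup hN hDm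
    have hc : cen E (W₀ ⊔ D) = W₀ := by
      rw [GN.cen_sup, h0.cen_wP, hcD]
      refine le_antisymm ?_ (le_inf (wP_le_oP p _) le_sup_left)
      rintro x ⟨hx, hx'⟩
      obtain ⟨a, ha, c, hc, rfl⟩ := exists_mul_of_mem_sup
        ((hW₁E.trans h0.le).trans h0.normalizer_wP) hx'
      refine mul_mem ha ?_
      have hcQ : c ∈ wP p (V 1) ⊓ oP p (V 0) := mem_inf.mpr ⟨hc, by
        have := mul_mem (inv_mem (wP_le_oP p _ ha)) hx
        rwa [inv_mul_cancel_left] at this⟩
      rw [h.last_inf] at hcQ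
      exact h0.center_le hcQ
    have := (hm.centralizer hN).2
    rw [hc, h0.cen_wP] at this
    exact this
  have hdec : ∀ {e : W}, e ∈ E → ∃ a ∈ W₁, ∃ c ∈ W₀, ∃ d ∈ D, e = a * c * d := by
    intro e he
    rw [hE, ← h.sup_eq, ← SetLike.mem_coe, coe_mul_of_left_le_normalizer_right _ _
      ((hW₁E.trans h0.le).trans (le_normalizer_oP p _))] at he
    obtain ⟨a, ha, q, hq, rfl⟩ := he
    rw [SetLike.mem_coe, hQ0] at hq
    obtain ⟨c, hc, d, hd, rfl⟩ := exists_mul_of_mem_sup (le_normalizer_of_le_centralizer hD0) hq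
    exact ⟨a, ha, c, hc, d, hd, (mul_assoc _ _ _).symm⟩
  set P := W₀ ⊔ W₁ with hP
  have hDP : D ≤ centralizer (P : Set W) :=
    le_centralizer_symm (sup_le (le_centralizer_symm hD0) (le_centralizer_symm hD1))
  have hdec' : ∀ {e : W}, e ∈ E → ∃ a ∈ W₁, ∃ c ∈ W₀, ∃ d ∈ D, e = a * c * d ∧ Commute d (a * c) := by
    intro e he
    obtain ⟨a, ha, c, hc, d, hd, rfl⟩ := hdec he
    exact ⟨a, ha, c, hc, d, hd, rfl,
      commute_of_le_centralizer hDP hd (mul_mem (mem_sup_right ha) (mem_sup_left hc))⟩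
  have hEp : IsPGroup p E := hN.pgrp
  have hDp : IsPGroup p D := hEp.to_le hDE
  have hZc : ∀ {z x : W}, z ∈ Z → x ∈ E → Commute z x := fun hz hx =>
    commute_of_le_centralizer (cen_le_centralizer E E) hz hx
  have hab : ∀ {a c a' c' : W}, a ∈ W₁ → c ∈ W₀ → a' ∈ W₁ → c' ∈ W₀ → ⁅a * c, a' * c'⁆ ∈ Z := by
    intro a c a' c' ha hc ha' hc'
    have k1 : ⁅a, a' * c'⁆ ∈ Z := by
      rw [comm_mul_right, comm_eq_one_of_commute (commute_of_le_centralizer (wP_abelian p _) ha ha'),
        one_mul, (hZc (inv_mem_comm hZ01 hc' ha) (hW₁E ha')).symm.eq, mul_inv_cancel_right]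
      exact inv_mem_comm hZ01 hc' ha
    have k2 : ⁅c, a' * c'⁆ ∈ Z := by
      rw [comm_mul_right, comm_eq_one_of_commute (commute_of_le_centralizer (wP_abelian p _) hc hc'),
        mul_one, mul_inv_cancel, mul_one]
      exact hZ01 c hc a' ha'
    rw [comm_mul_left, (hZc k2 (hW₁E ha)).symm.eq, mul_inv_cancel_right]
    exact mul_mem k2 k1
  have hWp : ∀ {i : ℕ} {w : W}, i ≤ 1 → w ∈ wP p (V i) → w ^ p = 1 := by
    intro i w hi hw
    interval_cases i
    · exact h0.wP_pow w hw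
    · exact h1.wP_pow w hw
  have hpw : ∀ {a c : W}, a ∈ W₁ → c ∈ W₀ → (a * c) ^ p ∈ Z ∧ (p ≠ 2 → (a * c) ^ p = 1) := by
    intro a c ha hc
    have hz : ⁅c, a⁆ ∈ Z := hZ01 c hc a ha
    have hca := (hZc hz (hW₁E ha)).symm
    have hcc := (hZc hz (hW₀E hc)).symm
    rw [mul_pow_of_comm hca hcc, hWp (i := 1) le_rfl ha, hWp (i := 0) zero_le_one hc, one_mul, one_mul]
    refine ⟨pow_mem hz _, fun hp2 => ?_⟩
    have hdvd : p ∣ p.choose 2 := (Fact.out : p.Prime).dvd_choose_self two_ne_zero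
      (lt_of_le_of_ne (Fact.out : p.Prime).two_le (Ne.symm hp2))
    obtain ⟨m, hm⟩ := hdvd
    rw [hm, pow_mul, hN.center_pow _ hz, one_pow]
  have hcomm : ∀ {u d u' d' : W}, u ∈ P → d ∈ D → u' ∈ P → d' ∈ D →
      ⁅u * d, u' * d'⁆ = ⁅u, u'⁆ * ⁅d, d'⁆ := by
    intro u d u' d' hu hd hu' hd'
    have h1 : Commute d u' := commute_of_le_centralizer hDP hd hu'
    have h2 : Commute d' u := commute_of_le_centralizer hDP hd' hu
    have h3 : Commute d u := commute_of_le_centralizer hDP hd hu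
    have h4 : Commute d' u' := commute_of_le_centralizer hDP hd' hu'
    have h5 : Commute ⁅d, d'⁆ u := by
      rw [commutatorElement_def]
      exact ((h3.mul_left h2).mul_left h3.inv_left).mul_left h2.inv_left
    have h6 : Commute ⁅d, d'⁆ u' := by
      rw [commutatorElement_def]
      exact ((h1.mul_left h4).mul_left h1.inv_left).mul_left h4.inv_left
    rw [comm_mul_left, comm_mul_right d, comm_mul_right u, comm_eq_one_of_commute h1, one_mul,
      comm_eq_one_of_commute h2.symm, mul_one, mul_inv_cancel, mul_one]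
    rw [← (h6.eq), mul_inv_cancel_right, ← h5.eq, mul_inv_cancel_right]
    have h7 : Commute ⁅d, d'⁆ ⁅u, u'⁆ := by
      rw [commutatorElement_def u u']
      exact ((h5.mul_right h6).mul_right h5.inv_right).mul_right h6.inv_right
    exact h7.eq
  set F := phi D with hF
  set T := Z ⊔ F with hT
  have hFD : F ≤ D := phi_le D
  have hTdec : ∀ {t : W}, t ∈ T → ∃ z ∈ Z, ∃ f ∈ F, z * f = t := fun ht =>
    exists_mul_of_mem_sup (le_normalizer_of_le_centralizer
      (le_centralizer_symm ((cen_le_centralizer E E).trans (centralizer_le (hFD.trans hDE))))) ht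
  have hZP : Z ≤ P := h0.center_le.trans le_sup_left
  have hTE : T ≤ E := sup_le (cen_le E E) (hFD.trans hDE)
  have hEF : E ≤ normalizer (F : Set W) := by
    intro e he
    obtain ⟨a, ha, c, hc, d, hd, rfl⟩ := hdec he
    refine mul_mem ?_ (phi_normalizer hDp (le_normalizer hd))
    exact centralizer_le_normalizer _ ((le_centralizer_symm (hFD.trans hDP))
      (mul_mem (mem_sup_right ha) (mem_sup_left hc)))
  have hsz : sZero p E ≤ F := by
    refine sZero_le_of (T := T) (p := p) hEp hTE ?_ ?_ ?_ ?_ ?_ hEF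
    · refine phi_le_of (p := p) (fun e he e' he' => ?_) (fun e he => ?_)
      · obtain ⟨a, ha, c, hc, d, hd, rfl, -⟩ := hdec' he
        obtain ⟨a', ha', c', hc', d', hd', rfl, -⟩ := hdec' he'
        rw [hcomm (mul_mem (mem_sup_right ha) (mem_sup_left hc)) hd
          (mul_mem (mem_sup_right ha') (mem_sup_left hc')) hd']
        exact mul_mem (mem_sup_left (hab ha hc ha' hc')) (mem_sup_right (commutator_mem_phi hDp hd hd'))
      · obtain ⟨a, ha, c, hc, d, hd, rfl, hcd⟩ := hdec' he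
        rw [hcd.symm.mul_pow]
        exact mul_mem (mem_sup_left (hpw ha hc).1) (mem_sup_right (pow_mem_phi hDp hd))
    · refine phi_le_of (p := p) (fun t ht t' ht' => ?_) (fun t ht => ?_)
      · obtain ⟨z, hz, f, hf, rfl⟩ := hTdec ht
        obtain ⟨z', hz', f', hf', rfl⟩ := hTdec ht'
        rw [hcomm (hZP hz) (hFD hf) (hZP hz') (hFD hf'),
          comm_eq_one_of_commute (hZc hz (cen_le E E hz')), one_mul]
        exact commutator_mem_phi hDp (hFD hf) (hFD hf')
      · obtain ⟨z, hz, f, hf, rfl⟩ := hTdec ht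
        rw [(hZc hz (hDE (hFD hf))).mul_pow, hN.center_pow z hz, one_mul]
        exact pow_mem hf _
    · intro _ t ht e he
      obtain ⟨z, hz, f, hf, rfl⟩ := hTdec ht
      obtain ⟨a, ha, c, hc, d, hd, rfl⟩ := hdec he
      rw [hcomm (hZP hz) (hFD hf) (mul_mem (mem_sup_right ha) (mem_sup_left hc)) hd,
        comm_eq_one_of_commute (hZc hz (mul_mem (hW₁E ha) (hW₀E hc))), one_mul]
      exact commutator_mem_phi hDp (hFD hf) hd
    · intro _ t ht e he e' he'
      have key : ∀ {t e : W}, t ∈ T → e ∈ E → ⁅t, e⁆ ∈ F := by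
        intro t e ht he
        obtain ⟨z, hz, f, hf, rfl⟩ := hTdec ht
        obtain ⟨a, ha, c, hc, d, hd, rfl⟩ := hdec he
        rw [hcomm (hZP hz) (hFD hf) (mul_mem (mem_sup_right ha) (mem_sup_left hc)) hd,
          comm_eq_one_of_commute (hZc hz (mul_mem (hW₁E ha) (hW₀E hc))), one_mul]
        exact commutator_mem_phi hDp (hFD hf) hd
      exact key (mem_sup_right (key ht he)) he'
    · intro hp2 _ e he
      obtain ⟨a, ha, c, hc, d, hd, rfl, hcd⟩ := hdec' he
      rw [hcd.symm.mul_pow, (hpw ha hc).2 hp2, one_mul]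
      exact pow_mem_phi hDp hd
  have hQp : IsPGroup p (oP p (V 0)) := oP_isPGroup p _
  have hFQ : phi (oP p (V 0)) = F := by
    refine le_antisymm ?_ (phi_mono hQp inf_le_left)
    refine phi_le_of (p := p) (fun x hx y hy => ?_) (fun x hx => ?_)
    · rw [hQ0] at hx hy
      obtain ⟨c, hc, d, hd, rfl⟩ := exists_mul_of_mem_sup (le_normalizer_of_le_centralizer hD0) hx
      obtain ⟨c', hc', d', hd', rfl⟩ := exists_mul_of_mem_sup (le_normalizer_of_le_centralizer hD0) hy
      rw [hcomm (mem_sup_left hc) hd (mem_sup_left hc') hd',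
        comm_eq_one_of_commute (commute_of_le_centralizer (wP_abelian p _) hc hc'), one_mul]
      exact commutator_mem_phi hDp hd hd'
    · rw [hQ0] at hx
      obtain ⟨c, hc, d, hd, rfl⟩ := exists_mul_of_mem_sup (le_normalizer_of_le_centralizer hD0) hx
      rw [(commute_of_le_centralizer hD0 hd hc).symm.mul_pow, h0.wP_pow c hc, one_mul]
      exact pow_mem_phi hDp hd
  have hFn : V 0 ≤ normalizer (F : Set W) := fun x hx => by
    rw [← hFQ]; exact phi_normalizer hQp (le_normalizer_oP p _ hx)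
  have hcr := h0.central_criterion hFn h.last_le h.last_not_le
    (le_centralizer_symm (hFD.trans hD1))
  exact h.bad ((le_inf (inf_le_right.trans hsz) inf_le_left).trans hcr)
where
  inv_mem_comm {W : Type _} [Group W] {A B Z : Subgroup W} (h : ∀ a ∈ A, ∀ c ∈ B, ⁅a, c⁆ ∈ Z)
      {a c : W} (ha : a ∈ A) (hc : c ∈ B) : ⁅c, a⁆ ∈ Z := by
    rw [← commutatorElement_inv a c]; exact inv_mem (h a ha c hc)

end Cfsg.Agent.H73.GN
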