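import Mathlib

/-!
The linear algebra of two unipotent maps `1 + A`, `1 + B` with `AB + BA = -1` on a submodule, and of
a chain `x, u = A x, v₁ = A u` above it.
-/

set_option autoImplicit false

namespace Cfsg.Agent.H73.GN

variable {M : Type*} [AddCommGroup M]

/-- `1 + A`. -/
def uni (A : M →+ M) : M →+ M := AddMonoidHom.id M + A

@[simp] theorem uni_apply (A : M →+ M) (m : M) : uni A m = m + A m := rfl

/-- `(1 + A)(1 + B)²`. -/
def gTwo (A B : M →+ M) : M →+ M := (uni A).comp ((uni B).comp (uni B))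

/-- `(1 + A)(1 + B)³`. -/
def gThree (A B : M →+ M) : M →+ M := (uni A).comp ((uni B).comp ((uni B).comp (uni B)))

/-- Data on the submodule. -/
structure UnipData (A B : M →+ M) (S : AddSubgroup M) : Prop where
  a2 : ∀ s ∈ S, A (A s) = 0
  b2 : ∀ s ∈ S, B (B s) = 0
  ab : ∀ s ∈ S, A (B s) + B (A s) = -s
  aS : ∀ s ∈ S, A s ∈ S
  bS : ∀ s ∈ S, B s ∈ S

variable {A B : M →+ M} {S : AddSubgroup M}

theorem UnipData.ba (h : UnipData A B S) {s : M} (hs : s ∈ S) : B (A s) = -s - A (B s) := by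
  rw [← h.ab s hs]; abel

theorem UnipData.bab (h : UnipData A B S) {s : M} (hs : s ∈ S) : B (A (B s)) = -B s := by
  rw [h.ba (h.bS s hs), h.b2 s hs, map_zero, sub_zero]

theorem UnipData.gTwo_sq (h : UnipData A B S) {s : M} (hs : s ∈ S) :
    gTwo A B (gTwo A B s) = -s := by
  simp only [gTwo, AddMonoidHom.comp_apply, uni_apply, map_add, map_sub, map_neg, map_zero,
    h.a2 s hs, h.b2 s hs, h.ba hs, h.bab hs, h.a2 _ (h.bS s hs)]
  abel

theorem UnipData.gThree_sq (h : UnipData A B S) {s : M} (hs : s ∈ S) :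
    gThree A B (gThree A B s) + gThree A B s + s = 0 := by
  simp only [gThree, AddMonoidHom.comp_apply, uni_apply, map_add, map_sub, map_neg, map_zero,
    h.a2 s hs, h.b2 s hs, h.ba hs, h.bab hs, h.a2 _ (h.bS s hs)]
  abel

theorem UnipData.gTwo_four (h : UnipData A B S) {s : M} (hs : s ∈ S) :
    gTwo A B (gTwo A B (gTwo A B (gTwo A B s))) = s := by
  rw [h.gTwo_sq hs, map_neg, map_neg, h.gTwo_sq hs, neg_neg]

theorem UnipData.gThree_three (h : UnipData A B S) {s : M} (hs : s ∈ S) :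
    gThree A B (gThree A B (gThree A B s)) = s := by
  have e : gThree A B (gThree A B s) = -gThree A B s - s := by
    rw [← sub_eq_zero, ← h.gThree_sq hs]; abel
  rw [e, map_sub, map_neg, e]; abel

/-- A chain above the submodule. -/
structure ChainData (A B : M →+ M) (S : AddSubgroup M) (x : M) : Prop where
  bx : B x = 0
  au : A (A x) ∈ S
  av : A (A (A x)) = 0
  bu : B (A x) + x ∈ S

variable {x : M}

theorem ChainData.bu_eq (_hc : ChainData A B S x) : B (A x) = -x + (B (A x) + x) := by abel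

theorem ChainData.gTwo_sq (h : UnipData A B S) (hc : ChainData A B S x) :
    gTwo A B (gTwo A B x) = -x + (A (A x) + 2 • (B (A x) + x) + 2 • A (B (A x) + x) +
      B (B (A x) + x) + A (B (B (A x) + x))) := by
  obtain ⟨v, hv, hu, hvS⟩ : ∃ v, B (A x) + x = v ∧ B (A x) = -x + v ∧ v ∈ S :=
    ⟨_, rfl, hc.bu_eq, hc.bu⟩
  rw [hv]
  simp only [gTwo, AddMonoidHom.comp_apply, uni_apply, map_add, map_sub, map_neg, map_zero, hc.bx,
    hu, h.b2 v hvS, add_zero]
  abel

theorem ChainData.gThree_sq (h : UnipData A B S) (hc : ChainData A B S x) :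
    gThree A B (gThree A B x) = -(2 • x) - A x + (A (A x) + 3 • (B (A x) + x) + 3 • A (B (A x) + x) +
      3 • B (B (A x) + x) + 3 • A (B (B (A x) + x))) := by
  obtain ⟨v, hv, hu, hvS⟩ : ∃ v, B (A x) + x = v ∧ B (A x) = -x + v ∧ v ∈ S :=
    ⟨_, rfl, hc.bu_eq, hc.bu⟩
  rw [hv]
  simp only [gThree, AddMonoidHom.comp_apply, uni_apply, map_add, map_sub, map_neg, map_zero, hc.bx,
    hu, h.b2 v hvS, add_zero]
  abel

theorem ChainData.gTwo_four (h : UnipData A B S) (hc : ChainData A B S x) :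
    ∃ e ∈ S, e = A (A x) + 2 • (B (A x) + x) + 2 • A (B (A x) + x) +
      B (B (A x) + x) + A (B (B (A x) + x)) ∧
      gTwo A B (gTwo A B (gTwo A B (gTwo A B x))) = x - 2 • e := by
  have hb := h.bS _ hc.bu
  have he : A (A x) + 2 • (B (A x) + x) + 2 • A (B (A x) + x) + B (B (A x) + x) +
      A (B (B (A x) + x)) ∈ S :=
    add_mem (add_mem (add_mem (add_mem hc.au (nsmul_mem hc.bu 2)) (nsmul_mem (h.aS _ hc.bu) 2)) hb)
      (h.aS _ hb)
  refine ⟨_, he, rfl, ?_⟩
  rw [hc.gTwo_sq h, map_add, map_neg, map_add, map_neg, h.gTwo_sq he, hc.gTwo_sq h]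
  abel

theorem ChainData.gThree_three (h : UnipData A B S) (hc : ChainData A B S x) :
    ∃ e ∈ S, e = A (A x) + 3 • (B (A x) + x) + 3 • A (B (A x) + x) +
      3 • B (B (A x) + x) + 3 • A (B (B (A x) + x)) ∧
      gThree A B (gThree A B (gThree A B x)) = x - e + gThree A B e := by
  have hb := h.bS _ hc.bu
  have he : A (A x) + 3 • (B (A x) + x) + 3 • A (B (A x) + x) + 3 • B (B (A x) + x) +
      3 • A (B (B (A x) + x)) ∈ S :=
    add_mem (add_mem (add_mem (add_mem hc.au (nsmul_mem hc.bu 3)) (nsmul_mem (h.aS _ hc.bu) 3))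
      (nsmul_mem hb 3)) (nsmul_mem (h.aS _ hb) 3)
  refine ⟨_, he, rfl, ?_⟩
  have hg : gThree A B x = x + A x := by
    simp only [gThree, AddMonoidHom.comp_apply, uni_apply, hc.bx, add_zero]
  rw [hc.gThree_sq h, map_add, map_sub, map_neg, map_nsmul, hg]
  have h2 := hc.gThree_sq h
  rw [hg, map_add, hg] at h2
  rw [show gThree A B (A x) = gThree A B (A x) + (x + A x) - (x + A x) by abel,
    show gThree A B (A x) + (x + A x) = x + A x + gThree A B (A x) by abel, h2]
  abel

/-- If both relations fix `x`, then `A (A x) = 0`. -/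
theorem ChainData.eq_zero (h : UnipData A B S) (hc : ChainData A B S x)
    (t2 : ∀ s ∈ S, 2 • s = 0 → s = 0) (t3 : ∀ s ∈ S, 3 • s = 0 → s = 0)
    (f2 : gTwo A B (gTwo A B (gTwo A B (gTwo A B x))) = x)
    (f3 : gThree A B (gThree A B (gThree A B x)) = x) : A (A x) = 0 := by
  obtain ⟨e, he, hed, e4⟩ := hc.gTwo_four h
  obtain ⟨d, hd, hdd, e3⟩ := hc.gThree_three h
  have he0 : e = 0 := t2 e he (by
    rw [e4] at f2
    rw [← sub_eq_self (a := x)]; exact f2)
  have hgd : gThree A B d = d := by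
    rw [e3] at f3
    rw [← sub_eq_zero]
    calc gThree A B d - d = (x - d + gThree A B d) - x := by abel
      _ = 0 := by rw [f3, sub_self]
  have hd0 : d = 0 := t3 d hd (by
    have := h.gThree_sq hd
    rw [hgd, hgd] at this
    rw [← this]; abel)
  have hav := hc.av
  have hvS := hc.bu
  generalize A (A x) = v₁ at hav hed hdd ⊢
  generalize B (A x) + x = v at hvS hed hdd
  have hb := h.bS v hvS
  have hAB := h.a2 (B v) hb
  have a1 : 2 • A v + A (B v) = 0 := by
    have := congrArg A hed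
    rw [he0, map_zero] at this
    simp only [map_add, map_nsmul, hav, h.a2 v hvS, hAB, nsmul_zero, zero_add, add_zero] at this
    exact this.symm
  have a2 : A v + A (B v) = 0 := t3 _ (add_mem (h.aS _ hvS) (h.aS _ hb)) (by
    have := congrArg A hdd
    rw [hd0, map_zero] at this
    simp only [map_add, map_nsmul, hav, h.a2 v hvS, hAB, nsmul_zero, zero_add, add_zero] at this
    rw [nsmul_add]; exact this.symm)
  have b1 : v₁ + 2 • v + B v = 0 := by
    calc v₁ + 2 • v + B v = e - (2 • A v + A (B v)) := by rw [hed]; abel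
      _ = 0 := by rw [he0, a1, sub_zero]
  have b2 : v₁ + 3 • v + 3 • B v = 0 := by
    calc v₁ + 3 • v + 3 • B v = d - 3 • (A v + A (B v)) := by rw [hdd]; abel
      _ = 0 := by rw [hd0, a2, nsmul_zero, sub_zero]
  have c1 : v + 2 • B v = 0 := by
    calc v + 2 • B v = (v₁ + 3 • v + 3 • B v) - (v₁ + 2 • v + B v) := by abel
      _ = 0 := by rw [b1, b2, sub_zero]
  have c2 : B v = 0 := by
    have := congrArg B c1
    rwa [map_add, map_nsmul, h.b2 v hvS, nsmul_zero, add_zero, map_zero] at this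
  have c3 : v = 0 := by rwa [c2, nsmul_zero, add_zero] at c1
  rwa [c2, c3, nsmul_zero, add_zero, add_zero] at b1

end Cfsg.Agent.H73.GN
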