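import Mathlib
import Cfsg.Agent.H73.GN.RC

/-!
The abelian section `Y / C` with the action of the normalizer.
-/

set_option autoImplicit false

namespace Cfsg.Agent.H73.GN

open Subgroup
open scoped commutatorElement

universe u

variable {W : Type u} [Group W] [Finite W]

/-- An abelian section with its conjugation action, as an additive group. -/
theorem exists_quot_act {G Y C : Subgroup W} (hCY : C ≤ Y) (hYn : G ≤ normalizer (Y : Set W))
    (hCn : G ≤ normalizer (C : Set W)) (hab : ∀ x ∈ Y, ∀ y ∈ Y, ⁅x, y⁆ ∈ C) :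
    ∃ (M : Type u) (_ : AddCommGroup M) (π : W → M) (ρ : W → (M →+ M)),
      (∀ x ∈ Y, ∀ y ∈ Y, π (x * y) = π x + π y) ∧ (∀ x ∈ Y, (π x = 0 ↔ x ∈ C)) ∧
      ∀ γ ∈ G, ∀ y ∈ Y, ρ γ (π y) = π (γ * y * γ⁻¹) := by
  classical
  have hn : Y ≤ normalizer (C : Set W) := fun y hy =>
    mem_normalizer_of_commutator fun c hc => ⟨hab c (hCY hc) y hy, hab c (hCY hc) _ (inv_mem hy)⟩
  let N := C.subgroupOf Y
  haveI hNn : N.Normal := normal_subgroupOf_of_le_normalizer hn
  have hcomm : ∀ a b : ↥Y ⧸ N, a * b = b * a := by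
    intro a b
    induction a using QuotientGroup.induction_on with
    | _ x =>
    induction b using QuotientGroup.induction_on with
    | _ y =>
    rw [← QuotientGroup.mk_mul, ← QuotientGroup.mk_mul, QuotientGroup.eq, mem_subgroupOf]
    have := hab (y : W)⁻¹ (inv_mem y.2) (x : W)⁻¹ (inv_mem x.2)
    simpa [commutatorElement_def, mul_assoc] using this
  letI hcg : CommGroup (↥Y ⧸ N) := { (inferInstance : Group (↥Y ⧸ N)) with mul_comm := hcomm }
  let φ : ∀ γ ∈ G, ↥Y →* ↥Y := fun γ hγ =>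
    { toFun := fun y => ⟨γ * y * γ⁻¹, (mem_normalizer_iff.mp (hYn hγ) _).mp y.2⟩
      map_one' := by ext; simp
      map_mul' := fun a b => by ext; simp [mul_assoc] }
  have hφ : ∀ γ (hγ : γ ∈ G), N ≤ N.comap (φ γ hγ) := fun γ hγ y hy =>
    (mem_normalizer_iff.mp (hCn hγ) _).mp hy
  let π : W → Additive (↥Y ⧸ N) := fun y =>
    if hy : y ∈ Y then Additive.ofMul (QuotientGroup.mk (⟨y, hy⟩ : ↥Y)) else 0
  let ρ : W → (Additive (↥Y ⧸ N) →+ Additive (↥Y ⧸ N)) := fun γ =>
    if hγ : γ ∈ G then (QuotientGroup.map N N (φ γ hγ) (hφ γ hγ)).toAdditive else 0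
  refine ⟨Additive (↥Y ⧸ N), inferInstance, π, ρ, ?_, ?_, ?_⟩
  · intro x hx y hy
    simp only [π, dif_pos hx, dif_pos hy, dif_pos (mul_mem hx hy)]
    rfl
  · intro x hx
    simp only [π, dif_pos hx]
    rw [ofMul_eq_zero, QuotientGroup.eq_one_iff, mem_subgroupOf]
  · intro γ hγ y hy
    simp only [π, ρ, dif_pos hγ, dif_pos hy, dif_pos ((mem_normalizer_iff.mp (hYn hγ) _).mp hy)]
    rfl

end Cfsg.Agent.H73.GN
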