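import Mathlib
import Cfsg.Agent.H73.GN.One

/-!
Opposite conjugates, lines, and the killing lemma.
-/

set_option autoImplicit false

namespace Cfsg.Agent.H73.GN

open Subgroup
open scoped commutatorElement

variable {W : Type*} [Group W]

/-- Powers of a product modulo a normalized subgroup, for a commutator central modulo it. -/
theorem mul_pow_mod {N : Subgroup W} {a b : W} (ha : a ∈ normalizer (N : Set W))
    (hb : b ∈ normalizer (N : Set W)) (hca : ⁅a, ⁅b, a⁆⁆ ∈ N) (hcb : ⁅b, ⁅b, a⁆⁆ ∈ N) (n : ℕ) :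
    ∃ m ∈ N, (a * b) ^ n = a ^ n * b ^ n * ⁅b, a⁆ ^ n.choose 2 * m := by
  set H := normalizer (N : Set W)
  haveI : (N.subgroupOf H).Normal := normal_subgroupOf_of_le_normalizer le_rfl
  set π := QuotientGroup.mk' (N.subgroupOf H)
  set A : ↥H := ⟨a, ha⟩
  set B : ↥H := ⟨b, hb⟩
  have hA : Commute (π A) ⁅π B, π A⁆ := by
    rw [← commutatorElement_eq_one_iff_commute, ← map_commutatorElement, ← map_commutatorElement]
    exact (QuotientGroup.eq_one_iff _).mpr (mem_subgroupOf.mpr (by simpa [commutatorElement_def] using hca))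
  have hB : Commute (π B) ⁅π B, π A⁆ := by
    rw [← commutatorElement_eq_one_iff_commute, ← map_commutatorElement, ← map_commutatorElement]
    exact (QuotientGroup.eq_one_iff _).mpr (mem_subgroupOf.mpr (by simpa [commutatorElement_def] using hcb))
  have h := mul_pow_of_comm hA hB n
  rw [← map_mul, ← map_commutatorElement, ← map_pow, ← map_pow, ← map_pow, ← map_pow, ← map_mul,
    ← map_mul] at h
  have h2 := QuotientGroup.eq.mp h.symm
  rw [mem_subgroupOf] at h2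
  refine ⟨_, h2, ?_⟩
  simp only [A, B, commutatorElement_def]
  push_cast
  group

variable [Finite W] {p : ℕ} [Fact p.Prime] {G E : Subgroup W}

/-- A maximal proper subgroup over `E`. -/
theorem Vx.exists_max (h : Vx p G E) : ∃ M : Subgroup W, E ≤ M ∧ M < G ∧
    ∀ H : Subgroup W, E ≤ H → H < G → H ≤ M := by
  have hEG : E < G := lt_of_le_of_ne h.le fun e => by
    refine h.bad ?_
    rw [← e]
    exact inf_le_left.trans (cen_le_centralizer E E)
  obtain ⟨M, hM⟩ := Set.Finite.exists_maximal (s := {H : Subgroup W | E ≤ H ∧ H < G}) (Set.toFinite _)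
    ⟨E, le_rfl, hEG⟩
  refine ⟨M, hM.prop.1, hM.prop.2, fun H hH hH' => ?_⟩
  have h2 : M ⊔ H < G := lt_of_le_of_ne (sup_le hM.prop.2.le hH'.le) (h.sup_ne M H hM.prop.1 hM.prop.2 hH hH')
  exact le_sup_right.trans (hM.le_of_ge ⟨hM.prop.1.trans le_sup_left, h2⟩ le_sup_left)

/-- Being opposite is being in different maximal subgroups. -/
theorem Vx.not_opp_trans (h : Vx p G E) {E₁ E₂ : Subgroup W} (h₁ : Vx p G E₁) (h₂ : Vx p G E₂)
    (n1 : ¬ Opp G E₁ E) (n2 : ¬ Opp G E E₂) : ¬ Opp G E₁ E₂ := fun ho => by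
  have l1 : E₁ ⊔ E < G := lt_of_le_of_ne (sup_le h₁.le h.le) n1
  have l2 : E ⊔ E₂ < G := lt_of_le_of_ne (sup_le h.le h₂.le) n2
  refine h.sup_ne _ _ le_sup_right l1 le_sup_left l2 (le_antisymm (sup_le l1.le l2.le) ?_)
  exact ho.ge.trans (sup_le_sup le_sup_left le_sup_right)

theorem Vx.opp_cj (h : Vx p G E) {c : W} (hc : c ∈ G) (hgen : zpowers c ⊔ E = G) :
    Opp G E (GN.cj c E) := by
  by_contra hne
  have hc' := h.cj_of_mem hc
  obtain ⟨M, hEM, hMG, hmax⟩ := h.exists_max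
  have hl : E ⊔ GN.cj c E < G := lt_of_le_of_ne (sup_le h.le hc'.le) hne
  have hcE : GN.cj c E ≤ M := le_sup_right.trans (hmax _ le_sup_left hl)
  have hcM : GN.cj c⁻¹ M < G := by
    refine lt_of_le_of_ne ((cj_mono _ hMG.le).trans (cj_eq_of_mem (inv_mem hc)).le) fun e => hMG.ne ?_
    rw [← cj_cj_inv c M, e, cj_eq_of_mem hc]
  have h2 : GN.cj c⁻¹ M ≤ M := hmax _ (by
    have := cj_mono c⁻¹ hcE; rwa [cj_inv_cj] at this) hcM
  have hn : c⁻¹ ∈ normalizer (M : Set W) := mem_normalizer_of_cj_eq (eq_of_le_card h2 (card_cj _ M).ge)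
  have hGn : G ≤ normalizer (M : Set W) :=
    hgen.ge.trans (sup_le (zpowers_le.mpr (inv_inv c ▸ inv_mem hn)) (hEM.trans le_normalizer))
  rcases h.dich M hMG.le hGn with e | e
  · rw [sup_eq_left.mpr hEM] at e; exact hMG.ne e
  · exact h.not_le ((le_inf hEM le_rfl).trans e)

/-- For `c ∈ E' \ O_p(G)` with `E'` opposite, `E` and `cEc⁻¹` are opposite. -/
theorem Vx.opp_cj_of_opp (h : Vx p G E) {E' : Subgroup W} (h' : Vx p G E') (ho : Opp G E E') {c : W}
    (hc : c ∈ E') (hcQ : c ∉ oP p G) : Opp G E (GN.cj c E) :=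
  h.opp_cj (h'.le hc) (h'.sup_eq_of_not_le h ho.symm (zpowers_le.mpr hc)
    fun hle => hcQ (hle (mem_zpowers c)))

/-- Elements of a normal subgroup with `N ∩ E ≤ O_p(G)` act trivially. -/
theorem Vx.kill (h : Vx p G E) {N B V : Subgroup W} {t : W} (hNG : N ≤ G)
    (hN : G ≤ normalizer (N : Set W)) (hNE : N ⊓ E ≤ oP p G) (hBn : N ≤ normalizer (B : Set W))
    (htV : ∀ g ∈ N, ⁅g, t⁆ ∈ V) (hV : ∀ g ∈ N, ∀ v ∈ V, ⁅g, v⁆ ∈ B) (hVp : ∀ v ∈ V, v ^ p ∈ B)
    (hQ : ∀ g ∈ N, g ∈ oP p G → ⁅g, t⁆ ∈ B) (hVn : V ≤ normalizer (B : Set W)) :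
    ∀ g ∈ N, ⁅g, t⁆ ∈ B := by
  let K : Subgroup W :=
    { carrier := {g | g ∈ N ∧ ⁅g, t⁆ ∈ B}
      one_mem' := ⟨one_mem _, by simp⟩
      mul_mem' := fun {a b} ha hb => ⟨mul_mem ha.1 hb.1, by
        rw [comm_mul_left]
        exact mul_mem ((mem_normalizer_iff.mp (hBn ha.1) _).mp hb.2) ha.2⟩
      inv_mem' := fun {a} ha => ⟨inv_mem ha.1, by
        have e : ⁅a⁻¹, t⁆ = a⁻¹ * ⁅a, t⁆⁻¹ * a := by simp only [commutatorElement_def]; group
        rw [e]
        have := (mem_normalizer_iff.mp (hBn (inv_mem ha.1)) _).mp (inv_mem ha.2)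
        rwa [inv_inv] at this⟩ }
  intro g hg
  have hgp : g ^ p ∈ K := by
    refine ⟨pow_mem hg p, ?_⟩
    have key : ∀ n : ℕ, ∃ b ∈ B, ⁅g ^ n, t⁆ = b * ⁅g, t⁆ ^ n := by
      intro n
      induction n with
      | zero => exact ⟨1, one_mem _, by simp⟩
      | succ n ih =>
        obtain ⟨b, hb, e⟩ := ih
        set v := ⁅g, t⁆ with hv
        have hvV : v ^ n ∈ V := pow_mem (htV g hg) n
        refine ⟨(g * b * g⁻¹) * ⁅g, v ^ n⁆, mul_mem ((mem_normalizer_iff.mp (hBn hg) b).mp hb)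
          (hV g hg _ hvV), ?_⟩
        rw [pow_succ' g n, comm_mul_left, e, pow_succ v n, ← hv]
        simp only [commutatorElement_def]
        group
    obtain ⟨b, hb, e⟩ := key p
    rw [e]
    exact mul_mem hb (hVp _ (htV g hg))
  -- the prime to `p` power
  obtain ⟨a, m, hm, hord⟩ :=
    Nat.exists_eq_pow_mul_and_not_dvd (n := orderOf g) (orderOf_pos g).ne' p (Fact.out : p.Prime).ne_one
  have hgm : g ^ m ∈ K := by
    refine ⟨pow_mem hg m, hQ _ (pow_mem hg m) ?_⟩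
    have hz : zpowers (g ^ m) ≤ G := zpowers_le.mpr (pow_mem (hNG hg) m)
    have hzp : IsPGroup p (zpowers (g ^ m)) := by
      rw [IsPGroup.iff_card]
      have hd : orderOf (g ^ m) ∣ p ^ a := orderOf_dvd_of_pow_eq_one (by
        rw [← pow_mul, mul_comm m, ← hord, pow_orderOf_eq_one])
      obtain ⟨i, -, hi⟩ := (Nat.dvd_prime_pow (Fact.out : p.Prime)).mp hd
      exact ⟨i, by rw [Nat.card_zpowers, hi]⟩
    obtain ⟨u, hu, hle⟩ := h.sylow _ hz hzp
    have h1 := hle (mem_zpowers (g ^ m))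
    rw [mem_cj] at h1
    have h2 : u⁻¹ * g ^ m * u ∈ N := by
      have := (mem_normalizer_iff.mp (hN (inv_mem hu)) (g ^ m)).mp (pow_mem hg m)
      rwa [inv_inv] at this
    exact (mem_normalizer_iff.mp (le_normalizer_oP p G (inv_mem hu)) _).mpr (by
      rw [inv_inv]; exact hNE (mem_inf.mpr ⟨h2, h1⟩))
  have hco : Nat.Coprime p m := ((Fact.out : p.Prime).coprime_iff_not_dvd).mpr hm
  have : g ∈ K := by
    have hbez := Nat.gcd_eq_gcd_ab p m
    rw [hco.gcd_eq_one, Nat.cast_one] at hbez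
    rw [← zpow_one g, hbez, zpow_add, zpow_mul, zpow_mul, zpow_natCast, zpow_natCast]
    exact mul_mem (zpow_mem hgp _) (zpow_mem hgm _)
  exact this.2

variable {E' L L' C : Subgroup W}

/-- Data for two families of lines at opposite edges. -/
structure LineData (p : ℕ) (G E E' L L' C : Subgroup W) : Prop where
  v : Vx p G E
  v' : Vx p G E'
  opp : Opp G E E'
  nE : E ≤ normalizer (L : Set W)
  nE' : E' ≤ normalizer (L' : Set W)
  abC : C ≤ L ∧ C ≤ L'
  nC : G ≤ normalizer (C : Set W)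
  nM : G ≤ normalizer ((L ⊔ L' : Subgroup W) : Set W)
  comm : ∀ x ∈ L ⊔ L', ∀ y ∈ L ⊔ L', ⁅x, y⁆ ∈ C
  act : ∀ n ∈ L', ∀ a ∈ E, ⁅a, n⁆ ∈ L
  act' : ∀ l ∈ L, ∀ b ∈ E', ⁅b, l⁆ ∈ L'
  sep : ∀ d ∈ G, Opp G E (GN.cj d E) → L ⊓ GN.cj d L ≤ C
  sep' : ∀ d ∈ G, Opp G E' (GN.cj d E') → L' ⊓ GN.cj d L' ≤ C
  cross : ∀ d ∈ G, Opp G E (GN.cj d E') → L ⊓ GN.cj d L' ≤ C

theorem LineData.norm_L (h : LineData p G E E' L L' C) :
    L' ≤ normalizer (L : Set W) := fun y hy => by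
  refine mem_normalizer_of_commutator fun k hk => ?_
  exact ⟨h.abC.1 (h.comm k (mem_sup_left hk) y (mem_sup_right hy)),
    h.abC.1 (h.comm k (mem_sup_left hk) _ (inv_mem (mem_sup_right hy)))⟩

/-- Orbit of a point of `L` under `E'`. -/
theorem LineData.orbit (h : LineData p G E E' L L' C) {l : W} (hl : l ∈ L) (hlC : l ∉ C) :
    (∀ b ∈ E', b * l * b⁻¹ ∈ {y | ∃ n ∈ L', y = l * n}) ∧
      Nat.card E' * Nat.card C ≤ Nat.card (oP p G) * Nat.card L' ∧
      (Nat.card (oP p G) * Nat.card L' ≤ Nat.card E' * Nat.card C →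
        ∀ n ∈ L', ∃ b ∈ E', ∃ c ∈ C, b * l * b⁻¹ * c = l * n) := by
  classical
  have hsep : ∀ b ∈ E', b * l * b⁻¹ ∈ {y | ∃ n ∈ L', y = l * n} := by
    intro b hb
    refine ⟨l⁻¹ * ⁅b, l⁆ * l, ?_, by simp only [commutatorElement_def]; group⟩
    have h1 : ⁅⁅b, l⁆, l⁻¹⁆ ∈ L' :=
      h.abC.2 (h.comm _ (mem_sup_right (h.act' l hl b hb)) _ (inv_mem (mem_sup_left hl)))
    have e : l⁻¹ * ⁅b, l⁆ * l = ⁅⁅b, l⁆, l⁻¹⁆⁻¹ * ⁅b, l⁆ := by
      simp only [commutatorElement_def]; group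
    rw [e]
    exact mul_mem (inv_mem h1) (h.act' l hl b hb)
  let S := {y : W // ∃ n ∈ L', y = l * n}
  let f : ↥E' × ↥C → S := fun x => ⟨(x.1 : W) * l * (x.1 : W)⁻¹ * x.2, by
    obtain ⟨n, hn, e⟩ := hsep x.1 x.1.2
    exact ⟨n * x.2, mul_mem hn (h.abC.2 x.2.2), by rw [e, mul_assoc]⟩⟩
  letI := Fintype.ofFinite ↥E'
  letI := Fintype.ofFinite ↥C
  letI := Fintype.ofFinite ↥(oP p G)
  haveI : Finite S := Subtype.finite
  letI := Fintype.ofFinite S
  have hcS : Fintype.card S = Nat.card L' := by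
    rw [← Nat.card_eq_fintype_card]
    exact (Nat.card_congr
      { toFun := fun n : ↥L' => (⟨l * n, n, n.2, rfl⟩ : S)
        invFun := fun y => ⟨l⁻¹ * y.1, by obtain ⟨n, hn, e⟩ := y.2; rw [e, inv_mul_cancel_left]; exact hn⟩
        left_inv := fun n => Subtype.ext (inv_mul_cancel_left _ _)
        right_inv := fun y => Subtype.ext (mul_inv_cancel_left _ _) }).symm
  have hfib : ∀ y ∈ Finset.univ.image f,
      (Finset.univ.filter fun x => f x = y).card ≤ Fintype.card ↥(oP p G) := by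
    intro y hy
    obtain ⟨x₀, -, hx₀⟩ := Finset.mem_image.mp hy
    have hd : ∀ x, f x = y → (x₀.1 : W)⁻¹ * x.1 ∈ oP p G := by
      intro x hx
      by_contra hdQ
      set d := (x₀.1 : W)⁻¹ * x.1 with hd
      have hdE : d ∈ E' := mul_mem (inv_mem x₀.1.2) x.1.2
      have hdG := h.v'.le hdE
      have e := congrArg Subtype.val (hx.trans hx₀.symm)
      change (x.1 : W) * l * (x.1 : W)⁻¹ * x.2 = (x₀.1 : W) * l * (x₀.1 : W)⁻¹ * x₀.2 at e
      have e2 : d * l * d⁻¹ =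
          l * ((x₀.1 : W)⁻¹ * ((x₀.2 : W) * (x.2 : W)⁻¹) * x₀.1) := by
        calc d * l * d⁻¹ = (x₀.1 : W)⁻¹ * ((x.1 : W) * l * (x.1 : W)⁻¹ * x.2) * (x.2 : W)⁻¹ * x₀.1 := by
              rw [hd]; group
          _ = _ := by rw [e]; group
      set c' := (x₀.1 : W)⁻¹ * ((x₀.2 : W) * (x.2 : W)⁻¹) * x₀.1
      have hc' : c' ∈ C := by
        have := (mem_normalizer_iff.mp (h.nC (inv_mem (h.v'.le x₀.1.2)))
          ((x₀.2 : W) * (x.2 : W)⁻¹)).mp (mul_mem x₀.2.2 (inv_mem x.2.2))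
        rwa [inv_inv] at this
      have hm : l * c' ∈ L ⊓ GN.cj d L :=
        mem_inf.mpr ⟨mul_mem hl (h.abC.1 hc'), e2 ▸ conj_mem_cj hl⟩
      have := h.sep d hdG (h.v.opp_cj_of_opp h.v' h.opp hdE hdQ) hm
      exact hlC (by simpa using mul_mem this (inv_mem hc'))
    refine Finset.card_le_card_of_injOn (t := Finset.univ)
      (fun x => if hx : f x = y then (⟨_, hd x hx⟩ : ↥(oP p G)) else 1) (fun _ _ => Finset.mem_univ _) ?_
    intro x hx x' hx' e
    rw [Finset.mem_coe, Finset.mem_filter] at hx hx'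
    simp only [dif_pos hx.2, dif_pos hx'.2, Subtype.mk.injEq] at e
    have e1 : x.1 = x'.1 := Subtype.ext (mul_left_cancel e)
    have e2 := congrArg Subtype.val (hx.2.trans hx'.2.symm)
    change (x.1 : W) * l * (x.1 : W)⁻¹ * x.2 = (x'.1 : W) * l * (x'.1 : W)⁻¹ * x'.2 at e2
    rw [e1] at e2
    exact Prod.ext e1 (Subtype.ext (mul_left_cancel e2))
  have hmain := Finset.card_le_mul_card_image Finset.univ (Fintype.card ↥(oP p G)) hfib
  rw [Finset.card_univ, Fintype.card_prod] at hmain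
  have him : (Finset.univ.image f).card ≤ Fintype.card S := Finset.card_le_univ _
  refine ⟨hsep, ?_, ?_⟩
  · rw [Nat.card_eq_fintype_card, Nat.card_eq_fintype_card, Nat.card_eq_fintype_card (α := ↥(oP p G)),
      ← hcS]
    exact hmain.trans (Nat.mul_le_mul_left _ him)
  · intro hge n hn
    rw [Nat.card_eq_fintype_card, ← hcS, Nat.card_eq_fintype_card (α := ↥E'),
      Nat.card_eq_fintype_card (α := ↥C)] at hge
    have hall : Finset.univ.image f = Finset.univ :=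
      Finset.eq_univ_of_card _ (le_antisymm him
        (Nat.le_of_mul_le_mul_left (hge.trans hmain) Fintype.card_pos))
    have : (⟨l * n, n, hn, rfl⟩ : S) ∈ Finset.univ.image f := by rw [hall]; exact Finset.mem_univ _
    obtain ⟨⟨b, c⟩, -, e⟩ := Finset.mem_image.mp this
    exact ⟨b, b.2, c, c.2, congrArg Subtype.val e⟩

theorem LineData.card_le (h : LineData p G E E' L L' C) (hne : ¬ L ≤ C) :
    Nat.card E' * Nat.card C ≤ Nat.card (oP p G) * Nat.card L' := by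
  obtain ⟨l, hl, hlC⟩ := SetLike.not_le_iff_exists.mp hne
  exact (h.orbit hl hlC).2.1

/-- For each `a`, some conjugate line of `L` under `E'` equals the conjugate of `L'` by `a⁻¹`. -/
theorem LineData.exists_line (h : LineData p G E E' L L' C) (hne : ¬ L' ≤ C)
    (hcard : Nat.card (oP p G) * Nat.card L' ≤ Nat.card E' * Nat.card C)
    {a : W} (ha : a ∈ E) (haQ : a ∉ oP p G) :
    ∃ b ∈ E', ¬ Opp G (GN.cj b E) (GN.cj a⁻¹ E') := by
  obtain ⟨n, hn, hnC⟩ := SetLike.not_le_iff_exists.mp hne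
  have haG := h.v.le ha
  have hla : GN.cj a⁻¹ L' ⊓ L' ≤ C := by
    rw [inf_comm]
    exact h.sep' a⁻¹ (inv_mem haG) (h.v'.opp_cj_of_opp h.v h.opp.symm (inv_mem ha)
      fun h' => haQ (inv_mem_iff.mp h'))
  set m := a⁻¹ * n * a with hm
  have hmL : m ∈ GN.cj a⁻¹ L' := by
    rw [mem_cj, hm]; simpa [mul_assoc] using hn
  have hmC : m ∉ C := fun hc => hnC (by
    have := (mem_normalizer_iff.mp (h.nC haG) m).mp hc
    simpa [hm, mul_assoc] using this)
  have hmY : m ∈ L ⊔ L' := by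
    have := (mem_normalizer_iff.mp (h.nM (inv_mem haG)) n).mp (mem_sup_right hn)
    rwa [inv_inv] at this
  obtain ⟨l, hl, n', hn', e⟩ := exists_mul_of_mem_sup h.norm_L hmY
  have hlC : l ∉ C := fun hc => hmC (hla (mem_inf.mpr ⟨hmL, e ▸ mul_mem (h.abC.2 hc) hn'⟩))
  obtain ⟨b, hb, c, hc, e'⟩ := (h.orbit hl hlC).2.2 hcard n' hn'
  refine ⟨b, hb, fun ho => ?_⟩
  have hbG := h.v'.le hb
  have hblC : b * l * b⁻¹ ∉ C := fun hc' => hlC ((mem_normalizer_iff.mp (h.nC hbG) l).mpr hc')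
  have hbm : b * l * b⁻¹ ∈ GN.cj a⁻¹ L' := by
    have : b * l * b⁻¹ = m * c⁻¹ := by rw [← e, ← e', mul_inv_cancel_right]
    rw [this]
    refine mul_mem hmL ?_
    rw [mem_cj, inv_inv]
    exact h.abC.2 ((mem_normalizer_iff.mp (h.nC haG) c⁻¹).mp (inv_mem hc))
  have ho' := ho.cj_of_mem (inv_mem hbG)
  rw [cj_inv_cj, ← cj_mul] at ho'
  have hx : l ∈ L ⊓ GN.cj (b⁻¹ * a⁻¹) L' := by
    refine mem_inf.mpr ⟨hl, ?_⟩
    rw [cj_mul, mem_cj, inv_inv]
    exact hbm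
  exact hlC (h.cross _ (mul_mem (inv_mem hbG) (inv_mem haG)) ho' hx)

/-- The line of a given edge in the class of `a⁻¹ E' a` is the conjugate of `L'`. -/
theorem LineData.line_eq (h : LineData p G E E' L L' C)
    (hcard : Nat.card (oP p G) * Nat.card L' ≤ Nat.card E' * Nat.card C)
    {a b : W} (ha : a ∈ E) (haQ : a ∉ oP p G) (hb : b ∈ E')
    (hb' : ¬ Opp G (GN.cj b E) (GN.cj a⁻¹ E')) (hQL : oP p G ≤ normalizer (L : Set W)) :
    GN.cj a⁻¹ L' ≤ GN.cj b L := by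
  have haG := h.v.le ha
  intro m hmL
  by_cases hmC : m ∈ C
  · rw [mem_cj]
    refine h.abC.1 ?_
    have := (mem_normalizer_iff.mp (h.nC (inv_mem (h.v'.le hb))) m).mp hmC
    rwa [inv_inv] at this
  have hn : a * m * a⁻¹ ∈ L' := by rw [mem_cj, inv_inv] at hmL; exact hmL
  have hla : GN.cj a⁻¹ L' ⊓ L' ≤ C := by
    rw [inf_comm]
    exact h.sep' a⁻¹ (inv_mem haG) (h.v'.opp_cj_of_opp h.v h.opp.symm (inv_mem ha)
      fun h' => haQ (inv_mem_iff.mp h'))
  have hmY : m ∈ L ⊔ L' := by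
    have := (mem_normalizer_iff.mp (h.nM (inv_mem haG)) _).mp (mem_sup_right hn)
    simpa [mul_assoc] using this
  obtain ⟨l, hl, n', hn', e⟩ := exists_mul_of_mem_sup h.norm_L hmY
  have hlC : l ∉ C := fun hc => hmC (hla (mem_inf.mpr ⟨hmL, e ▸ mul_mem (h.abC.2 hc) hn'⟩))
  obtain ⟨d, hd, c, hc, e'⟩ := (h.orbit hl hlC).2.2 hcard n' hn'
  have hbG := h.v'.le hb
  have hdG := h.v'.le hd
  have hdm : d * l * d⁻¹ ∈ GN.cj a⁻¹ L' := by
    have : d * l * d⁻¹ = m * c⁻¹ := by rw [← e, ← e', mul_inv_cancel_right]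
    rw [this]
    refine mul_mem hmL ?_
    rw [mem_cj, inv_inv]
    exact h.abC.2 ((mem_normalizer_iff.mp (h.nC haG) c⁻¹).mp (inv_mem hc))
  have hd' : ¬ Opp G (GN.cj d E) (GN.cj a⁻¹ E') := by
    intro ho
    have ho' := ho.cj_of_mem (inv_mem hdG)
    rw [cj_inv_cj, ← cj_mul] at ho'
    refine hlC (h.cross _ (mul_mem (inv_mem hdG) (inv_mem haG)) ho' (mem_inf.mpr ⟨hl, ?_⟩))
    rw [cj_mul, mem_cj, inv_inv]
    exact hdm
  have hn2 : ¬ Opp G (GN.cj b E) (GN.cj d E) :=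
    (h.v'.cj_of_mem (inv_mem haG)).not_opp_trans (h.v.cj_of_mem hbG) (h.v.cj_of_mem hdG) hb'
      fun ho => hd' ho.symm
  have hQ : b⁻¹ * d ∈ oP p G := by
    by_contra hnQ
    have ho := (h.v.opp_cj_of_opp h.v' h.opp (mul_mem (inv_mem hb) hd) hnQ).cj_of_mem hbG
    rw [← cj_mul, mul_inv_cancel_left] at ho
    exact hn2 ho
  have heq : GN.cj d L = GN.cj b L := by
    rw [show d = b * (b⁻¹ * d) by group, cj_mul, cj_eq_of_mem_normalizer (hQL hQ)]
  have hme : m = d * l * d⁻¹ * c := by rw [e', ← e]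
  rw [hme, ← heq]
  refine mul_mem (conj_mem_cj hl) ?_
  rw [mem_cj]
  refine h.abC.1 ?_
  have := (mem_normalizer_iff.mp (h.nC (inv_mem hdG)) c).mp hc
  rwa [inv_inv] at this

end Cfsg.Agent.H73.GN
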