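import Mathlib
import Cfsg.Agent.H73.GN.Lines

/-!
Lines in `W = Z(O_p(G))`, and an element inverting `W` modulo the fixed points.
-/

set_option autoImplicit false

namespace Cfsg.Agent.H73.GN

open Subgroup
open scoped commutatorElement

variable {W : Type*} [Group W]

/-- Congruence modulo `C`. -/
def Cg (C : Subgroup W) (x y : W) : Prop := x * y⁻¹ ∈ C

theorem Cg.trans {C : Subgroup W} {x y z : W} (h : Cg C x y) (h' : Cg C y z) : Cg C x z := by
  have := mul_mem h h'
  simpa [Cg, mul_assoc] using this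

theorem Cg.symm {C : Subgroup W} {x y : W} (h : Cg C x y) : Cg C y x := by
  simpa [Cg] using inv_mem h

theorem Cg.conj {C : Subgroup W} {x y g : W} (h : Cg C x y) (hg : g ∈ normalizer (C : Set W)) :
    Cg C (g * x * g⁻¹) (g * y * g⁻¹) := by
  have := (mem_normalizer_iff.mp hg _).mp h
  simpa [Cg, mul_assoc] using this

theorem Cg.mul {C : Subgroup W} {x y u v : W} (h : Cg C x y) (h' : Cg C u v)
    (hn : x ∈ normalizer (C : Set W)) : Cg C (x * u) (y * v) := by
  have := mul_mem ((mem_normalizer_iff.mp hn _).mp h') h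
  simpa [Cg, mul_assoc] using this

theorem Cg.refl {C : Subgroup W} (x : W) : Cg C x x := by simp [Cg]

theorem cg_comm {C : Subgroup W} {x y : W} (h : ⁅x, y⁆ ∈ C) : Cg C (x * y) (y * x) := by
  simpa [Cg, commutatorElement_def, mul_assoc] using h

theorem cg_iff_mem {C : Subgroup W} {x : W} : Cg C x 1 ↔ x ∈ C := by simp [Cg]

variable [Finite W] {p : ℕ} [Fact p.Prime] {G E E' L L' C : Subgroup W}

/-- The square of `aba` inverts both lines modulo `C`. -/
theorem LineData.inverting (h : LineData p G E E' L L' C) (hL : ∀ l ∈ L, ∀ a ∈ E, ⁅a, l⁆ ∈ C)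
    (hL' : ∀ n ∈ L', ∀ b ∈ E', ⁅b, n⁆ ∈ C) {a b : W} (ha : a ∈ E) (haQ : a ∉ oP p G) (hb : b ∈ E')
    (hab : GN.cj a⁻¹ L' = GN.cj b L) :
    (∀ l ∈ L, Cg C (a * b * a * l * (a * b * a)⁻¹) ⁅b, l⁆ ∧ Cg C (⁅a, ⁅b, l⁆⁆ * l) 1) ∧
    (∀ n ∈ L', Cg C (a * b * a * n * (a * b * a)⁻¹) ⁅a, n⁆ ∧ Cg C (⁅b, ⁅a, n⁆⁆ * n) 1) ∧
    ∀ y ∈ L ⊔ L', (a * b * a * (a * b * a)) * y * (a * b * a * (a * b * a))⁻¹ * y ∈ C := by
  have haG := h.v.le ha
  have hbG := h.v'.le hb
  set Y := L ⊔ L' with hY
  have hYC : ∀ {y : W}, y ∈ Y → y ∈ normalizer (C : Set W) := fun {y} hy => by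
    refine mem_normalizer_of_commutator fun c hc => ?_
    exact ⟨h.comm c (mem_sup_left (h.abC.1 hc)) y hy, h.comm c (mem_sup_left (h.abC.1 hc)) _ (inv_mem hy)⟩
  have hn : ∀ {g : W}, g ∈ G → g ∈ normalizer (C : Set W) := fun hg => h.nC hg
  -- injectivity of `[a, ·]` on `L'`
  have hinj : ∀ m ∈ L', ⁅a, m⁆ ∈ C → m ∈ C := by
    intro m hm hc
    have hd : Opp G E' (GN.cj a E') := h.v'.opp_cj_of_opp h.v h.opp.symm ha haQ
    have hm' : a * m * a⁻¹ ∈ L' ⊓ GN.cj a L' := by
      refine mem_inf.mpr ⟨?_, conj_mem_cj hm⟩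
      rw [show a * m * a⁻¹ = ⁅a, m⁆ * m by simp only [commutatorElement_def]; group]
      exact mul_mem (h.abC.2 hc) hm
    exact (mem_normalizer_iff.mp (hn haG) m).mpr (h.sep' a haG hd hm')
  have hl : ∀ l ∈ L, Cg C (a * b * a * l * (a * b * a)⁻¹) ⁅b, l⁆ ∧ Cg C (⁅a, ⁅b, l⁆⁆ * l) 1 := by
    intro l hl
    set β := ⁅b, l⁆ with hβ
    set α := ⁅a, β⁆ with hα
    have hβL : β ∈ L' := h.act' l hl b hb
    have hαL : α ∈ L := h.act β hβL a ha
    have h1 : Cg C (a * l * a⁻¹) l := by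
      have := hL l hl a ha
      simpa [Cg, commutatorElement_def] using this
    have h2 : Cg C (a * b * a * l * (a * b * a)⁻¹) (a * (b * l * b⁻¹) * a⁻¹) := by
      have := (h1.conj (hn hbG)).conj (hn haG)
      simpa [mul_assoc] using this
    have e : a * (b * l * b⁻¹) * a⁻¹ = α * β * (a * l * a⁻¹) := by
      simp only [hα, hβ, commutatorElement_def]; group
    have hab' : α * β * (a * l * a⁻¹) ∈ L' := by
      rw [← e]
      have : b * l * b⁻¹ ∈ GN.cj a⁻¹ L' := hab ▸ conj_mem_cj hl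
      rw [mem_cj, inv_inv] at this
      exact this
    have h3 : Cg C (α * β * (a * l * a⁻¹)) (α * l * β) := by
      have s1 : Cg C (α * β * (a * l * a⁻¹)) (α * β * l) :=
        (Cg.refl (α * β)).mul h1 (hYC (mul_mem (mem_sup_left hαL) (mem_sup_right hβL)))
      refine s1.trans ?_
      rw [mul_assoc, mul_assoc]
      exact (Cg.refl α).mul (cg_comm (h.comm β (mem_sup_right hβL) l (mem_sup_left hl)))
        (hYC (mem_sup_left hαL))
    have hαl : α * l ∈ L' := by
      have hm : α * l * β ∈ L' := by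
        have := mul_mem (h.abC.2 h3.symm) hab'
        simpa [mul_assoc] using this
      simpa using mul_mem hm (inv_mem hβL)
    have hαlC : α * l ∈ C := h.cross 1 (one_mem _) (by rw [cj_one]; exact h.opp)
      (mem_inf.mpr ⟨mul_mem hαL hl, by rw [cj_one]; exact hαl⟩)
    refine ⟨h2.trans ?_, by simpa [Cg] using hαlC⟩
    rw [e]
    refine h3.trans ?_
    simpa [Cg, mul_assoc] using hαlC
  have hnn : ∀ n ∈ L', Cg C (a * b * a * n * (a * b * a)⁻¹) ⁅a, n⁆ ∧ Cg C (⁅b, ⁅a, n⁆⁆ * n) 1 := by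
    intro n hn'
    set α := ⁅a, n⁆ with hα
    set β := ⁅b, α⁆ with hβ
    have hαL : α ∈ L := h.act n hn' a ha
    have hβL : β ∈ L' := h.act' α hαL b hb
    have hm : β * n ∈ C := by
      refine hinj _ (mul_mem hβL hn') ?_
      have e : ⁅a, β * n⁆ = ⁅a, β⁆ * (β * α * β⁻¹) := comm_mul_right a β n
      rw [e]
      have c1 : Cg C (β * α * β⁻¹) α := by
        have := h.comm β (mem_sup_right hβL) α (mem_sup_left hαL)
        simpa [Cg, commutatorElement_def, mul_assoc] using this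
      have c2 := (Cg.refl ⁅a, β⁆).mul c1 (hYC (mem_sup_left (h.act β hβL a ha)))
      exact cg_iff_mem.mp (c2.trans (hl α hαL).2)
    have e1 : a * b * a * n * (a * b * a)⁻¹ = a * (β * α * (b * n * b⁻¹)) * a⁻¹ := by
      simp only [hβ, hα, commutatorElement_def]; group
    have c1 : Cg C (b * n * b⁻¹) n := by
      have := hL' n hn' b hb
      simpa [Cg, commutatorElement_def] using this
    have hβα : β * α ∈ normalizer (C : Set W) :=
      hYC (mul_mem (mem_sup_right hβL) (mem_sup_left hαL))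
    have c2 : Cg C (β * α * (b * n * b⁻¹)) α := by
      refine ((Cg.refl (β * α)).mul c1 hβα).trans ?_
      have c3 : Cg C (β * α) (α * β) := cg_comm (h.comm β (mem_sup_right hβL) α (mem_sup_left hαL))
      refine (c3.mul (Cg.refl n) hβα).trans ?_
      have c4 := (Cg.refl α).mul (cg_iff_mem.mpr hm) (hYC (mem_sup_left hαL))
      simpa [mul_assoc] using c4
    refine ⟨?_, cg_iff_mem.mpr hm⟩
    rw [e1]
    refine (c2.conj (hn haG)).trans ?_
    have := hL α hαL a ha
    simpa [Cg, commutatorElement_def] using this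
  refine ⟨hl, hnn, fun y hy => ?_⟩
  obtain ⟨l, hl', n, hn', rfl⟩ := exists_mul_of_mem_sup h.norm_L hy
  set w := a * b * a with hw
  have hwG : w ∈ G := mul_mem (mul_mem haG hbG) haG
  have hC : w * w ∈ normalizer (C : Set W) := hn (mul_mem hwG hwG)
  have r1 : Cg C (w * w * l * (w * w)⁻¹) l⁻¹ := by
    have s1 := ((hl l hl').1).conj (hn hwG)
    have s2 := (hnn _ (h.act' l hl' b hb)).1
    have s3 : Cg C ⁅a, ⁅b, l⁆⁆ l⁻¹ := by
      have := (hl l hl').2
      simpa [Cg] using this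
    have e : w * w * l * (w * w)⁻¹ = w * (w * l * w⁻¹) * w⁻¹ := by group
    rw [e]; exact (s1.trans s2).trans s3
  have r2 : Cg C (w * w * n * (w * w)⁻¹) n⁻¹ := by
    have s1 := ((hnn n hn').1).conj (hn hwG)
    have s2 := (hl _ (h.act n hn' a ha)).1
    have s3 : Cg C ⁅b, ⁅a, n⁆⁆ n⁻¹ := by
      have := (hnn n hn').2
      simpa [Cg] using this
    have e : w * w * n * (w * w)⁻¹ = w * (w * n * w⁻¹) * w⁻¹ := by group
    rw [e]; exact (s1.trans s2).trans s3
  have hmY : ∀ {z : W}, z ∈ Y → w * w * z * (w * w)⁻¹ ∈ Y := fun {z} hz =>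
    (mem_normalizer_iff.mp (h.nM (mul_mem hwG hwG)) z).mp hz
  have e : w * w * (l * n) * (w * w)⁻¹ = (w * w * l * (w * w)⁻¹) * (w * w * n * (w * w)⁻¹) := by group
  refine cg_iff_mem.mp ?_
  rw [e]
  have r3 := (r1.mul r2 (hYC (hmY (mem_sup_left hl')))).mul (Cg.refl (l * n))
    (hYC (mul_mem (hmY (mem_sup_left hl')) (hmY (mem_sup_right hn'))))
  refine r3.trans ?_
  have := h.comm l⁻¹ (inv_mem (mem_sup_left hl')) n⁻¹ (inv_mem (mem_sup_right hn'))
  simpa [Cg, commutatorElement_def, mul_assoc] using this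

/-- The lines `Z(E'')` in `W`. -/
theorem Vx.lineData (h : Vx p G E) (hq : Nat2 p G E) (h' : Vx p G E') (ho : Opp G E E') :
    LineData p G E E' (cen E E) (cen E' E') (fixC G E) := by
  have hq' := hq.of_vx h h'
  have hsup := h.wP_eq_center_sup hq h' ho
  have hfix : fixC G E = cen E' E' ⊓ centralizer (G : Set W) := by
    rw [← fixC, ← h.wP_inf_centralizer, h'.wP_inf_centralizer]
  refine
    { v := h, v' := h', opp := ho, nE := ?_, nE' := ?_, abC := ?_, nC := ?_, nM := ?_, comm := ?_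
      act := ?_, act' := ?_, sep := ?_, sep' := ?_, cross := ?_ }
  · exact (le_centralizer_symm (cen_le_centralizer E E)).trans (centralizer_le_normalizer _)
  · exact (le_centralizer_symm (cen_le_centralizer E' E')).trans (centralizer_le_normalizer _)
  · exact ⟨inf_le_left, hfix ▸ inf_le_left⟩
  · exact (le_centralizer_symm inf_le_right).trans (centralizer_le_normalizer _)
  · rw [← hsup]; exact h.normalizer_wP
  · intro x hx y hy
    rw [← hsup] at hx hy
    rw [comm_eq_one_of_commute (commute_of_le_centralizer (wP_abelian p G) hx hy)]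
    exact one_mem _
  · intro n hn a ha
    rw [← commutatorElement_inv n a]
    exact inv_mem (hq n (h'.center_le hn) a ha)
  · intro l hl b hb
    rw [← commutatorElement_inv l b]
    exact inv_mem (hq' l (h.center_le hl) b hb)
  · intro d hd hod
    rw [cj_cen]
    exact (h.center_inf_eq (h.cj_of_mem hd) hod).le
  · intro d hd hod
    rw [cj_cen, hfix]
    exact (h'.center_inf_eq (h'.cj_of_mem hd) hod).le
  · intro d hd hod
    rw [cj_cen]
    exact (h.center_inf_eq (h'.cj_of_mem hd) hod).le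

theorem Vx.exists_inverting (h : Vx p G E) (hq : Nat2 p G E) :
    ∃ τ ∈ G, ∀ w ∈ wP p G, τ * w * τ⁻¹ * w ∈ fixC G E := by
  obtain ⟨g, hg, ho⟩ := h.exists_opp
  have h' := h.cj_of_mem hg
  have hd := h.lineData hq h' ho
  obtain ⟨a, ha, haQ⟩ := SetLike.not_le_iff_exists.mp h.not_le
  have hne : ¬ cen (GN.cj g E) (GN.cj g E) ≤ fixC G E := fun hle =>
    h'.center_not_central (hle.trans inf_le_right)
  have hcard : Nat.card (oP p G) * Nat.card (cen (GN.cj g E) (GN.cj g E)) ≤
      Nat.card (GN.cj g E) * Nat.card (fixC G E) := by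
    have e1 := h.card_mul
    have e2 := h.card_wP_mul hq h' ho
    have e3 := h.card_center_eq h'
    rw [← e3] at e2 ⊢
    rw [← h.card_eq h']
    refine Nat.le_of_mul_le_mul_right ?_ (card_pos' (wP p G))
    apply le_of_eq
    calc Nat.card (oP p G) * Nat.card (cen E E) * Nat.card (wP p G)
        = (Nat.card (wP p G) * Nat.card (oP p G)) * Nat.card (cen E E) := by ring
      _ = Nat.card E * (Nat.card (cen E E) * Nat.card (cen E E)) := by rw [e1]; ring
      _ = _ := by rw [← e2]; ring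
  obtain ⟨b, hb, hbo⟩ := hd.exists_line hne hcard ha haQ
  have hle := hd.line_eq hcard ha haQ hb hbo ((h.oP_le_E).trans hd.nE)
  have heq : GN.cj a⁻¹ (cen (GN.cj g E) (GN.cj g E)) = GN.cj b (cen E E) :=
    eq_of_le_card hle (by rw [card_cj, card_cj, h.card_center_eq h'])
  have hL : ∀ l ∈ cen E E, ∀ x ∈ E, ⁅x, l⁆ ∈ fixC G E := fun l hl x hx => by
    rw [comm_eq_one_of_commute (commute_of_le_centralizer (cen_le_centralizer E E) hl hx).symm]
    exact one_mem _
  have hL' : ∀ n ∈ cen (GN.cj g E) (GN.cj g E), ∀ x ∈ GN.cj g E, ⁅x, n⁆ ∈ fixC G E := fun n hn x hx => by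
    rw [comm_eq_one_of_commute (commute_of_le_centralizer (cen_le_centralizer _ _) hn hx).symm]
    exact one_mem _
  obtain ⟨-, -, hinv⟩ := hd.inverting hL hL' ha haQ hb heq
  have haG := h.le ha
  have hbG := h'.le hb
  refine ⟨a * b * a * (a * b * a), mul_mem (mul_mem (mul_mem haG hbG) haG) (mul_mem (mul_mem haG hbG) haG),
    fun w hw => hinv w ?_⟩
  rw [← h.wP_eq_center_sup hq h' ho]
  exact hw

end Cfsg.Agent.H73.GN
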