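import Mathlib
import Cfsg.Agent.H73.GN.Long
import Cfsg.Agent.H73.GN.Tau

/-!
Length two: the first vertex does not absorb the second.
-/

set_option autoImplicit false

namespace Cfsg.Agent.H73.GN

open Subgroup
open scoped commutatorElement

variable {W : Type*} [Group W] [Finite W] {p : ℕ} [Fact p.Prime] {V Ed : ℕ → Subgroup W}

theorem Crit.mem_right (h : Crit p 2 V Ed) :
    Mem (Ed 1) (wP p (V 1) ⊔ wP p (V 2)) ∧
      cen (Ed 1) (wP p (V 1) ⊔ wP p (V 2)) = oP p (V 1) ⊓ oP p (V 2) := by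
  have h1 := h.vx1
  have h1' : Vx p (V 1) (Ed 2) := h.path.vl 1 (by omega)
  have h2' : Vx p (V 2) (Ed 2) := h.path.vr 1 (by omega)
  have hm : Mem (Ed 2) (wP p (V 1) ⊔ wP p (V 2)) := h1'.mem_wP.sup h1'.nice h2'.mem_wP
  have hc : cen (Ed 2) (wP p (V 1) ⊔ wP p (V 2)) = oP p (V 1) ⊓ oP p (V 2) := by
    rw [cen_sup, h1'.cen_wP, h2'.cen_wP]
  obtain ⟨e1, e2⟩ := hm.transfer h1.nice (by rw [h1.card_eq h1', h1.card_center_eq h1'])
    (sup_le h1.wP_le_E h.last_le) (by rw [hc]; exact inf_le_left.trans h1.oP_le_E)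
  exact ⟨e1, e2.trans hc⟩

/-- Length two: `V 0` does not normalize `W₀ W₁`. -/
theorem Crit.not_absorbed (h : Crit p 2 V Ed)
    (hn : V 0 ≤ normalizer ((wP p (V 0) ⊔ wP p (V 1) : Subgroup W) : Set W)) : False := by
  have h0 := h.vx0
  have h1 := h.vx1
  have hq := h.nat2
  have hN := h0.nice
  have hadj := h.adj le_rfl
  set E := Ed 1 with hE
  set Z := cen E E with hZdef
  set W₀ := wP p (V 0) with hW₀
  set W₁ := wP p (V 1) with hW₁
  set X := wP p (V 2) with hX
  set Q₀ := oP p (V 0) with hQ₀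
  set Q₁ := oP p (V 1) with hQ₁
  set U := W₀ ⊔ W₁ with hU
  set C₀ := Q₀ ⊓ Q₁ with hC₀
  obtain ⟨hXm, hXc⟩ := h.mem_right
  set Y := W₀ ⊔ (W₁ ⊔ X) with hY
  set D := Q₀ ⊓ (Q₁ ⊓ oP p (V 2)) with hD
  have hYm : Mem E Y := h0.mem_wP.sup hN hXm
  have hcY : cen E Y = D := by rw [hY, cen_sup, h0.cen_wP, hXc]
  have hDm : Mem E D := hcY ▸ (hYm.centralizer hN).1
  have hcD : cen E D = Y := by rw [← hcY]; exact (hYm.centralizer hN).2
  have hDX : D ≤ centralizer (X : Set W) :=
    inf_le_right.trans (inf_le_right.trans (oP_le_centralizer_wP p _))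
  have hDW0 : D ≤ centralizer (W₀ : Set W) := inf_le_left.trans (oP_le_centralizer_wP p _)
  have hC₀D : ∀ y ∈ C₀, y ∈ centralizer (X : Set W) → y ∈ D := by
    intro y hy hyX
    have h2' : Vx p (V 2) (Ed 2) := h.path.vr 1 (by omega)
    refine mem_inf.mpr ⟨hy.1, hy.2, ?_⟩
    rw [← h2'.cen_wP]
    exact mem_inf.mpr ⟨(h.path.vl 1 (by omega)).oP_le_E hy.2, hyX⟩
  have hXQ1 : X ≤ Q₁ := h.path.le_oP' h.below (by omega) le_rfl (by omega)
  have hXE : X ≤ E := h.last_le
  have hUC : U ≤ C₀ := le_inf (sup_le (wP_le_oP p _) hadj.right_le) hadj.sup_le_oP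
  have hW₁D : W₁ ≤ D := le_inf hadj.right_le (le_inf (wP_le_oP p _)
    (h.path.le_oP h.below (i := 1) (j := 2) (by omega) le_rfl (by omega)))
  have hZD : Z ≤ D := h1.center_le.trans hW₁D
  -- `C₀ = W₀ D`
  have hC₀eq : C₀ = W₀ ⊔ D := by
    have hm : Mem E (W₀ ⊔ D) := h0.mem_wP.sup hN hDm
    have hc : cen E (W₀ ⊔ D) = U := by
      rw [cen_sup, h0.cen_wP, hcD]
      refine le_antisymm ?_ (le_inf (hUC.trans inf_le_left) (sup_le le_sup_left (le_sup_left.trans le_sup_right)))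
      intro y hyy
      obtain ⟨hy, hy'⟩ := mem_inf.mp hyy
      rw [hY, ← sup_assoc, sup_comm] at hy'
      obtain ⟨x, hx, u, hu, rfl⟩ := exists_mul_of_mem_sup (fun u hu => by
        have h2 : u ∈ Ed 2 := by
          rcases exists_mul_of_mem_sup ((hadj.h1.wP_le_E.trans h0.le).trans h0.normalizer_wP) hu with
            ⟨a, ha, c, hc, rfl⟩
          exact mul_mem (h.first_le ha) ((h.path.vl 1 (by omega)).wP_le_E hc)
        exact (h.path.vr 1 (by omega)).normalizer_wP ((h.path.vr 1 (by omega)).le h2)) hy'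
      refine mul_mem ?_ hu
      have hxQ : x ∈ wP p (V 2) ⊓ oP p (V 0) := mem_inf.mpr ⟨hx, by
        have := mul_mem hy (inv_mem ((hUC.trans inf_le_left) hu))
        rwa [mul_inv_cancel_right] at this⟩
      rw [h.last_inf] at hxQ
      exact mem_sup_right ((h.path.vl 1 (by omega)).center_le hxQ)
    have h2 := (hm.centralizer hN).2
    rw [hc, hU, hadj.cen_sup] at h2
    exact h2
  set F := phi D with hF
  have hFD : F ≤ D := phi_le D
  have hDp : IsPGroup p D := hN.pgrp.to_le (inf_le_left.trans h0.oP_le_E)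
  have hC₀p : IsPGroup p C₀ := hN.pgrp.to_le (inf_le_left.trans h0.oP_le_E)
  have hDC : D ≤ C₀ := le_inf inf_le_left (inf_le_right.trans inf_le_left)
  have hC₀dec : ∀ {y : W}, y ∈ C₀ → ∃ w ∈ W₀, ∃ d ∈ D, w * d = y := fun hy =>
    exists_mul_of_mem_sup (le_normalizer_of_le_centralizer hDW0) (hC₀eq ▸ hy)
  have hphiC : phi C₀ = F := by
    refine le_antisymm ?_ (phi_mono hC₀p hDC)
    refine phi_le_of (p := p) (fun x hx y hy => ?_) (fun x hx => ?_)
    · obtain ⟨w, hw, d, hd, rfl⟩ := hC₀dec hx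
      obtain ⟨w', hw', d', hd', rfl⟩ := hC₀dec hy
      have c1 : Commute d w' := commute_of_le_centralizer hDW0 hd hw'
      have c2 : Commute w d' := (commute_of_le_centralizer hDW0 hd' hw).symm
      have c3 : Commute w w' := commute_of_le_centralizer (wP_abelian p _) hw hw'
      have c4 : Commute d' w' := commute_of_le_centralizer hDW0 hd' hw'
      have c5 : Commute w ⁅d, d'⁆ := by
        have c6 : Commute w d := (commute_of_le_centralizer hDW0 hd hw).symm
        rw [commutatorElement_def]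
        exact ((c6.mul_right c2).mul_right c6.inv_right).mul_right c2.inv_right
      have e : ⁅w * d, w' * d'⁆ = ⁅d, d'⁆ := by
        have c7 : Commute w' ⁅d, d'⁆ := by
          rw [commutatorElement_def]
          exact ((c1.symm.mul_right c4.symm).mul_right c1.symm.inv_right).mul_right c4.symm.inv_right
        rw [comm_mul_left, comm_mul_right d, comm_mul_right w, comm_eq_one_of_commute c1, one_mul,
          comm_eq_one_of_commute c3, one_mul, comm_eq_one_of_commute c2, mul_one, mul_inv_cancel, mul_one,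
          c7.eq, mul_inv_cancel_right, c5.eq, mul_inv_cancel_right]
      rw [e]
      exact commutator_mem_phi hDp hd hd'
    · obtain ⟨w, hw, d, hd, rfl⟩ := hC₀dec hx
      rw [(commute_of_le_centralizer hDW0 hd hw).symm.mul_pow, h0.wP_pow w hw, one_mul]
      exact pow_mem_phi hDp hd
  have hC₀n : V 0 ≤ normalizer (C₀ : Set W) := by
    intro x hx
    have hC : C₀ = Q₀ ⊓ centralizer (U : Set W) := by
      refine le_antisymm (le_inf inf_le_left (le_centralizer_symm (sup_le ?_ ?_))) ?_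
      · exact le_centralizer_symm (inf_le_left.trans (oP_le_centralizer_wP p _))
      · exact le_centralizer_symm (inf_le_right.trans (oP_le_centralizer_wP p _))
      · exact le_inf inf_le_left (h1.le_oP_of_commute (inf_le_left.trans h0.oP_le_E)
          (inf_le_right.trans (centralizer_le (le_sup_right : W₁ ≤ U))))
    rw [hC]
    exact inf_centralizer_normalizer (le_normalizer_oP p _ hx) (hn hx)
  have hFcent : F ⊓ Z ≤ centralizer (V 0 : Set W) :=
    h0.central_criterion (fun x hx => hphiC ▸ phi_normalizer hC₀p (hC₀n hx)) hXE h.last_not_le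
      (le_centralizer_symm (hFD.trans hDX))
  -- reduction: an element of `C₀` with nearly trivial commutators with `X` lies in `D`
  have hmemD : ∀ c ∈ C₀, (∀ x ∈ X, ⁅x, c⁆ ∈ centralizer (V 0 : Set W)) → c ∈ D := by
    intro c hc hx
    obtain ⟨w, hw, d, hd, rfl⟩ := hC₀dec hc
    refine mul_mem ?_ hd
    obtain ⟨x, hx', hxQ⟩ := SetLike.not_le_iff_exists.mp h.last_not_le
    refine hZD (h0.inj hq hw (hXE hx') hxQ ?_)
    have h3 := hx x hx'
    rw [comm_mul_right, comm_eq_one_of_commute (commute_of_le_centralizer hDX hd hx').symm, mul_one,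
      mul_inv_cancel, mul_one] at h3
    rw [← commutatorElement_inv x w]
    exact inv_mem h3
  have hXC₀ : ∀ x ∈ X, ∀ c ∈ C₀, ⁅x, c⁆ ∈ Z := by
    intro x hx c hc
    obtain ⟨w, hw, d, hd, rfl⟩ := hC₀dec hc
    rw [comm_mul_right, comm_eq_one_of_commute (commute_of_le_centralizer hDX hd hx).symm, mul_one,
      mul_inv_cancel, mul_one, ← commutatorElement_inv w x]
    exact inv_mem (hq w hw x (hXE hx))
  have hEC₀ : E ≤ normalizer (C₀ : Set W) := h0.le.trans hC₀n
  have hQQ : ∀ t ∈ Q₀, ∀ x ∈ X, ⁅x, t⁆ ∈ C₀ := by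
    intro t ht x hx
    refine mem_inf.mpr ⟨?_, ?_⟩
    · rw [commutatorElement_def]
      exact mul_mem ((mem_normalizer_iff.mp (le_normalizer_oP p _ (h0.le (hXE hx))) t).mp ht) (inv_mem ht)
    · exact h1.comm_mem x (hXE hx) t (h0.oP_le_E ht)
  -- `Q₀` normalizes `D`
  have hDn : Q₀ ≤ normalizer (D : Set W) := by
    intro q hq'
    have key : ∀ q ∈ Q₀, ∀ e ∈ D, ⁅e, q⁆ ∈ D := by
      intro q hq' e he
      have hd : ⁅e, q⁆ ∈ C₀ := by
        rw [commutatorElement_def, show e * q * e⁻¹ * q⁻¹ = e * (q * e⁻¹ * q⁻¹) by group]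
        exact mul_mem (hDC he) ((mem_normalizer_iff.mp (hEC₀ (h0.oP_le_E hq')) _).mp (inv_mem (hDC he)))
      refine hmemD _ hd fun x hx => ?_
      refine hFcent (mem_inf.mpr ⟨?_, hXC₀ x hx _ hd⟩)
      have hcx : Commute x e := (commute_of_le_centralizer hDX he hx).symm
      set c := ⁅x, q⁆ with hc
      have hcC : c ∈ C₀ := hQQ q hq' x hx
      have e2 : ⁅x, ⁅e, q⁆⁆ = ⁅e, c⁆ * ⁅c, ⁅e, q⁆⁆ := by
        have e3 : x * ⁅e, q⁆ * x⁻¹ = ⁅e, c * q⁆ := by
          rw [cj_comm, hcx.eq, mul_inv_cancel_right,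
            show x * q * x⁻¹ = c * q by simp only [hc, commutatorElement_def]; group]
        calc ⁅x, ⁅e, q⁆⁆ = x * ⁅e, q⁆ * x⁻¹ * ⁅e, q⁆⁻¹ := commutatorElement_def _ _
          _ = ⁅e, c * q⁆ * ⁅e, q⁆⁻¹ := by rw [e3]
          _ = _ := by rw [comm_mul_right]; simp only [commutatorElement_def]; group
      rw [e2, ← hphiC]
      exact mul_mem (commutator_mem_phi hC₀p (hDC he) hcC) (commutator_mem_phi hC₀p hcC hd)
    exact mem_normalizer_of_commutator fun e he => ⟨key q hq' e he, key _ (inv_mem hq') e he⟩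
  obtain ⟨g, hg, hog⟩ := h0.exists_opp
  set D' := GN.cj g D with hD'
  set B := D ⊓ D' with hB
  have hgQ : GN.cj g Q₀ = Q₀ := cj_eq_of_mem_normalizer (le_normalizer_oP p _ hg)
  have hgC : GN.cj g C₀ = C₀ := cj_eq_of_mem_normalizer (hC₀n hg)
  have hgen : X ⊔ GN.cj g X ⊔ Q₀ = V 0 := by
    conv_rhs => rw [← hog, hE, ← h.sup_eq, cj_sup, hgQ]
    rw [sup_sup_sup_comm, sup_idem]
  have hBX : X ≤ centralizer (B : Set W) := le_centralizer_symm (inf_le_left.trans hDX)
  have hBX' : GN.cj g X ≤ centralizer (B : Set W) := le_centralizer_symm (inf_le_right.trans (by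
    rw [hD', ← cj_centralizer]; exact cj_mono g hDX))
  have hBn : V 0 ≤ normalizer (B : Set W) := by
    rw [← hgen]
    refine sup_le (sup_le (hBX.trans (centralizer_le_normalizer _))
      (hBX'.trans (centralizer_le_normalizer _))) fun q hq' => ?_
    refine mem_normalizer_of_cj_eq ?_
    rw [hB, cj_inf, cj_eq_of_mem_normalizer (hDn hq')]
    congr 1
    refine cj_eq_of_mem_normalizer ?_
    have hq2 : g⁻¹ * q * g ∈ Q₀ := by
      rw [← mem_cj, hgQ]; exact hq'
    have := mem_normalizer_cj (g := g) (hDn hq2)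
    simpa [mul_assoc] using this
  have hCB : fixC (V 0) E ≤ B := by
    refine le_inf (inf_le_left.trans hZD) ?_
    intro c hc
    rw [hD', mem_cj]
    have : g⁻¹ * c * g = c := by
      rw [mul_assoc, ← (mem_centralizer_iff.mp hc.2 g hg), inv_mul_cancel_left]
    rw [this]
    exact hZD hc.1
  -- `C₀ = W₀ B`
  have hC₀B : C₀ = W₀ ⊔ B := by
    refine (eq_of_le_card (sup_le (le_sup_left.trans hUC) (inf_le_left.trans hDC)) ?_).symm
    have e1 := card_mul_le W₀ B
    have e2 : Nat.card ↥(W₀ ⊓ B) ≤ Nat.card (fixC (V 0) E) := by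
      refine card_le_of_le ?_
      rintro w ⟨hw, hwD, hwD'⟩
      obtain ⟨x, hx, hxQ⟩ := SetLike.not_le_iff_exists.mp h.last_not_le
      have hwZ : w ∈ Z := h0.mem_center_of_commute hw (hXE hx) hxQ
        (commute_of_le_centralizer hDX hwD hx).symm
      refine (h0.center_inf_eq (h0.cj_of_mem hg) hog).le (mem_inf.mpr ⟨hwZ, ?_⟩)
      rw [← cj_cen, mem_cj]
      refine h0.mem_center_of_commute
        ((mem_normalizer_iff.mp (h0.normalizer_wP (inv_mem hg)) w).mp hw |> fun h' => by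
          rwa [inv_inv] at h') (hXE hx) hxQ
        (commute_of_le_centralizer hDX (mem_cj.mp hwD') hx).symm
    have e3 := card_mul_le D D'
    have e4 : Nat.card ↥(D ⊔ D') ≤ Nat.card C₀ :=
      card_le_of_le (sup_le hDC (hgC ▸ cj_mono g hDC))
    have e5 := h0.mem_wP.card_sup hN hDm
    rw [← hC₀eq] at e5
    have e6 : Nat.card ↥(W₀ ⊓ D) = Nat.card Z := by
      refine congrArg (fun K : Subgroup W => Nat.card K) (le_antisymm ?_ (le_inf h0.center_le hZD))
      rintro w ⟨hw, hwD⟩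
      obtain ⟨x, hx, hxQ⟩ := SetLike.not_le_iff_exists.mp h.last_not_le
      exact h0.mem_center_of_commute hw (hXE hx) hxQ (commute_of_le_centralizer hDX hwD hx).symm
    rw [e6] at e5
    have e7 := h0.card_wP_mul hq (h0.cj_of_mem hg) hog
    rw [← h0.card_center_eq (h0.cj_of_mem hg)] at e7
    have e8 : Nat.card D' = Nat.card D := card_cj g D
    rw [e8, ← hB] at e3
    set wb := Nat.card ↥(W₀ ⊔ B)
    set nB := Nat.card B
    set c := Nat.card (fixC (V 0) E)
    set z := Nat.card Z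
    set w := Nat.card W₀
    set d := Nat.card D
    set c0 := Nat.card C₀
    have cpos : 0 < c := Nat.card_pos
    have zpos : 0 < z := Nat.card_pos
    have dpos : 0 < d := Nat.card_pos
    have wpos : 0 < w := Nat.card_pos
    have c0pos : 0 < c0 := Nat.card_pos
    have k1 : w * nB ≤ c * wb := e1.trans (Nat.mul_le_mul_right _ e2)
    have k2 : d * d ≤ nB * c0 := e3.trans (Nat.mul_le_mul_left _ e4)
    refine Nat.le_of_mul_le_mul_left ?_ (Nat.mul_pos cpos c0pos)
    refine Nat.le_of_mul_le_mul_left ?_ (Nat.mul_pos zpos zpos)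
    calc z * z * (c * c0 * c0) = c * (z * c0) * (z * c0) := by ring
      _ = c * (w * d) * (w * d) := by rw [e5]
      _ = (w * c) * w * (d * d) := by ring
      _ = (z * z) * w * (d * d) := by rw [e7]
      _ ≤ (z * z) * w * (nB * c0) := Nat.mul_le_mul_left _ k2
      _ = (z * z) * c0 * (w * nB) := by ring
      _ ≤ (z * z) * c0 * (c * wb) := Nat.mul_le_mul_left _ k1
      _ = _ := by ring
  have hBC : B ≤ C₀ := inf_le_left.trans hDC
  have hBW0 : B ≤ centralizer (W₀ : Set W) := inf_le_left.trans hDW0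
  have hBdec : ∀ {y : W}, y ∈ C₀ → ∃ w ∈ W₀, ∃ e ∈ B, w * e = y := fun hy =>
    exists_mul_of_mem_sup (le_normalizer_of_le_centralizer hBW0) (hC₀B ▸ hy)
  have hBcent : B ⊓ Z ≤ centralizer (V 0 : Set W) :=
    h0.central_criterion hBn hXE h.last_not_le hBX
  have hBnE : E ≤ normalizer (B : Set W) := h0.le.trans hBn
  have hQC₀ : ∀ q ∈ Q₀, ∀ c ∈ C₀, ⁅c, q⁆ ∈ B := by
    intro q hq' c hc
    obtain ⟨w, hw, e, he, rfl⟩ := hBdec hc
    have hcw : Commute w q := (commute_of_le_centralizer (oP_le_centralizer_wP p _) hq' hw).symm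
    have heq : ⁅e, q⁆ ∈ B := by
      rw [commutatorElement_def, show e * q * e⁻¹ * q⁻¹ = e * (q * e⁻¹ * q⁻¹) by group]
      exact mul_mem he ((mem_normalizer_iff.mp (hBnE (h0.oP_le_E hq')) _).mp (inv_mem he))
    rw [comm_mul_left, comm_eq_one_of_commute hcw, mul_one]
    exact (mem_normalizer_iff.mp (hBn (h0.le (h0.wP_le_E hw))) _).mp heq
  have hQX : ∀ q ∈ Q₀, ∀ x ∈ X, x * q * x⁻¹ = ⁅x, q⁆ * q := fun q _ x _ => by
    simp only [commutatorElement_def]; group
  have hQC₀' : ∀ q ∈ Q₀, ∀ c ∈ C₀, ⁅q, c⁆ ∈ B := fun q hq' c hc => by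
    rw [← commutatorElement_inv c q]; exact inv_mem (hQC₀ q hq' c hc)
  have hCsq : ∀ c ∈ C₀, ∀ c' ∈ C₀, ⁅c, c'⁆ ∈ B := fun c hc c' hc' => hQC₀ c' hc'.1 c hc
  have hnB : ∀ {x : W}, x ∈ E → ∀ {b : W}, b ∈ B → x * b * x⁻¹ ∈ B := fun {x} hx {b} hb =>
    (mem_normalizer_iff.mp (hBnE hx) b).mp hb
  have hQE : Q₀ ≤ E := h0.oP_le_E
  have hWE : W₀ ≤ E := h0.wP_le_E
  -- commutators and powers of `Q₀`
  have hQab : ∀ t ∈ Q₀, ∀ t' ∈ Q₀, ⁅t, t'⁆ ∈ B := by
    have inD : ∀ t ∈ Q₀, ∀ t' ∈ Q₀, ⁅t, t'⁆ ∈ D := by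
      intro t ht t' ht'
      have hc : ⁅t, t'⁆ ∈ C₀ := mem_inf.mpr ⟨by
        rw [commutatorElement_def]; exact mul_mem (mul_mem (mul_mem ht ht') (inv_mem ht)) (inv_mem ht'),
        h1.comm_mem t (hQE ht) t' (hQE ht')⟩
      refine hmemD _ hc fun x hx => hBcent (mem_inf.mpr ⟨?_, hXC₀ x hx _ hc⟩)
      set c1 := ⁅x, t⁆
      set c2 := ⁅x, t'⁆
      have h1c : c1 ∈ C₀ := hQQ t ht x hx
      have h2c : c2 ∈ C₀ := hQQ t' ht' x hx
      have b1 : ⁅t, c2⁆ ∈ B := hQC₀' t ht _ h2c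
      have b2 : ⁅c1, c2 * t'⁆ ∈ B := hQC₀ _ (mul_mem h2c.1 ht') _ h1c
      have b3 : ⁅c2, ⁅t, t'⁆⁆ ∈ B := hCsq _ h2c _ hc
      have b4 : ⁅c1, ⁅t, t'⁆⁆ ∈ B := hCsq _ h1c _ hc
      have e : ⁅x, ⁅t, t'⁆⁆ = (c1 * ⁅t, c2⁆ * c1⁻¹) * (c1 * ⁅c2, ⁅t, t'⁆⁆ * c1⁻¹) *
          (⁅c1, ⁅t, t'⁆⁆ * (⁅t, t'⁆ * ⁅c1, c2 * t'⁆ * ⁅t, t'⁆⁻¹)) := by
        have e3 : x * ⁅t, t'⁆ * x⁻¹ = ⁅c1 * t, c2 * t'⁆ := by
          rw [cj_comm, hQX t ht x hx, hQX t' ht' x hx]
        rw [commutatorElement_def x ⁅t, t'⁆, e3, comm_mul_left, comm_mul_right t]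
        simp only [commutatorElement_def]; group
      rw [e]
      have hc1E : c1 ∈ E := hQE h1c.1
      exact mul_mem (mul_mem (hnB hc1E b1) (hnB hc1E b3)) (mul_mem b4 (hnB (hQE hc.1) b2))
    intro t ht t' ht'
    refine mem_inf.mpr ⟨inD t ht t' ht', ?_⟩
    rw [hD', mem_cj]
    have a1 : g⁻¹ * t * g ∈ Q₀ := by rw [← mem_cj, hgQ]; exact ht
    have a2 : g⁻¹ * t' * g ∈ Q₀ := by rw [← mem_cj, hgQ]; exact ht'
    have := inD _ a1 _ a2
    convert this using 1
    simp only [commutatorElement_def]; group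
  have hQpow : ∀ t ∈ Q₀, t ^ p ∈ B := by
    have inD : ∀ t ∈ Q₀, t ^ p ∈ D := by
      intro t ht
      have hc : t ^ p ∈ C₀ := mem_inf.mpr ⟨pow_mem ht p, h1.pow_mem' t (hQE ht)⟩
      refine hmemD _ hc fun x hx => hBcent (mem_inf.mpr ⟨?_, hXC₀ x hx _ hc⟩)
      set c1 := ⁅x, t⁆
      have h1c : c1 ∈ C₀ := hQQ t ht x hx
      obtain ⟨w, hw, e, he, hwe⟩ := hBdec h1c
      set s := w * t with hs
      have hws : w * t = t * w := (commute_of_le_centralizer (oP_le_centralizer_wP p _) ht hw).eq.symm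
      have e1 : c1 * t = e * s := by
        rw [← hwe, hs, ← mul_assoc, (commute_of_le_centralizer hBW0 he hw).eq]
      have key : ∀ n : ℕ, ∃ m ∈ B, (e * s) ^ n = m * s ^ n := by
        intro n
        induction n with
        | zero => exact ⟨1, one_mem _, by simp⟩
        | succ n ih =>
          obtain ⟨m, hm, e2⟩ := ih
          refine ⟨m * (s ^ n * e * (s ^ n)⁻¹), mul_mem hm
            (hnB (pow_mem (mul_mem (hWE hw) (hQE ht)) n) he), ?_⟩
          rw [pow_succ, e2, pow_succ]; group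
      obtain ⟨m, hm, e2⟩ := key p
      have hsp : s ^ p = t ^ p := by
        rw [hs, Commute.mul_pow hws, h0.wP_pow w hw, one_mul]
      rw [commutatorElement_def, ← conj_pow, hQX t ht x hx, e1, e2, hsp, mul_inv_cancel_right]
      exact hm
    intro t ht
    refine mem_inf.mpr ⟨inD t ht, ?_⟩
    rw [hD', mem_cj]
    have a1 : g⁻¹ * t * g ∈ Q₀ := by rw [← mem_cj, hgQ]; exact ht
    have := inD _ a1
    have e : g⁻¹ * t ^ p * g = (g⁻¹ * t * g) ^ p := by
      have := conj_pow (i := p) (a := g⁻¹) (b := t)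
      simpa using this.symm
    rwa [e]
  -- the commutators of `X` and `Q₀`
  set T := Z ⊔ B with hT
  have hTdec : ∀ {t : W}, t ∈ T → ∃ z ∈ Z, ∃ f ∈ B, z * f = t := fun ht =>
    exists_mul_of_mem_sup (le_normalizer_of_le_centralizer
      (le_centralizer_symm ((cen_le_centralizer E E).trans (centralizer_le ((hBC.trans inf_le_left).trans hQE))))) ht
  have hWcomm : ∀ {a c : W}, a ∈ W₀ → c ∈ W₀ → Commute a c := fun ha hc =>
    commute_of_le_centralizer (wP_abelian p _) ha hc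
  have hfixW : ∀ {w : W}, w ∈ W₀ → w ∈ B → w ∈ Z := fun {w} hw hwB => by
    obtain ⟨x, hx, hxQ⟩ := SetLike.not_le_iff_exists.mp h.last_not_le
    exact h0.mem_center_of_commute hw (hXE hx) hxQ (commute_of_le_centralizer hDX hwB.1 hx).symm
  have hXT : ∀ t ∈ Q₀, ∀ x ∈ X, ⁅x, t⁆ ∈ T := by
    intro t ht x hx
    obtain ⟨w, hw, e, he, hwe⟩ := hBdec (hQQ t ht x hx)
    rw [← hwe]
    refine mul_mem ?_ (mem_sup_right he)
    refine mem_sup_left ?_
    by_cases hxQ : x ∈ oP p (V 0)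
    · refine hfixW hw ?_
      have := mul_mem (hQab x hxQ t ht) (inv_mem he)
      rwa [← hwe, mul_inv_cancel_right] at this
    by_cases hp2 : p = 2
    · -- involutions invert their commutators
      have hxx : x * x = 1 := by
        have := (h.path.vr 1 (by omega)).wP_pow x hx
        rwa [hp2, pow_two] at this
      have hwB : ⁅w, x⁆ ∈ B := by
        have hxi : x⁻¹ = x := inv_eq_of_mul_eq_one_right hxx
        have k1 : x * ⁅x, t⁆ * x⁻¹ = ⁅x, t⁆⁻¹ := by
          simp only [commutatorElement_def, hxi, mul_inv_rev, inv_inv]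
          rw [show x * (x * t * x * t⁻¹) * x = (x * x) * t * x * t⁻¹ * x by group, hxx]
          group
        rw [← hwe] at k1
        have hww : w⁻¹ = w := inv_eq_of_mul_eq_one_right (by
          have := h0.wP_pow w hw; rwa [hp2, pow_two] at this)
        have hxe : Commute x e := (commute_of_le_centralizer hDX he.1 hx).symm
        have k2 : x * w * x⁻¹ * e = e⁻¹ * w := by
          rw [mul_inv_rev, hww] at k1
          calc x * w * x⁻¹ * e = x * w * (x⁻¹ * e) := by group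
            _ = x * w * (e * x⁻¹) := by rw [hxe.inv_left.eq]
            _ = x * (w * e) * x⁻¹ := by group
            _ = _ := k1
        have k3 : ⁅x, w⁆ = e⁻¹ * e⁻¹ := by
          have hew : Commute e w := commute_of_le_centralizer hBW0 he hw
          calc ⁅x, w⁆ = x * w * x⁻¹ * e * e⁻¹ * w⁻¹ := by rw [commutatorElement_def]; group
            _ = e⁻¹ * (w * e⁻¹) * w⁻¹ := by rw [k2]; group
            _ = e⁻¹ * (e⁻¹ * w) * w⁻¹ := by rw [hew.inv_left.eq]
            _ = _ := by group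
        rw [← commutatorElement_inv x w, k3]
        exact inv_mem (mul_mem (inv_mem he) (inv_mem he))
      exact h0.inj hq hw (hXE hx) hxQ (hBcent (mem_inf.mpr ⟨hwB, hq w hw x (hXE hx)⟩))
    · -- an element inverting `W₀`
      obtain ⟨τ, hτ, hinv⟩ := h0.exists_inverting hq
      have hδ : ∀ γ ∈ V 0, ∀ s ∈ Q₀, ⁅γ, s⁆ ∈ C₀ := by
        let K : Subgroup W :=
          { carrier := {γ | γ ∈ V 0 ∧ ∀ s ∈ Q₀, ⁅γ, s⁆ ∈ C₀}
            one_mem' := ⟨one_mem _, fun s _ => by simp⟩
            mul_mem' := fun {a b} ha hb => ⟨mul_mem ha.1 hb.1, fun s hs => by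
              rw [comm_mul_left]
              exact mul_mem ((mem_normalizer_iff.mp (hC₀n ha.1) _).mp (hb.2 s hs)) (ha.2 s hs)⟩
            inv_mem' := fun {a} ha => ⟨inv_mem ha.1, fun s hs => by
              have e : ⁅a⁻¹, s⁆ = a⁻¹ * ⁅a, s⁆⁻¹ * a := by simp only [commutatorElement_def]; group
              rw [e]
              have := (mem_normalizer_iff.mp (hC₀n (inv_mem ha.1)) _).mp (inv_mem (ha.2 s hs))
              rwa [inv_inv] at this⟩ }
        have : V 0 ≤ K := by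
          rw [← hgen]
          refine sup_le (sup_le (fun y hy => ⟨h0.le (hXE hy), fun s hs => hQQ s hs y hy⟩) ?_)
            (fun y hy => ⟨h0.le (hQE hy), fun s hs => hBC (hQab y hy s hs)⟩)
          intro y hy
          have hy' := mem_cj.mp hy
          refine ⟨by have := mul_mem (mul_mem hg (h0.le (hXE hy'))) (inv_mem hg); simpa [mul_assoc] using this,
            fun s hs => ?_⟩
          have hs' : g⁻¹ * s * g ∈ Q₀ := by rw [← mem_cj, hgQ]; exact hs
          have := conj_mem_cj (g := g) (hQQ _ hs' _ hy')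
          rw [hgC, cj_comm] at this
          simpa [mul_assoc] using this
        exact fun γ hγ => (this hγ).2
      have hxG : x ∈ V 0 := h0.le (hXE hx)
      -- a corrected element `t'`
      obtain ⟨v, hv, e1, he1, hve⟩ := hBdec (hδ τ hτ t ht)
      set z := v ^ ((p + 1) / 2) with hzdef
      have hzW : z ∈ W₀ := pow_mem hv _
      have hzz : z * z = v := by
        have hodd : Odd p := (Fact.out : p.Prime).odd_of_ne_two hp2
        obtain ⟨k, hk⟩ := hodd
        rw [hzdef, ← pow_add, show (p + 1) / 2 + (p + 1) / 2 = p + 1 by omega, pow_succ,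
          h0.wP_pow v hv, one_mul]
      set t' := z * t with ht'def
      have ht' : t' ∈ Q₀ := mul_mem (wP_le_oP p _ hzW) ht
      have hfB : ∀ {u : W}, u ∈ fixC (V 0) E → u ∈ B := fun hu => hCB hu
      have hτt' : ⁅τ, t'⁆ ∈ B := by
        have hvt : Commute z ⁅τ, t⁆ := (commute_of_le_centralizer
          ((inf_le_left : C₀ ≤ Q₀).trans (oP_le_centralizer_wP p _)) (hδ τ hτ t ht) hzW).symm
        rw [comm_mul_right, hvt.eq, mul_inv_cancel_right, ← hve, ← mul_assoc]
        refine mul_mem (hfB ?_) he1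
        have hc : fixC (V 0) E ≤ centralizer (W₀ : Set W) :=
          (inf_le_left.trans h0.center_le).trans (wP_abelian p _)
        have := hinv z hzW
        rw [commutatorElement_def, ← hzz, show τ * z * τ⁻¹ * z⁻¹ * (z * z) = τ * z * τ⁻¹ * z by group]
        exact this
      set N := V 0 ⊓ normalizer (B : Set W) with hNdef
      -- elements centralizing `W₀` modulo `B`
      let Nk : Subgroup W :=
        { carrier := {γ | γ ∈ V 0 ∧ ∀ u ∈ W₀, ⁅γ, u⁆ ∈ fixC (V 0) E}
          one_mem' := ⟨one_mem _, fun u _ => by simp⟩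
          mul_mem' := fun {a c} ha hc => ⟨mul_mem ha.1 hc.1, fun u hu => by
            rw [comm_mul_left]
            refine mul_mem ?_ (ha.2 u hu)
            have h4 := hc.2 u hu
            rw [(mem_centralizer_iff.mp h4.2 a ha.1), mul_inv_cancel_right]
            exact h4⟩
          inv_mem' := fun {a} ha => ⟨inv_mem ha.1, fun u hu => by
            have e : ⁅a⁻¹, u⁆ = a⁻¹ * ⁅a, u⁆⁻¹ * a := by simp only [commutatorElement_def]; group
            have h4 : ⁅a, u⁆⁻¹ ∈ fixC (V 0) E := inv_mem (ha.2 u hu)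
            rw [e, mul_assoc, ← (mem_centralizer_iff.mp h4.2 a ha.1), inv_mul_cancel_left]
            exact h4⟩ }
      have hfn : V 0 ≤ normalizer (fixC (V 0) E : Set W) :=
        (le_centralizer_symm inf_le_right).trans (centralizer_le_normalizer _)
      have hWn : ∀ {γ u : W}, γ ∈ V 0 → u ∈ W₀ → γ * u * γ⁻¹ ∈ W₀ := fun {γ u} hγ hu =>
        (mem_normalizer_iff.mp (h0.normalizer_wP hγ) u).mp hu
      have hNkn : V 0 ≤ normalizer (Nk : Set W) := by
        intro γ hγ
        refine mem_normalizer_of_cj_eq (eq_of_le_card ?_ (card_cj γ Nk).ge)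
        rintro _ ⟨a, ha, rfl⟩
        refine ⟨mul_mem (mul_mem hγ ha.1) (inv_mem hγ), fun u hu => ?_⟩
        have hu' : γ⁻¹ * u * γ ∈ W₀ := by
          have := hWn (inv_mem hγ) hu; rwa [inv_inv] at this
        have h4 := (mem_normalizer_iff.mp (hfn hγ) _).mp (ha.2 _ hu')
        rw [cj_comm] at h4
        simpa [mul_assoc] using h4
      have hNkE : Nk ⊓ E ≤ oP p (V 0) := by
        rintro y ⟨hy, hyE⟩
        by_contra hyQ
        refine h0.center_not_central ?_
        obtain ⟨k, hk, hok⟩ := h0.exists_opp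
        have h' := h0.cj_of_mem hk
        have hle : cen (GN.cj k E) (GN.cj k E) ≤ fixC (V 0) E := fun u hu => by
          have huZ : u ∈ Z := by
            refine h0.inj hq (h'.center_le hu) hyE hyQ ?_
            rw [← commutatorElement_inv y u]
            exact inv_mem (hy.2 u (h'.center_le hu)).2
          exact (h0.center_inf_eq h' hok).le (mem_inf.mpr ⟨huZ, hu⟩)
        exact absurd (hle.trans inf_le_right) h'.center_not_central
      have hy : ⁅τ, x⁆ ∈ Nk := by
        refine ⟨?_, fun u hu => ?_⟩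
        · rw [commutatorElement_def]
          exact mul_mem (mul_mem (mul_mem hτ hxG) (inv_mem hτ)) (inv_mem hxG)
        set u1 := x⁻¹ * u * x with hu1
        have hu1W : u1 ∈ W₀ := by
          have := hWn (inv_mem hxG) hu; rwa [inv_inv] at this
        set u2 := τ⁻¹ * u1 * τ with hu2
        have hu2W : u2 ∈ W₀ := by
          have := hWn (inv_mem hτ) hu1W; rwa [inv_inv] at this
        set u3 := x * u2 * x⁻¹ with hu3
        have hu3W : u3 ∈ W₀ := hWn hxG hu2W
        have a1 : u1 * u2 ∈ fixC (V 0) E := by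
          have := hinv u2 hu2W
          rwa [show τ * u2 * τ⁻¹ = u1 by rw [hu2]; group] at this
        have a2 : u * u3 ∈ fixC (V 0) E := by
          have := (mem_normalizer_iff.mp (hfn hxG) _).mp a1
          rwa [show x * (u1 * u2) * x⁻¹ = u * u3 by rw [hu3, hu1]; group] at this
        have a3 := hinv u3 hu3W
        have a4 : ⁅⁅τ, x⁆, u⁆ = (τ * u3 * τ⁻¹ * u3) * (u * u3)⁻¹ := by
          have hc : Commute u3⁻¹ u⁻¹ := ((hWcomm hu3W hu).inv_left).inv_right
          rw [mul_inv_rev, show τ * u3 * τ⁻¹ * u3 * (u3⁻¹ * u⁻¹) = τ * u3 * τ⁻¹ * u⁻¹ by group,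
            hu3, hu2, hu1]
          simp only [commutatorElement_def]; group
        rw [a4]
        exact mul_mem a3 (inv_mem a2)
      have hyt : ⁅⁅τ, x⁆, t'⁆ ∈ B := by
        refine h0.kill (N := Nk) (V := C₀) (B := B) (fun γ hγ => hγ.1) hNkn hNkE
          (fun γ hγ => hBn hγ.1) (fun γ hγ => hδ γ hγ.1 t' ht') ?_ ?_ ?_ ((inf_le_left.trans hQE).trans hBnE) _ hy
        · intro γ hγ c hc
          obtain ⟨u, hu, e2, he2, rfl⟩ := hBdec hc
          rw [comm_mul_right]
          refine mul_mem (hfB (hγ.2 u hu)) (hnB (hWE hu) ?_)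
          rw [commutatorElement_def]
          exact mul_mem ((mem_normalizer_iff.mp (hBn hγ.1) e2).mp he2) (inv_mem he2)
        · intro c hc
          obtain ⟨u, hu, e2, he2, rfl⟩ := hBdec hc
          rw [(commute_of_le_centralizer hBW0 he2 hu).symm.mul_pow, h0.wP_pow u hu, one_mul]
          exact pow_mem he2 p
        · exact fun γ _ hγQ => hQab γ hγQ t' ht'
      obtain ⟨v', hv', e3, he3, hve'⟩ := hBdec (hδ x hxG t' ht')
      -- compare `τ (x t' x⁻¹) τ⁻¹` in two ways
      have key : ⁅τ * x, t'⁆ = ⁅⁅τ, x⁆ * (x * τ), t'⁆ := by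
        congr 1; simp only [commutatorElement_def]; group
      rw [comm_mul_left, comm_mul_left, comm_mul_left x τ] at key
      have hcg1 : Cg B (τ * ⁅x, t'⁆ * τ⁻¹ * ⁅τ, t'⁆) v'⁻¹ := by
        rw [← hve']
        have a1 : Cg B (τ * v' * τ⁻¹) v'⁻¹ := by
          simpa [Cg] using hfB (hinv v' hv')
        have a2 : Cg B (τ * e3 * τ⁻¹ * ⁅τ, t'⁆) 1 :=
          cg_iff_mem.mpr (mul_mem ((mem_normalizer_iff.mp (hBn hτ) _).mp he3) hτt')
        have := a1.mul a2 (hBn (h0.le (hWE (hWn hτ hv'))))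
        simpa [mul_assoc] using this
      have hyG : ⁅τ, x⁆ ∈ V 0 := hy.1
      have hvy : Cg B (⁅τ, x⁆ * v' * ⁅τ, x⁆⁻¹) v' := by
        have := hfB (hy.2 v' hv')
        simpa [Cg, commutatorElement_def] using this
      have hcg2 : Cg B (⁅τ, x⁆ * (x * ⁅τ, t'⁆ * x⁻¹ * ⁅x, t'⁆) * ⁅τ, x⁆⁻¹ * ⁅⁅τ, x⁆, t'⁆) v' := by
        have a1 : Cg B (x * ⁅τ, t'⁆ * x⁻¹ * ⁅x, t'⁆) v' := by
          have b1 : Cg B (x * ⁅τ, t'⁆ * x⁻¹) 1 :=
            cg_iff_mem.mpr ((mem_normalizer_iff.mp (hBn hxG) _).mp hτt')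
          have b2 : Cg B ⁅x, t'⁆ v' := by
            rw [← hve']
            have := (Cg.refl v').mul (cg_iff_mem.mpr he3) (hBn (h0.le (hWE hv')))
            simpa using this
          have := b1.mul b2 (le_normalizer ((mem_normalizer_iff.mp (hBn hxG) _).mp hτt'))
          simpa using this
        have a2 := ((a1.conj (hBn hyG)).trans hvy).mul (cg_iff_mem.mpr hyt)
          (hBn (mul_mem (mul_mem hyG (mul_mem (mul_mem (mul_mem hxG (h0.le (hQE (hδ τ hτ t' ht').1)))
            (inv_mem hxG)) (h0.le (hQE (hδ x hxG t' ht').1)))) (inv_mem hyG)))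
        simpa using a2
      rw [← key] at hcg2
      have hv2 : v' * v' ∈ B := by
        have := (hcg2.symm.trans hcg1)
        simpa [Cg] using this
      have hv'B : v' ∈ B := by
        have hodd : Odd p := (Fact.out : p.Prime).odd_of_ne_two hp2
        obtain ⟨k, hk⟩ := hodd
        have := pow_mem hv2 (k + 1)
        rwa [← pow_two, ← pow_mul, show 2 * (k + 1) = p + 1 by omega, pow_succ, h0.wP_pow v' hv',
          one_mul] at this
      -- back to `t`
      have hxt : ⁅x, t⁆ = (z⁻¹ * ⁅x, z⁆⁻¹ * z) * (z⁻¹ * ⁅x, t'⁆ * z) := by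
        rw [ht'def, comm_mul_right]; group
      have hzT : ⁅x, z⁆ ∈ Z := by
        rw [← commutatorElement_inv z x]; exact inv_mem (hq z hzW x (hXE hx))
      have hxtT : ⁅x, t⁆ ∈ T := by
        rw [hxt]
        have hTn : z⁻¹ ∈ normalizer (T : Set W) := sup_normalizer
          (centralizer_le_normalizer _ ((le_centralizer_symm (cen_le_centralizer E E)) (inv_mem (hWE hzW))))
          (hBnE (inv_mem (hWE hzW)))
        refine mul_mem ?_ ?_
        · have := (mem_normalizer_iff.mp hTn _).mp (mem_sup_left (inv_mem hzT) : _ ∈ T)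
          rwa [inv_inv] at this
        · have hh : ⁅x, t'⁆ ∈ T := mem_sup_right (hve' ▸ mul_mem hv'B he3)
          have := (mem_normalizer_iff.mp hTn _).mp hh
          rwa [inv_inv] at this
      obtain ⟨z0, hz0, f, hf, hzf⟩ := hTdec hxtT
      have : z0⁻¹ * w ∈ B := by
        rw [← hwe] at hzf
        have : z0⁻¹ * w = f * e⁻¹ := by
          rw [eq_mul_inv_iff_mul_eq, mul_assoc, ← hzf, inv_mul_cancel_left]
        rw [this]; exact mul_mem hf (inv_mem he)
      have := hfixW (mul_mem (inv_mem (h0.center_le hz0)) hw) this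
      simpa using mul_mem hz0 this
  -- the bound
  have hEdec : ∀ {e : W}, e ∈ E → ∃ x ∈ X, ∃ q ∈ Q₀, x * q = e := by
    intro e he
    rw [hE, ← h.sup_eq, ← SetLike.mem_coe, coe_mul_of_left_le_normalizer_right _ _
      ((hXE.trans h0.le).trans (le_normalizer_oP p _))] at he
    exact he
  have hTE : T ≤ E := sup_le (cen_le E E) ((hBC.trans inf_le_left).trans hQE)
  have hTn : E ≤ normalizer (T : Set W) := fun e he => sup_normalizer
    (centralizer_le_normalizer _ ((le_centralizer_symm (cen_le_centralizer E E)) he)) (hBnE he)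
  have hTeB : ∀ {t e : W}, t ∈ T → e ∈ E → ⁅t, e⁆ ∈ B := by
    intro t e ht he
    obtain ⟨z, hz, f, hf, rfl⟩ := hTdec ht
    have hze : ⁅f, e⁆ ∈ B := by
      rw [commutatorElement_def, show f * e * f⁻¹ * e⁻¹ = f * (e * f⁻¹ * e⁻¹) by group]
      exact mul_mem hf (hnB he (inv_mem hf))
    rw [comm_mul_left, comm_eq_one_of_commute (commute_of_le_centralizer (cen_le_centralizer E E) hz he), mul_one]
    exact hnB (cen_le E E hz) hze
  have hcomm' : ∀ {x q : W}, x ∈ X → q ∈ Q₀ → ⁅q, x⁆ ∈ T := fun {x q} hx hq' => by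
    rw [← commutatorElement_inv x q]; exact inv_mem (hXT q hq' x hx)
  have hxqn : ∀ {e : W}, e ∈ E → ∀ {c : W}, c ∈ T → e * c * e⁻¹ ∈ T := fun {e} he {c} hc =>
    (mem_normalizer_iff.mp (hTn he) c).mp hc
  have hpw : ∀ {x q : W}, x ∈ X → q ∈ Q₀ → ∃ m ∈ B, ∃ z ∈ T, (x * q) ^ p = z * m ∧ (p ≠ 2 → z ∈ B) := by
    intro x q hx hq'
    have hT' := hcomm' hx hq'
    have hca : ⁅x, ⁅q, x⁆⁆ ∈ B := by
      rw [← commutatorElement_inv ⁅q, x⁆ x]; exact inv_mem (hTeB hT' (hXE hx))
    have hcb : ⁅q, ⁅q, x⁆⁆ ∈ B := by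
      rw [← commutatorElement_inv ⁅q, x⁆ q]; exact inv_mem (hTeB hT' (hQE hq'))
    obtain ⟨m, hm, e⟩ := mul_pow_mod (hBnE (hXE hx)) (hBnE (hQE hq')) hca hcb p
    refine ⟨m, hm, q ^ p * ⁅q, x⁆ ^ p.choose 2, mul_mem (mem_sup_right (hQpow q hq')) (pow_mem hT' _),
      by rw [e, (h.path.vr 1 (by omega)).wP_pow x hx, one_mul], fun hp2 => ?_⟩
    refine mul_mem (hQpow q hq') ?_
    obtain ⟨z, hz, f, hf, hzf⟩ := hTdec hT'
    obtain ⟨i, hi⟩ := (Fact.out : p.Prime).dvd_choose_self two_ne_zero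
      (lt_of_le_of_ne (Fact.out : p.Prime).two_le (Ne.symm hp2))
    rw [hi, ← hzf, (commute_of_le_centralizer (cen_le_centralizer E E) hz
      (hQE (hBC hf).1)).mul_pow, pow_mul, hN.center_pow z hz, one_pow, one_mul]
    exact pow_mem hf _
  have hsz : sZero p E ≤ B := by
    refine sZero_le_of (T := T) (p := p) hN.pgrp hTE ?_ ?_ ?_ ?_ ?_ hBnE
    · refine phi_le_of (p := p) (fun a ha c hc => ?_) (fun a ha => ?_)
      · obtain ⟨x, hx, q, hq', rfl⟩ := hEdec ha
        obtain ⟨x', hx', q', hq'', rfl⟩ := hEdec hc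
        rw [comm_mul_left, comm_mul_right q, comm_mul_right x,
          comm_eq_one_of_commute (commute_of_le_centralizer (wP_abelian p _) hx hx')]
        have t1 : ⁅q, x'⁆ * (x' * ⁅q, q'⁆ * x'⁻¹) ∈ T :=
          mul_mem (hcomm' hx' hq') (mem_sup_right (hnB (hXE hx') (hQab q hq' q' hq'')))
        rw [one_mul]
        exact mul_mem (hxqn (hXE hx) t1) (hxqn (hXE hx') (hXT q' hq'' x hx))
      · obtain ⟨x, hx, q, hq', rfl⟩ := hEdec ha
        obtain ⟨m, hm, z, hz, e, -⟩ := hpw hx hq'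
        rw [e]; exact mul_mem hz (mem_sup_right hm)
    · refine phi_le_of (p := p) (fun a ha c hc => hTeB ha (hTE hc)) (fun a ha => ?_)
      obtain ⟨z, hz, f, hf, rfl⟩ := hTdec ha
      rw [(commute_of_le_centralizer (cen_le_centralizer E E) hz (hQE (hBC hf).1)).mul_pow,
        hN.center_pow z hz, one_mul]
      exact pow_mem hf p
    · exact fun _ t ht e he => hTeB ht he
    · exact fun _ t ht e he e' he' => hTeB (mem_sup_right (hTeB ht he)) he'
    · intro hp2 _ e he
      obtain ⟨x, hx, q, hq', rfl⟩ := hEdec he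
      obtain ⟨m, hm, z, hz, e', hz'⟩ := hpw hx hq'
      rw [e']; exact mul_mem (hz' hp2) hm
  exact h.bad ((le_inf (inf_le_right.trans hsz) inf_le_left).trans hBcent)

end Cfsg.Agent.H73.GN
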