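import Mathlib
import Cfsg.Agent.H73.GN.TwoAbs

/-!
Length two: extending a shortest noncommuting path to the left, and the decomposition `E = P D`.
-/

set_option autoImplicit false

namespace Cfsg.Agent.H73.GN

open Subgroup
open scoped commutatorElement

variable {W : Type*} [Group W] [Finite W] {p : ℕ} [Fact p.Prime] {V Ed : ℕ → Subgroup W}

theorem Mem.exists_mul {E H K : Subgroup W} (hN : Nice p E) (hH : Mem E H) (hK : Mem E K) {x : W}
    (hx : x ∈ H ⊔ K) : ∃ a ∈ H, ∃ c ∈ K, a * c = x := by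
  rw [← SetLike.mem_coe, H75.coe_sup_eq_mul_of_card_eq (hH.card_sup hN hK).symm] at hx
  exact hx

/-- The left extension is again a shortest noncommuting path. -/
theorem Crit.extend (h : Crit p 2 V Ed) {g : W} (hg : g ∈ V 0)
    (ho : Opp (V 0) (Ed 1) (GN.cj g (Ed 1))) :
    Crit p 2 (consV (GN.cj g (V 1)) V) (consE (GN.cj g (Ed 1)) Ed) := by
  have h1 : Vx p (GN.cj g (V 1)) (GN.cj g (Ed 1)) := h.vx1.cj g
  have h0 : Vx p (V 0) (GN.cj g (Ed 1)) := h.vx0.cj_of_mem hg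
  refine ⟨(h.path.take (n' := 1) (by omega)).cons h1 h0 (fun _ => ho.symm), h.below, h.pos, ?_⟩
  intro hc
  refine h.not_absorbed ?_
  have hn := h.ext_normal le_rfl h1 h0 ho.symm (by simpa [consV] using hc)
  have e : wP p (V 0) ⊔ wP p (GN.cj g (V 1)) = GN.cj g (wP p (V 0) ⊔ wP p (V 1)) := by
    rw [wP_cj, cj_sup, cj_eq_of_mem_normalizer (h.vx0.normalizer_wP hg)]
  rw [e] at hn
  intro x hx
  have := mem_normalizer_cj (g := g⁻¹) (hn (mul_mem (mul_mem hg hx) (inv_mem hg)))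
  rw [cj_inv_cj] at this
  simpa [mul_assoc] using this

/-- The middle vertex satisfies `[W₁, E] ≤ Z(E)`. -/
theorem Crit.nat2_mid (h : Crit p 2 V Ed) : Nat2 p (V 1) (Ed 1) := by
  obtain ⟨g, hg, ho⟩ := h.vx0.exists_opp
  have h2 : Nat2 p (GN.cj g (V 1)) (GN.cj g (Ed 1)) := (h.extend hg ho).nat2
  have := h2.cj g⁻¹
  rwa [cj_inv_cj, cj_inv_cj] at this

theorem Crit.comm_central_mid (h : Crit p 2 V Ed) :
    ⁅wP p (V 1), Ed 1⁆ ≤ centralizer (V 0 : Set W) :=
  (h.adj le_rfl).symm.comm_central h.nat2_mid fun hn => h.not_absorbed (by rwa [sup_comm])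

/-- The subgroup generated by the four consecutive `W`s. -/
def four (p : ℕ) (V : ℕ → Subgroup W) (g : W) : Subgroup W :=
  (wP p (GN.cj g (V 1)) ⊔ wP p (V 0)) ⊔ (wP p (V 1) ⊔ wP p (V 2))

/-- The decomposition `E = P D`. -/
theorem Crit.decomp (h : Crit p 2 V Ed) {g : W} (hg : g ∈ V 0)
    (ho : Opp (V 0) (Ed 1) (GN.cj g (Ed 1))) :
    four p V g ≤ Ed 1 ∧
    cen (Ed 1) (four p V g) ≤ oP p (V 0) ⊓ oP p (V 1) ∧
    four p V g ⊓ (oP p (V 0) ⊓ oP p (V 1)) = wP p (V 0) ⊔ wP p (V 1) ∧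
    (∀ e ∈ Ed 1, ∃ u ∈ four p V g, ∃ d ∈ cen (Ed 1) (four p V g), u * d = e) ∧
    four p V g ⊓ oP p (V 1) ≤ wP p (V 0) ⊔ (wP p (V 1) ⊔ wP p (V 2)) ∧
    (∀ u ∈ four p V g, ∃ a ∈ wP p (GN.cj g (V 1)), ∃ c ∈ wP p (V 0),
      ∃ w ∈ wP p (V 1), ∃ x ∈ wP p (V 2), u = a * c * (w * x)) := by
  have hC := h.extend hg ho
  have h0 := h.vx0
  have h1 := h.vx1
  have hN := h0.nice
  have hadj := h.adj le_rfl
  set E := Ed 1 with hE
  set Wm := wP p (GN.cj g (V 1)) with hWm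
  set W₀ := wP p (V 0) with hW₀
  set W₁ := wP p (V 1) with hW₁
  set X := wP p (V 2) with hX
  set Q₀ := oP p (V 0) with hQ₀
  set Q₁ := oP p (V 1) with hQ₁
  set P := four p V g with hP
  set C₀ := Q₀ ⊓ Q₁ with hC₀
  obtain ⟨hXm, hXc⟩ := h.mem_right
  have hL : Mem E (W₀ ⊔ Wm) ∧ cen E (W₀ ⊔ Wm) = Q₀ ⊓ oP p (GN.cj g (V 1)) :=
    hC.rev.mem_right
  have hLm : Mem E (Wm ⊔ W₀) := by rw [sup_comm]; exact hL.1
  have hLc : cen E (Wm ⊔ W₀) ≤ Q₀ := by rw [sup_comm, hL.2]; exact inf_le_left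
  have hPm : Mem E P := hLm.sup hN hXm
  have hDC : cen E P ≤ C₀ := by
    rw [hP, four, GN.cen_sup]
    refine le_inf (inf_le_left.trans hLc) (inf_le_right.trans ?_)
    rw [hXc]; exact inf_le_left
  have hWmQ : Wm ≤ Q₀ := by
    have := hC.path.le_oP hC.below (i := 0) (j := 1) (by omega) (by omega) (by omega)
    simpa [consV] using this
  have hXQ : X ≤ Q₁ := h.path.le_oP' h.below (by omega) le_rfl (by omega)
  have hW₁Q : W₁ ≤ Q₀ := hadj.right_le
  have hfour : ∀ u ∈ P, ∃ a ∈ Wm, ∃ c ∈ W₀, ∃ w ∈ W₁, ∃ x ∈ X, u = a * c * (w * x) := by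
    intro u hu
    obtain ⟨m, hm, q, hq, rfl⟩ := hLm.exists_mul hN hXm hu
    have hn1 : W₀ ≤ normalizer (Wm : Set W) := by
      have := hC.comm_mid (i := 0) (j := 1) (by omega) (by omega) (by omega)
      exact le_normalizer_of_le_centralizer (le_centralizer_symm this)
    obtain ⟨a, ha, c, hc, rfl⟩ := exists_mul_of_mem_sup hn1 hm
    have hn2 : X ≤ normalizer (W₁ : Set W) := by
      have := h.comm_mid (i := 1) (j := 2) (by omega) (by omega) (by omega)
      exact le_normalizer_of_le_centralizer (le_centralizer_symm this)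
    obtain ⟨w, hw, x, hx, rfl⟩ := exists_mul_of_mem_sup hn2 hq
    exact ⟨a, ha, c, hc, w, hw, x, hx, rfl⟩
  have hUP : W₀ ⊔ W₁ ≤ P :=
    sup_le (le_sup_right.trans le_sup_left) (le_sup_left.trans le_sup_right)
  have haZ : ∀ {a : W}, a ∈ Wm → a ∈ Q₁ → a ∈ W₀ := by
    intro a ha haQ
    have h2 : Vx p (V 0) (GN.cj g E) := h0.cj_of_mem hg
    refine h2.center_le ?_
    have := hC.rev.last_inf
    simp only [consV, Nat.sub_self, Nat.sub_zero] at this
    exact this.le (mem_inf.mpr ⟨ha, haQ⟩)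
  have hxZ : ∀ {x : W}, x ∈ X → x ∈ Q₀ → x ∈ W₁ := by
    intro x hx hxQ
    refine (h.path.vl 1 (by omega)).center_le ?_
    exact h.last_inf.le (mem_inf.mpr ⟨hx, hxQ⟩)
  have hU : P ⊓ C₀ = W₀ ⊔ W₁ := by
    refine le_antisymm ?_ (le_inf hUP (le_inf (sup_le (wP_le_oP p _) hW₁Q) hadj.sup_le_oP))
    intro y hy
    obtain ⟨hyP, hy0, hy1⟩ := mem_inf.mp hy |>.imp id mem_inf.mp
    obtain ⟨a, ha, c, hc, w, hw, x, hx, rfl⟩ := hfour y hyP
    have hwx1 : w * x ∈ Q₁ := mul_mem (wP_le_oP p _ hw) (hXQ hx)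
    have hac1 : a * c ∈ Q₁ := (mul_mem_cancel_right hwx1).mp hy1
    have hac0 : a * c ∈ Q₀ := mul_mem (hWmQ ha) (wP_le_oP p _ hc)
    have hwx0 : w * x ∈ Q₀ := (mul_mem_cancel_left hac0).mp hy0
    have ha1 : a ∈ Q₁ := (mul_mem_cancel_right (hadj.left_le hc)).mp hac1
    have hx0 : x ∈ Q₀ := (mul_mem_cancel_left (hW₁Q hw)).mp hwx0
    exact mul_mem (mem_sup_left (mul_mem (haZ ha ha1) hc)) (mem_sup_right (mul_mem hw (hxZ hx hx0)))
  have hC₀m : Mem E C₀ := by
    have := (hadj.mem_sup.centralizer hN).1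
    rwa [hadj.cen_sup] at this
  have hC₀eq : C₀ = cen E P ⊔ (W₀ ⊔ W₁) := by
    have := hPm.cen_inf hN hC₀m
    rw [hU, hadj.cen_sup, hadj.cen_inf_oP] at this
    exact this
  have hPD : P ⊓ cen E P = cen E E := by
    refine le_antisymm ?_ (le_inf (h0.center_le.trans (le_sup_left.trans hUP))
      (cen_self_le E hPm.le))
    intro y hy
    obtain ⟨hyP, hyD⟩ := mem_inf.mp hy
    have hyU : y ∈ W₀ ⊔ W₁ := hU.le (mem_inf.mpr ⟨hyP, hDC hyD⟩)
    obtain ⟨c, hc, w, hw, rfl⟩ := hadj.mem_mul hyU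
    have hcP : ∀ {u : W}, u ∈ P → Commute (c * w) u := fun hu =>
      commute_of_le_centralizer (cen_le_centralizer E P) hyD hu
    refine mul_mem ?_ ?_
    · obtain ⟨x, hx, hxQ⟩ := SetLike.not_le_iff_exists.mp h.last_not_le
      refine h0.mem_center_of_commute hc (h.last_le hx) hxQ ?_
      have c1 : Commute x (c * w) := (hcP (mem_sup_right (mem_sup_right hx))).symm
      have c2 : Commute x w⁻¹ := ((commute_of_le_centralizer
        (h.comm_mid (i := 1) (j := 2) (by omega) le_rfl (by omega)) hw hx).symm).inv_right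
      have := c1.mul_right c2
      rwa [mul_inv_cancel_right] at this
    · obtain ⟨a, ha, haQ⟩ := SetLike.not_le_iff_exists.mp hC.rev.last_not_le
      have haE : a ∈ E := hC.rev.last_le ha
      refine h1.mem_center_of_commute hw haE haQ ?_
      have c1 : Commute a (c * w) := (hcP (mem_sup_left (mem_sup_left ha))).symm
      have c2 : Commute a c⁻¹ := (commute_of_le_centralizer
        (hC.comm_mid (i := 0) (j := 1) (by omega) (by omega) (by omega)) ha hc).inv_right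
      have := c2.mul_right c1
      rwa [inv_mul_cancel_left] at this
  have hEeq : E = P ⊔ cen E P := by
    have hDm := (hPm.centralizer hN)
    have := hPm.cen_inf hN hDm.1
    rw [hPD, hDm.2, ((top_mem E).centralizer hN).2, sup_comm] at this
    exact this
  refine ⟨hPm.le, hDC, hU, fun e he => ?_, ?_, hfour⟩
  · exact exists_mul_of_mem_sup (le_normalizer_of_le_centralizer (cen_le_centralizer E P))
      (hEeq ▸ he)
  · intro y hy
    obtain ⟨hyP, hy1⟩ := mem_inf.mp hy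
    obtain ⟨a, ha, c, hc, w, hw, x, hx, rfl⟩ := hfour y hyP
    have hwx1 : w * x ∈ Q₁ := mul_mem (wP_le_oP p _ hw) (hXQ hx)
    have hac1 : a * c ∈ Q₁ := (mul_mem_cancel_right hwx1).mp hy1
    have ha1 : a ∈ Q₁ := (mul_mem_cancel_right (hadj.left_le hc)).mp hac1
    exact mul_mem (mem_sup_left (mul_mem (haZ ha ha1) hc))
      (mem_sup_right (mul_mem (mem_sup_left hw) (mem_sup_right hx)))

end Cfsg.Agent.H73.GN
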