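import Mathlib
import Cfsg.Agent.H73.GN.TwoExt

/-!
Length two: the lines `W₀W₁` and `W₁W₂` at the middle vertex.
-/

set_option autoImplicit false

namespace Cfsg.Agent.H73.GN

open Subgroup
open scoped commutatorElement

variable {W : Type*} [Group W] [Finite W] {p : ℕ} [Fact p.Prime]

theorem Adj.mem_inf_iff {G₀ G₁ E : Subgroup W} (h : Adj p G₀ G₁ E) {n y : W}
    (hn : n ∈ wP p G₀ ⊔ wP p G₁) (hn1 : n ∉ wP p G₁) :
    y ∈ oP p G₀ ⊓ oP p G₁ ↔ y ∈ oP p G₁ ∧ Commute y n := by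
  refine ⟨fun hy => ⟨hy.2, ?_⟩, fun hy => mem_inf.mpr ⟨h.mem_oP_of_commute hn hn1 hy.1 hy.2, hy.1⟩⟩
  refine commute_of_le_centralizer ?_ hy hn
  rw [← h.cen_sup]; exact cen_le_centralizer _ _

theorem Adj.sup_eq_inf_centralizer {G₀ G₁ E : Subgroup W} (h : Adj p G₀ G₁ E) :
    wP p G₀ ⊔ wP p G₁ = oP p G₁ ⊓ centralizer ((oP p G₀ ⊓ oP p G₁ : Subgroup W) : Set W) := by
  rw [← h.cen_inf_oP]
  refine le_antisymm (le_inf ?_ (cen_le_centralizer _ _))
    (le_cen (inf_le_left.trans h.h1.oP_le_E) inf_le_right)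
  rw [h.cen_inf_oP]
  exact h.sup_le_oP

/-- Two such lines with a common point outside `W₁` are equal. -/
theorem Adj.eq_of_mem {G₀ G₂ G₁ E E' : Subgroup W} (h : Adj p G₀ G₁ E) (h' : Adj p G₂ G₁ E') {d n : W}
    (hd : d ∈ G₁) (hn : n ∈ wP p G₀ ⊔ wP p G₁) (hn1 : n ∉ wP p G₁)
    (hn' : n ∈ GN.cj d (wP p G₂ ⊔ wP p G₁)) :
    wP p G₀ ⊔ wP p G₁ = GN.cj d (wP p G₂ ⊔ wP p G₁) := by
  have hQ : GN.cj d (oP p G₁) = oP p G₁ := cj_eq_of_mem_normalizer (le_normalizer_oP p _ hd)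
  have hW : GN.cj d (wP p G₁) = wP p G₁ := cj_eq_of_mem_normalizer (h.h1.normalizer_wP hd)
  have hm := mem_cj.mp hn'
  have hm1 : d⁻¹ * n * d ∉ wP p G₁ := fun hc => hn1 (by rw [← hW, mem_cj]; exact hc)
  have hC : oP p G₀ ⊓ oP p G₁ = GN.cj d (oP p G₂ ⊓ oP p G₁) := by
    ext y
    rw [mem_cj, h.mem_inf_iff hn hn1, h'.mem_inf_iff hm hm1]
    refine and_congr (by rw [← mem_cj, hQ]) ?_
    have := (Commute.conj_iff (a := y) (b := n) d⁻¹)
    rw [inv_inv] at this
    exact this.symm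
  rw [h.sup_eq_inf_centralizer, h'.sup_eq_inf_centralizer, cj_inf, cj_centralizer, hQ, hC]

variable {V Ed : ℕ → Subgroup W}

/-- Commutators of `E` with `W₁W₂` lie in `W₀W₁`. -/
theorem Crit.act_mem (h : Crit p 2 V Ed) :
    ∀ e ∈ Ed 1, ∀ n ∈ wP p (V 1) ⊔ wP p (V 2), ⁅e, n⁆ ∈ wP p (V 0) ⊔ wP p (V 1) := by
  obtain ⟨g, hg, ho⟩ := h.vx0.exists_opp
  obtain ⟨hPE, -, hU, hdec, -, -⟩ := h.decomp hg ho
  intro e he n hn
  obtain ⟨u, hu, d, hd, rfl⟩ := hdec e he
  have hnP : n ∈ four p V g := mem_sup_right hn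
  have hnE : n ∈ Ed 1 := hPE hnP
  rw [comm_mul_left_of_commute (commute_of_le_centralizer (cen_le_centralizer _ _) hd hnP)]
  refine hU.le (mem_inf.mpr ⟨?_, mem_inf.mpr ⟨?_, ?_⟩⟩)
  · rw [commutatorElement_def]
    exact mul_mem (mul_mem (mul_mem hu hnP) (inv_mem hu)) (inv_mem hnP)
  · exact h.vx0.comm_mem u (hPE hu) n hnE
  · exact h.vx1.comm_mem u (hPE hu) n hnE

theorem Crit.sup_normalized (h : Crit p 2 V Ed) :
    Ed 1 ≤ normalizer ((wP p (V 0) ⊔ wP p (V 1) : Subgroup W) : Set W) := fun _ hx =>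
  sup_normalizer (h.vx0.normalizer_wP (h.vx0.le hx)) (h.vx1.normalizer_wP (h.vx1.le hx))

/-- The subgroup `Y = W₀W₁W₂`. -/
def three (p : ℕ) (V : ℕ → Subgroup W) : Subgroup W :=
  (wP p (V 0) ⊔ wP p (V 1)) ⊔ (wP p (V 1) ⊔ wP p (V 2))

theorem Crit.three_le (h : Crit p 2 V Ed) : three p V ≤ oP p (V 1) :=
  sup_le (h.adj le_rfl).sup_le_oP (sup_le (wP_le_oP p _) (h.rev.adj le_rfl).left_le)

theorem Crit.right_normalizer_left (h : Crit p 2 V Ed) :
    wP p (V 1) ⊔ wP p (V 2) ≤ normalizer ((wP p (V 0) ⊔ wP p (V 1) : Subgroup W) : Set W) :=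
  (sup_le h.vx1.wP_le_E h.last_le).trans h.sup_normalized

theorem Crit.three_normalized (h : Crit p 2 V Ed) :
    Ed 1 ≤ normalizer (three p V : Set W) := by
  intro e he
  refine mem_normalizer_of_cj_eq (eq_of_le_card ?_ (card_cj e _).ge)
  rw [three, cj_sup]
  refine sup_le ((cj_eq_of_mem_normalizer (h.sup_normalized he)).le.trans le_sup_left) ?_
  intro y hy
  rw [mem_cj] at hy
  have hy' : y = ⁅e, e⁻¹ * y * e⁆ * (e⁻¹ * y * e) := by simp only [commutatorElement_def]; group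
  rw [hy']
  exact mul_mem (mem_sup_left (h.act_mem e he _ hy)) (mem_sup_right hy)

theorem Crit.three_rev (_h : Crit p 2 V Ed) : three p (fun i => V (2 - i)) = three p V := by
  show (wP p (V 2) ⊔ wP p (V 1)) ⊔ (wP p (V 1) ⊔ wP p (V 0)) = _
  rw [three]; ac_rfl

theorem Crit.three_normal (h : Crit p 2 V Ed) : V 1 ≤ normalizer (three p V : Set W) := by
  have ho : Opp (V 1) (Ed 1) (Ed 2) := h.path.opp 0 (by omega)
  have h2 : Ed 2 ≤ normalizer (three p (fun i => V (2 - i)) : Set W) := h.rev.three_normalized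
  rw [h.three_rev] at h2
  exact ho.ge.trans (sup_le h.three_normalized h2)

/-- `Y` is abelian modulo central elements. -/
theorem Crit.three_comm (h : Crit p 2 V Ed) :
    ∀ x ∈ three p V, ∀ y ∈ three p V, ⁅x, y⁆ ∈ fixC (V 1) (Ed 1) := by
  set F := fixC (V 1) (Ed 1) with hF
  set U := wP p (V 0) ⊔ wP p (V 1) with hU
  set U' := wP p (V 1) ⊔ wP p (V 2) with hU'
  have hF1 : ∀ {f : W}, f ∈ F → ∀ {g : W}, g ∈ V 1 → g * f * g⁻¹ = f := fun {f} hf {g} hg =>
    mul_inv_eq_iff_eq_mul.mpr (mem_centralizer_iff.mp hf.2 g hg)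
  have hR : ∀ a ∈ wP p (V 0), ∀ e ∈ Ed 1, ⁅a, e⁆ ∈ F := fun a ha e he =>
    mem_inf.mpr ⟨h.nat2 a ha e he, h.comm_central le_rfl (commutator_mem_commutator ha he)⟩
  have h12 : wP p (V 1) ≤ centralizer (wP p (V 2) : Set W) :=
    h.comm_mid (i := 1) (j := 2) (by omega) le_rfl (by omega)
  have hUU' : ∀ l ∈ U, ∀ n ∈ U', ⁅l, n⁆ ∈ F := by
    intro l hl n hn
    obtain ⟨c, hc, w, hw, rfl⟩ := (h.adj le_rfl).mem_mul hl
    have hcw : Commute w n := by
      refine (commute_of_le_centralizer (K := wP p (V 1)) ?_ hn hw).symm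
      exact sup_le (wP_abelian p _) (le_centralizer_symm h12)
    rw [comm_mul_left_of_commute hcw]
    exact hR c hc n (sup_le h.vx1.wP_le_E h.last_le hn)
  have hab : U ≤ centralizer (U : Set W) := (h.adj le_rfl).sup_abelian
  have hab' : U' ≤ centralizer (U' : Set W) :=
    sup_le_centralizer_self (wP_abelian p _) (wP_abelian p _) h12
  intro x hx y hy
  obtain ⟨l, hl, n, hn, rfl⟩ := exists_mul_of_mem_sup h.right_normalizer_left hx
  obtain ⟨l', hl', n', hn', rfl⟩ := exists_mul_of_mem_sup h.right_normalizer_left hy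
  have hU1 : U ≤ V 1 := ((h.adj le_rfl).sup_le_oP).trans (oP_le p _)
  have e1 : ⁅n, l' * n'⁆ ∈ F := by
    rw [comm_mul_right, comm_eq_one_of_commute (commute_of_le_centralizer hab' hn hn'), mul_one,
      mul_inv_cancel, mul_one, ← commutatorElement_inv l' n]
    exact inv_mem (hUU' l' hl' n hn)
  have e2 : ⁅l, l' * n'⁆ ∈ F := by
    rw [comm_mul_right, comm_eq_one_of_commute (commute_of_le_centralizer hab hl hl'), one_mul,
      hF1 (hUU' l hl n' hn') (hU1 hl')]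
    exact hUU' l hl n' hn'
  rw [comm_mul_left, hF1 e1 (hU1 hl)]
  exact mul_mem e1 e2

/-- The line data at the middle vertex. -/
theorem Crit.lineU (h : Crit p 2 V Ed) :
    LineData p (V 1) (Ed 1) (Ed 2) (wP p (V 0) ⊔ wP p (V 1)) (wP p (V 1) ⊔ wP p (V 2))
      (wP p (V 1)) := by
  have ho : Opp (V 1) (Ed 1) (Ed 2) := h.path.opp 0 (by omega)
  have hadj := h.adj le_rfl
  have hadj' : Adj p (V 2) (V 1) (Ed 2) := h.rev.adj le_rfl
  have h2 : Vx p (V 1) (Ed 2) := h.path.vl 1 (by omega)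
  have hn2 : Ed 2 ≤ normalizer ((wP p (V 1) ⊔ wP p (V 2) : Subgroup W) : Set W) := by
    have : Ed 2 ≤ normalizer ((wP p (V 2) ⊔ wP p (V 1) : Subgroup W) : Set W) := h.rev.sup_normalized
    rwa [sup_comm] at this
  have hnot' : ¬ V 1 ≤ normalizer ((wP p (V 1) ⊔ wP p (V 2) : Subgroup W) : Set W) := by
    rw [sup_comm]; exact h.rev.not_normalizer le_rfl
  have key : ∀ {E : Subgroup W} {U : Subgroup W} {d : W}, E ≤ normalizer (U : Set W) →
      GN.cj d E ≤ normalizer (GN.cj d U : Set W) := by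
    intro E U d hn x hx
    have := mem_normalizer_cj (g := d) (hn (mem_cj.mp hx))
    simpa [mul_assoc] using this
  refine
    { v := h.vx1, v' := h2, opp := ho, nE := h.sup_normalized, nE' := hn2
      abC := ⟨le_sup_right, le_sup_left⟩, nC := h.vx1.normalizer_wP, nM := h.three_normal
      comm := fun x hx y hy => h.vx1.center_le (h.three_comm x hx y hy).1
      act := fun n hn a ha => h.act_mem a ha n hn, act' := ?_, sep := ?_, sep' := ?_, cross := ?_ }
  · intro l hl b hb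
    have hl' : l ∈ wP p (V 1) ⊔ wP p (V 0) := by rwa [sup_comm]
    have : ⁅b, l⁆ ∈ wP p (V 2) ⊔ wP p (V 1) := h.rev.act_mem b hb l hl'
    rwa [sup_comm] at this
  · intro d hd hod n hn
    by_contra hn1
    have e := hadj.eq_of_mem hadj hd hn.1 hn1 hn.2
    refine h.not_normalizer le_rfl (hod.ge.trans (sup_le h.sup_normalized ?_))
    have := key (d := d) h.sup_normalized
    rwa [← e] at this
  · intro d hd hod n hn
    by_contra hn1
    have hm1 : n ∈ wP p (V 2) ⊔ wP p (V 1) := by rw [sup_comm]; exact hn.1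
    have hm2 : n ∈ GN.cj d (wP p (V 2) ⊔ wP p (V 1)) := by rw [sup_comm]; exact hn.2
    have e := hadj'.eq_of_mem hadj' hd hm1 hn1 hm2
    rw [sup_comm (wP p (V 2))] at e
    refine hnot' (hod.ge.trans (sup_le hn2 ?_))
    have := key (d := d) hn2
    rwa [← e] at this
  · intro d hd hod n hn
    by_contra hn1
    have hm2 : n ∈ GN.cj d (wP p (V 2) ⊔ wP p (V 1)) := by rw [sup_comm]; exact hn.2
    have e := hadj.eq_of_mem hadj' hd hn.1 hn1 hm2
    rw [sup_comm (wP p (V 2))] at e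
    refine h.not_normalizer le_rfl (hod.ge.trans (sup_le h.sup_normalized ?_))
    have := key (d := d) hn2
    rwa [← e] at this

theorem Crit.card_last_eq_first (h : Crit p 2 V Ed) :
    Nat.card (wP p (V 2)) = Nat.card (wP p (V 0)) := by
  have e1 := card_sup_mul_inf (H := wP p (V 2)) (K := oP p (V 0))
    ((h.last_le.trans h.vx0.le).trans (le_normalizer_oP p _))
  rw [h.last_inf, h.sup_eq, h.card_edge_last.2] at e1
  rw [← h.vx0.card_mul] at e1
  exact (Nat.eq_of_mul_eq_mul_right Nat.card_pos e1).symm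

/-- `|W₂| = |W₁|`. -/
theorem Crit.card_last_eq (h : Crit p 2 V Ed) :
    Nat.card (wP p (V 2)) = Nat.card (wP p (V 1)) := by
  have key : ∀ {V Ed : ℕ → Subgroup W}, Crit p 2 V Ed →
      Nat.card (wP p (V 1)) ≤ Nat.card (wP p (V 2)) := by
    intro V Ed h
    have hne : ¬ wP p (V 0) ⊔ wP p (V 1) ≤ wP p (V 1) := fun hle => h.ne
      ((le_sup_left.trans hle).trans (h.comm_mid (i := 1) (j := 2) (by omega) le_rfl (by omega)))
    have e := h.lineU.card_le hne
    have h2 : Vx p (V 1) (Ed 2) := h.path.vl 1 (by omega)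
    have e1 := card_sup_mul_inf (H := wP p (V 2)) (K := wP p (V 1))
      (le_normalizer_of_le_centralizer (le_centralizer_symm
        (h.comm_mid (i := 1) (j := 2) (by omega) le_rfl (by omega))))
    have hi : wP p (V 2) ⊓ wP p (V 1) = cen (Ed 2) (Ed 2) := (h.rev.adj le_rfl).inf_eq
    rw [hi, sup_comm] at e1
    have e2 := h2.card_mul
    refine Nat.le_of_mul_le_mul_right ?_ (Nat.mul_pos (card_pos' (oP p (V 1))) (card_pos' (wP p (V 1))))
    calc Nat.card (wP p (V 1)) * (Nat.card (oP p (V 1)) * Nat.card (wP p (V 1)))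
        = (Nat.card (wP p (V 1)) * Nat.card (oP p (V 1))) * Nat.card (wP p (V 1)) := by ring
      _ = (Nat.card (Ed 2) * Nat.card (wP p (V 1))) * Nat.card (cen (Ed 2) (Ed 2)) := by rw [e2]; ring
      _ ≤ (Nat.card (oP p (V 1)) * Nat.card ↥(wP p (V 1) ⊔ wP p (V 2))) * Nat.card (cen (Ed 2) (Ed 2)) :=
          Nat.mul_le_mul_right _ e
      _ = Nat.card (oP p (V 1)) * (Nat.card (wP p (V 2)) * Nat.card (wP p (V 1))) := by
          rw [mul_assoc, e1]
      _ = _ := by ring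
  refine le_antisymm ?_ (key h)
  obtain ⟨g, hg, ho⟩ := h.vx0.exists_opp
  have := key (h.extend hg ho)
  rw [h.card_last_eq_first]
  exact this

theorem Crit.lineU_card (h : Crit p 2 V Ed) :
    Nat.card (oP p (V 1)) * Nat.card ↥(wP p (V 1) ⊔ wP p (V 2)) ≤
      Nat.card (Ed 2) * Nat.card (wP p (V 1)) := by
  have h2 : Vx p (V 1) (Ed 2) := h.path.vl 1 (by omega)
  have e1 := card_sup_mul_inf (H := wP p (V 2)) (K := wP p (V 1))
    (le_normalizer_of_le_centralizer (le_centralizer_symm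
      (h.comm_mid (i := 1) (j := 2) (by omega) le_rfl (by omega))))
  have hi : wP p (V 2) ⊓ wP p (V 1) = cen (Ed 2) (Ed 2) := (h.rev.adj le_rfl).inf_eq
  rw [hi, sup_comm, h.card_last_eq] at e1
  refine Nat.le_of_mul_le_mul_right ?_ (card_pos' (cen (Ed 2) (Ed 2)))
  apply le_of_eq
  calc Nat.card (oP p (V 1)) * Nat.card ↥(wP p (V 1) ⊔ wP p (V 2)) * Nat.card (cen (Ed 2) (Ed 2))
      = (Nat.card (wP p (V 1)) * Nat.card (oP p (V 1))) * Nat.card (wP p (V 1)) := by
        rw [mul_assoc, e1]; ring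
    _ = _ := by rw [h2.card_mul]; ring

theorem Crit.card_lines (h : Crit p 2 V Ed) :
    Nat.card ↥(wP p (V 0) ⊔ wP p (V 1)) = Nat.card ↥(wP p (V 1) ⊔ wP p (V 2)) := by
  have e1 := card_sup_mul_inf (H := wP p (V 2)) (K := wP p (V 1))
    (le_normalizer_of_le_centralizer (le_centralizer_symm
      (h.comm_mid (i := 1) (j := 2) (by omega) le_rfl (by omega))))
  have hi : wP p (V 2) ⊓ wP p (V 1) = cen (Ed 2) (Ed 2) := (h.rev.adj le_rfl).inf_eq
  have e0 := card_sup_mul_inf (H := wP p (V 0)) (K := wP p (V 1))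
    (le_normalizer_of_le_centralizer (h.comm_mid (i := 0) (j := 1) (by omega) (by omega) (by omega)))
  rw [(h.adj le_rfl).inf_eq, ← h.card_last_eq_first] at e0
  rw [hi, sup_comm, h.card_edge_last.2] at e1
  exact Nat.eq_of_mul_eq_mul_right Nat.card_pos (e0.trans e1.symm)

end Cfsg.Agent.H73.GN
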