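import Mathlib
import Cfsg.Agent.H73.GN.TwoLine
import Cfsg.Agent.H73.GN.Alg
import Cfsg.Agent.H73.GN.Quot

/-!
Length two, `p ≠ 3`: the commutators `[W₋₁, W₂]` lie in `W₀`.
-/

set_option autoImplicit false

namespace Cfsg.Agent.H73.GN

open Subgroup
open scoped commutatorElement

variable {W : Type*} [Group W]

/-- The elements of `G` centralizing `A` modulo `B`. -/
def triv (G A B : Subgroup W) : Subgroup W where
  carrier := {γ | γ ∈ G ∧ γ ∈ normalizer (B : Set W) ∧ ∀ a ∈ A, ⁅γ, a⁆ ∈ B}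
  one_mem' := ⟨one_mem _, one_mem _, fun a _ => by simp⟩
  mul_mem' := fun {x y} hx hy => ⟨mul_mem hx.1 hy.1, mul_mem hx.2.1 hy.2.1, fun a ha => by
    rw [comm_mul_left]
    exact mul_mem ((mem_normalizer_iff.mp hx.2.1 _).mp (hy.2.2 a ha)) (hx.2.2 a ha)⟩
  inv_mem' := fun {x} hx => ⟨inv_mem hx.1, inv_mem hx.2.1, fun a ha => by
    have e : ⁅x⁻¹, a⁆ = x⁻¹ * ⁅x, a⁆⁻¹ * x := by simp only [commutatorElement_def]; group
    rw [e]
    have := (mem_normalizer_iff.mp (inv_mem hx.2.1) _).mp (inv_mem (hx.2.2 a ha))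
    rwa [inv_inv] at this⟩

variable [Finite W] {p : ℕ} [Fact p.Prime]

theorem triv_normal {G A B : Subgroup W} (hA : G ≤ normalizer (A : Set W))
    (hB : G ≤ normalizer (B : Set W)) : G ≤ normalizer (triv G A B : Set W) := by
  intro g hg
  refine mem_normalizer_of_cj_eq (eq_of_le_card ?_ (card_cj g _).ge)
  rintro _ ⟨y, hy, rfl⟩
  refine ⟨mul_mem (mul_mem hg hy.1) (inv_mem hg),
    mul_mem (mul_mem (hB hg) hy.2.1) (inv_mem (hB hg)), fun a ha => ?_⟩
  have ha' : g⁻¹ * a * g ∈ A := by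
    have := (mem_normalizer_iff.mp (hA (inv_mem hg)) a).mp ha
    rwa [inv_inv] at this
  have := (mem_normalizer_iff.mp (hB hg) _).mp (hy.2.2 _ ha')
  rw [cj_comm] at this
  simpa [mul_assoc] using this

variable {V Ed : ℕ → Subgroup W}

theorem Crit.nat2_sup (h : Crit p 2 V Ed) :
    ∀ l ∈ wP p (V 0) ⊔ wP p (V 1), ∀ e ∈ Ed 1, ⁅l, e⁆ ∈ cen (Ed 1) (Ed 1) := by
  intro l hl e he
  obtain ⟨c, hc, w, hw, rfl⟩ := (h.adj le_rfl).mem_mul hl
  have hz := h.nat2_mid w hw e he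
  rw [comm_mul_left, (commute_of_le_centralizer (cen_le_centralizer _ _) hz (h.vx0.wP_le_E hc)).symm.eq,
    mul_inv_cancel_right]
  exact mul_mem hz (h.nat2 c hc e he)

/-- **For `p ≠ 3`, `[W₋₁, W₂] ≤ W₀`.** -/
theorem Crit.gamma (h : Crit p 2 V Ed) {g : W} (hg : g ∈ V 0)
    (ho : Opp (V 0) (Ed 1) (GN.cj g (Ed 1))) (hp3 : p ≠ 3) :
    ∀ a ∈ wP p (GN.cj g (V 1)), ∀ x ∈ wP p (V 2), ⁅a, x⁆ ∈ wP p (V 0) := by
  obtain ⟨hPE, hDC, hPC, hdec, hPQ, -⟩ := h.decomp hg ho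
  have hC := h.extend hg ho
  intro a ha x hx
  have h0 := h.vx0
  have h1 := h.vx1
  have hq1 := h.nat2_mid
  have haE : a ∈ Ed 1 := hC.rev.last_le ha
  have ha0 : a ∈ oP p (V 0) :=
    hC.path.le_oP hC.below (i := 0) (j := 1) (by omega) (by omega) (by omega) ha
  have hxE : x ∈ Ed 1 := h.last_le hx
  by_cases haQ : a ∈ oP p (V 1)
  · have haU : a ∈ wP p (V 0) ⊔ wP p (V 1) :=
      hPC.le (mem_inf.mpr ⟨mem_sup_left (mem_sup_left ha), mem_inf.mpr ⟨ha0, haQ⟩⟩)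
    exact h0.center_le (h.nat2_sup a haU x hxE)
  have huU : ⁅a, x⁆ ∈ wP p (V 0) ⊔ wP p (V 1) := h.act_mem a haE x (mem_sup_right hx)
  suffices key : ⁅a, ⁅a, x⁆⁆ ∈ fixC (V 1) (Ed 1) by
    obtain ⟨c, hc, w, hw, hcw⟩ := (h.adj le_rfl).mem_mul huU
    rw [← hcw] at key ⊢
    refine mul_mem hc (h0.center_le (h1.inj hq1 hw haE haQ ?_))
    have hac : Commute a c := commute_of_le_centralizer
      (hC.comm_mid (i := 0) (j := 1) (by omega) (by omega) (by omega)) ha hc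
    have hz : ⁅a, w⁆ ∈ cen (Ed 1) (Ed 1) := by
      rw [← commutatorElement_inv w a]; exact inv_mem (hq1 w hw a haE)
    rw [comm_mul_right, comm_eq_one_of_commute hac, one_mul,
      (commute_of_le_centralizer (cen_le_centralizer _ _) hz (h0.wP_le_E hc)).symm.eq,
      mul_inv_cancel_right] at key
    rw [← commutatorElement_inv a w]
    exact inv_mem key.2
  by_cases hp2 : p = 2
  · have haa : a * a = 1 := by
      have := hC.vx0.wP_pow a ha
      rwa [hp2, sq] at this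
    have hxx : x * x = 1 := by
      have := (h.path.vr 1 (by omega)).wP_pow x hx
      rwa [hp2, sq] at this
    have hai : a⁻¹ = a := inv_eq_of_mul_eq_one_right haa
    have hxi : x⁻¹ = x := inv_eq_of_mul_eq_one_right hxx
    have huu : ⁅a, x⁆⁻¹ = ⁅a, x⁆ := by
      refine inv_eq_of_mul_eq_one_right ?_
      obtain ⟨c, hc, w, hw, hcw⟩ := (h.adj le_rfl).mem_mul huU
      have hcc := h0.wP_pow c hc
      have hww := h1.wP_pow w hw
      rw [← sq, ← hcw, (commute_of_le_centralizer (h.adj le_rfl).comm hc hw).mul_pow]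
      rw [hp2] at hcc hww
      rw [hcc, hww, one_mul]
    have e : a * ⁅a, x⁆ * a⁻¹ = ⁅a, x⁆⁻¹ := by
      rw [commutatorElement_def, hai, hxi, mul_inv_rev, mul_inv_rev, mul_inv_rev, hai, hxi]
      calc a * (a * x * a * x) * a = (a * a) * (x * a * x * a) := by group
        _ = x * a * x * a := by rw [haa, one_mul]
        _ = _ := by group
    have e2 : ⁅a, ⁅a, x⁆⁆ = 1 := by
      rw [commutatorElement_def a ⁅a, x⁆, e, huu]
      exact mul_eq_one_iff_eq_inv.mpr huu.symm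
    rw [e2]; exact one_mem _
  -- `p ≥ 5`
  set Y := three p V with hY
  set F := fixC (V 1) (Ed 1) with hF
  set W₁ := wP p (V 1) with hW₁
  set X := wP p (V 2) with hX
  have ho12 : Opp (V 1) (Ed 1) (Ed 2) := h.path.opp 0 (by omega)
  have h2 : Vx p (V 1) (Ed 2) := h.path.vl 1 (by omega)
  obtain ⟨g3, hg3, ho3⟩ := h.rev.vx0.exists_opp
  have hC3 := h.rev.extend hg3 ho3
  set W₃ := wP p (GN.cj g3 (V 1)) with hW₃
  have hW3E : W₃ ⊔ oP p (V 1) = Ed 2 := hC3.rev.sup_eq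
  have hW3X : W₃ ≤ centralizer (X : Set W) :=
    hC3.comm_mid (i := 0) (j := 1) (by omega) (by omega) (by omega)
  have hW3le : W₃ ≤ Ed 2 := hC3.rev.last_le
  have dU := h.lineU
  have hX1 : wP p (V 1) ≤ centralizer (X : Set W) :=
    h.comm_mid (i := 1) (j := 2) (by omega) le_rfl (by omega)
  have hne' : ¬ W₁ ⊔ X ≤ W₁ := fun hle => h.ne (le_trans
    (h.comm_mid (i := 0) (j := 1) (by omega) (by omega) (by omega))
    (centralizer_le (show X ≤ W₁ from le_sup_right.trans hle)))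
  obtain ⟨b0, hb0, hbo0⟩ := dU.exists_line hne' h.lineU_card haE haQ
  obtain ⟨b, hb3, hbE, hbo⟩ : ∃ b, b ∈ W₃ ∧ b ∈ Ed 2 ∧
      ¬ Opp (V 1) (GN.cj b (Ed 1)) (GN.cj a⁻¹ (Ed 2)) := by
    rw [← hW3E, ← SetLike.mem_coe, coe_mul_of_left_le_normalizer_right _ _
      ((hW3le.trans h2.le).trans (le_normalizer_oP p _))] at hb0
    obtain ⟨b, hb, q, hq, rfl⟩ := hb0
    rw [cj_mul, cj_eq_of_mem (h1.oP_le_E hq)] at hbo0
    exact ⟨b, hb, hW3le hb, hbo0⟩
  have haG : a ∈ V 1 := h1.le haE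
  have hbG : b ∈ V 1 := h2.le hbE
  have heqU : GN.cj a⁻¹ (W₁ ⊔ X) = GN.cj b (wP p (V 0) ⊔ W₁) :=
    eq_of_le_card (dU.line_eq h.lineU_card haE haQ hbE hbo (h1.oP_le_E.trans dU.nE))
      (by rw [card_cj, card_cj, h.card_lines])
  have dZ := h1.lineData hq1 h2 ho12
  have hcardZ : Nat.card (oP p (V 1)) * Nat.card (cen (Ed 2) (Ed 2)) ≤
      Nat.card (Ed 2) * Nat.card F := by
    refine Nat.le_of_mul_le_mul_right ?_ (card_pos' W₁)
    apply le_of_eq
    have e1 := h1.card_mul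
    have e2 := h1.card_wP_mul hq1 h2 ho12
    rw [← h1.card_center_eq h2] at e2 ⊢
    rw [← h1.card_eq h2]
    calc Nat.card (oP p (V 1)) * Nat.card (cen (Ed 1) (Ed 1)) * Nat.card W₁
        = (Nat.card W₁ * Nat.card (oP p (V 1))) * Nat.card (cen (Ed 1) (Ed 1)) := by ring
      _ = Nat.card (Ed 1) * (Nat.card (cen (Ed 1) (Ed 1)) * Nat.card (cen (Ed 1) (Ed 1))) := by
          rw [e1]; ring
      _ = _ := by rw [← e2]; ring
  have heqZ : GN.cj a⁻¹ (cen (Ed 2) (Ed 2)) = GN.cj b (cen (Ed 1) (Ed 1)) :=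
    eq_of_le_card (dZ.line_eq hcardZ haE haQ hbE hbo (h1.oP_le_E.trans dZ.nE))
      (by rw [card_cj, card_cj, h1.card_center_eq h2])
  have hLU : ∀ l ∈ wP p (V 0) ⊔ W₁, ∀ e ∈ Ed 1, ⁅e, l⁆ ∈ W₁ := fun l hl e he => by
    rw [← commutatorElement_inv l e]; exact inv_mem (h1.center_le (h.nat2_sup l hl e he))
  have hLU' : ∀ l ∈ W₁ ⊔ X, ∀ e ∈ Ed 2, ⁅e, l⁆ ∈ W₁ := fun l hl e he => by
    rw [← commutatorElement_inv l e]
    refine inv_mem (h2.center_le (h.rev.nat2_sup l ?_ e he))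
    show l ∈ X ⊔ W₁
    rwa [sup_comm]
  have hZc : ∀ {z : W}, z ∈ cen (Ed 1) (Ed 1) → ∀ {e : W}, e ∈ Ed 1 → Commute e z := fun hz _ he =>
    (commute_of_le_centralizer (cen_le_centralizer _ _) hz he).symm
  have hZc' : ∀ {z : W}, z ∈ cen (Ed 2) (Ed 2) → ∀ {e : W}, e ∈ Ed 2 → Commute e z := fun hz _ he =>
    (commute_of_le_centralizer (cen_le_centralizer _ _) hz he).symm
  obtain ⟨hUa, hUb, -⟩ := dU.inverting hLU hLU' haE haQ hbE heqU
  obtain ⟨hZa, hZb, -⟩ := dZ.inverting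
    (fun l hl e he => by rw [comm_eq_one_of_commute (hZc hl he)]; exact one_mem _)
    (fun l hl e he => by rw [comm_eq_one_of_commute (hZc' hl he)]; exact one_mem _)
    haE haQ hbE heqZ
  -- the section
  have hW₁Y : W₁ ≤ Y := le_sup_right.trans le_sup_left
  have hXY : X ≤ Y := le_sup_right.trans le_sup_right
  have hFW : F ≤ W₁ := inf_le_left.trans h1.center_le
  have hYG : Y ≤ V 1 := h.three_le.trans (oP_le p _)
  have hFn : V 1 ≤ normalizer (F : Set W) :=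
    (le_centralizer_symm inf_le_right).trans (centralizer_le_normalizer _)
  obtain ⟨M, iM, π, ρ, hπ, hπ0, hρ⟩ :=
    exists_quot_act (hFW.trans hW₁Y) h.three_normal hFn h.three_comm
  have hcY : ∀ {γ y : W}, γ ∈ V 1 → y ∈ Y → γ * y * γ⁻¹ ∈ Y := fun {γ y} hγ hy =>
    (mem_normalizer_iff.mp (h.three_normal hγ) y).mp hy
  have hkY : ∀ {γ y : W}, γ ∈ V 1 → y ∈ Y → ⁅γ, y⁆ ∈ Y := fun {γ y} hγ hy => by
    rw [commutatorElement_def]; exact mul_mem (hcY hγ hy) (inv_mem hy)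
  have hD : ∀ {γ y : W}, γ ∈ V 1 → y ∈ Y → π (γ * y * γ⁻¹) = π ⁅γ, y⁆ + π y := fun {γ y} hγ hy => by
    rw [← hπ _ (hkY hγ hy) y hy]
    congr 1
    simp only [commutatorElement_def]; group
  have hπ1 : π 1 = 0 := (hπ0 1 (one_mem _)).mpr (one_mem _)
  have hπn : ∀ {y : W}, y ∈ Y → π y⁻¹ = -π y := fun {y} hy => by
    rw [eq_neg_iff_add_eq_zero, ← hπ _ (inv_mem hy) y hy, inv_mul_cancel, hπ1]
  set A : M →+ M := ρ a - AddMonoidHom.id M with hA
  set B : M →+ M := ρ b - AddMonoidHom.id M with hB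
  have hAπ : ∀ {y : W}, y ∈ Y → A (π y) = π ⁅a, y⁆ := fun {y} hy => by
    rw [hA, AddMonoidHom.sub_apply, AddMonoidHom.id_apply, hρ a haG y hy, hD haG hy, add_sub_cancel_right]
  have hBπ : ∀ {y : W}, y ∈ Y → B (π y) = π ⁅b, y⁆ := fun {y} hy => by
    rw [hB, AddMonoidHom.sub_apply, AddMonoidHom.id_apply, hρ b hbG y hy, hD hbG hy, add_sub_cancel_right]
  let S : AddSubgroup M :=
    { carrier := {m | ∃ w ∈ W₁, π w = m}
      zero_mem' := ⟨1, one_mem _, hπ1⟩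
      add_mem' := by
        rintro _ _ ⟨w, hw, rfl⟩ ⟨w', hw', rfl⟩
        exact ⟨w * w', mul_mem hw hw', hπ _ (hW₁Y hw) _ (hW₁Y hw')⟩
      neg_mem' := by
        rintro _ ⟨w, hw, rfl⟩
        exact ⟨w⁻¹, inv_mem hw, hπn (hW₁Y hw)⟩ }
  have hmS : ∀ {w : W}, w ∈ W₁ → π w ∈ S := fun {w} hw => ⟨w, hw, rfl⟩
  have hSm : ∀ {y : W}, y ∈ Y → π y ∈ S → y ∈ W₁ := by
    rintro y hy ⟨w, hw, e⟩
    have h3 : π (y * w⁻¹) = 0 := by
      rw [hπ _ hy _ (inv_mem (hW₁Y hw)), hπn (hW₁Y hw), e, add_neg_cancel]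
    have := mul_mem (hFW ((hπ0 _ (mul_mem hy (inv_mem (hW₁Y hw)))).mp h3)) hw
    rwa [inv_mul_cancel_right] at this
  have hWn : ∀ {γ w : W}, γ ∈ V 1 → w ∈ W₁ → ⁅γ, w⁆ ∈ W₁ := fun {γ w} hγ hw => by
    rw [commutatorElement_def]
    exact mul_mem ((mem_normalizer_iff.mp (h1.normalizer_wP hγ) w).mp hw) (inv_mem hw)
  have hdata : UnipData A B S := by
    have hW12 : W₁ = cen (Ed 1) (Ed 1) ⊔ cen (Ed 2) (Ed 2) := h1.wP_eq_center_sup hq1 h2 ho12
    have hn12 : cen (Ed 2) (Ed 2) ≤ normalizer (cen (Ed 1) (Ed 1) : Set W) :=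
      (h2.center_le.trans h1.wP_le_E).trans dZ.nE
    have hz1Y : ∀ {z : W}, z ∈ cen (Ed 1) (Ed 1) → z ∈ Y := fun hz => hW₁Y (h1.center_le hz)
    have hz2Y : ∀ {z : W}, z ∈ cen (Ed 2) (Ed 2) → z ∈ Y := fun hz => hW₁Y (h2.center_le hz)
    have A0 : ∀ {z : W}, z ∈ cen (Ed 1) (Ed 1) → A (π z) = 0 := fun {z} hz => by
      rw [hAπ (hz1Y hz), comm_eq_one_of_commute (hZc hz haE), hπ1]
    have B0 : ∀ {z : W}, z ∈ cen (Ed 2) (Ed 2) → B (π z) = 0 := fun {z} hz => by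
      rw [hBπ (hz2Y hz), comm_eq_one_of_commute (hZc' hz hbE), hπ1]
    have AB : ∀ {z : W}, z ∈ cen (Ed 1) (Ed 1) → A (B (π z)) = -π z := fun {z} hz => by
      have hz2 := dZ.act' z hz b hbE
      rw [hBπ (hz1Y hz), hAπ (hz2Y hz2), eq_neg_iff_add_eq_zero,
        ← hπ _ (hz1Y (dZ.act _ hz2 a haE)) _ (hz1Y hz), hπ0 _ (mul_mem (hz1Y (dZ.act _ hz2 a haE)) (hz1Y hz))]
      exact cg_iff_mem.mp (hZa z hz).2
    have BA : ∀ {z : W}, z ∈ cen (Ed 2) (Ed 2) → B (A (π z)) = -π z := fun {z} hz => by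
      have hz1 := dZ.act z hz a haE
      rw [hAπ (hz2Y hz), hBπ (hz1Y hz1), eq_neg_iff_add_eq_zero,
        ← hπ _ (hz2Y (dZ.act' _ hz1 b hbE)) _ (hz2Y hz), hπ0 _ (mul_mem (hz2Y (dZ.act' _ hz1 b hbE)) (hz2Y hz))]
      exact cg_iff_mem.mp (hZb z hz).2
    have split : ∀ {s : M}, s ∈ S → ∃ z ∈ cen (Ed 1) (Ed 1), ∃ n ∈ cen (Ed 2) (Ed 2),
        s = π z + π n := by
      rintro _ ⟨w, hw, rfl⟩
      rw [hW12] at hw
      obtain ⟨z, hz, n, hn, rfl⟩ := exists_mul_of_mem_sup hn12 hw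
      exact ⟨z, hz, n, hn, hπ _ (hz1Y hz) _ (hz2Y hn)⟩
    refine ⟨fun s hs => ?_, fun s hs => ?_, fun s hs => ?_, ?_, ?_⟩
    · obtain ⟨z, hz, n, hn, rfl⟩ := split hs
      rw [map_add, A0 hz, zero_add, hAπ (hz2Y hn), A0 (dZ.act n hn a haE)]
    · obtain ⟨z, hz, n, hn, rfl⟩ := split hs
      rw [map_add, B0 hn, add_zero, hBπ (hz1Y hz), B0 (dZ.act' z hz b hbE)]
    · obtain ⟨z, hz, n, hn, rfl⟩ := split hs
      rw [map_add B, map_add A, map_add A (π z), map_add B (A _), B0 hn, A0 hz, map_zero, map_zero,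
        AB hz, BA hn]
      abel
    · rintro _ ⟨w, hw, rfl⟩
      rw [hAπ (hW₁Y hw)]; exact hmS (hWn haG hw)
    · rintro _ ⟨w, hw, rfl⟩
      rw [hBπ (hW₁Y hw)]; exact hmS (hWn hbG hw)
  have hBX : ∀ {y : W}, y ∈ X → B (π y) = 0 := fun {y} hy => by
    rw [hBπ (hXY hy), comm_eq_one_of_commute (commute_of_le_centralizer hW3X hb3 hy), hπ1]
  have hU1 : ∀ {y : W}, y ∈ X → ⁅a, y⁆ ∈ wP p (V 0) ⊔ W₁ := fun {y} hy =>
    h.act_mem a haE y (mem_sup_right hy)
  have hchain : ∀ {y : W}, y ∈ X → ChainData A B S (π y) := by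
    intro y hy
    have hu := hU1 hy
    have huY : ⁅a, y⁆ ∈ Y := mem_sup_left hu
    have hv : ⁅a, ⁅a, y⁆⁆ ∈ cen (Ed 1) (Ed 1) := by
      rw [← commutatorElement_inv ⁅a, y⁆ a]; exact inv_mem (h.nat2_sup _ hu a haE)
    refine ⟨hBX hy, ?_, ?_, ?_⟩
    · rw [hAπ (hXY hy), hAπ huY]; exact hmS (h1.center_le hv)
    · rw [hAπ (hXY hy), hAπ huY, hAπ (hW₁Y (h1.center_le hv)),
        comm_eq_one_of_commute (hZc hv haE), hπ1]
    · rw [hAπ (hXY hy), hBπ huY, ← hπ _ (hkY hbG huY) _ (hXY hy)]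
      exact hmS (cg_iff_mem.mp (hUb y (mem_sup_right hy)).2)
  -- kernel
  set N := triv (V 1) W₁ F ⊓ triv (V 1) Y W₁ with hN
  have hNn : V 1 ≤ normalizer (N : Set W) := fun y hy => mem_normalizer_of_cj_eq (by
    rw [hN, cj_inf, cj_eq_of_mem_normalizer (triv_normal h1.normalizer_wP hFn hy),
      cj_eq_of_mem_normalizer (triv_normal h.three_normal h1.normalizer_wP hy)])
  have hNE : N ⊓ Ed 1 ≤ oP p (V 1) := by
    intro y hy
    obtain ⟨⟨hy1, -⟩, hyE⟩ := mem_inf.mp hy |>.imp mem_inf.mp id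
    by_contra hyQ
    refine hC.ne ?_
    refine le_trans ?_ (centralizer_le (show wP p (V 1) ≤ cen (Ed 1) (Ed 1) from fun w hw => ?_))
    · exact hC.rev.last_le.trans (le_centralizer_symm (cen_le_centralizer _ _))
    · refine h1.inj hq1 hw hyE hyQ ?_
      rw [← commutatorElement_inv y w]
      exact inv_mem (mem_inf.mp (hy1.2.2 w hw)).2
  have hQY : ∀ γ ∈ oP p (V 1), ∀ y ∈ X, ⁅γ, y⁆ ∈ F := by
    intro γ hγ y hy
    obtain ⟨u, hu, d, hd, rfl⟩ := hdec γ (h1.oP_le_E hγ)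
    rw [comm_mul_left_of_commute (commute_of_le_centralizer (cen_le_centralizer _ _) hd
      (mem_sup_right (mem_sup_right hy)))]
    refine h.three_comm u ?_ y (hXY hy)
    refine (sup_le (le_sup_left.trans le_sup_left) le_sup_right : _ ≤ Y) (hPQ (mem_inf.mpr ⟨hu, ?_⟩))
    exact (mul_mem_cancel_right (mem_inf.mp (hDC hd)).2).mp hγ
  have hfin : ∀ c ∈ V 1, ∀ G : M →+ M, (∀ y ∈ Y, G (π y) = π (c * y * c⁻¹)) → (∀ s ∈ S, G s = s) →
      (∀ y ∈ X, G (π y) - π y ∈ S ∧ G (A (π y)) - A (π y) ∈ S) → G (π x) = π x := by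
    intro c hc G hG hGS hGX
    have hk : ∀ {y : W}, y ∈ Y → G (π y) - π y = π ⁅c, y⁆ := fun {y} hy => by
      rw [hG y hy, hD hc hy, add_sub_cancel_right]
    have hGU' : ∀ n ∈ W₁ ⊔ X, G (π n) - π n ∈ S ∧ G (A (π n)) - A (π n) ∈ S := by
      intro n hn
      obtain ⟨w, hw, y, hy, rfl⟩ := exists_mul_of_mem_sup
        (le_normalizer_of_le_centralizer (le_centralizer_symm hX1)) hn
      have hw' := hGS _ (hmS hw)
      have hAw' := hGS _ (hdata.aS _ (hmS hw))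
      obtain ⟨k1, k2⟩ := hGX y hy
      rw [hπ _ (hW₁Y hw) _ (hXY hy), map_add, map_add A, map_add G, hw', hAw', add_sub_add_left_eq_sub,
        add_sub_add_left_eq_sub]
      exact ⟨k1, k2⟩
    have hcN : c ∈ N := by
      refine mem_inf.mpr ⟨⟨hc, hFn hc, fun w hw => ?_⟩, ⟨hc, h1.normalizer_wP hc, fun y hy => ?_⟩⟩
      · refine (hπ0 _ (hW₁Y (hWn hc hw))).mp ?_
        rw [← hk (hW₁Y hw), hGS _ (hmS hw), sub_self]
      · refine hSm (hkY hc hy) ?_
        obtain ⟨l, hl, n, hn, rfl⟩ := exists_mul_of_mem_sup h.right_normalizer_left hy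
        have hlY : l ∈ Y := mem_sup_left hl
        have hnY : n ∈ Y := mem_sup_right hn
        rw [← hk hy, hπ _ hlY _ hnY, map_add, add_sub_add_comm]
        refine add_mem ?_ (hGU' n hn).1
        set m := ⁅b, l⁆ with hm
        have hmU : m ∈ W₁ ⊔ X := dU.act' l hl b hbE
        have hamY : ⁅a, m⁆ ∈ Y := mem_sup_left (dU.act m hmU a haE)
        have hs : A (π m) + π l ∈ S := by
          rw [hAπ (mem_sup_right hmU), ← hπ _ hamY _ hlY]
          exact hmS (cg_iff_mem.mp (hUa l hl).2)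
        have e : G (π l) - π l = (G (A (π m) + π l) - (A (π m) + π l)) - (G (A (π m)) - A (π m)) := by
          rw [map_add]; abel
        rw [e, hGS _ hs, sub_self, zero_sub]
        exact neg_mem (hGU' m hmU).2
    have hkill := h1.kill (N := N) (B := F) (V := W₁) (t := x) (fun γ hγ => hγ.1.1) hNn hNE
      (fun γ hγ => hFn hγ.1.1) (fun γ hγ => hγ.2.2.2 x (hXY hx)) (fun γ hγ w hw => hγ.1.2.2 w hw)
      (fun w hw => by rw [h1.wP_pow w hw]; exact one_mem _)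
      (fun γ _ hγQ => hQY γ hγQ x hx) (fun w hw => hFn (h1.le (h1.wP_le_E hw))) c hcN
    rw [← sub_eq_zero, hk (hXY hx)]
    exact (hπ0 _ (hkY hc (hXY hx))).mpr hkill
  have hua : ∀ {y : W}, y ∈ Y → uni A (π y) = π (a * y * a⁻¹) := fun {y} hy => by
    rw [uni_apply, hAπ hy, hD haG hy, add_comm]
  have hub : ∀ {y : W}, y ∈ Y → uni B (π y) = π (b * y * b⁻¹) := fun {y} hy => by
    rw [uni_apply, hBπ hy, hD hbG hy, add_comm]
  have hg2 : ∀ y ∈ Y, gTwo A B (π y) = π ((a * b * b) * y * (a * b * b)⁻¹) := fun y hy => by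
    rw [gTwo, AddMonoidHom.comp_apply, AddMonoidHom.comp_apply, hub hy, hub (hcY hbG hy),
      hua (hcY hbG (hcY hbG hy))]
    congr 1; group
  have hg3 : ∀ y ∈ Y, gThree A B (π y) = π ((a * b * b * b) * y * (a * b * b * b)⁻¹) := fun y hy => by
    rw [gThree, AddMonoidHom.comp_apply, AddMonoidHom.comp_apply, AddMonoidHom.comp_apply, hub hy,
      hub (hcY hbG hy), hub (hcY hbG (hcY hbG hy)), hua (hcY hbG (hcY hbG (hcY hbG hy)))]
    congr 1; group
  have hgS2 : ∀ {s : M}, s ∈ S → gTwo A B s ∈ S := fun {s} hs => by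
    have k : ∀ {s : M}, s ∈ S → uni B s ∈ S := fun {s} hs => by
      rw [uni_apply]; exact add_mem hs (hdata.bS s hs)
    rw [gTwo, AddMonoidHom.comp_apply, AddMonoidHom.comp_apply, uni_apply]
    exact add_mem (k (k hs)) (hdata.aS _ (k (k hs)))
  have hgS3 : ∀ {s : M}, s ∈ S → gThree A B s ∈ S := fun {s} hs => by
    have k : ∀ {s : M}, s ∈ S → uni B s ∈ S := fun {s} hs => by
      rw [uni_apply]; exact add_mem hs (hdata.bS s hs)
    rw [gThree, AddMonoidHom.comp_apply, AddMonoidHom.comp_apply, AddMonoidHom.comp_apply, uni_apply]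
    exact add_mem (k (k (k hs))) (hdata.aS _ (k (k (k hs))))
  set c2 := a * b * b with hc2
  set c3 := a * b * b * b with hc3
  have hc2G : c2 ∈ V 1 := mul_mem (mul_mem haG hbG) hbG
  have hc3G : c3 ∈ V 1 := mul_mem hc2G hbG
  have f2 : gTwo A B (gTwo A B (gTwo A B (gTwo A B (π x)))) = π x := by
    refine hfin (c2 * c2 * (c2 * c2)) (mul_mem (mul_mem hc2G hc2G) (mul_mem hc2G hc2G))
      ((gTwo A B).comp ((gTwo A B).comp ((gTwo A B).comp (gTwo A B)))) ?_ ?_ ?_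
    · intro y hy
      simp only [AddMonoidHom.comp_apply]
      rw [hg2 y hy, hg2 _ (hcY hc2G hy), hg2 _ (hcY hc2G (hcY hc2G hy)),
        hg2 _ (hcY hc2G (hcY hc2G (hcY hc2G hy)))]
      congr 1; group
    · intro s hs
      simp only [AddMonoidHom.comp_apply]
      exact hdata.gTwo_four hs
    · intro y hy
      obtain ⟨e, he, -, he4⟩ := (hchain hy).gTwo_four hdata
      have hgx : gTwo A B (π y) = π y + A (π y) := by
        simp only [gTwo, AddMonoidHom.comp_apply, uni_apply, hBX hy, add_zero]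
      simp only [AddMonoidHom.comp_apply]
      refine ⟨by rw [he4, sub_sub_cancel_left]; exact neg_mem (nsmul_mem he 2), ?_⟩
      have hAy : A (π y) = gTwo A B (π y) - π y := by rw [hgx, add_sub_cancel_left]
      rw [hAy]
      simp only [map_sub]
      rw [he4, map_sub, map_nsmul]
      have : gTwo A B (π y) - 2 • gTwo A B e - (π y - 2 • e) - (gTwo A B (π y) - π y) =
          2 • e - 2 • gTwo A B e := by abel
      rw [this]
      exact sub_mem (nsmul_mem he 2) (nsmul_mem (hgS2 he) 2)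
  have f3 : gThree A B (gThree A B (gThree A B (π x))) = π x := by
    refine hfin (c3 * (c3 * c3)) (mul_mem hc3G (mul_mem hc3G hc3G))
      ((gThree A B).comp ((gThree A B).comp (gThree A B))) ?_ ?_ ?_
    · intro y hy
      simp only [AddMonoidHom.comp_apply]
      rw [hg3 y hy, hg3 _ (hcY hc3G hy), hg3 _ (hcY hc3G (hcY hc3G hy))]
      congr 1; group
    · intro s hs
      simp only [AddMonoidHom.comp_apply]
      exact hdata.gThree_three hs
    · intro y hy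
      obtain ⟨e, he, -, he3⟩ := (hchain hy).gThree_three hdata
      have hgx : gThree A B (π y) = π y + A (π y) := by
        simp only [gThree, AddMonoidHom.comp_apply, uni_apply, hBX hy, add_zero]
      simp only [AddMonoidHom.comp_apply]
      refine ⟨?_, ?_⟩
      · rw [he3]
        have : π y - e + gThree A B e - π y = gThree A B e - e := by abel
        rw [this]; exact sub_mem (hgS3 he) he
      have hAy : A (π y) = gThree A B (π y) - π y := by rw [hgx, add_sub_cancel_left]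
      rw [hAy]
      simp only [map_sub]
      rw [he3, map_add, map_sub]
      have : gThree A B (π y) - gThree A B e + gThree A B (gThree A B e) -
          (π y - e + gThree A B e) - (gThree A B (π y) - π y) =
          gThree A B (gThree A B e) - gThree A B e - gThree A B e + e := by abel
      rw [this]
      exact add_mem (sub_mem (sub_mem (hgS3 (hgS3 he)) (hgS3 he)) (hgS3 he)) he
  have tors : ∀ k : ℕ, ¬ p ∣ k → ∀ s ∈ S, k • s = 0 → s = 0 := by
    rintro k hk _ ⟨w, hw, rfl⟩ hks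
    have hpw : ∀ n : ℕ, n • π w = π (w ^ n) := by
      intro n
      induction n with
      | zero => rw [zero_nsmul, pow_zero, hπ1]
      | succ n ih => rw [succ_nsmul, ih, pow_succ, hπ _ (pow_mem (hW₁Y hw) n) _ (hW₁Y hw)]
    have hp0 : p • π w = 0 := by rw [hpw, h1.wP_pow w hw, hπ1]
    have hd := Nat.dvd_gcd (addOrderOf_dvd_of_nsmul_eq_zero hp0) (addOrderOf_dvd_of_nsmul_eq_zero hks)
    rw [((Fact.out : p.Prime).coprime_iff_not_dvd.mpr hk).gcd_eq_one, Nat.dvd_one] at hd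
    exact AddMonoid.addOrderOf_eq_one_iff.mp hd
  have hpr := (Fact.out : p.Prime).two_le
  have hzero := (hchain hx).eq_zero hdata
    (tors 2 fun hd => hp2 ((Nat.prime_dvd_prime_iff_eq Fact.out Nat.prime_two).mp hd))
    (tors 3 fun hd => hp3 ((Nat.prime_dvd_prime_iff_eq Fact.out Nat.prime_three).mp hd)) f2 f3
  have huY : ⁅a, x⁆ ∈ Y := mem_sup_left huU
  rw [hAπ (hXY hx), hAπ huY] at hzero
  exact (hπ0 _ (hkY haG huY)).mp hzero

end Cfsg.Agent.H73.GN
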