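import Mathlib
import Cfsg.Agent.H73.GN.TwoGamma

/-!
No shortest noncommuting path has length two.
-/

set_option autoImplicit false

namespace Cfsg.Agent.H73.GN

open Subgroup
open scoped commutatorElement

variable {W : Type*} [Group W]

theorem comm_mul_mul {u d u' d' : W} (h1 : Commute d u') (h2 : Commute d' u) (h3 : Commute d u)
    (h4 : Commute d' u') : ⁅u * d, u' * d'⁆ = ⁅u, u'⁆ * ⁅d, d'⁆ := by
  have h5 : Commute ⁅d, d'⁆ u := by
    rw [commutatorElement_def]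
    exact ((h3.mul_left h2).mul_left h3.inv_left).mul_left h2.inv_left
  have h6 : Commute ⁅d, d'⁆ u' := by
    rw [commutatorElement_def]
    exact ((h1.mul_left h4).mul_left h1.inv_left).mul_left h4.inv_left
  have h7 : Commute ⁅d, d'⁆ ⁅u, u'⁆ := by
    rw [commutatorElement_def u u']
    exact ((h5.mul_right h6).mul_right h5.inv_right).mul_right h6.inv_right
  rw [comm_mul_left, comm_mul_right d, comm_mul_right u, comm_eq_one_of_commute h1, one_mul,
    comm_eq_one_of_commute h2.symm, mul_one, mul_inv_cancel, mul_one,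
    ← h6.eq, mul_inv_cancel_right, ← h5.eq, mul_inv_cancel_right]
  exact h7.eq

variable [Finite W] {p : ℕ} [Fact p.Prime] {V Ed : ℕ → Subgroup W}

/-- **No shortest noncommuting path has length two.** -/
theorem Crit.not_two (h : Crit p 2 V Ed) : False := by
  obtain ⟨g, hg, ho⟩ := h.vx0.exists_opp
  obtain ⟨hPE, hDC, hPC, hdec, hPQ, hfour⟩ := h.decomp hg ho
  have hC := h.extend hg ho
  have h0 := h.vx0
  have h1 := h.vx1
  have hN := h1.nice
  set E := Ed 1 with hE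
  set P := four p V g with hP
  set D := cen E P with hD
  set Z := cen E E with hZ
  set F := fixC (V 1) E with hF
  set Wm := wP p (GN.cj g (V 1)) with hWm
  set W₀ := wP p (V 0) with hW₀
  set W₁ := wP p (V 1) with hW₁
  set X := wP p (V 2) with hX
  set U := W₀ ⊔ W₁ with hU
  have hpr : p.Prime := Fact.out
  have hEp : IsPGroup p E := hN.pgrp
  have hDE : D ≤ E := cen_le E P
  have hDp : IsPGroup p D := hEp.to_le hDE
  have hDP : D ≤ centralizer (P : Set W) := cen_le_centralizer E P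
  have hZc : ∀ {z x : W}, z ∈ Z → x ∈ E → Commute z x := fun hz hx =>
    commute_of_le_centralizer (cen_le_centralizer E E) hz hx
  have hFZ : F ≤ Z := inf_le_left
  have hFn : E ≤ normalizer (F : Set W) :=
    (le_centralizer_symm (hFZ.trans (cen_le_centralizer E E))).trans (centralizer_le_normalizer _)
  have hR : ∀ a ∈ W₀, ∀ e ∈ E, ⁅a, e⁆ ∈ F := fun a ha e he =>
    mem_inf.mpr ⟨h.nat2 a ha e he, h.comm_central le_rfl (commutator_mem_commutator ha he)⟩
  have hWmE : Wm ≤ E := hC.rev.last_le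
  have hW₀E : W₀ ≤ E := h0.wP_le_E
  have hW₁E : W₁ ≤ E := h1.wP_le_E
  have hXE : X ≤ E := h.last_le
  have cm0 : Wm ≤ centralizer (W₀ : Set W) :=
    hC.comm_mid (i := 0) (j := 1) (by omega) (by omega) (by omega)
  have c12 : W₁ ≤ centralizer (X : Set W) :=
    h.comm_mid (i := 1) (j := 2) (by omega) le_rfl (by omega)
  have hac : ∀ {a c : W}, a ∈ Wm → c ∈ W₀ → Commute a c := fun ha hc =>
    commute_of_le_centralizer cm0 ha hc
  have hwx : ∀ {w x : W}, w ∈ W₁ → x ∈ X → Commute w x := fun hw hx =>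
    commute_of_le_centralizer c12 hw hx
  -- the abelian group `U'`
  obtain ⟨U', hU'U, hZU', hU'n, hgam, hU'R⟩ : ∃ U' : Subgroup W, U' ≤ U ∧ Z ≤ U' ∧
      E ≤ normalizer (U' : Set W) ∧ (∀ a ∈ Wm, ∀ x ∈ X, ⁅a, x⁆ ∈ U') ∧ (p ≠ 3 → U' ≤ W₀) := by
    by_cases hp3 : p = 3
    · exact ⟨U, le_rfl, h0.center_le.trans le_sup_left, h.sup_normalized,
        fun a ha x hx => h.act_mem a (hWmE ha) x (mem_sup_right hx), fun h' => absurd hp3 h'⟩
    · exact ⟨W₀, le_sup_left, h0.center_le, h0.le.trans h0.normalizer_wP,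
        h.gamma hg ho hp3, fun _ => le_rfl⟩
  have hU'E : U' ≤ E := hU'U.trans (sup_le hW₀E hW₁E)
  have hU'P : U' ≤ P :=
    hU'U.trans (sup_le (le_sup_right.trans le_sup_left) (le_sup_left.trans le_sup_right))
  have hUab : ∀ {l l' : W}, l ∈ U' → l' ∈ U' → Commute l l' := fun hl hl' =>
    commute_of_le_centralizer (h.adj le_rfl).sup_abelian (hU'U hl) (hU'U hl')
  have hUpow : ∀ l ∈ U', l ^ p = 1 := by
    intro l hl
    obtain ⟨c, hc, w, hw, rfl⟩ := (h.adj le_rfl).mem_mul (hU'U hl)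
    rw [(commute_of_le_centralizer (h.adj le_rfl).comm hc hw).mul_pow, h0.wP_pow c hc,
      h1.wP_pow w hw, one_mul]
  have hcn : ∀ {e l : W}, e ∈ E → l ∈ U' → e * l * e⁻¹ ∈ U' := fun {e l} he hl =>
    (mem_normalizer_iff.mp (hU'n he) l).mp hl
  have hUE : ∀ {l e : W}, l ∈ U' → e ∈ E → ⁅l, e⁆ ∈ Z := fun hl he => h.nat2_sup _ (hU'U hl) _ he
  -- commutators and powers in `P`
  have hgen : ∀ {a c w x : W}, a ∈ Wm → c ∈ W₀ → w ∈ W₁ → x ∈ X → ⁅a * c, w * x⁆ ∈ U' := by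
    intro a c w x ha hc hw hx
    have haE := hWmE ha
    have hwE := hW₁E hw
    have k1 : ⁅a, w * x⁆ ∈ U' := by
      rw [comm_mul_right]
      refine mul_mem (hZU' ?_) (hcn hwE (hgam a ha x hx))
      rw [← commutatorElement_inv w a]; exact inv_mem (h.nat2_mid w hw a haE)
    have k2 : ⁅c, w * x⁆ ∈ U' := hZU' (h.nat2 c hc _ (mul_mem hwE (hXE hx)))
    rw [comm_mul_left]
    exact mul_mem (hcn haE k2) k1
  have hL : ∀ {a c a' c' : W}, a ∈ Wm → c ∈ W₀ → a' ∈ Wm → c' ∈ W₀ → Commute (a * c) (a' * c') :=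
    fun {a c a' c'} ha hc ha' hc' =>
      ((commute_of_le_centralizer (wP_abelian p _) ha ha').mul_right (hac ha hc')).mul_left
        ((hac ha' hc).symm.mul_right (commute_of_le_centralizer (wP_abelian p _) hc hc'))
  have hR2 : ∀ {w x w' x' : W}, w ∈ W₁ → x ∈ X → w' ∈ W₁ → x' ∈ X → Commute (w * x) (w' * x') :=
    fun {w x w' x'} hw hx hw' hx' =>
      ((commute_of_le_centralizer (wP_abelian p _) hw hw').mul_right (hwx hw hx')).mul_left
        ((hwx hw' hx).symm.mul_right (commute_of_le_centralizer (wP_abelian p _) hx hx'))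
  have hPab : ∀ {u u' : W}, u ∈ P → u' ∈ P → ⁅u, u'⁆ ∈ U' := by
    intro u u' hu hu'
    obtain ⟨a, ha, c, hc, w, hw, x, hx, rfl⟩ := hfour u hu
    obtain ⟨a', ha', c', hc', w', hw', x', hx', rfl⟩ := hfour u' hu'
    have hm : a * c ∈ E := mul_mem (hWmE ha) (hW₀E hc)
    have hm' : a' * c' ∈ E := mul_mem (hWmE ha') (hW₀E hc')
    rw [comm_mul_left, comm_mul_right (w * x), comm_mul_right (a * c),
      comm_eq_one_of_commute (hR2 hw hx hw' hx'), mul_one, mul_inv_cancel, mul_one,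
      comm_eq_one_of_commute (hL ha hc ha' hc'), one_mul]
    refine mul_mem (hcn hm ?_) (hcn hm' (hgen ha hc hw' hx'))
    rw [← commutatorElement_inv (a' * c') (w * x)]
    exact inv_mem (hgen ha' hc' hw hx)
  have hprod : ∀ {a c w x : W}, a ∈ Wm → c ∈ W₀ → w ∈ W₁ → x ∈ X →
      ((a * c) * (w * x)) ^ p ∈ U' ∧ (p ≠ 2 → p ≠ 3 → ((a * c) * (w * x)) ^ p ∈ F) := by
    intro a c w x ha hc hw hx
    have hm : a * c ∈ E := mul_mem (hWmE ha) (hW₀E hc)
    have hn : w * x ∈ E := mul_mem (hW₁E hw) (hXE hx)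
    have hmp : (a * c) ^ p = 1 := by
      rw [(hac ha hc).mul_pow, hC.vx0.wP_pow a ha, h0.wP_pow c hc, one_mul]
    have hnp : (w * x) ^ p = 1 := by
      rw [(hwx hw hx).mul_pow, h1.wP_pow w hw, (h.path.vr 1 (by omega)).wP_pow x hx, one_mul]
    have hc' : ⁅w * x, a * c⁆ ∈ U' := by
      rw [← commutatorElement_inv (a * c) (w * x)]; exact inv_mem (hgen ha hc hw hx)
    refine ⟨?_, fun hp2 hp3 => ?_⟩
    · have k : ∀ {e : W}, e ∈ E → ⁅e, ⁅w * x, a * c⁆⁆ ∈ U' := fun {e} he => by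
        rw [commutatorElement_def e]; exact mul_mem (hcn he hc') (inv_mem hc')
      obtain ⟨m, hm', e⟩ := mul_pow_mod (hU'n hm) (hU'n hn) (k hm) (k hn) p
      rw [e, hmp, hnp, one_mul, one_mul]
      exact mul_mem (pow_mem hc' _) hm'
    · have k : ∀ {e : W}, e ∈ E → ⁅e, ⁅w * x, a * c⁆⁆ ∈ F := fun {e} he => by
        rw [← commutatorElement_inv ⁅w * x, a * c⁆ e]
        exact inv_mem (hR _ (hU'R hp3 hc') e he)
      obtain ⟨m, hm', e⟩ := mul_pow_mod (hFn hm) (hFn hn) (k hm) (k hn) p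
      obtain ⟨i, hi⟩ := hpr.dvd_choose_self two_ne_zero
        (lt_of_le_of_ne hpr.two_le (Ne.symm hp2))
      rw [e, hmp, hnp, one_mul, one_mul, hi, pow_mul, hUpow _ hc', one_pow, one_mul]
      exact hm'
  have hcomm : ∀ {u d u' d' : W}, u ∈ P → d ∈ D → u' ∈ P → d' ∈ D →
      ⁅u * d, u' * d'⁆ = ⁅u, u'⁆ * ⁅d, d'⁆ := fun hu hd hu' hd' =>
    comm_mul_mul (commute_of_le_centralizer hDP hd hu') (commute_of_le_centralizer hDP hd' hu)
      (commute_of_le_centralizer hDP hd hu) (commute_of_le_centralizer hDP hd' hu')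
  have hcd : ∀ {u d : W}, u ∈ P → d ∈ D → Commute u d := fun hu hd =>
    (commute_of_le_centralizer hDP hd hu).symm
  -- the bound
  set Φ := phi D with hΦ
  have hΦD : Φ ≤ D := phi_le D
  have hEΦ : E ≤ normalizer (Φ : Set W) := by
    intro e he
    obtain ⟨u, hu, d, hd, rfl⟩ := hdec e he
    refine mul_mem ?_ (phi_normalizer hDp (le_normalizer hd))
    exact centralizer_le_normalizer _ ((le_centralizer_symm (hΦD.trans hDP)) hu)
  have hUΦ : Φ ≤ normalizer (U' : Set W) := (hΦD.trans hDE).trans hU'n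
  set T := U' ⊔ Φ with hT
  set N := F ⊔ Φ with hNdef
  have hNn : E ≤ normalizer (N : Set W) := fun e he => sup_normalizer (hFn he) (hEΦ he)
  have hTdec : ∀ {t : W}, t ∈ T → ∃ l ∈ U', ∃ f ∈ Φ, l * f = t := fun ht =>
    exists_mul_of_mem_sup hUΦ ht
  have hTE : T ≤ E := sup_le hU'E (hΦD.trans hDE)
  have hΦE : ∀ {f e : W}, f ∈ Φ → e ∈ E → ⁅f, e⁆ ∈ Φ := fun {f e} hf he => by
    rw [commutatorElement_def, show f * e * f⁻¹ * e⁻¹ = f * (e * f⁻¹ * e⁻¹) by group]
    exact mul_mem hf ((mem_normalizer_iff.mp (hEΦ he) _).mp (inv_mem hf))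
  have hTN : p ≠ 3 → ∀ t ∈ T, ∀ e ∈ E, ⁅t, e⁆ ∈ N := by
    intro hp3 t ht e he
    obtain ⟨l, hl, f, hf, rfl⟩ := hTdec ht
    rw [comm_mul_left]
    exact mul_mem ((mem_normalizer_iff.mp (hNn (hU'E hl)) _).mp (mem_sup_right (hΦE hf he)))
      (mem_sup_left (hR l (hU'R hp3 hl) e he))
  have hTN3 : ∀ t ∈ T, ∀ e ∈ E, ∀ e' ∈ E, ⁅⁅t, e⁆, e'⁆ ∈ N := by
    intro t ht e he e' he'
    obtain ⟨l, hl, f, hf, rfl⟩ := hTdec ht
    rw [comm_mul_left]
    have hle := hUE hl he
    have hf' : l * ⁅f, e⁆ * l⁻¹ ∈ Φ :=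
      (mem_normalizer_iff.mp (hEΦ (hU'E hl)) _).mp (hΦE hf he)
    rw [comm_mul_left_of_commute (hZc hle he')]
    exact mem_sup_right (hΦE hf' he')
  have hsz : sZero p E ≤ N := by
    refine sZero_le_of (T := T) (p := p) hEp hTE ?_ ?_ hTN (fun _ => hTN3) ?_ hNn
    · refine phi_le_of (p := p) (fun e he e' he' => ?_) (fun e he => ?_)
      · obtain ⟨u, hu, d, hd, rfl⟩ := hdec e he
        obtain ⟨u', hu', d', hd', rfl⟩ := hdec e' he'
        rw [hcomm hu hd hu' hd']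
        exact mul_mem (mem_sup_left (hPab hu hu')) (mem_sup_right (commutator_mem_phi hDp hd hd'))
      · obtain ⟨u, hu, d, hd, rfl⟩ := hdec e he
        rw [(hcd hu hd).mul_pow]
        obtain ⟨a, ha, c, hc, w, hw, x, hx, rfl⟩ := hfour u hu
        exact mul_mem (mem_sup_left (hprod ha hc hw hx).1) (mem_sup_right (pow_mem_phi hDp hd))
    · refine phi_le_of (p := p) (fun t ht t' ht' => ?_) (fun t ht => ?_)
      · obtain ⟨l, hl, f, hf, rfl⟩ := hTdec ht
        obtain ⟨l', hl', f', hf', rfl⟩ := hTdec ht'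
        rw [hcomm (hU'P hl) (hΦD hf) (hU'P hl') (hΦD hf'), comm_eq_one_of_commute (hUab hl hl'), one_mul]
        exact mem_sup_right (hΦE hf (hDE (hΦD hf')))
      · obtain ⟨l, hl, f, hf, rfl⟩ := hTdec ht
        rw [(hcd (hU'P hl) (hΦD hf)).mul_pow, hUpow l hl, one_mul]
        exact mem_sup_right (pow_mem hf _)
    · intro hp2 hp3 e he
      obtain ⟨u, hu, d, hd, rfl⟩ := hdec e he
      rw [(hcd hu hd).mul_pow]
      obtain ⟨a, ha, c, hc, w, hw, x, hx, rfl⟩ := hfour u hu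
      exact mul_mem (mem_sup_left ((hprod ha hc hw hx).2 hp2 hp3)) (mem_sup_right (pow_mem_phi hDp hd))
  -- `N` is normal in `V 1`
  set Q := oP p (V 1) with hQ
  have hDQ : D ≤ Q := hDC.trans inf_le_right
  have hQp : IsPGroup p Q := oP_isPGroup p _
  have hY : P ⊓ Q ≤ three p V :=
    hPQ.trans (sup_le (le_sup_left.trans le_sup_left) le_sup_right)
  have hQdec : ∀ {y : W}, y ∈ Q → ∃ u, u ∈ P ∧ u ∈ three p V ∧ ∃ d ∈ D, u * d = y := by
    intro y hy
    obtain ⟨u, hu, d, hd, rfl⟩ := hdec y (h1.oP_le_E hy)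
    exact ⟨u, hu, hY (mem_inf.mpr ⟨hu, (mul_mem_cancel_right (hDQ hd)).mp hy⟩), d, hd, rfl⟩
  have hΦQ : phi Q ≤ N := by
    refine phi_le_of (p := p) (fun y hy y' hy' => ?_) (fun y hy => ?_)
    · obtain ⟨u, hu, huY, d, hd, rfl⟩ := hQdec hy
      obtain ⟨u', hu', huY', d', hd', rfl⟩ := hQdec hy'
      rw [hcomm hu hd hu' hd']
      exact mul_mem (mem_sup_left (h.three_comm u huY u' huY'))
        (mem_sup_right (commutator_mem_phi hDp hd hd'))
    · obtain ⟨u, hu, huY, d, hd, rfl⟩ := hQdec hy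
      rw [(hcd hu hd).mul_pow]
      refine mul_mem (mem_sup_left ?_) (mem_sup_right (pow_mem_phi hDp hd))
      obtain ⟨l, hl, n, hn, rfl⟩ := exists_mul_of_mem_sup h.right_normalizer_left huY
      obtain ⟨c, hc, w, hw, rfl⟩ := (h.adj le_rfl).mem_mul hl
      obtain ⟨w', hw', x, hx, rfl⟩ :=
        exists_mul_of_mem_sup (le_normalizer_of_le_centralizer (le_centralizer_symm c12)) hn
      have hlE : c * w ∈ E := mul_mem (hW₀E hc) (hW₁E hw)
      have hnE : w' * x ∈ E := mul_mem (hW₁E hw') (hXE hx)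
      have hk : ⁅w' * x, c * w⁆ ∈ F := h.three_comm _ (mem_sup_right hn) _ (mem_sup_left hl)
      have k : ∀ {e : W}, e ∈ E → ⁅e, ⁅w' * x, c * w⁆⁆ ∈ F := fun {e} he => by
        rw [comm_eq_one_of_commute (hZc (hFZ hk) he).symm]; exact one_mem _
      obtain ⟨m, hm, e⟩ := mul_pow_mod (hFn hlE) (hFn hnE) (k hlE) (k hnE) p
      rw [e, (commute_of_le_centralizer (h.adj le_rfl).comm hc hw).mul_pow, (hwx hw' hx).mul_pow,
        h0.wP_pow c hc, h1.wP_pow w hw, h1.wP_pow w' hw', (h.path.vr 1 (by omega)).wP_pow x hx,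
        one_mul, one_mul, one_mul]
      exact mul_mem (pow_mem hk _) hm
  have hNeq : N = F ⊔ phi Q :=
    le_antisymm (sup_le_sup_left (phi_mono hQp hDQ) F) (sup_le le_sup_left hΦQ)
  have hVN : V 1 ≤ normalizer (N : Set W) := by
    intro y hy
    rw [hNeq]
    exact sup_normalizer
      ((le_centralizer_symm inf_le_right).trans (centralizer_le_normalizer _) hy)
      (phi_normalizer hQp (le_normalizer_oP p _ hy))
  have hNc : Wm ≤ centralizer (N : Set W) := by
    refine le_centralizer_symm (sup_le ?_ ?_)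
    · exact (hFZ.trans (cen_le_centralizer E E)).trans (centralizer_le hWmE)
    · exact (hΦD.trans hDP).trans (centralizer_le (le_sup_left.trans le_sup_left : Wm ≤ P))
  have hcr := h1.central_criterion hVN hWmE hC.rev.last_not_le hNc
  exact h1.bad ((le_inf (inf_le_right.trans hsz) inf_le_left).trans hcr)

end Cfsg.Agent.H73.GN
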