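import Mathlib
import Cfsg.Agent.H73.GN.TwoGen
import Cfsg.Agent.H73.GN.One
import Cfsg.Agent.H73.GN.Long

/-!
All bad vertices commute along paths; a subgroup of largest measure, containing its centraliser,
normal in every bad vertex through a given edge.
-/

set_option autoImplicit false

namespace Cfsg.Agent.H73.GN

open Subgroup
open scoped commutatorElement

variable {W : Type*} [Group W]

/-- The join of the `W`s along a path. -/
def pathY (p : ℕ) : ℕ → (ℕ → Subgroup W) → Subgroup W
  | 0, V => wP p (V 0)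
  | n + 1, V => wP p (V 0) ⊔ pathY p n (fun i => V (i + 1))

theorem le_pathY (p : ℕ) : ∀ (n : ℕ) (V : ℕ → Subgroup W) (i : ℕ), i ≤ n → wP p (V i) ≤ pathY p n V
  | 0, V, i, hi => by obtain rfl : i = 0 := by omega
                      exact le_rfl
  | n + 1, V, 0, _ => le_sup_left
  | n + 1, V, i + 1, hi => (le_pathY p n (fun i => V (i + 1)) i (by omega)).trans le_sup_right

theorem pathY_le (p : ℕ) {X : Subgroup W} : ∀ (n : ℕ) (V : ℕ → Subgroup W),
    (∀ i, i ≤ n → wP p (V i) ≤ X) → pathY p n V ≤ X
  | 0, _, h => h 0 le_rfl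
  | n + 1, V, h => sup_le (h 0 (Nat.zero_le _))
      (pathY_le p n (fun i => V (i + 1)) fun i hi => h (i + 1) (by omega))

/-- The far vertices of the edge `E`. -/
def Far (p : ℕ) (E G : Subgroup W) : Prop :=
  ∃ (n : ℕ) (V Ed : ℕ → Subgroup W), Path p (n + 1) V Ed ∧ Ed 1 = E ∧ V (n + 1) = G

variable {p : ℕ}

theorem far_of_vx {G E : Subgroup W} (h : Vx p G E) : Far p E G :=
  ⟨0, fun _ => G, fun _ => E,
    { vl := fun _ _ => h, vr := fun _ _ => h, opp := fun i hi => absurd hi (by omega) }, rfl, rfl⟩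

/-- Glue the reverse of the tail of one path to the tail of another along their first edge. -/
def glueV (n : ℕ) (V V' : ℕ → Subgroup W) : ℕ → Subgroup W := fun i =>
  if i ≤ n then V (n + 1 - i) else V' (i - n)

/-- The edges of the glued path. -/
def glueE (n : ℕ) (Ed Ed' : ℕ → Subgroup W) : ℕ → Subgroup W := fun i =>
  if i ≤ n + 1 then Ed (n + 2 - i) else Ed' (i - n)

theorem Path.glue [Finite W] [Fact p.Prime] {n m : ℕ} {V Ed V' Ed' : ℕ → Subgroup W} (h : Path p (n + 1) V Ed)
    (h' : Path p (m + 1) V' Ed') (he : Ed 1 = Ed' 1) :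
    Path p (n + m + 1) (glueV n V V') (glueE n Ed Ed') where
  vl i hi := by
    unfold glueV glueE
    split_ifs with h1 h2 h2
    · have := h.vr (n - i) (by omega)
      rw [show n + 2 - (i + 1) = n + 1 - i by omega]
      rwa [show n - i + 1 = n + 1 - i by omega] at this
    · omega
    · omega
    · have := h'.vl (i - n) (by omega)
      rwa [show i - n + 1 = i + 1 - n by omega] at this
  vr i hi := by
    unfold glueV glueE
    split_ifs with h1 h2 h2
    · have := h.vl (n - i) (by omega)
      rwa [show n - i + 1 = n + 2 - (i + 1) by omega, show n - i = n + 1 - (i + 1) by omega] at this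
    · omega
    · have := h'.vr 0 (by omega)
      rw [show n + 2 - (i + 1) = 1 by omega, show i + 1 - n = 1 by omega, he]
      exact this
    · have := h'.vr (i - n) (by omega)
      rwa [show i - n + 1 = i + 1 - n by omega] at this
  opp i hi := by
    unfold glueV glueE
    by_cases h3 : i + 2 ≤ n + 1
    · rw [if_pos (by omega), if_pos (by omega), if_pos h3]
      have := h.opp (n - i - 1) (by omega)
      rw [show n - i - 1 + 1 = n - i by omega, show n - i - 1 + 2 = n + 1 - i by omega] at this
      rw [show n + 1 - (i + 1) = n - i by omega, show n + 2 - (i + 1) = n + 1 - i by omega,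
        show n + 2 - (i + 2) = n - i by omega]
      exact this.symm
    rw [if_neg (show ¬ (i + 1 ≤ n) by omega), if_neg h3]
    have := h'.opp (i - n) (by omega)
    rw [show i - n + 1 = i + 1 - n by omega, show i - n + 2 = i + 2 - n by omega] at this
    split_ifs with h4
    · rw [show n + 2 - (i + 1) = 1 by omega, he]
      have e1 : i + 1 - n = 1 := by omega
      rw [e1] at this ⊢
      exact this
    · exact this

variable [Finite W] [Fact p.Prime]

/-- **All paths commute.** -/
theorem all_comm : ∀ (n : ℕ) (V Ed : ℕ → Subgroup W), Path p n V Ed →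
    wP p (V 0) ≤ centralizer (wP p (V n) : Set W) := by
  intro n
  induction n using Nat.strong_induction_on with
  | _ n ih =>
    intro V Ed hP
    by_contra hne
    rcases Nat.eq_zero_or_pos n with h0 | h0
    · subst h0; exact hne (wP_abelian p _)
    have hC : Crit p n V Ed := ⟨hP, fun m hm V' Ed' h' => ih m hm V' Ed' h', h0, hne⟩
    rcases le_or_gt 3 n with h3 | h3
    · exact hC.not_long h3
    interval_cases n
    · exact hC.not_one
    · exact hC.not_two

theorem commBelow (b : ℕ) : CommBelow W p b := fun n _ V Ed h => all_comm n V Ed h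

theorem Path.wP_le_first {n : ℕ} {V Ed : ℕ → Subgroup W} (h : Path p (n + 1) V Ed) {i : ℕ}
    (hi : i ≤ n + 1) : wP p (V i) ≤ Ed 1 := by
  rcases Nat.eq_zero_or_pos i with rfl | h0
  · exact (h.vl 0 (by omega)).wP_le_E
  · exact h.le_edge' (commBelow (n + 2)) h0 le_rfl hi (by omega)

theorem Path.mem_pathY : ∀ {n : ℕ} {V Ed : ℕ → Subgroup W}, Path p (n + 1) V Ed →
    Mem (Ed 1) (pathY p (n + 1) V) := by
  intro n
  induction n with
  | zero =>
    intro V Ed h
    exact (h.vl 0 (by omega)).mem_wP.sup (h.vl 0 (by omega)).nice (h.vr 0 (by omega)).mem_wP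
  | succ n ih =>
    intro V Ed h
    have hd : Path p (n + 1) (fun i => V (i + 1)) (fun i => Ed (i + 1)) := by
      have := h.drop (m := 1) (n' := n + 1) (by omega)
      simpa [Nat.add_comm 1] using this
    have h1 := h.vl 0 (by omega)
    have h2 := h.vl 1 (by omega)
    have h1' := h.vr 0 (by omega)
    set Y := pathY p (n + 1) (fun i => V (i + 1)) with hY
    have hm : Mem (Ed 2) Y := ih hd
    have hYle : Y ≤ Ed 1 := pathY_le p _ _ fun i hi => h.wP_le_first (by omega)
    have hc : cen (Ed 2) Y ≤ Ed 1 := by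
      refine (cen_anti (Ed 2) (le_pathY p (n + 1) (fun i => V (i + 1)) 0 (by omega))).trans ?_
      show cen (Ed 2) (wP p (V 1)) ≤ Ed 1
      rw [h2.cen_wP]; exact h1'.oP_le_E
    have hm1 := (hm.transfer h1.nice (by rw [h1'.card_eq h2, h1'.card_center_eq h2]) hYle hc).1
    exact h1.mem_wP.sup h1.nice hm1

theorem Far.wP_le {E G : Subgroup W} (h : Far p E G) : wP p G ≤ E := by
  obtain ⟨n, V, Ed, hP, rfl, rfl⟩ := h
  exact hP.wP_le_first le_rfl

theorem Far.commute {E G G' : Subgroup W} (h : Far p E G) (h' : Far p E G') :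
    wP p G ≤ centralizer (wP p G' : Set W) := by
  obtain ⟨n, V, Ed, hP, rfl, rfl⟩ := h
  obtain ⟨m, V', Ed', hP', he, rfl⟩ := h'
  have := all_comm _ _ _ (hP.glue hP' he.symm)
  unfold glueV at this
  rwa [if_pos (Nat.zero_le _), if_neg (by omega), Nat.sub_zero,
    show n + m + 1 - n = m + 1 by omega] at this

theorem Far.cj {E G : Subgroup W} (h : Far p E G) (g : W) : Far p (GN.cj g E) (GN.cj g G) := by
  obtain ⟨n, V, Ed, hP, rfl, rfl⟩ := h
  exact ⟨n, _, _, hP.cj g, rfl, rfl⟩

theorem Far.prepend {E G F : Subgroup W} (hG : Vx p G E) {g : W} (hg : g ∈ G)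
    (ho : Opp G E (GN.cj g E)) (h : Far p E F) : Far p E (GN.cj g F) := by
  obtain ⟨n, V, Ed, hP, rfl, rfl⟩ := h
  have h2 := (hP.cj g).head (G := G) (fun _ => hG.cj_of_mem hg)
  exact ⟨n + 1, _, _, h2.cons (G := G) hG hG (fun _ => ho), rfl, rfl⟩

/-- The join of `Z(E)` and the `W`s of the far vertices. -/
def farJoin (p : ℕ) (E : Subgroup W) : Subgroup W :=
  cen E E ⊔ ⨆ G : {G : Subgroup W // Far p E G}, wP p (G : Subgroup W)

theorem farJoin_le (E : Subgroup W) : farJoin p E ≤ E :=
  sup_le (cen_le E E) (iSup_le fun G => G.2.wP_le)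

theorem Far.le_farJoin {E G : Subgroup W} (h : Far p E G) : wP p G ≤ farJoin p E :=
  (le_iSup (fun G : {G : Subgroup W // Far p E G} => wP p (G : Subgroup W)) ⟨G, h⟩).trans le_sup_right

theorem farJoin_abelian (E : Subgroup W) :
    farJoin p E ≤ centralizer (farJoin p E : Set W) := by
  have hz : cen E E ≤ centralizer (farJoin p E : Set W) :=
    (cen_le_centralizer E E).trans (centralizer_le (farJoin_le E))
  refine sup_le hz (iSup_le fun G => ?_)
  refine le_centralizer_symm (sup_le ?_ (iSup_le fun G' => ?_))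
  · exact (cen_le_centralizer E E).trans (centralizer_le G.2.wP_le)
  · exact G'.2.commute G.2

theorem farJoin_mem {E : Subgroup W} (hN : Nice p E) : Mem E (farJoin p E) := by
  classical
  let P := {q : ℕ × (ℕ → Subgroup W) // ∃ Ed, Path p (q.1 + 1) q.2 Ed ∧ Ed 1 = E}
  let T : Set (Subgroup W) := Set.range fun q : P => pathY p (q.1.1 + 1) q.1.2
  have hT : T.Finite := Set.toFinite T
  have key : ∀ s : Finset (Subgroup W), (∀ Y ∈ s, Mem E Y) → Mem E (cen E E ⊔ s.sup id) := by
    intro s
    induction s using Finset.induction_on with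
    | empty => intro _; rw [Finset.sup_empty, sup_bot_eq]; exact center_mem hN
    | insert Y s _ ih =>
      intro hs
      rw [Finset.sup_insert, id, sup_left_comm]
      exact (hs Y (Finset.mem_insert_self _ _)).sup hN (ih fun Z hZ => hs Z (Finset.mem_insert_of_mem hZ))
  have hs : ∀ Y ∈ hT.toFinset, Mem E Y := by
    intro Y hY
    obtain ⟨⟨q, Ed, hP, he⟩, rfl⟩ := hT.mem_toFinset.mp hY
    exact he ▸ hP.mem_pathY
  have heq : farJoin p E = cen E E ⊔ hT.toFinset.sup id := by
    refine le_antisymm (sup_le_sup_left (iSup_le fun G => ?_) _) (sup_le le_sup_left (Finset.sup_le ?_))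
    · obtain ⟨G, n, V, Ed, hP, he, rfl⟩ := G
      refine (le_pathY p (n + 1) V (n + 1) le_rfl).trans ?_
      exact Finset.le_sup (f := id) (hT.mem_toFinset.mpr ⟨⟨(n, V), Ed, hP, he⟩, rfl⟩)
    · intro Y hY
      obtain ⟨⟨⟨n, V⟩, Ed, hP, he⟩, rfl⟩ := hT.mem_toFinset.mp hY
      refine pathY_le p _ _ fun i hi => ?_
      rcases Nat.eq_zero_or_pos i with rfl | h0
      · exact (far_of_vx (he ▸ hP.vl 0 (by omega))).le_farJoin
      · exact Far.le_farJoin ⟨i - 1, V, Ed, hP.take (by simp only at hi ⊢; omega), he,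
          congrArg V (by omega)⟩
  rw [heq]
  exact key _ hs

/-- The subgroup `K`. -/
def kernelK (p : ℕ) (E : Subgroup W) : Subgroup W := cen E (farJoin p E)

theorem farJoin_normalized {E G : Subgroup W} (hG : Vx p G E) :
    G ≤ normalizer (farJoin p E : Set W) := by
  have hE : ∀ x ∈ normalizer (E : Set W), x ∈ normalizer (farJoin p E : Set W) := by
    intro x hx
    have hxE := cj_eq_of_mem_normalizer hx
    refine mem_normalizer_of_cj_eq (eq_of_le_card ?_ (card_cj x _).ge)
    rw [farJoin, cj_sup, cj_cen, hxE, GN.cj, Subgroup.map_iSup]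
    refine sup_le le_sup_left (iSup_le fun F => ?_)
    have h := F.2.cj x
    rw [hxE] at h
    show GN.cj x (wP p (F : Subgroup W)) ≤ _
    rw [← wP_cj]; exact h.le_farJoin
  obtain ⟨g, hg, ho⟩ := hG.exists_opp
  have hgn : g ∈ normalizer (farJoin p E : Set W) := by
    refine mem_normalizer_of_cj_eq (eq_of_le_card ?_ (card_cj g _).ge)
    rw [farJoin, cj_sup, cj_cen, GN.cj, GN.cj, Subgroup.map_iSup]
    refine sup_le ?_ (iSup_le fun F => ?_)
    · exact (hG.cj_of_mem hg).center_le.trans (far_of_vx hG).le_farJoin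
    · show GN.cj g (wP p (F : Subgroup W)) ≤ _
      rw [← wP_cj]; exact (Far.prepend hG hg ho F.2).le_farJoin
  have hEn : E ≤ normalizer (farJoin p E : Set W) := fun x hx => hE x (le_normalizer hx)
  refine ho.ge.trans (sup_le hEn fun x hx => ?_)
  rw [mem_cj] at hx
  have := mul_mem (mul_mem hgn (hEn hx)) (inv_mem hgn)
  simpa [mul_assoc] using this

/-- **The subgroup `K`**: largest measure, contains its centralizer, normal in every bad vertex,
invariant under the normalizer of `E`. -/
theorem kernelK_spec {E : Subgroup W} (hN : Nice p E) :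
    Mem E (kernelK p E) ∧ cen E (kernelK p E) ≤ kernelK p E ∧
      (∀ G, Vx p G E → G ≤ normalizer (kernelK p E : Set W)) ∧
      ∀ x ∈ normalizer (E : Set W), x ∈ normalizer (kernelK p E : Set W) := by
  obtain ⟨hm, hc⟩ := (farJoin_mem hN (p := p)).centralizer hN
  refine ⟨hm, ?_, fun G hG => ?_, fun x hx => ?_⟩
  · rw [kernelK, hc]
    exact le_cen (farJoin_le E) (farJoin_abelian E)
  · have hKQ : kernelK p E = cen (oP p G) (farJoin p E) := by
      refine le_antisymm (le_inf ?_ (cen_le_centralizer _ _)) (le_inf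
        (inf_le_left.trans hG.oP_le_E) (cen_le_centralizer _ _))
      rw [← hG.cen_wP]; exact cen_anti E (far_of_vx hG).le_farJoin
    intro x hx
    rw [hKQ]
    exact inf_centralizer_normalizer (le_normalizer_oP p G hx) (farJoin_normalized hG hx)
  · have hxE := cj_eq_of_mem_normalizer hx
    refine mem_normalizer_of_cj_eq ?_
    rw [kernelK, cj_cen, hxE]
    congr 1
    refine eq_of_le_card ?_ (card_cj x _).ge
    rw [farJoin, cj_sup, cj_cen, hxE, GN.cj, Subgroup.map_iSup]
    refine sup_le le_sup_left (iSup_le fun F => ?_)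
    have h := F.2.cj x
    rw [hxE] at h
    show GN.cj x (wP p (F : Subgroup W)) ≤ _
    rw [← wP_cj]; exact h.le_farJoin

end Cfsg.Agent.H73.GN
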