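import Mathlib
import Cfsg.Agent.H35.ThompsonA
import Cfsg.Agent.H72.PCore
import Cfsg.Agent.H74.PushingUpCL
import Cfsg.Agent.H73.GN.SZero

/-!
Transport of centrally large subgroups and of the pushing-up situation along isomorphisms;
characteristic subgroups built from them.
-/

set_option autoImplicit false

namespace Cfsg.Agent.H73.GN

open Subgroup
open scoped commutatorElement

variable {S T : Type*} [Group S] [Group T]

theorem card_map_equiv (θ : S ≃* T) (H : Subgroup S) : Nat.card ↥(H.map θ.toMonoidHom) = Nat.card H :=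
  card_map_of_injective θ.injective

theorem map_symm_map (θ : S ≃* T) (H : Subgroup T) :
    (H.map θ.symm.toMonoidHom).map θ.toMonoidHom = H := by
  ext x
  simp [mem_map_equiv]

theorem map_centralizer_equiv (θ : S ≃* T) (H : Subgroup S) :
    (centralizer (H : Set S)).map θ.toMonoidHom = centralizer (H.map θ.toMonoidHom : Set T) := by
  ext x
  rw [mem_map_equiv, mem_centralizer_iff, mem_centralizer_iff]
  constructor
  · rintro h _ ⟨y, hy, rfl⟩
    simpa using congrArg θ (h y hy)
  · intro h y hy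
    simpa using congrArg θ.symm (h (θ y) ⟨y, hy, rfl⟩)

theorem map_center_equiv (θ : S ≃* T) : (center S).map θ.toMonoidHom = center T := by
  ext x
  rw [mem_map_equiv, mem_center_iff, mem_center_iff]
  exact ⟨fun h y => by simpa using congrArg θ (h (θ.symm y)),
    fun h y => by simpa using congrArg θ.symm (h (θ y))⟩

theorem center_card_equiv (θ : S ≃* T) (R : Subgroup S) :
    Nat.card ↥(center ↥(R.map θ.toMonoidHom)) = Nat.card ↥(center ↥R) := by
  rw [H74.card_center_eq, H74.card_center_eq, ← map_centralizer_equiv,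
    ← Subgroup.map_inf _ _ θ.toMonoidHom θ.injective, card_map_equiv]

theorem maxCentralProduct_equiv (θ : S ≃* T) : Cfsg.maxCentralProduct T = Cfsg.maxCentralProduct S := by
  unfold Cfsg.maxCentralProduct
  congr 1
  ext k
  refine ⟨fun ⟨R, hR⟩ => ⟨R.map θ.symm.toMonoidHom, ?_⟩, fun ⟨R, hR⟩ => ⟨R.map θ.toMonoidHom, ?_⟩⟩
  · rw [center_card_equiv, card_map_equiv, hR]
  · rw [center_card_equiv, card_map_equiv, hR]

theorem cl_equiv (θ : S ≃* T) {R : Subgroup S} (h : Cfsg.IsCentrallyLarge R) :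
    Cfsg.IsCentrallyLarge (R.map θ.toMonoidHom) := by
  unfold Cfsg.IsCentrallyLarge at h ⊢
  rw [center_card_equiv, card_map_equiv, maxCentralProduct_equiv θ, h]

theorem minimal_equiv (θ : S ≃* T) {R : Subgroup S} (h : Cfsg.IsMinimalCentrallyLarge R) :
    Cfsg.IsMinimalCentrallyLarge (R.map θ.toMonoidHom) := by
  refine ⟨cl_equiv θ h.1, fun R' hle hR' => ?_⟩
  have := h.2 (R'.map θ.symm.toMonoidHom) ?_ (cl_equiv θ.symm hR')
  · rw [← this, map_symm_map]
  · rintro _ ⟨x, hx, rfl⟩
    obtain ⟨y, hy, rfl⟩ := hle hx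
    simpa using hy

theorem minimalCentrallyLargeJoin_equiv (θ : S ≃* T) :
    (Cfsg.minimalCentrallyLargeJoin S).map θ.toMonoidHom = Cfsg.minimalCentrallyLargeJoin T := by
  refine le_antisymm (map_le_iff_le_comap.mpr (sSup_le fun R hR => map_le_iff_le_comap.mp
    (le_sSup (minimal_equiv θ hR)))) (sSup_le fun R hR => ?_)
  rw [← map_symm_map θ R]
  exact map_mono (le_sSup (minimal_equiv θ.symm hR))

variable {p : ℕ} [Fact p.Prime]

theorem omegaOneCenter_equiv (θ : S ≃* T) (R : Subgroup S) :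
    (Cfsg.omegaOneCenter p R).map θ.toMonoidHom = Cfsg.omegaOneCenter p (R.map θ.toMonoidHom) := by
  ext x
  rw [mem_map_equiv, H74.mem_omegaOneCenter_iff, H74.mem_omegaOneCenter_iff,
    ← map_centralizer_equiv, ← Subgroup.map_inf _ _ θ.toMonoidHom θ.injective, mem_map_equiv,
    ← map_pow, map_eq_one_iff _ θ.symm.injective]

theorem maxOmega_equiv (θ : S ≃* T) :
    Cfsg.maxOmegaCenterOfMinimalCL p T = Cfsg.maxOmegaCenterOfMinimalCL p S := by
  unfold Cfsg.maxOmegaCenterOfMinimalCL
  congr 1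
  ext k
  refine ⟨fun ⟨R, hR, hk⟩ => ⟨R.map θ.symm.toMonoidHom, minimal_equiv θ.symm hR, ?_⟩,
    fun ⟨R, hR, hk⟩ => ⟨R.map θ.toMonoidHom, minimal_equiv θ hR, ?_⟩⟩
  · rw [← omegaOneCenter_equiv, card_map_equiv, hk]
  · rw [← omegaOneCenter_equiv, card_map_equiv, hk]

theorem frattiniJoin_le [Finite S] [Finite T] (θ : S ≃* T) :
    (Cfsg.frattiniOfMinimalCLJoin p S).map θ.toMonoidHom ≤ Cfsg.frattiniOfMinimalCLJoin p T := by
  rw [Cfsg.frattiniOfMinimalCLJoin, Subgroup.map_iSup]
  refine iSup_le fun R => le_iSup_of_le ⟨(R : Subgroup S).map θ.toMonoidHom, minimal_equiv θ R.2.1,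
    by rw [← omegaOneCenter_equiv, card_map_equiv, maxOmega_equiv θ, R.2.2]⟩ ?_
  exact (phi_map (f := θ.toMonoidHom) θ.injective (R : Subgroup S)).ge

theorem frattiniJoin_equiv [Finite S] [Finite T] (θ : S ≃* T) :
    (Cfsg.frattiniOfMinimalCLJoin p S).map θ.toMonoidHom = Cfsg.frattiniOfMinimalCLJoin p T := by
  refine le_antisymm (frattiniJoin_le θ) ?_
  have := map_mono (f := θ.toMonoidHom) (frattiniJoin_le (p := p) θ.symm)
  rwa [map_symm_map] at this

theorem minimalCentrallyLargeJoin_char : (Cfsg.minimalCentrallyLargeJoin S).Characteristic :=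
  characteristic_iff_map_eq.mpr fun φ => minimalCentrallyLargeJoin_equiv φ

theorem frattiniJoin_char [Finite S] : (Cfsg.frattiniOfMinimalCLJoin p S).Characteristic :=
  characteristic_iff_map_eq.mpr fun φ => frattiniJoin_equiv φ

theorem thompsonA_char : (Cfsg.thompsonSubgroupA S).Characteristic :=
  characteristic_iff_map_eq.mpr fun φ => H35.thompsonSubgroupA_map_equiv φ

theorem centralizer_char {H : Subgroup S} (h : H.Characteristic) :
    (centralizer (H : Set S)).Characteristic :=
  characteristic_iff_map_eq.mpr fun φ => by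
    rw [map_centralizer_equiv, characteristic_iff_map_eq.mp h φ]

theorem inf_char {H K : Subgroup S} (h : H.Characteristic) (h' : K.Characteristic) :
    (H ⊓ K).Characteristic :=
  characteristic_iff_map_eq.mpr fun φ => by
    rw [Subgroup.map_inf _ _ φ.toMonoidHom φ.injective, characteristic_iff_map_eq.mp h φ,
      characteristic_iff_map_eq.mp h' φ]

theorem commutator_char {H K : Subgroup S} (h : H.Characteristic) (h' : K.Characteristic) :
    (⁅H, K⁆ : Subgroup S).Characteristic :=
  characteristic_iff_map_eq.mpr fun φ => by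
    rw [map_commutator, characteristic_iff_map_eq.mp h φ, characteristic_iff_map_eq.mp h' φ]

theorem top_char : (⊤ : Subgroup S).Characteristic :=
  characteristic_iff_map_eq.mpr fun φ => map_top_of_surjective _ φ.surjective

theorem center_char : (center S).Characteristic :=
  characteristic_iff_map_eq.mpr fun φ => map_center_equiv φ

theorem minimal_commutator_char [Finite S] {Q : Subgroup S} (hQ : Cfsg.IsMinimalCentrallyLarge Q) :
    (⁅Q, Q⁆ : Subgroup S).Characteristic :=
  characteristic_iff_map_eq.mpr fun φ => by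
    rw [map_commutator]; exact H74.minimal_commutator_eq (minimal_equiv φ hQ) hQ

theorem powerClosure_char (p n : ℕ) {H : Subgroup S} (h : H.Characteristic) :
    (Cfsg.powerClosure p n H).Characteristic := by
  refine characteristic_iff_map_eq.mpr fun φ => ?_
  rw [Cfsg.powerClosure, MonoidHom.map_closure]
  congr 1
  ext y
  simp only [Set.mem_ofPred_eq, Set.mem_image]
  constructor
  · rintro ⟨_, ⟨x, hx, rfl⟩, rfl⟩
    exact ⟨φ x, (characteristic_iff_map_eq.mp h φ).le ⟨x, hx, rfl⟩, map_pow _ _ _⟩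
  · rintro ⟨x, hx, rfl⟩
    obtain ⟨x', hx', rfl⟩ := (characteristic_iff_map_eq.mp h φ).ge hx
    exact ⟨x' ^ p ^ n, ⟨x', hx', rfl⟩, map_pow _ _ _⟩

/-- A characteristic subgroup is characteristic in the whole group seen as a subgroup. -/
theorem char_subgroupOf_top {H K : Subgroup S} (hK : K = ⊤) (h : H.Characteristic) :
    (H.subgroupOf K).Characteristic := by
  subst hK
  refine characteristic_iff_map_eq.mpr fun φ => ?_
  have h1 := characteristic_iff_map_eq.mp h
    (((topEquiv : (⊤ : Subgroup S) ≃* S).symm.trans φ).trans topEquiv)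
  ext x
  rw [mem_map_equiv, mem_subgroupOf, mem_subgroupOf]
  constructor
  · intro hx
    refine h1.le ⟨_, hx, ?_⟩
    show ((φ ⟨((φ.symm x : (⊤ : Subgroup S)) : S), mem_top _⟩ : (⊤ : Subgroup S)) : S) = _
    rw [show (⟨((φ.symm x : (⊤ : Subgroup S)) : S), mem_top _⟩ : (⊤ : Subgroup S)) = φ.symm x from rfl,
      φ.apply_symm_apply]
  · intro hx
    obtain ⟨y, hy, hyx⟩ := h1.ge hx
    have e : (topEquiv : (⊤ : Subgroup S) ≃* S).symm y = φ.symm x := by
      rw [MulEquiv.eq_symm_apply]
      exact Subtype.ext (by simpa using hyx)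
    rw [← e]
    simpa using hy

theorem char_subgroupOf_self (H : Subgroup S) : (H.subgroupOf H).Characteristic := by
  rw [subgroupOf_self]; exact top_char

/-- A subgroup containing a centrally large subgroup has the same maximal product. -/
theorem maxCentralProduct_of_le [Finite S] {H R : Subgroup S} (hR : Cfsg.IsCentrallyLarge R) (hle : R ≤ H) :
    Cfsg.maxCentralProduct ↥H = Cfsg.maxCentralProduct S := by
  have key : ∀ R' : Subgroup ↥H, Nat.card ↥R' * Nat.card ↥(center ↥R') =
      Nat.card ↥(R'.map H.subtype) * Nat.card ↥(center ↥(R'.map H.subtype)) := fun R' => by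
    let ε := R'.equivMapOfInjective _ H.subtype_injective
    rw [← Nat.card_congr ε.toEquiv, ← map_center_equiv ε,
      card_map_equiv ε (center ↥R')]
  have hb : ∀ X : Subgroup S, Nat.card ↥X * Nat.card ↥(center ↥X) ≤ Cfsg.maxCentralProduct S := fun X =>
    le_csSup (H74.bddAbove_values fun X : Subgroup S => Nat.card ↥X * Nat.card ↥(center ↥X)) ⟨X, rfl⟩
  refine le_antisymm (csSup_le ⟨_, ⊥, rfl⟩ ?_) ?_
  · rintro k ⟨R', rfl⟩
    rw [key]; exact hb _
  · rw [← hR]
    refine le_csSup (H74.bddAbove_values fun X : Subgroup ↥H => Nat.card ↥X * Nat.card ↥(center ↥X))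
      ⟨R.subgroupOf H, ?_⟩
    rw [key, map_subgroupOf_eq_of_le hle]

/-- The pushing-up situation is preserved by isomorphisms. -/
theorem pushingUp_equiv {G H : Type*} [Group G] [Group H] [Finite G] [Finite H] {p : ℕ} [Fact p.Prime]
    (θ : G ≃* H) {P : Subgroup G} (h : Cfsg.IsPushingUpSituation p P) :
    Cfsg.IsPushingUpSituation p (P.map θ.toMonoidHom) := by
  obtain ⟨h1, ⟨R, hR⟩, h3, ⟨M, ⟨hM, hPM⟩, huniq⟩, K, hK, F, iF, iF', n, hF, ⟨e⟩⟩ := h
  refine ⟨fun he => h1 ?_, ⟨R.mapSurjective θ.surjective, by rw [← hR]; rfl⟩, ?_, ?_, ?_⟩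
  · rw [eq_bot_iff]
    intro x _
    have : θ x = 1 := mem_bot.mp (he ▸ mem_top (θ x))
    exact mem_bot.mpr (θ.injective (this.trans (map_one θ).symm))
  · rw [← H72.pCore_map_equiv θ, ← map_centralizer_equiv]
    exact map_mono h3
  · refine ⟨M.map θ.toMonoidHom, ⟨(θ.mapSubgroup.isCoatom_iff M).mpr hM, map_mono hPM⟩, ?_⟩
    rintro M' ⟨hM', hle⟩
    have h' : IsCoatom (θ.mapSubgroup.symm M') := (θ.mapSubgroup.symm.isCoatom_iff M').mpr hM'
    have hle' : P ≤ θ.mapSubgroup.symm M' := by
      rw [OrderIso.le_symm_apply]; exact hle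
    rw [← huniq _ ⟨h', hle'⟩]
    exact (θ.mapSubgroup.apply_symm_apply M').symm
  · haveI := hK
    haveI hK' : (K.map θ.toMonoidHom).Normal := hK.map _ θ.surjective
    exact ⟨K.map θ.toMonoidHom, hK', F, iF, iF', n, hF,
      ⟨(QuotientGroup.congr K (K.map θ.toMonoidHom) θ rfl).symm.trans e⟩⟩

end Cfsg.Agent.H73.GN
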