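import Mathlib
import Cfsg.Agent.H73.GN.Transport
import Cfsg.Agent.H73.GN.TwoGamma

/-!
The reductions for pairs of characteristic subgroups in the pushing-up situation,
for a group `S` mapped injectively onto the Sylow subgroup.
-/

set_option autoImplicit false

namespace Cfsg.Agent.H73.GN

open Subgroup
open scoped commutatorElement

variable {S G : Type*} [Group S] [Group G]

theorem map_centralizer_range {τ : S →* G} (hτ : Function.Injective τ) (H : Subgroup S) :
    (centralizer (H : Set S)).map τ = τ.range ⊓ centralizer (H.map τ : Set G) := by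
  ext x
  constructor
  · rintro ⟨y, hy, rfl⟩
    refine mem_inf.mpr ⟨⟨y, rfl⟩, mem_centralizer_iff.mpr ?_⟩
    rintro _ ⟨a, ha, rfl⟩
    rw [← map_mul, ← map_mul, mem_centralizer_iff.mp hy a ha]
  · rintro ⟨⟨y, rfl⟩, hx⟩
    refine ⟨y, mem_centralizer_iff.mpr fun a ha => hτ ?_, rfl⟩
    rw [map_mul, map_mul]
    exact mem_centralizer_iff.mp hx (τ a) ⟨a, ha, rfl⟩

theorem map_center_range {τ : S →* G} (hτ : Function.Injective τ) :
    (center S).map τ = τ.range ⊓ centralizer (τ.range : Set G) := by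
  have := map_centralizer_range hτ (⊤ : Subgroup S)
  rwa [coe_top, centralizer_univ, ← MonoidHom.range_eq_map] at this

theorem normal_of_central {X : Subgroup G} (h : X ≤ centralizer ((⊤ : Subgroup G) : Set G)) :
    X.Normal :=
  ⟨fun x hx g => by
    have := mem_centralizer_iff.mp (h hx) g (mem_top g)
    rwa [this, mul_inv_cancel_right]⟩

theorem normal_of_central_sup {X C P : Subgroup G} (hsup : C ⊔ P = ⊤)
    (hC : C ≤ centralizer (X : Set G)) (hP : X ≤ centralizer (P : Set G)) : X.Normal :=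
  normal_of_central (le_centralizer_symm (hsup ▸ sup_le hC (le_centralizer_symm hP)))

variable [Finite G] {p : ℕ} [Fact p.Prime]

theorem pu_supplement {P C X : Subgroup G} (hE : Cfsg.IsPushingUpSituation p P) [C.Normal] (hC : X ≤ C)
    (hX : X ≤ P) (hXQ : ¬ X ≤ Cfsg.pCore p G) : C ⊔ P = ⊤ :=
  (H74.pu_dichotomy hE C).resolve_right fun h => hXQ ((le_inf hC hX).trans h)

variable [Finite S]

theorem maxAbelian_self_centralizing {A : Subgroup S} (hA : A ∈ Cfsg.maxAbelianSubgroups S) :
    centralizer (A : Set S) ≤ A := by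
  intro x hx
  have hAA : A ≤ centralizer (A : Set S) := le_centralizer_iff_isMulCommutative.mpr hA.1
  have hxx : zpowers x ≤ centralizer (A : Set S) := zpowers_le.mpr hx
  have hB : IsMulCommutative ↥(A ⊔ zpowers x) := le_centralizer_iff_isMulCommutative.mp
    (sup_le_centralizer_self hAA (le_centralizer_iff_isMulCommutative.mpr inferInstance)
      (le_centralizer_symm hxx))
  have e : A = A ⊔ zpowers x := eq_of_le_card le_sup_left (hA.2 _ hB)
  exact e.ge (mem_sup_right (mem_zpowers x))

variable {τ : S →* G}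

theorem maxAbelian_self_centralizing_map (hτ : Function.Injective τ) {A : Subgroup S}
    (hA : A ∈ Cfsg.maxAbelianSubgroups S) :
    τ.range ⊓ centralizer (A.map τ : Set G) ≤ A.map τ := by
  rw [← map_centralizer_range hτ]
  exact map_mono (maxAbelian_self_centralizing hA)

theorem maxAbelian_map_abelian {A : Subgroup S} (hA : A ∈ Cfsg.maxAbelianSubgroups S) :
    A.map τ ≤ centralizer (A.map τ : Set G) :=
  le_centralizer_iff_isMulCommutative.mpr (H35.isMulCommutative_map τ hA.1)

theorem card_map_inj (hτ : Function.Injective τ) (H : Subgroup S) : Nat.card ↥(H.map τ) = Nat.card H :=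
  card_map_of_injective hτ

theorem comap_abelian (hτ : Function.Injective τ) {X : Subgroup G} (hX : X ≤ centralizer (X : Set G)) :
    IsMulCommutative ↥(X.comap τ) :=
  le_centralizer_iff_isMulCommutative.mp fun x hx => mem_centralizer_iff.mpr fun y hy => hτ (by
    rw [map_mul, map_mul]; exact mem_centralizer_iff.mp (hX hx) _ hy)

theorem exists_maxAbelian_map (hτ : Function.Injective τ) {A : Subgroup S}
    (hA : A ∈ Cfsg.maxAbelianSubgroups S) {X : Subgroup G} (hXP : X ≤ τ.range)
    (hX : X ≤ centralizer (X : Set G)) :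
    Nat.card X ≤ Nat.card A ∧
      (Nat.card A ≤ Nat.card X → ∃ B ∈ Cfsg.maxAbelianSubgroups S, B.map τ = X) := by
  have e : (X.comap τ).map τ = X := map_comap_eq_self hXP
  have hc : Nat.card ↥(X.comap τ) = Nat.card X := by rw [← card_map_inj hτ, e]
  refine ⟨hc ▸ hA.2 _ (comap_abelian hτ hX), fun h => ⟨_, ⟨comap_abelian hτ hX, fun B hB => ?_⟩, e⟩⟩
  exact (hA.2 B hB).trans (h.trans hc.ge)

/-- The maximal abelian subgroups inside `O_p(G)`. -/
def joinInCore (p : ℕ) (τ : S →* G) : Subgroup G :=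
  ⨆ A : {A : Subgroup S // A ∈ Cfsg.maxAbelianSubgroups S ∧ A.map τ ≤ Cfsg.pCore p G},
    (A : Subgroup S).map τ

theorem joinInCore_le : joinInCore p τ ≤ Cfsg.pCore p G := iSup_le fun A => A.2.2

theorem joinInCore_normal (hτ : Function.Injective τ) (hQP : Cfsg.pCore p G ≤ τ.range) :
    (joinInCore p τ).Normal := by
  haveI : (Cfsg.pCore p G).Normal := H72.pCore_normal p
  refine H74.normal_of_conj_le fun g A => ?_
  obtain ⟨A, hA, hAQ⟩ := A
  set X := (A.map τ).map (MulAut.conj g).toMonoidHom with hX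
  have hXQ : X ≤ Cfsg.pCore p G := by
    rintro _ ⟨x, hx, rfl⟩
    exact (inferInstance : (Cfsg.pCore p G).Normal).conj_mem x (hAQ hx) g
  have hXab : X ≤ centralizer (X : Set G) :=
    le_centralizer_iff_isMulCommutative.mpr (H35.isMulCommutative_map _ (H35.isMulCommutative_map τ hA.1))
  obtain ⟨-, h⟩ := exists_maxAbelian_map hτ hA (hXQ.trans hQP) hXab
  obtain ⟨B, hB, hBX⟩ := h (by
    rw [hX, card_map_of_injective (MulAut.conj g).injective, card_map_inj hτ])
  exact le_iSup_of_le ⟨B, hB, hBX ▸ hXQ⟩ hBX.ge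

theorem joinInCore_eq (hall : ∀ A ∈ Cfsg.maxAbelianSubgroups S, A.map τ ≤ Cfsg.pCore p G) :
    joinInCore p τ = (Cfsg.thompsonSubgroupA S).map τ := by
  refine le_antisymm (iSup_le fun A => map_mono (le_sSup A.2.1)) ?_
  rw [Cfsg.thompsonSubgroupA, sSup_eq_iSup', Subgroup.map_iSup]
  exact iSup_le fun A => le_iSup_of_le ⟨A.1, A.2, hall A A.2⟩ le_rfl

theorem center_map_normal_case (hτ : Function.Injective τ) (hE : Cfsg.IsPushingUpSituation p τ.range)
    {X : Subgroup G} (hX : X ≤ τ.range) (hXQ : ¬ X ≤ Cfsg.pCore p G)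
    (hn : ((center S).map τ).Normal) {Y : Subgroup S} (hY : Y ≤ center S) : (Y.map τ).Normal := by
  haveI := hn
  haveI : (centralizer ((center S).map τ : Set G)).Normal := normal_centralizer
  have hPC : τ.range ≤ centralizer ((center S).map τ : Set G) := by
    rw [map_center_range hτ]
    exact le_centralizer_symm inf_le_right
  refine normal_of_central_sup (pu_supplement hE (hX.trans hPC) hX hXQ)
    (centralizer_le (map_mono hY)) ?_
  exact le_centralizer_symm (hPC.trans (centralizer_le (map_mono hY)))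

/-- A maximal abelian subgroup outside `O_p(G)`, when the centre is not normal. -/
theorem outside_data (hτ : Function.Injective τ) (hE : Cfsg.IsPushingUpSituation p τ.range)
    {A : Subgroup S} (hA : A ∈ Cfsg.maxAbelianSubgroups S) (hAQ : ¬ A.map τ ≤ Cfsg.pCore p G)
    (hz : ¬ ((center S).map τ).Normal) :
    ∃ (W : Subgroup G) (q : ℕ), W.Normal ∧ W ≤ Cfsg.pCore p G ∧
      Cfsg.pCore p G ≤ centralizer (W : Set G) ∧ centralizer (W : Set G) ⊔ τ.range ≠ ⊤ ∧
      (center S).map τ ≤ W ∧ A.map τ ⊔ Cfsg.pCore p G = τ.range ∧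
      (∃ B ∈ Cfsg.maxAbelianSubgroups S, B.map τ = (A.map τ ⊓ Cfsg.pCore p G) ⊔ W) ∧
      Nat.card W = q * Nat.card ↥(W ⊓ centralizer (A.map τ : Set G)) ∧
      (∀ V : Subgroup G, V.Normal → V ≤ Cfsg.pCore p G → Cfsg.pCore p G ≤ centralizer (V : Set G) →
        centralizer (V : Set G) ⊔ τ.range ≠ ⊤ →
          q * Nat.card ↥(V ⊓ centralizer (A.map τ : Set G)) ≤ Nat.card V) := by
  have hQP := (H74.pu_step_data hE).1
  obtain ⟨q, hq, hcard, -, -, hb⟩ := H74.pushing_bound hE
  set Q := Cfsg.pCore p G with hQ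
  set P := τ.range with hP
  obtain ⟨h1, h2, h3⟩ := H74.pu_closure hE (map_center_range hτ).le
  set W := normalClosure (((center S).map τ : Subgroup G) : Set G) with hW
  set A' := A.map τ with hA'
  have hA'P : A' ≤ P := map_le_range τ A
  have hA'ab : A' ≤ centralizer (A' : Set G) := maxAbelian_map_abelian hA
  have hbA : ∀ V : Subgroup G, V.Normal → V ≤ Q → Q ≤ centralizer (V : Set G) →
      centralizer (V : Set G) ⊔ P ≠ ⊤ → q * Nat.card ↥(V ⊓ centralizer (A' : Set G)) ≤ Nat.card V :=
    fun V hV hVQ hQV hVP => hb V hV hVQ hQV hVP A' hA'P hAQ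
  have hbW := hbA W normalClosure_normal h1 h2 (h3 hz)
  set B := (A' ⊓ Q) ⊔ W with hB
  have hBP : B ≤ P := sup_le (inf_le_left.trans hA'P) (h1.trans hQP)
  have hWab : W ≤ centralizer (W : Set G) := h1.trans h2
  have hBab : B ≤ centralizer (B : Set G) :=
    sup_le_centralizer_self (inf_le_left.trans (hA'ab.trans (centralizer_le inf_le_left))) hWab
      (inf_le_right.trans h2)
  obtain ⟨hBle, hBmax⟩ := exists_maxAbelian_map hτ hA hBP hBab
  rw [← card_map_inj hτ A, ← hA'] at hBle hBmax
  have hinf : (A' ⊓ Q) ⊓ W = W ⊓ centralizer (A' : Set G) := by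
    refine le_antisymm (le_inf inf_le_right (inf_le_left.trans (inf_le_left.trans hA'ab))) ?_
    rintro x ⟨hxW, hxA⟩
    have hxP : x ∈ P := hQP (h1 hxW)
    exact ⟨⟨maxAbelian_self_centralizing_map hτ hA (mem_inf.mpr ⟨hxP, hxA⟩), h1 hxW⟩, hxW⟩
  have k1 := card_mul_le (A' ⊓ Q) W
  rw [hinf, ← hB] at k1
  have k2 : Nat.card A' ≤ q * Nat.card ↥(A' ⊓ Q) := by
    refine Nat.le_of_mul_le_mul_right ?_ (card_pos' Q)
    calc Nat.card A' * Nat.card Q ≤ Nat.card ↥(A' ⊓ Q) * Nat.card ↥(A' ⊔ Q) := card_mul_le A' Q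
      _ ≤ Nat.card ↥(A' ⊓ Q) * Nat.card P := Nat.mul_le_mul_left _ (card_le_of_le (sup_le hA'P hQP))
      _ = _ := by rw [hcard]; ring
  set c := Nat.card ↥(W ⊓ centralizer (A' : Set G))
  have cpos : 0 < c := Nat.card_pos
  have e1 : q * Nat.card ↥(A' ⊓ Q) ≤ Nat.card A' := by
    refine Nat.le_of_mul_le_mul_right ?_ cpos
    calc q * Nat.card ↥(A' ⊓ Q) * c = Nat.card ↥(A' ⊓ Q) * (q * c) := by ring
      _ ≤ Nat.card ↥(A' ⊓ Q) * Nat.card W := Nat.mul_le_mul_left _ hbW
      _ ≤ c * Nat.card B := k1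
      _ ≤ c * Nat.card A' := Nat.mul_le_mul_left _ hBle
      _ = _ := mul_comm _ _
  have hAeq := le_antisymm e1 k2
  have hWeq : Nat.card W ≤ q * c := by
    refine Nat.le_of_mul_le_mul_left ?_ (card_pos' (A' ⊓ Q : Subgroup G))
    refine k1.trans ?_
    calc c * Nat.card B ≤ c * Nat.card A' := Nat.mul_le_mul_left _ hBle
      _ = _ := by rw [← hAeq]; ring
  refine ⟨W, q, normalClosure_normal, h1, h2, h3 hz, le_normalClosure, ?_,
    hBmax (Nat.le_of_mul_le_mul_left ?_ cpos), le_antisymm hWeq hbW, hbA⟩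
  · refine eq_of_le_card (sup_le hA'P hQP)
      (Nat.le_of_mul_le_mul_left ?_ (card_pos' (A' ⊓ Q : Subgroup G)))
    calc Nat.card ↥(A' ⊓ Q) * Nat.card P = (q * Nat.card ↥(A' ⊓ Q)) * Nat.card Q := by rw [hcard]; ring
      _ = Nat.card A' * Nat.card Q := by rw [hAeq]
      _ ≤ _ := card_mul_le A' Q
  · calc c * Nat.card A' = Nat.card ↥(A' ⊓ Q) * (q * c) := by rw [← hAeq]; ring
      _ ≤ Nat.card ↥(A' ⊓ Q) * Nat.card W := Nat.mul_le_mul_left _ hbW
      _ ≤ c * Nat.card B := k1

/-- `S` abelian. -/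
theorem case_abelian (hE : Cfsg.IsPushingUpSituation p τ.range) (hab : IsMulCommutative S) :
    ((⊤ : Subgroup S).map τ).Normal := by
  obtain ⟨hQP, -⟩ := H74.pu_step_data hE
  have hPQ : τ.range ≤ centralizer (Cfsg.pCore p G : Set G) := by
    rintro _ ⟨x, rfl⟩
    refine mem_centralizer_iff.mpr fun y hy => ?_
    obtain ⟨y, rfl⟩ := hQP hy
    rw [← map_mul, ← map_mul, hab.is_comm.comm x y]
  rw [← MonoidHom.range_eq_map, le_antisymm (hPQ.trans hE.2.2.1) hQP]
  exact H72.pCore_normal p

/-- The case `[Z(J), S] ≠ 1`. -/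
theorem case_jtilde (hτ : Function.Injective τ) (hE : Cfsg.IsPushingUpSituation p τ.range) :
    ((⁅Cfsg.thompsonSubgroupA S ⊓ centralizer (Cfsg.thompsonSubgroupA S : Set S), (⊤ : Subgroup S)⁆ ⊓
        center S).map τ).Normal ∨
      ((centralizer ((Cfsg.thompsonSubgroupA S ⊓ centralizer (Cfsg.thompsonSubgroupA S : Set S) :
        Subgroup S) : Set S)).map τ).Normal := by
  have hQP := (H74.pu_step_data hE).1
  set J := Cfsg.thompsonSubgroupA S with hJ
  set ZJ := J ⊓ centralizer (J : Set S) with hZJ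
  set Q := Cfsg.pCore p G with hQ
  set P := τ.range with hP
  haveI hQn : Q.Normal := H72.pCore_normal p
  have hZJn : ∀ g : S, ∀ z ∈ ZJ, g * z * g⁻¹ ∈ ZJ := by
    have : ZJ.Characteristic := inf_char thompsonA_char (centralizer_char thompsonA_char)
    intro g z hz
    exact (inferInstance : ZJ.Normal).conj_mem z hz g
  have hN1 : ⁅ZJ, (⊤ : Subgroup S)⁆ ≤ ZJ := commutator_le.mpr fun z hz g _ => by
    rw [commutatorElement_def, mul_assoc, mul_assoc]
    exact mul_mem hz (by rw [← mul_assoc]; exact hZJn g _ (inv_mem hz))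
  set J' := ZJ.map τ with hJ'
  have hN2 : (⁅ZJ, (⊤ : Subgroup S)⁆ ⊓ center S).map τ ≤ centralizer (P : Set G) :=
    ((map_mono inf_le_right).trans (map_center_range hτ).le).trans inf_le_right
  by_cases hall : ∀ A ∈ Cfsg.maxAbelianSubgroups S, A.map τ ≤ Q
  · haveI hJn : (J.map τ).Normal := joinInCore_eq hall ▸ joinInCore_normal hτ hQP
    haveI : (centralizer (J.map τ : Set G)).Normal := normal_centralizer
    have hJ'n : J'.Normal := by
      have e : J' = J.map τ ⊓ centralizer (J.map τ : Set G) := by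
        rw [hJ', hZJ, Subgroup.map_inf _ _ τ hτ, map_centralizer_range hτ, ← inf_assoc,
          inf_eq_left.mpr (map_le_range τ J)]
      rw [e]; infer_instance
    haveI := hJ'n
    haveI : (centralizer (J' : Set G)).Normal := normal_centralizer
    rcases H74.pu_dichotomy hE (centralizer (J' : Set G)) with h | h
    · exact Or.inl (normal_of_central_sup h (centralizer_le (map_mono (inf_le_left.trans hN1))) hN2)
    · refine Or.inr ?_
      have e : (centralizer (ZJ : Set S)).map τ = Q ⊓ centralizer (J' : Set G) := by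
        rw [map_centralizer_range hτ]
        refine le_antisymm (le_inf ?_ inf_le_right) (inf_le_inf_right _ hQP)
        rw [inf_comm]; exact h
      rw [e]; infer_instance
  push Not at hall
  obtain ⟨A, hA, hAQ⟩ := hall
  refine Or.inl ?_
  have hA'P : A.map τ ≤ P := map_le_range τ A
  by_cases hz : ((center S).map τ).Normal
  · exact center_map_normal_case hτ hE hA'P hAQ hz inf_le_right
  obtain ⟨W, q, hWn, hWQ, hQW, -, -, hsup, ⟨B, hB, hBeq⟩, -, -⟩ := outside_data hτ hE hA hAQ hz
  haveI := hWn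
  set A' := A.map τ with hA'
  set JQ := joinInCore p τ with hJQ
  haveI hJQn : JQ.Normal := joinInCore_normal hτ hQP
  haveI : (centralizer (JQ : Set G)).Normal := normal_centralizer
  set V' := JQ ⊓ centralizer (JQ : Set G) with hV'
  have hBQ : B.map τ ≤ Q := hBeq ▸ sup_le inf_le_right hWQ
  have hBJ : B.map τ ≤ JQ := le_iSup_of_le
    (⟨B, hB, hBQ⟩ : {A : Subgroup S // A ∈ Cfsg.maxAbelianSubgroups S ∧ A.map τ ≤ Q}) le_rfl
  have hJ'V : J' ≤ V' := by
    refine le_inf ?_ ?_
    · refine le_trans (fun z hz => ?_) hBJ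
      obtain ⟨s, hs, rfl⟩ := hz
      exact ⟨s, maxAbelian_self_centralizing hB
        (centralizer_le (le_sSup hB : B ≤ J) hs.2), rfl⟩
    · refine le_centralizer_symm (iSup_le fun C => le_centralizer_symm ?_)
      have := map_centralizer_range hτ (C : Subgroup S)
      refine le_trans ?_ (this.le.trans inf_le_right)
      exact map_mono (inf_le_right.trans (centralizer_le (le_sSup C.2.1 : (C : Subgroup S) ≤ J)))
  have hV'B : V' ≤ (A' ⊓ Q) ⊔ W := by
    rw [← hBeq]
    refine le_trans (le_inf ?_ ?_) (maxAbelian_self_centralizing_map hτ hB)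
    · exact inf_le_left.trans (joinInCore_le.trans hQP)
    · exact inf_le_right.trans (centralizer_le hBJ)
  set K := triv (⊤ : Subgroup G) V' W with hK
  haveI hKn : K.Normal := normalizer_eq_top_iff.mp (top_le_iff.mp
    (triv_normal le_normalizer_of_normal le_normalizer_of_normal))
  have hAK : A' ≤ K := by
    intro α hα
    refine ⟨mem_top _, le_normalizer_of_normal (H := W) (mem_top _ : α ∈ (⊤ : Subgroup G)), fun v hv => ?_⟩
    obtain ⟨a, ha, w, hw, rfl⟩ := exists_mul_of_mem_sup
      (show W ≤ normalizer ((A' ⊓ Q : Subgroup G) : Set G) from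
        le_normalizer_of_le_centralizer (le_centralizer_symm (inf_le_right.trans hQW))) (hV'B hv)
    rw [comm_mul_right, comm_eq_one_of_commute
      (commute_of_le_centralizer (maxAbelian_map_abelian hA) hα ha.1), one_mul]
    refine hWn.conj_mem _ ?_ a
    rw [commutatorElement_def]
    exact mul_mem (hWn.conj_mem w hw α) (inv_mem hw)
  have hKP : K ⊔ P = ⊤ := pu_supplement hE hAK hA'P hAQ
  set T := J' ⊔ W with hT
  haveI hTn : T.Normal := by
    refine normalizer_eq_top_iff.mp (top_le_iff.mp (hKP.ge.trans (sup_le ?_ ?_)))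
    · intro k hk
      refine mem_normalizer_of_cj_eq (eq_of_le_card ?_ (card_cj k T).ge)
      rw [hT, cj_sup]
      refine sup_le ?_ ((cj_eq_of_mem_normalizer (le_normalizer_of_normal (H := W) (mem_top k :
        k ∈ (⊤ : Subgroup G)))).le.trans le_sup_right)
      rintro _ ⟨z, hz, rfl⟩
      show k * z * k⁻¹ ∈ T
      rw [show k * z * k⁻¹ = ⁅k, z⁆ * z by simp only [commutatorElement_def]; group]
      exact mul_mem (mem_sup_right (hk.2.2 z (hJ'V hz))) (mem_sup_left hz)
    · rintro _ ⟨g, rfl⟩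
      refine sup_normalizer ?_ (le_normalizer_of_normal (H := W) (mem_top _ : τ g ∈ (⊤ : Subgroup G)))
      refine mem_normalizer_of_cj_eq (eq_of_le_card ?_ (card_cj _ _).ge)
      rintro _ ⟨_, ⟨z, hz, rfl⟩, rfl⟩
      exact ⟨g * z * g⁻¹, hZJn g z hz, by simp⟩
  set N := ⁅T, Q⁆ with hN
  have hNJ : N ≤ J' := commutator_le.mpr fun t ht y hy => by
    obtain ⟨z, hz, w, hw, rfl⟩ := exists_mul_of_mem_sup
      (show W ≤ normalizer (J' : Set G) from le_normalizer_of_le_centralizer
        (le_centralizer_symm ((hJ'V.trans (inf_le_left.trans joinInCore_le)).trans hQW))) ht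
    rw [comm_mul_left_of_commute (commute_of_le_centralizer hQW hy hw).symm]
    obtain ⟨s, hs, rfl⟩ := hz
    obtain ⟨g, rfl⟩ := hQP hy
    exact ⟨⁅s, g⁆, hN1 (commutator_mem_commutator hs (mem_top g)), map_commutatorElement _ _ _⟩
  have hAN : A' ≤ centralizer (N : Set G) := by
    refine le_trans ?_ (centralizer_le hNJ)
    exact le_centralizer_symm ((map_mono (inf_le_right.trans (centralizer_le
      (le_sSup hA : A ≤ J)))).trans ((map_centralizer_range hτ A).le.trans inf_le_right))
  haveI : (centralizer (N : Set G)).Normal := normal_centralizer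
  refine normal_of_central_sup (pu_supplement hE hAN hA'P hAQ) (centralizer_le ?_) hN2
  refine (map_mono inf_le_left).trans ?_
  rw [map_commutator, ← MonoidHom.range_eq_map]
  refine commutator_le.mpr fun z hz y hy => ?_
  rw [← hsup, ← SetLike.mem_coe, coe_mul_of_left_le_normalizer_right A' Q
    le_normalizer_of_normal] at hy
  obtain ⟨α, hα, r, hr, rfl⟩ := hy
  have hzα : Commute z α := by
    obtain ⟨s, hs, rfl⟩ := hz
    obtain ⟨a, ha, rfl⟩ := hα
    show τ s * τ a = τ a * τ s
    rw [← map_mul, ← map_mul, mem_centralizer_iff.mp hs.2 a ((le_sSup hA : A ≤ J) ha)]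
  have hzr : ⁅z, r⁆ ∈ N := commutator_mem_commutator (mem_sup_left hz) hr
  rw [comm_mul_right, comm_eq_one_of_commute hzα, one_mul,
    (commute_of_le_centralizer hAN hα hzr).eq, mul_inv_cancel_right]
  exact hzr

/-- The derived subgroup alternative. -/
theorem case_derived (hτ : Function.Injective τ) (hE : Cfsg.IsPushingUpSituation p τ.range)
    {Q : Subgroup S} (hQ : Cfsg.IsMinimalCentrallyLarge Q) :
    ((center S ⊓ ⁅Q, Q⁆).map τ).Normal ∨ ((Cfsg.minimalCentrallyLargeJoin S).map τ).Normal := by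
  let e : S ≃* τ.range := MonoidHom.ofInjective hτ
  have hτe : (τ.range.subtype).comp e.toMonoidHom = τ := MonoidHom.ext fun _ => rfl
  have h := H74.pushing_up_derived hE (Q.map e.toMonoidHom) (minimal_equiv e hQ)
  rw [← map_center_range hτ, ← map_commutator, map_map, hτe, ← Subgroup.map_inf _ _ τ hτ,
    ← minimalCentrallyLargeJoin_equiv e, map_map, hτe] at h
  exact h

/-- The Frattini alternative. -/
theorem case_frattini (hτ : Function.Injective τ) (hE : Cfsg.IsPushingUpSituation p τ.range) :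
    ((center S).map τ).Normal ∨ ((Cfsg.frattiniOfMinimalCLJoin p S).map τ).Normal := by
  let e : S ≃* τ.range := MonoidHom.ofInjective hτ
  have hτe : (τ.range.subtype).comp e.toMonoidHom = τ := MonoidHom.ext fun _ => rfl
  have h := H74.pushing_up_frattini hE
  rw [← map_center_range hτ, ← frattiniJoin_equiv e, map_map, hτe] at h
  exact h

end Cfsg.Agent.H73.GN
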