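import Mathlib
import Cfsg.Agent.H73.GN.Vertex
import Cfsg.Agent.H74.PushingUpBound
import Cfsg.Agent.H74.PushingUpCL

/-!
The properties of a bad vertex follow from the pushing-up situation.
-/

set_option autoImplicit false

namespace Cfsg.Agent.H73.GN

open Subgroup
open scoped commutatorElement

variable {W : Type*} [Group W] [Finite W] {p : ℕ} [Fact p.Prime] {G E : Subgroup W}

theorem map_subgroupOf_inf (G A : Subgroup W) : (A.subgroupOf G).map G.subtype = A ⊓ G :=
  subgroupOf_map_subtype A G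

theorem vx_mk (hle : E ≤ G) (hE : Cfsg.IsPushingUpSituation p (E.subgroupOf G)) (hN : Nice p E)
    (hbad : ¬ zBad p E ≤ centralizer (G : Set W)) : Vx p G E := by
  set E' := E.subgroupOf G with hE'
  set Q := oP p G with hQdef
  haveI hQn' : (Cfsg.pCore p ↥G).Normal := Cfsg.Agent.H44.pCore_normal' p
  obtain ⟨P, hP⟩ := hE.2.1
  have hQE' : Cfsg.pCore p ↥G ≤ E' := hP ▸ H44.pCore_le_sylow P
  have hEmap : E'.map G.subtype = E := map_subgroupOf_eq_of_le hle
  have hQE : Q ≤ E := hEmap ▸ map_mono hQE'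
  have hQG : Q ≤ G := oP_le p G
  have hcardE : Nat.card E' = Nat.card E := Nat.card_congr (subgroupOfEquivOfLe hle).toEquiv
  have hcardQ : Nat.card ↥(Cfsg.pCore p ↥G) = Nat.card Q :=
    Nat.card_congr (equivMapOfInjective _ _ G.subtype_injective).toEquiv
  obtain ⟨q, hq, hcard, hcm, hpw, hb⟩ := H74.pushing_bound hE
  rw [hcardE, hcardQ] at hcard
  have hnotle : ¬ E ≤ Q := fun h => by
    have h1 := card_le_of_le h
    have h2 : Nat.card Q < q * Nat.card Q := by
      calc Nat.card Q = 1 * Nat.card Q := (one_mul _).symm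
        _ < q * Nat.card Q := Nat.mul_lt_mul_of_pos_right hq Nat.card_pos
    omega
  have hdich : ∀ N : Subgroup W, N ≤ G → G ≤ normalizer (N : Set W) → N ⊔ E = G ∨ N ⊓ E ≤ Q := by
    intro N hNG hNn
    haveI : (N.subgroupOf G).Normal := normal_subgroupOf_of_le_normalizer hNn
    rcases H74.pu_dichotomy hE (N.subgroupOf G) with h | h
    · left
      have := congrArg (Subgroup.map G.subtype) h
      rwa [Subgroup.map_sup, map_subgroupOf_eq_of_le hNG, hEmap, ← MonoidHom.range_eq_map,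
        range_subtype] at this
    · right
      intro x hx
      exact ⟨⟨x, hle hx.2⟩, h (mem_inf.mpr ⟨mem_subgroupOf.mpr hx.1, mem_subgroupOf.mpr hx.2⟩), rfl⟩
  obtain ⟨M, ⟨hM, hEM⟩, huniq⟩ := hE.2.2.2.1
  set M₀ := M.map G.subtype with hM₀
  have hmax : ∀ H : Subgroup W, E ≤ H → H < G → H ≤ M₀ := by
    intro H hEH hHG
    have hne : H.subgroupOf G ≠ ⊤ := fun h => hHG.not_ge fun x hx =>
      mem_subgroupOf.mp (h ▸ mem_top (⟨x, hx⟩ : ↥G))
    obtain ⟨M', hM', hle'⟩ := (eq_top_or_exists_le_coatom _).resolve_left hne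
    have := huniq M' ⟨hM', le_trans (comap_mono hEH) hle'⟩
    rw [← map_subgroupOf_eq_of_le hHG.le]
    exact map_mono (this ▸ hle')
  have hM₀G : M₀ < G := by
    refine lt_of_le_of_ne (map_subtype_le M) fun e => hM.1 (eq_top_iff.mpr ?_)
    intro x _
    have hx0 : (x : W) ∈ M₀ := e.symm ▸ x.2
    obtain ⟨y, hy, hyx⟩ := hx0
    rwa [← G.subtype_injective hyx]
  have hsup : ∀ H₁ H₂ : Subgroup W, E ≤ H₁ → H₁ < G → E ≤ H₂ → H₂ < G → H₁ ⊔ H₂ ≠ G :=
    fun H₁ H₂ a b c d e => hM₀G.not_ge (e ▸ sup_le (hmax H₁ a b) (hmax H₂ c d))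
  have hconj : ∃ g ∈ G, E ⊔ cj g E = G := by
    by_contra hno
    push Not at hno
    set N := ⨆ g : G, cj (g : W) E with hNdef
    have hEN : E ≤ N := le_iSup_of_le (1 : G) (by rw [OneMemClass.coe_one, cj_one])
    have hNM : N ≤ M₀ := iSup_le fun g => by
      have hgE : cj (g : W) E ≤ G := (cj_mono _ hle).trans (cj_eq_of_mem g.2).le
      exact le_sup_right.trans (hmax _ le_sup_left (lt_of_le_of_ne (sup_le hle hgE) (hno g g.2)))
    have hNn : G ≤ normalizer (N : Set W) := fun x hx => by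
      refine mem_normalizer_of_cj_eq (eq_of_le_card ?_ (card_cj x N).ge)
      rw [hNdef, cj, Subgroup.map_iSup]
      refine iSup_le fun g => ?_
      refine le_iSup_of_le (⟨x, hx⟩ * g : G) ?_
      rw [coe_mul, cj_mul]
      rfl
    rcases hdich N (hNM.trans hM₀G.le) hNn with h | h
    · rw [sup_eq_left.mpr hEN] at h
      exact hM₀G.not_ge (h ▸ hNM)
    · exact hnotle ((le_inf hEN le_rfl).trans h)
  have hsyl : ∀ R : Subgroup W, R ≤ G → IsPGroup p R → ∃ g ∈ G, R ≤ cj g E := by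
    intro R hR hRp
    obtain ⟨T, hT⟩ := (hRp.of_equiv (subgroupOfEquivOfLe hR).symm).exists_le_sylow
    obtain ⟨u, hu⟩ := MulAction.exists_smul_eq ↥G P T
    refine ⟨u, u.2, fun x hx => ?_⟩
    have h1 : (⟨x, hR hx⟩ : ↥G) ∈ (T : Subgroup ↥G) := hT (mem_subgroupOf.mpr hx)
    rw [← hu, Sylow.coe_subgroup_smul] at h1
    obtain ⟨y, hy, hy'⟩ := h1
    rw [hP] at hy
    refine ⟨(y : W), mem_subgroupOf.mp hy, ?_⟩
    simpa using congrArg (fun z : ↥G => (z : W)) hy'
  -- the normal closure of the centre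
  set Z := cen E E with hZdef
  have hZE : Z ≤ E := cen_le E E
  set Z' := Z.subgroupOf G with hZ'
  have hZ'le : Z' ≤ E' ⊓ centralizer (E' : Set ↥G) := by
    intro z hz
    refine mem_inf.mpr ⟨comap_mono hZE hz, mem_centralizer_iff.mpr fun e he => Subtype.ext ?_⟩
    exact mem_centralizer_iff.mp (mem_subgroupOf.mp hz).2 e (mem_subgroupOf.mp he)
  have hZ'not : ¬ Z'.Normal := by
    intro hn
    apply hbad
    set C := G ⊓ centralizer (Z : Set W) with hC
    have hEC : E ≤ C := le_inf hle (le_centralizer_symm (cen_le_centralizer E E))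
    have hCn : G ≤ normalizer (C : Set W) := fun g hg => by
      refine mem_normalizer_of_cj_eq ?_
      have hgZ : cj g Z = Z := by
        refine eq_of_le_card ?_ (card_cj g Z).ge
        rintro _ ⟨z, hz, rfl⟩
        exact mem_subgroupOf.mp (hn.conj_mem ⟨z, hle (hZE hz)⟩ (mem_subgroupOf.mpr hz) ⟨g, hg⟩)
      rw [hC, cj_inf, cj_centralizer, cj_eq_of_mem hg, hgZ]
    rcases hdich C inf_le_left hCn with h | h
    · refine inf_le_left.trans (le_centralizer_symm ?_)
      calc G = C ⊔ E := h.symm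
        _ ≤ _ := sup_le inf_le_right (hEC.trans inf_le_right)
    · exact absurd ((le_inf hEC le_rfl).trans h) hnotle
  obtain ⟨hW1, hW2, hW3⟩ := H74.pu_closure hE hZ'le
  set W₁ := normalClosure (Z' : Set ↥G) with hW₁
  haveI : W₁.Normal := normalClosure_normal
  set V := W₁.map G.subtype with hVdef
  have hVQ : V ≤ Q := map_mono hW1
  have hQV : Q ≤ centralizer (V : Set W) := by
    rintro _ ⟨x, hx, rfl⟩
    refine mem_centralizer_iff.mpr ?_
    rintro _ ⟨v, hv, rfl⟩
    exact congrArg Subtype.val (mem_centralizer_iff.mp (hW2 hx) v hv)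
  have hVab : V ≤ centralizer (V : Set W) := hVQ.trans hQV
  have hZV : Z ≤ V := fun z hz =>
    ⟨⟨z, hle (hZE hz)⟩, subset_normalClosure (mem_subgroupOf.mpr hz : (⟨z, hle (hZE hz)⟩ : ↥G) ∈ Z'), rfl⟩
  have hbd : ∀ A : Subgroup W, A ≤ E → ¬ A ≤ Q →
      q * Nat.card (cen V A) ≤ Nat.card V := by
    intro A hA hAQ
    have h1 := hb W₁ inferInstance hW1 hW2 (hW3 hZ'not) (A.subgroupOf G) (comap_mono hA)
      (fun h => hAQ fun a ha => ⟨⟨a, hle (hA ha)⟩, h (mem_subgroupOf.mpr ha), rfl⟩)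
    have e1 : Nat.card W₁ = Nat.card V :=
      Nat.card_congr (equivMapOfInjective _ _ G.subtype_injective).toEquiv
    have e2 : Nat.card ↥(W₁ ⊓ centralizer (A.subgroupOf G : Set ↥G)) = Nat.card (cen V A) := by
      have : (W₁ ⊓ centralizer (A.subgroupOf G : Set ↥G)).map G.subtype = cen V A := by
        ext x
        constructor
        · rintro ⟨y, ⟨hy1, hy2⟩, rfl⟩
          refine mem_inf.mpr ⟨⟨y, hy1, rfl⟩, mem_centralizer_iff.mpr fun a ha => ?_⟩
          exact congrArg Subtype.val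
            (mem_centralizer_iff.mp hy2 ⟨a, hle (hA ha)⟩ (mem_subgroupOf.mpr ha))
        · rintro ⟨⟨y, hy, rfl⟩, hx⟩
          refine ⟨y, mem_inf.mpr ⟨hy, mem_centralizer_iff.mpr fun a ha => Subtype.ext ?_⟩, rfl⟩
          exact mem_centralizer_iff.mp hx _ (mem_subgroupOf.mp ha)
      rw [← this]
      exact Nat.card_congr (equivMapOfInjective _ _ G.subtype_injective).toEquiv
    rwa [e1, e2] at h1
  obtain ⟨A, hA, hAA, hAQ⟩ := hN.exists_outside Q hnotle
  have hAab : A ≤ centralizer (A : Set W) := hAA.ge.trans (cen_le_centralizer E A)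
  set f := Nat.card E * Nat.card Z with hf
  have hAf : Nat.card A * Nat.card A = f := by
    have := hA.2; rwa [hAA] at this
  have hAq : Nat.card A ≤ q * Nat.card ↥(A ⊓ Q) := by
    refine Nat.le_of_mul_le_mul_right ?_ (card_pos' Q)
    calc Nat.card A * Nat.card Q ≤ Nat.card ↥(A ⊓ Q) * Nat.card ↥(A ⊔ Q) := card_mul_le A Q
      _ ≤ Nat.card ↥(A ⊓ Q) * Nat.card E := Nat.mul_le_mul_left _ (card_le_of_le (sup_le hA.1 hQE))
      _ = _ := by rw [hcard]; ring
  set X := (A ⊓ Q) ⊔ V with hXdef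
  have hXE : X ≤ E := sup_le (inf_le_left.trans hA.1) (hVQ.trans hQE)
  have hXab : X ≤ centralizer (X : Set W) :=
    sup_le_centralizer_self (inf_le_left.trans (hAab.trans (centralizer_le inf_le_left))) hVab
      (inf_le_right.trans hQV)
  have hX2 : Nat.card X * Nat.card X ≤ f :=
    (Nat.mul_le_mul_left _ (card_le_of_le (le_cen hXE hXab))).trans (hN.le_measure X hXE)
  have hXA : Nat.card X ≤ Nat.card A := by
    by_contra hlt
    push Not at hlt
    have := Nat.mul_lt_mul_of_le_of_lt hlt.le hlt (Nat.zero_lt_of_lt hlt)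
    omega
  have hinfV : (A ⊓ Q) ⊓ V = cen V A := by
    refine le_antisymm (le_cen inf_le_right (inf_le_left.trans (inf_le_left.trans hAab))) ?_
    rintro x ⟨hx1, hx2⟩
    have hxA : x ∈ A := hAA ▸ mem_inf.mpr ⟨hQE (hVQ hx1), hx2⟩
    exact ⟨⟨hxA, hVQ hx1⟩, hx1⟩
  have k1 := card_mul_le (A ⊓ Q) V
  rw [hinfV, ← hXdef] at k1
  have hb1 := hbd A hA.1 hAQ
  set cV := Nat.card (cen V A)
  have cVpos : 0 < cV := Nat.card_pos
  have hAV : q * Nat.card ↥(A ⊓ Q) = Nat.card A ∧ q * cV = Nat.card V := by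
    have e : Nat.card ↥(A ⊓ Q) * (q * cV) ≤ Nat.card A * cV :=
      (Nat.mul_le_mul_left _ hb1).trans (k1.trans (by rw [mul_comm]; exact Nat.mul_le_mul_right _ hXA))
    have e1 : q * Nat.card ↥(A ⊓ Q) ≤ Nat.card A :=
      Nat.le_of_mul_le_mul_right (by rw [mul_comm q, mul_assoc]; exact e) cVpos
    refine ⟨le_antisymm e1 hAq, le_antisymm hb1 ?_⟩
    refine Nat.le_of_mul_le_mul_left ?_ (card_pos' (A ⊓ Q : Subgroup W))
    refine k1.trans ?_
    calc cV * Nat.card X ≤ cV * Nat.card A := Nat.mul_le_mul_left _ hXA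
      _ = Nat.card ↥(A ⊓ Q) * (q * cV) := by rw [← le_antisymm e1 hAq]; ring
  have hAQE : A ⊔ Q = E := by
    refine eq_of_le_card (sup_le hA.1 hQE) (Nat.le_of_mul_le_mul_left ?_ (card_pos' (A ⊓ Q : Subgroup W)))
    calc Nat.card ↥(A ⊓ Q) * Nat.card E = (q * Nat.card ↥(A ⊓ Q)) * Nat.card Q := by rw [hcard]; ring
      _ = Nat.card A * Nat.card Q := by rw [hAV.1]
      _ ≤ _ := card_mul_le A Q
  have hVE : V ≤ E := hVQ.trans hQE
  have hcenVA : cen V A = Z := by
    refine le_antisymm ?_ (le_cen hZV ((cen_le_centralizer E E).trans (centralizer_le hA.1)))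
    rintro x ⟨hxV, hxA⟩
    refine mem_inf.mpr ⟨hVE hxV, le_centralizer_symm ?_ (mem_zpowers x)⟩
    rw [← hAQE]
    exact sup_le (le_centralizer_symm (zpowers_le.mpr hxA))
      (hQV.trans (centralizer_le (zpowers_le.mpr hxV)))
  have hVcard : q * Nat.card Z = Nat.card V := by
    rw [← hAV.2, show cV = Nat.card Z by rw [← hcenVA]]
  have hQVf : Nat.card Q * Nat.card V = f := by
    rw [hf, hcard, ← hVcard]; ring
  have hVle : V ≤ cen E Q := le_cen hVE (le_centralizer_symm hQV)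
  have hVeq : V = cen E Q := eq_of_le_card hVle (Nat.le_of_mul_le_mul_left
    (by rw [hQVf]; exact hN.le_measure Q hQE) (card_pos' Q))
  have hQmem : Mem E Q := ⟨hQE, by rw [← hVeq]; exact hQVf⟩
  have hw : wP p G = V := by
    refine le_antisymm ?_ (le_cen hVQ (le_centralizer_symm hQV))
    rw [hVeq]
    exact fun x hx => mem_inf.mpr ⟨hQE hx.1, hx.2⟩
  have hcenV : cen E V = Q := by rw [hVeq]; exact (hQmem.centralizer hN).2
  refine
    { nice := hN, le := hle, oP_le_E := hQE, not_le := hnotle, dich := hdich, sup_ne := hsup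
      exists_conj := hconj, sylow := hsyl, mem_wP := ?_, cen_wP := by rw [hw, hcenV]
      wP_pow := ?_, center_le := hw ▸ hZV, wP_le_of := ?_, not_commute := ?_
      comm_mem := fun x hx y hy => ⟨_, hcm ⟨x, hle hx⟩ (mem_subgroupOf.mpr hx) ⟨y, hle hy⟩
        (mem_subgroupOf.mpr hy), by simp [commutatorElement_def]⟩
      pow_mem' := fun x hx => ⟨_, hpw ⟨x, hle hx⟩ (mem_subgroupOf.mpr hx), rfl⟩
      bad := hbad }
  · rw [hw, hVeq]; exact (hQmem.centralizer hN).1
  · rw [hw]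
    let K : Subgroup W :=
      { carrier := {w | w ∈ V ∧ w ^ p = 1}
        one_mem' := ⟨one_mem _, one_pow _⟩
        mul_mem' := fun {a b} ha hb => ⟨mul_mem ha.1 hb.1, by
          rw [(commute_of_le_centralizer hVab ha.1 hb.1).mul_pow, ha.2, hb.2, one_mul]⟩
        inv_mem' := fun {a} ha => ⟨inv_mem ha.1, by rw [inv_pow, ha.2, inv_one]⟩ }
    haveI : (K.subgroupOf G).Normal := ⟨fun x hx g => by
      obtain ⟨⟨y, hy, hyx⟩, hxp⟩ := mem_subgroupOf.mp hx
      refine mem_subgroupOf.mpr ⟨⟨g * y * g⁻¹, normalClosure_normal.conj_mem y hy g, ?_⟩, ?_⟩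
      · rw [G.subtype_injective hyx]; rfl
      · push_cast; rw [conj_pow, hxp, mul_one, mul_inv_cancel]⟩
    have hVK : W₁ ≤ K.subgroupOf G := normalClosure_le_normal fun z hz =>
      mem_subgroupOf.mpr ⟨hZV (mem_subgroupOf.mp hz), hN.center_pow _ (mem_subgroupOf.mp hz)⟩
    rintro _ ⟨w, hw', rfl⟩
    exact (mem_subgroupOf.mp (hVK hw')).2
  · intro N hZN hNn
    rw [hw]
    haveI : (N.subgroupOf G).Normal := normal_subgroupOf_of_le_normalizer hNn
    have : W₁ ≤ N.subgroupOf G := normalClosure_le_normal (comap_mono hZN)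
    rintro _ ⟨w, hw', rfl⟩
    exact mem_subgroupOf.mp (this hw')
  · rw [hw]
    intro w hwV hwZ x hx hxQ hc
    set B := cen E (zpowers w) with hB
    have hBQ : ¬ B ≤ Q := fun h => hxQ (h (mem_inf.mpr ⟨hx, mem_centralizer_iff.mpr fun y hy => by
      obtain ⟨k, rfl⟩ := mem_zpowers_iff.mp hy
      exact (hc.zpow_right k).eq.symm⟩))
    have h1 := hbd B (cen_le _ _) hBQ
    have h2 : Z < cen V B := by
      refine lt_of_le_of_ne (le_cen hZV ((cen_le_centralizer E E).trans (centralizer_le (cen_le _ _)))) ?_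
      intro e
      have hw2 : w ∈ cen V B := mem_inf.mpr ⟨hwV,
        le_centralizer_symm (cen_le_centralizer E (zpowers w)) (mem_zpowers w)⟩
      rw [← e] at hw2
      exact hwZ hw2
    have h3 : Nat.card Z < Nat.card (cen V B) := by
      by_contra h
      exact h2.ne (eq_of_le_card h2.le (by omega))
    rw [← hVcard] at h1
    nlinarith

end Cfsg.Agent.H73.GN
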