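import Mathlib
import Cfsg.Agent.H73.GN.Red
import Cfsg.Agent.H73.GN.VertexMk
import Cfsg.Agent.H73.GN.Core

/-!
All the pushing-up situations over a given `p`-group inside one symmetric group.
-/

set_option autoImplicit false

namespace Cfsg.Agent.H73.GN

open Subgroup
open scoped commutatorElement Nat

universe u

/-- Left multiplication on the first factor. -/
def lmul (G : Type*) [Group G] (X : Type*) : G →* Equiv.Perm (G × X) where
  toFun g := (Equiv.mulLeft g).prodCongr (Equiv.refl X)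
  map_one' := by ext x <;> simp
  map_mul' a b := by ext x <;> simp [mul_assoc]

theorem lmul_injective (G : Type*) [Group G] (X : Type*) [Nonempty X] :
    Function.Injective (lmul G X) := fun a b h => by
  obtain ⟨x⟩ := ‹Nonempty X›
  have := congrArg (fun σ : Equiv.Perm (G × X) => (σ (1, x)).1) h
  simpa [lmul] using this

variable {S : Type u} [Group S] [Finite S] {p : ℕ} [Fact p.Prime]

theorem pu_card_le {G : Type*} [Group G] [Finite G] {τ : S →* G} (hτ : Function.Injective τ)
    (hE : Cfsg.IsPushingUpSituation p τ.range) :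
    Nat.card G ≤ Nat.card S * (Nat.card S)! := by
  have hQP := (H74.pu_step_data hE).1
  haveI hQn : (Cfsg.pCore p G).Normal := H72.pCore_normal p
  set ψ := MulAut.conjNormal (H := Cfsg.pCore p G) with hψ
  have hker : ψ.ker ≤ Cfsg.pCore p G := by
    refine le_trans (fun g hg => mem_centralizer_iff.mpr fun y hy => ?_) hE.2.2.1
    have := congrArg (fun σ : MulAut ↥(Cfsg.pCore p G) => ((σ ⟨y, hy⟩ : ↥(Cfsg.pCore p G)) : G))
      (MonoidHom.mem_ker.mp hg)
    simp only [hψ, MulAut.conjNormal_apply, MulAut.one_apply] at this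
    exact (mul_inv_eq_iff_eq_mul.mp this).symm
  have hS : Nat.card ↥(Cfsg.pCore p G) ≤ Nat.card S :=
    (card_le_of_le hQP).trans (Nat.card_congr (MonoidHom.ofInjective hτ).toEquiv).ge
  rw [← ψ.ker.card_mul_index, index_ker]
  refine Nat.mul_le_mul ((card_le_of_le hker).trans hS) ?_
  refine le_trans (Nat.card_le_card_of_injective
    (fun x : ψ.range => MulEquiv.toEquiv (x : MulAut ↥(Cfsg.pCore p G))) fun a b h =>
      Subtype.ext (MulEquiv.toEquiv_injective h)) ?_
  rw [Nat.card_perm]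
  exact Nat.factorial_le hS

theorem exists_embedding {G : Type*} [Group G] [Finite G] {τ : S →* G} (hτ : Function.Injective τ)
    {N : ℕ} (hN : 0 < N) (hdvd : Nat.card (G ⧸ τ.range) ∣ N) :
    ∃ f : G →* Equiv.Perm (S × Fin N), Function.Injective f ∧ f.comp τ = lmul S (Fin N) := by
  obtain ⟨k, hk⟩ := hdvd
  have hk0 : 0 < k := Nat.pos_of_ne_zero fun h => by rw [h, mul_zero] at hk; omega
  haveI : Nonempty (Fin k) := ⟨⟨0, hk0⟩⟩
  let c : Fin N ≃ (G ⧸ τ.range) × Fin k :=
    (Finite.equivFinOfCardEq (by rw [Nat.card_prod, Nat.card_fin, hk])).symm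
  let r : S × (G ⧸ τ.range) → G := fun x => τ x.1 * (x.2.out)⁻¹
  have hr : Function.Bijective r := by
    have hcoset : ∀ t : S, ∀ j : G ⧸ τ.range,
        ((r (t, j))⁻¹ : G) = (j.out * (τ t)⁻¹) := fun t j => by simp [r]
    refine ⟨?_, fun g => ?_⟩
    · rintro ⟨t, j⟩ ⟨t', j'⟩ h
      have hj : ∀ t : S, ∀ j : G ⧸ τ.range, (((r (t, j))⁻¹ : G) : G ⧸ τ.range) = j := fun t j => by
        rw [hcoset]
        conv_rhs => rw [← QuotientGroup.out_eq' j]
        rw [QuotientGroup.eq]
        exact ⟨t, by group⟩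
      obtain rfl : j = j' := by rw [← hj t j, h, hj]
      exact Prod.ext (hτ (mul_right_cancel h)) rfl
    · obtain ⟨t, ht⟩ : ∃ t, τ t = g * ((g⁻¹ : G) : G ⧸ τ.range).out := by
        have := QuotientGroup.eq.mp (QuotientGroup.out_eq' ((g⁻¹ : G) : G ⧸ τ.range)).symm
        rwa [inv_inv] at this
      exact ⟨(t, ((g⁻¹ : G) : G ⧸ τ.range)), by simp only [r, ht, mul_inv_cancel_right]⟩
  let χ : S × Fin N ≃ G × Fin k :=
    ((Equiv.refl S).prodCongr c).trans ((Equiv.prodAssoc _ _ _).symm.trans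
      ((Equiv.ofBijective r hr).prodCongr (Equiv.refl _)))
  have hχ : ∀ t i, χ (t, i) = (τ t * ((c i).1.out)⁻¹, (c i).2) := fun _ _ => rfl
  refine ⟨χ.symm.permCongrHom.toMonoidHom.comp (lmul G (Fin k)),
    χ.symm.permCongrHom.injective.comp (lmul_injective G _), ?_⟩
  refine MonoidHom.ext fun s => Equiv.ext fun ⟨t, i⟩ => ?_
  show χ.symm (lmul G (Fin k) (τ s) (χ.symm.symm (t, i))) = lmul S (Fin N) s (t, i)
  rw [Equiv.symm_symm, Equiv.symm_apply_eq, hχ]
  show (τ s * (τ t * _), _) = χ (s * t, i)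
  rw [hχ, map_mul, mul_assoc]; rfl

/-- **A characteristic centrally large subgroup `K` for all pushing-up situations over `S`.** -/
theorem exists_kernel (hS : IsPGroup p S)
    (hle : ∀ H : Subgroup S, Nat.card H * Nat.card ↥(centralizer (H : Set S)) ≤
      Nat.card S * Nat.card (center S))
    (hz : ∀ z ∈ center S, z ^ p = 1)
    (hA : ∀ R : Subgroup S, R ≠ ⊤ → ∃ A : Subgroup S, ¬ A ≤ R ∧ centralizer (A : Set S) = A ∧
      Nat.card A * Nat.card A = Nat.card S * Nat.card (center S)) :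
    ∃ K : Subgroup S, K.Characteristic ∧ centralizer (K : Set S) ≤ K ∧
      Nat.card K * Nat.card ↥(centralizer (K : Set S)) = Nat.card S * Nat.card (center S) ∧
      ∀ (G : Type u) [Group G] [Finite G] (τ : S →* G), Function.Injective τ →
        Cfsg.IsPushingUpSituation p τ.range →
          ((center S ⊓ sZero p (⊤ : Subgroup S)).map τ).Normal ∨ (K.map τ).Normal := by
  let N := (Nat.card S * (Nat.card S)!)!
  haveI : Nonempty (Fin N) := ⟨⟨0, Nat.factorial_pos _⟩⟩
  let ι : S →* Equiv.Perm (S × Fin N) := lmul S (Fin N)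
  have hι : Function.Injective ι := lmul_injective S _
  set E := ι.range with hEdef
  have hcen : ∀ H : Subgroup S, cen E (H.map ι) = (centralizer (H : Set S)).map ι := fun H =>
    (map_centralizer_range hι H).symm
  have hcenE : cen E E = (center S).map ι := (map_center_range hι).symm
  have hcard : ∀ H : Subgroup S, Nat.card ↥(H.map ι) = Nat.card H := fun H => card_map_of_injective hι
  have hEcard : Nat.card E = Nat.card S := (Nat.card_congr (MonoidHom.ofInjective hι).toEquiv).symm
  have hf : Nat.card E * Nat.card (cen E E) = Nat.card S * Nat.card (center S) := by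
    rw [hEcard, hcenE, hcard]
  have hN : Nice p E := by
    refine ⟨?_, ?_, ?_, ?_⟩
    · rw [hEdef, MonoidHom.range_eq_map]; exact (hS.to_subgroup ⊤).map ι
    · intro H hH
      have e : (H.comap ι).map ι = H := map_comap_eq_self hH
      rw [← e, hcen, hcard, hcard, hf]
      exact hle _
    · rw [hcenE]
      rintro _ ⟨z, hz', rfl⟩
      rw [← map_pow, hz z hz', map_one]
    · intro R hR
      have hne : R.comap ι ≠ ⊤ := fun h => hR (by
        rintro _ ⟨s, rfl⟩
        exact (h.ge (mem_top s) : s ∈ R.comap ι))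
      obtain ⟨A, hAR, hAA, hAc⟩ := hA _ hne
      refine ⟨A.map ι, ⟨map_le_range ι A, ?_⟩, by rw [hcen, hAA], fun h => hAR (map_le_iff_le_comap.mp h)⟩
      rw [hcen, hAA, hcard, hf, hAc]
  obtain ⟨hKm, hKc, hKn, hKinv⟩ := kernelK_spec (p := p) hN
  set K := (kernelK p E).comap ι with hKdef
  have hKmap : K.map ι = kernelK p E := map_comap_eq_self hKm.le
  refine ⟨K, ?_, ?_, ?_, ?_⟩
  · refine characteristic_iff_map_eq.mpr fun ψ => eq_of_le_card ?_ ?_
    swap
    · exact (card_map_equiv ψ K).ge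
    set x : Equiv.Perm (S × Fin N) := ψ.toEquiv.prodCongr (Equiv.refl _) with hx
    have hconj : ∀ s, x * ι s * x⁻¹ = ι (ψ s) := fun s => Equiv.ext fun ⟨t, i⟩ => by
      simp [x, ι, lmul, Equiv.Perm.mul_apply, Equiv.Perm.inv_def]
    have hxE : x ∈ normalizer (E : Set (Equiv.Perm (S × Fin N))) := by
      refine mem_normalizer_of_cj_eq (eq_of_le_card ?_ (card_cj x E).ge)
      rintro _ ⟨_, ⟨s, rfl⟩, rfl⟩
      exact ⟨ψ s, (hconj s).symm⟩
    rintro _ ⟨k, hk, rfl⟩
    show ι (ψ k) ∈ kernelK p E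
    rw [← hconj]
    exact (mem_normalizer_iff.mp (hKinv x hxE) _).mp hk
  · rw [← map_le_map_iff_of_injective hι, ← hcen, hKmap]
    exact hKc
  · rw [← hcard, ← hcard (centralizer _), ← hcen, hKmap, ← hf]
    exact hKm.2
  intro G _ _ τ hτ hE
  have hdvd : Nat.card (G ⧸ τ.range) ∣ N := Nat.dvd_factorial Nat.card_pos
    (((Nat.card_le_card_of_surjective _ QuotientGroup.mk_surjective).trans (pu_card_le hτ hE)))
  obtain ⟨f, hf', hfτ⟩ := exists_embedding hτ (Nat.factorial_pos _) hdvd
  have hfι : ∀ s, f (τ s) = ι s := fun s => DFunLike.congr_fun hfτ s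
  have hEle : E ≤ f.range := by
    rintro _ ⟨s, rfl⟩
    exact ⟨τ s, hfι s⟩
  by_cases hbad : zBad p E ≤ centralizer (f.range : Set (Equiv.Perm (S × Fin N)))
  · left
    have e : zBad p E = (center S ⊓ sZero p (⊤ : Subgroup S)).map ι := by
      rw [zBad, hcenE, Subgroup.map_inf _ _ ι hι, ← sZero_map hι, ← MonoidHom.range_eq_map]
    refine normal_of_central ?_
    rintro _ ⟨z, hz', rfl⟩
    refine mem_centralizer_iff.mpr fun g _ => hf' ?_
    rw [map_mul, map_mul, hfι]
    exact mem_centralizer_iff.mp (hbad (e.ge ⟨z, hz', rfl⟩)) (f g) ⟨g, rfl⟩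
  · right
    have hpu : Cfsg.IsPushingUpSituation p (E.subgroupOf f.range) := by
      have h := pushingUp_equiv (MonoidHom.ofInjective hf') hE
      have e : τ.range.map (MonoidHom.ofInjective hf').toMonoidHom = E.subgroupOf f.range := by
        ext x
        constructor
        · rintro ⟨_, ⟨s, rfl⟩, rfl⟩
          exact mem_subgroupOf.mpr ⟨s, (hfι s).symm⟩
        · intro hx
          obtain ⟨s, hs⟩ := mem_subgroupOf.mp hx
          exact ⟨τ s, ⟨s, rfl⟩, Subtype.ext ((hfι s).trans hs)⟩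
      rwa [e] at h
    have hn := hKn f.range (vx_mk hEle hpu hN hbad)
    refine ⟨fun y hy g => ?_⟩
    obtain ⟨s, hs, rfl⟩ := hy
    have h1 := (mem_normalizer_iff.mp (hn (⟨g, rfl⟩ : f g ∈ f.range)) (ι s)).mp hs
    obtain ⟨t, ht, hte⟩ := hKmap.ge h1
    refine ⟨t, ht, hf' ?_⟩
    rw [map_mul, map_mul, map_inv, hfι, hfι]
    exact hte

end Cfsg.Agent.H73.GN
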