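import Mathlib
import Cfsg.Agent.H73.GN.Red

/-!
The case where `Z(S)` is not elementary abelian and `J(S) = S`.
-/

set_option autoImplicit false

namespace Cfsg.Agent.H73.GN

open Subgroup
open scoped commutatorElement

variable {S G : Type*} [Group S] [Group G]

/-- The `p`-th power map on an abelian subgroup. -/
def powHom (p : ℕ) (W : Subgroup G) (hW : W ≤ centralizer (W : Set G)) : ↥W →* G where
  toFun x := (x : G) ^ p
  map_one' := by simp
  map_mul' a b := by
    rw [coe_mul, (commute_of_le_centralizer hW a.2 b.2).mul_pow]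

variable [Finite G] {p : ℕ} [Fact p.Prime]

theorem card_powHom (W : Subgroup G) (hW : W ≤ centralizer (W : Set G)) :
    Nat.card ↥((powHom p W hW).ker.map W.subtype) * Nat.card ↥(powHom p W hW).range = Nat.card W := by
  rw [card_map_of_injective W.subtype_injective, ← index_ker]
  exact card_mul_index _

theorem mem_powHom_ker {W : Subgroup G} {hW : W ≤ centralizer (W : Set G)} {x : G} :
    x ∈ (powHom p W hW).ker.map W.subtype ↔ x ∈ W ∧ x ^ p = 1 := by
  constructor
  · rintro ⟨y, hy, rfl⟩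
    exact ⟨y.2, hy⟩
  · rintro ⟨hx, hp⟩
    exact ⟨⟨x, hx⟩, hp, rfl⟩

theorem normal_powHom_range {W : Subgroup G} [hWn : W.Normal] (hW : W ≤ centralizer (W : Set G)) :
    (powHom p W hW).range.Normal :=
  ⟨fun x hx g => by
    obtain ⟨y, rfl⟩ := hx
    exact ⟨⟨g * y * g⁻¹, hWn.conj_mem y y.2 g⟩, conj_pow⟩⟩

theorem normal_powHom_ker {W : Subgroup G} [hWn : W.Normal] (hW : W ≤ centralizer (W : Set G)) :
    ((powHom p W hW).ker.map W.subtype).Normal :=
  ⟨fun x hx g => by
    obtain ⟨h1, h2⟩ := mem_powHom_ker.mp hx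
    exact mem_powHom_ker.mpr ⟨hWn.conj_mem x h1 g, by rw [conj_pow, h2, mul_one, mul_inv_cancel]⟩⟩

variable [Finite S] {τ : S →* G}

/-- `℧(Z(S))` or `S` is normal when `J(S) = S`. -/
theorem case_mho (hτ : Function.Injective τ) (hE : Cfsg.IsPushingUpSituation p τ.range)
    (hJ : Cfsg.thompsonSubgroupA S = ⊤) :
    ((Cfsg.powerClosure p 1 (center S)).map τ).Normal ∨ ((⊤ : Subgroup S).map τ).Normal := by
  have hQP := (H74.pu_step_data hE).1
  obtain ⟨P, hP⟩ := hE.2.1
  have hSp : IsPGroup p τ.range := hP ▸ P.isPGroup'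
  haveI hQn : (Cfsg.pCore p G).Normal := H72.pCore_normal p
  by_cases hall : ∀ A ∈ Cfsg.maxAbelianSubgroups S, A.map τ ≤ Cfsg.pCore p G
  · exact Or.inr (hJ ▸ joinInCore_eq hall ▸ joinInCore_normal hτ hQP)
  push Not at hall
  obtain ⟨A, hA, hAQ⟩ := hall
  refine Or.inl ?_
  have hA'P : A.map τ ≤ τ.range := map_le_range τ A
  have hle : Cfsg.powerClosure p 1 (center S) ≤ center S :=
    (closure_le _).mpr (by rintro _ ⟨x, hx, rfl⟩; exact pow_mem hx _)
  by_cases hz : ((center S).map τ).Normal
  · exact center_map_normal_case hτ hE hA'P hAQ hz hle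
  obtain ⟨W, q, hWn, hWQ, hQW, hWtop, hZW, hsup, -, hWq, hb⟩ := outside_data hτ hE hA hAQ hz
  haveI := hWn
  have hWab : W ≤ centralizer (W : Set G) := hWQ.trans hQW
  set Z' := (center S).map τ with hZ'
  have hCZ : W ⊓ centralizer (A.map τ : Set G) = Z' := by
    refine le_antisymm ?_ (le_inf hZW ?_)
    · rw [hZ', map_center_range hτ]
      refine le_inf (inf_le_left.trans (hWQ.trans hQP)) (le_centralizer_symm ?_)
      rw [← hsup]
      exact sup_le (le_centralizer_symm inf_le_right) (hQW.trans (centralizer_le inf_le_left))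
    · rw [hZ', map_center_range hτ]
      exact inf_le_right.trans (centralizer_le hA'P)
  rw [hCZ] at hWq
  have hZab : Z' ≤ centralizer (Z' : Set G) := hZW.trans (hWab.trans (centralizer_le hZW))
  set Ω := (powHom p W hWab).ker.map W.subtype with hΩ
  have hΩW : Ω ≤ W := map_subtype_le _
  haveI hΩn : Ω.Normal := normal_powHom_ker hWab
  have hΩtop : centralizer (Ω : Set G) ⊔ τ.range ≠ ⊤ := by
    intro ht
    refine hWtop (H51.eq_top_of_forall_sylow_le _ fun r hr _ => ?_)
    by_cases hrp : r = p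
    · subst hrp
      exact ⟨P, hP ▸ le_sup_right⟩
    haveI := Fact.mk hr
    obtain ⟨Pr⟩ : Nonempty (Sylow r G) := inferInstance
    refine ⟨Pr, le_trans ?_ le_sup_left⟩
    have hPr : (Pr : Subgroup G) ≤ centralizer (Ω : Set G) := by
      intro x hx
      haveI : (centralizer (Ω : Set G)).Normal := normal_centralizer
      have hxi : ((x : G) : G ⧸ centralizer (Ω : Set G)) = 1 := by
        have hSmap : (⊤ : Subgroup (G ⧸ centralizer (Ω : Set G))) = τ.range.map (QuotientGroup.mk' _) := by
          have := congrArg (Subgroup.map (QuotientGroup.mk' (centralizer (Ω : Set G)))) ht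
          rw [Subgroup.map_sup, map_top_of_surjective _ (QuotientGroup.mk'_surjective _),
            QuotientGroup.map_mk'_self, bot_sup_eq] at this
          exact this.symm
        have h1 : ((x : G) : G ⧸ centralizer (Ω : Set G)) ∈ τ.range.map (QuotientGroup.mk' _) :=
          hSmap ▸ mem_top _
        refine H74.eq_one_of_mem_pGroup (hSp.map _) ?_ h1
        intro hdvd
        obtain ⟨k, hk⟩ := Pr.isPGroup' ⟨x, hx⟩
        have h2 : x ^ r ^ k = 1 := by simpa using congrArg Subtype.val hk
        have h3 := hdvd.trans (orderOf_map_dvd (QuotientGroup.mk' _) x)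
        have h4 := h3.trans (orderOf_dvd_of_pow_eq_one h2)
        exact hrp ((Nat.prime_dvd_prime_iff_eq Fact.out hr).mp
          ((Fact.out : p.Prime).dvd_of_dvd_pow h4)).symm
      exact (QuotientGroup.eq_one_iff x).mp hxi
    have hWp : IsPGroup p W := (H72.pCore_isPGroup p).to_le hWQ
    haveI : IsMulCommutative W := le_centralizer_iff_isMulCommutative.mp hWab
    refine H20.le_centralizer_of_fixes_prime_order le_normalizer_of_normal ?_ ?_
    · obtain ⟨i, hi⟩ := Pr.isPGroup'.exists_card_eq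
      obtain ⟨j, hj⟩ := hWp.exists_card_eq
      rw [hi, hj]
      exact Nat.Coprime.pow _ _ ((Nat.coprime_primes hr Fact.out).mpr hrp)
    · intro v hv hvp a ha
      obtain ⟨j, hj⟩ := hWp ⟨v, hv⟩
      have hj' : v ^ p ^ j = 1 := by simpa using congrArg Subtype.val hj
      have hordp : orderOf v = p :=
        (Nat.prime_dvd_prime_iff_eq hvp Fact.out).mp (hvp.dvd_of_dvd_pow (orderOf_dvd_of_pow_eq_one hj'))
      exact (mem_centralizer_iff.mp (hPr ha) v
        (mem_powHom_ker.mpr ⟨hv, hordp ▸ pow_orderOf_eq_one v⟩)).symm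
  have hbΩ := hb Ω hΩn (hΩW.trans hWQ) (hQW.trans (centralizer_le hΩW)) hΩtop
  have hΩZ : Ω ⊓ centralizer (A.map τ : Set G) = (powHom p Z' hZab).ker.map Z'.subtype := by
    ext x
    rw [mem_inf, hΩ, mem_powHom_ker, mem_powHom_ker, ← hCZ, mem_inf]
    tauto
  rw [hΩZ] at hbΩ
  have e1 := card_powHom (p := p) W hWab
  have e2 := card_powHom (p := p) Z' hZab
  have hrange : (powHom p Z' hZab).range ≤ (powHom p W hWab).range := by
    rintro _ ⟨z, rfl⟩
    exact ⟨⟨z, hZW z.2⟩, rfl⟩
  have hcard : Nat.card ↥(powHom p W hWab).range ≤ Nat.card ↥(powHom p Z' hZab).range := by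
    refine Nat.le_of_mul_le_mul_left ?_ (card_pos' Ω)
    calc Nat.card Ω * Nat.card ↥(powHom p W hWab).range = q * Nat.card Z' := e1.trans hWq
      _ = (q * Nat.card ↥((powHom p Z' hZab).ker.map Z'.subtype)) *
          Nat.card ↥(powHom p Z' hZab).range := by rw [mul_assoc, e2]
      _ ≤ _ := Nat.mul_le_mul_right _ hbΩ
  have heq := eq_of_le_card hrange hcard
  haveI : ((powHom p W hWab).range).Normal := normal_powHom_range hWab
  haveI hCn : (centralizer ((powHom p W hWab).range : Set G)).Normal := normal_centralizer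
  have hrZ : (powHom p W hWab).range ≤ Z' := by
    rw [← heq]
    rintro _ ⟨z, rfl⟩
    exact pow_mem z.2 _
  have hmap : (Cfsg.powerClosure p 1 (center S)).map τ ≤ (powHom p W hWab).range := by
    rw [Cfsg.powerClosure, MonoidHom.map_closure, closure_le]
    rintro _ ⟨_, ⟨x, hx, rfl⟩, rfl⟩
    exact ⟨⟨τ x, hZW ⟨x, hx, rfl⟩⟩, by simp [powHom]⟩
  have hZP : Z' ≤ centralizer (τ.range : Set G) := by rw [hZ', map_center_range hτ]; exact inf_le_right
  refine normal_of_central_sup (pu_supplement hE ?_ hA'P hAQ) (centralizer_le hmap)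
    ((hmap.trans hrZ).trans hZP)
  exact le_centralizer_symm ((hrZ.trans hZP).trans (centralizer_le hA'P))

end Cfsg.Agent.H73.GN
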