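import Mathlib
import Cfsg.Agent.H24.PGroupBasic
import Cfsg.Agent.H73.GN.RedMho
import Cfsg.Agent.H73.GN.Embed

/-!
Pairs of characteristic subgroups, one of which is normal in every pushing-up situation.
-/

set_option autoImplicit false

namespace Cfsg.Agent.H73.GN

open Subgroup
open scoped Pointwise commutatorElement

universe u

variable {S : Type u} [Group S]

/-- `J̃(S) = C_S(Z(J(S)))`. -/
def jTilde (S : Type u) [Group S] : Subgroup S :=
  centralizer ((Cfsg.thompsonSubgroupA S ⊓ centralizer (Cfsg.thompsonSubgroupA S : Set S) :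
    Subgroup S) : Set S)

/-- The pair property. -/
structure IsPair (p : ℕ) (S₁ S₂ : Subgroup S) : Prop where
  ne₁ : S₁ ≠ ⊥
  ne₂ : S₂ ≠ ⊥
  char₁ : S₁.Characteristic
  char₂ : S₂.Characteristic
  le₁ : S₁ ≤ center S
  le₂ : S₂ ≤ jTilde S
  charIn : (S₂.subgroupOf (jTilde S)).Characteristic
  normal : ∀ (G : Type u) [Group G] [Finite G] (τ : S →* G), Function.Injective τ →
    Cfsg.IsPushingUpSituation p τ.range → (S₁.map τ).Normal ∨ (S₂.map τ).Normal

/-- The condition on the abelian subgroups of largest order. -/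
def AbelianCondition (S : Type u) [Group S] : Prop :=
  ∀ A ∈ Cfsg.maxAbelianSubgroups S, ∀ B ∈ Cfsg.maxAbelianSubgroups S, ∀ Q : Subgroup S,
    Nat.card ↥A ^ 2 = Nat.card S * Nat.card ↥(center S) ∧
      Nat.card ↥Q * Nat.card ↥(center ↥Q) ≤ Nat.card S * Nat.card ↥(center S) ∧
      ((A ⊔ B : Subgroup S) : Set S) = (A : Set S) * (B : Set S) ∧
      A ⊔ B = centralizer ((A ⊓ B : Subgroup S) : Set S)

theorem center_le_jTilde : center S ≤ jTilde S := center_le_centralizer _

theorem jTilde_char : (jTilde S).Characteristic :=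
  centralizer_char (inf_char thompsonA_char (centralizer_char thompsonA_char))

variable [Finite S] {p : ℕ} [Fact p.Prime]

theorem phi_top_eq : phi (⊤ : Subgroup S) = frattini S := by
  have h : (frattini ↥(⊤ : Subgroup S)).map (topEquiv : (⊤ : Subgroup S) ≃* S).toMonoidHom = frattini S := by
    refine le_antisymm (map_le_iff_le_comap.mpr (frattini_le_comap_frattini_of_surjective
      (φ := (topEquiv : (⊤ : Subgroup S) ≃* S).toMonoidHom) topEquiv.surjective)) ?_
    intro x hx
    exact ⟨(topEquiv : (⊤ : Subgroup S) ≃* S).symm x, frattini_le_comap_frattini_of_surjective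
      (φ := (topEquiv : (⊤ : Subgroup S) ≃* S).symm.toMonoidHom) topEquiv.symm.surjective hx, by simp⟩
  exact h

theorem sZero_top_eq : sZero p (⊤ : Subgroup S) =
    if p = 2 then ⁅frattini S, (⊤ : Subgroup S)⁆ ⊔ (frattini ↥(frattini S)).map (frattini S).subtype
    else if p = 3 then ⁅⁅frattini S, (⊤ : Subgroup S)⁆, (⊤ : Subgroup S)⁆ ⊔
      (frattini ↥(frattini S)).map (frattini S).subtype
    else ⁅frattini S, (⊤ : Subgroup S)⁆ ⊔ Cfsg.powerClosure p 1 (⊤ : Subgroup S) := by
  rw [sZero, phi_top_eq]; rfl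

theorem sZero_top_char : (sZero p (⊤ : Subgroup S)).Characteristic :=
  characteristic_iff_map_eq.mpr fun φ => by
    rw [← sZero_map (f := φ.toMonoidHom) φ.injective, map_top_of_surjective _ φ.surjective]

theorem inf_center_ne (hS : IsPGroup p S) {H : Subgroup S} (hc : H.Characteristic) (hne : H ≠ ⊥) :
    center S ⊓ H ≠ ⊥ := by
  haveI := hc
  rw [inf_comm]
  exact H24.inf_center_ne_bot hS hne

theorem center_ne_bot [Nontrivial S] (hS : IsPGroup p S) : center S ≠ ⊥ := by
  have := inf_center_ne hS top_char top_ne_bot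
  rwa [inf_top_eq] at this

/-- Vanishing `S₀` in terms of the Frattini subgroup. -/
theorem frattini_conditions [Nontrivial S] (hS : IsPGroup p S)
    (hz : Cfsg.IsElementaryAbelian p (center S)) (h : sZero p (⊤ : Subgroup S) = ⊥) :
    Cfsg.IsElementaryAbelian p (frattini S) ∧ (p = 2 → frattini S ≤ center S) ∧
      (p = 3 → frattini S ≤ Subgroup.upperCentralSeries S 2) ∧
      (3 < p → frattini S ≤ center S ∧ Monoid.exponent S = p) := by
  rw [sZero_top_eq] at h
  have hΦ : IsPGroup p ↥(frattini S) := hS.to_subgroup _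
  have hcomm : ⁅frattini S, (⊤ : Subgroup S)⁆ = ⊥ → frattini S ≤ center S := fun e => by
    have := commutator_eq_bot_iff_le_centralizer.mp e
    rwa [coe_top, centralizer_univ] at this
  have helem : (frattini ↥(frattini S)).map (frattini S).subtype = ⊥ →
      Cfsg.IsElementaryAbelian p (frattini S) := fun e => by
    refine ⟨le_centralizer_iff_isMulCommutative.mp fun x hx => mem_centralizer_iff.mpr fun y hy => ?_,
      fun a ha => ?_⟩
    · have := commutator_mem_phi hΦ hy hx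
      rw [phi, e, mem_bot] at this
      exact commutatorElement_eq_one_iff_mul_comm.mp this
    · have := pow_mem_phi hΦ ha
      rwa [phi, e, mem_bot] at this
  by_cases hp2 : p = 2
  · rw [if_pos hp2, sup_eq_bot_iff] at h
    exact ⟨helem h.2, fun _ => hcomm h.1, fun h' => absurd (hp2.symm.trans h') (by omega),
      fun h' => absurd (hp2 ▸ h') (by omega)⟩
  by_cases hp3 : p = 3
  · rw [if_neg hp2, if_pos hp3, sup_eq_bot_iff] at h
    refine ⟨helem h.2, fun h' => absurd h' hp2, fun _ x hx => ?_, fun h' => absurd (hp3 ▸ h') (by omega)⟩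
    rw [Subgroup.mem_upperCentralSeries_succ_iff, Subgroup.upperCentralSeries_one]
    intro y
    have e := commutator_eq_bot_iff_le_centralizer.mp h.1
    rw [coe_top, centralizer_univ] at e
    exact e (commutator_mem_commutator hx (mem_top y))
  · rw [if_neg hp2, if_neg hp3, sup_eq_bot_iff] at h
    have hle := hcomm h.1
    have hexp : ∀ x : S, x ^ p = 1 := fun x => by
      have : x ^ p ∈ Cfsg.powerClosure p 1 (⊤ : Subgroup S) :=
        subset_closure ⟨x, mem_top x, by rw [pow_one]⟩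
      rwa [h.2, mem_bot] at this
    refine ⟨⟨?_, fun a _ => hexp a⟩, fun h' => absurd h' hp2, fun h' => absurd h' hp3,
      fun _ => ⟨hle, ?_⟩⟩
    · exact le_centralizer_iff_isMulCommutative.mp (hle.trans (center_le_centralizer _))
    · rcases (Nat.dvd_prime Fact.out).mp (Monoid.exponent_dvd_of_forall_pow_eq_one hexp) with e | e
      · exact absurd (Monoid.exp_eq_one_iff.mp e) (not_subsingleton S)
      · exact e

/-- When `J̃ = S` and a minimal centrally large subgroup is abelian. -/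
theorem case_d_data {Q₀ : Subgroup S} (hQ₀ : Cfsg.IsMinimalCentrallyLarge Q₀) (hab : ⁅Q₀, Q₀⁆ = ⊥)
    (hjt : jTilde S = ⊤) :
    Cfsg.thompsonSubgroupA S = ⊤ ∧ Cfsg.IsCentrallyLarge (⊤ : Subgroup S) ∧
      (∀ H : Subgroup S, Nat.card H * Nat.card ↥(centralizer (H : Set S)) ≤
        Nat.card S * Nat.card (center S)) ∧
      (∀ A ∈ Cfsg.maxAbelianSubgroups S, centralizer (A : Set S) = A ∧
        Nat.card A * Nat.card A = Nat.card S * Nat.card (center S)) ∧ AbelianCondition S := by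
  have hiff := H74.minimal_iff_maxAbelian hQ₀ hab
  have hA : ∀ A ∈ Cfsg.maxAbelianSubgroups S, Cfsg.IsCentrallyLarge A ∧ centralizer (A : Set S) = A :=
    fun A hA => ⟨((hiff A).mpr hA).1, le_antisymm (maxAbelian_self_centralizing hA)
      (le_centralizer_iff_isMulCommutative.mpr hA.1)⟩
  set J := Cfsg.thompsonSubgroupA S with hJ
  have hJcl : Cfsg.IsCentrallyLarge J := by
    have hQ₀J : Q₀ ≤ J := le_sSup ((hiff Q₀).mp hQ₀)
    obtain ⟨M, -, hM⟩ := Finite.exists_le_maximal (α := Subgroup S)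
      (p := fun X => X ≤ J ∧ Cfsg.IsCentrallyLarge X) ⟨hQ₀J, hQ₀.1⟩
    have hMJ : M = J := le_antisymm hM.prop.1 (sSup_le fun A hA' =>
      le_sup_right.trans (hM.le_of_ge ⟨sup_le hM.prop.1 (le_sSup hA'),
        H74.centrallyLarge_sup hM.prop.2 (hA A hA').1⟩ le_sup_left))
    exact hMJ ▸ hM.prop.2
  obtain ⟨hJcz, hJc⟩ := H74.centrallyLarge_iff.mp hJcl
  have hJtop : J = ⊤ := by
    rw [← hjt, jTilde, inf_eq_right.mpr hJc]
    exact (H74.cd_centralizer hJcz).2.symm
  have htop : Cfsg.IsCentrallyLarge (⊤ : Subgroup S) := hJtop ▸ hJcl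
  have hmax : Cfsg.maxCentralizerProduct S = Nat.card S * Nat.card (center S) := by
    have := (H74.centrallyLarge_iff.mp htop).1
    unfold Cfsg.IsCentralizerLarge at this
    rw [card_top, coe_top, centralizer_univ] at this
    exact this.symm
  have hAm : ∀ A ∈ Cfsg.maxAbelianSubgroups S,
      Nat.card A * Nat.card A = Nat.card S * Nat.card (center S) := fun A hA' => by
    have := (H74.centrallyLarge_iff.mp (hA A hA').1).1
    unfold Cfsg.IsCentralizerLarge at this
    rwa [(hA A hA').2, hmax] at this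
  refine ⟨hJtop, htop, fun H => hmax ▸ H74.cdMeasure_le H, fun A hA' => ⟨(hA A hA').2, hAm A hA'⟩,
    fun A hA' B hB' Q => ⟨by rw [sq, hAm A hA'], ?_, ?_, ?_⟩⟩
  · rw [H74.card_center_eq, ← hmax]
    exact (Nat.mul_le_mul_left _ (card_le_of_le inf_le_right)).trans (H74.cdMeasure_le Q)
  all_goals obtain ⟨-, -, h3, h4, -, -⟩ :=
    H74.cd_sup_inf (H74.centrallyLarge_iff.mp (hA A hA').1).1 (H74.centrallyLarge_iff.mp (hA B hB').1).1
  · exact h3
  · rw [h4, (hA A hA').2, (hA B hB').2]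

/-- **The pair.** -/
theorem exists_pair [Nontrivial S] (hS : IsPGroup p S)
    (h : ¬ (¬ IsMulCommutative S ∧ Cfsg.thompsonSubgroupA S = ⊤ ∧
      Cfsg.IsElementaryAbelian p (center S) ∧ sZero p (⊤ : Subgroup S) = ⊥ ∧ AbelianCondition S)) :
    ∃ S₁ S₂ : Subgroup S, IsPair p S₁ S₂ ∧
      Cfsg.maxCentralProduct ↥S₂ = Cfsg.maxCentralProduct ↥(jTilde S) := by
  have hzne : center S ≠ ⊥ := center_ne_bot hS
  have htopne : (⊤ : Subgroup S) ≠ ⊥ := top_ne_bot
  have hjne : jTilde S ≠ ⊥ := fun e => hzne (le_bot_iff.mp (e ▸ center_le_jTilde))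
  by_cases hjt : jTilde S = ⊤
  swap
  · have hc : ⁅Cfsg.thompsonSubgroupA S ⊓ centralizer (Cfsg.thompsonSubgroupA S : Set S),
        (⊤ : Subgroup S)⁆ ≠ ⊥ := fun e => hjt (by
      rw [commutator_comm] at e
      exact top_le_iff.mp (commutator_eq_bot_iff_le_centralizer.mp e))
    have hch : (⁅Cfsg.thompsonSubgroupA S ⊓ centralizer (Cfsg.thompsonSubgroupA S : Set S),
        (⊤ : Subgroup S)⁆ : Subgroup S).Characteristic :=
      commutator_char (inf_char thompsonA_char (centralizer_char thompsonA_char)) top_char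
    refine ⟨_, jTilde S, ⟨?_, hjne, inf_char hch center_char, jTilde_char, inf_le_right, le_rfl,
      char_subgroupOf_self _, fun G _ _ τ hτ hE => case_jtilde hτ hE⟩, rfl⟩
    rw [inf_comm]
    exact inf_center_ne hS hch hc
  have hin : ∀ {H : Subgroup S}, H.Characteristic → (H.subgroupOf (jTilde S)).Characteristic :=
    fun hH => char_subgroupOf_top hjt hH
  have hfeq : ∀ {H R : Subgroup S}, Cfsg.IsCentrallyLarge R → R ≤ H →
      Cfsg.maxCentralProduct ↥H = Cfsg.maxCentralProduct ↥(jTilde S) := fun {H R} hR hRH => by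
    rw [maxCentralProduct_of_le hR hRH, maxCentralProduct_of_le hR (hjt ▸ le_top)]
  obtain ⟨C, hC⟩ := H74.exists_centrallyLarge (G := S)
  by_cases hab : IsMulCommutative S
  · refine ⟨⊤, ⊤, ⟨htopne, htopne, top_char, top_char, ?_, hjt.ge, hin top_char,
      fun G _ _ τ hτ hE => Or.inl (case_abelian hE hab)⟩, hfeq hC le_top⟩
    exact fun x _ => mem_center_iff.mpr fun y => hab.is_comm.comm y x
  obtain ⟨Q₀, hQ₀⟩ := H74.exists_minimalCentrallyLarge (G := S)
  have hQ₀le : Q₀ ≤ Cfsg.minimalCentrallyLargeJoin S := le_sSup hQ₀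
  by_cases hQab : ⁅Q₀, Q₀⁆ = ⊥
  swap
  · refine ⟨_, Cfsg.minimalCentrallyLargeJoin S, ⟨inf_center_ne hS (minimal_commutator_char hQ₀) hQab,
      fun e => hQab ?_, inf_char center_char (minimal_commutator_char hQ₀),
      minimalCentrallyLargeJoin_char, inf_le_left, hjt ▸ le_top,
      hin minimalCentrallyLargeJoin_char, fun G _ _ τ hτ hE => case_derived hτ hE hQ₀⟩,
      hfeq hQ₀.1 hQ₀le⟩
    rw [le_bot_iff.mp (hQ₀le.trans e.le), commutator_bot_left]
  obtain ⟨hJ, htop, hle, hAd, hcond⟩ := case_d_data hQ₀ hQab hjt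
  by_cases hz : Cfsg.IsElementaryAbelian p (center S)
  swap
  · have hch : (Cfsg.powerClosure p 1 (center S)).Characteristic := powerClosure_char p 1 center_char
    refine ⟨_, ⊤, ⟨fun e => hz ⟨inferInstance, fun a ha => ?_⟩, htopne, hch, top_char,
      (closure_le _).mpr ?_, hjt.ge, hin top_char, fun G _ _ τ hτ hE => case_mho hτ hE hJ⟩,
      hfeq htop le_rfl⟩
    · have : a ^ p ∈ Cfsg.powerClosure p 1 (center S) := subset_closure ⟨a, ha, by rw [pow_one]⟩
      rwa [e, mem_bot] at this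
    · rintro _ ⟨x, hx, rfl⟩
      exact pow_mem hx _
  have hs : sZero p (⊤ : Subgroup S) ≠ ⊥ := fun e => h ⟨hab, hJ, hz, e, hcond⟩
  obtain ⟨K, hKc, hKle, hKm, hKn⟩ := exists_kernel (p := p) hS hle hz.2 fun R hR => by
    obtain ⟨A, hA, hAR⟩ : ∃ A ∈ Cfsg.maxAbelianSubgroups S, ¬ A ≤ R := by
      by_contra hno
      push Not at hno
      exact hR (top_le_iff.mp (hJ ▸ sSup_le hno))
    exact ⟨A, hAR, hAd A hA⟩
  have hKcl : Cfsg.IsCentrallyLarge K := H74.centrallyLarge_iff.mpr ⟨by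
    have := (H74.centrallyLarge_iff.mp htop).1
    unfold Cfsg.IsCentralizerLarge at this ⊢
    rw [card_top, coe_top, centralizer_univ] at this
    rw [hKm, this], hKle⟩
  refine ⟨_, K, ⟨inf_center_ne hS sZero_top_char hs, fun e => hzne ?_,
    inf_char center_char sZero_top_char, hKc, inf_le_left, hjt ▸ le_top, hin hKc, hKn⟩,
    hfeq hKcl le_rfl⟩
  refine le_bot_iff.mp ((center_le_centralizer (K : Set S)).trans ?_)
  exact hKle.trans e.le

/-- The pair `(Z, S_Φ)` when no abelian subgroup of largest order is elementary. -/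
theorem exists_pair_frattini [Nontrivial S] (hS : IsPGroup p S)
    (hJ : Cfsg.thompsonSubgroupA S = ⊤) (hc : AbelianCondition S)
    (hne : ¬ ∃ A ∈ Cfsg.maxAbelianSubgroups S, Cfsg.IsElementaryAbelian p A) :
    ∃ S₁ S₂ : Subgroup S, IsPair p S₁ S₂ := by
  have hjt : jTilde S = ⊤ := by
    rw [jTilde, hJ, top_inf_eq, coe_top, centralizer_univ, centralizer_eq_top_iff_subset]
  obtain ⟨Q, hQ⟩ : ∃ Q : {Q : Subgroup S // Cfsg.IsMinimalCentrallyLarge Q ∧
      Nat.card ↥(Cfsg.omegaOneCenter p Q) = Cfsg.maxOmegaCenterOfMinimalCL p S}, True := by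
    obtain ⟨Q, hQ, hQm⟩ : Cfsg.maxOmegaCenterOfMinimalCL p S ∈
        {k : ℕ | ∃ Q : Subgroup S, Cfsg.IsMinimalCentrallyLarge Q ∧
          Nat.card ↥(Cfsg.omegaOneCenter p Q) = k} := by
      obtain ⟨Q₀, hQ₀⟩ := H74.exists_minimalCentrallyLarge (G := S)
      refine Nat.sSup_mem ⟨_, Q₀, hQ₀, rfl⟩ ?_
      exact (Set.finite_range fun Y : Subgroup S => Nat.card ↥(Cfsg.omegaOneCenter p Y)).bddAbove.mono
        (by rintro _ ⟨Y, -, hY⟩; exact ⟨Y, hY⟩)
    exact ⟨⟨Q, hQ, hQm⟩, trivial⟩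
  refine ⟨center S, Cfsg.frattiniOfMinimalCLJoin p S, center_ne_bot hS, fun e => hne ?_, center_char,
    frattiniJoin_char, le_rfl, hjt ▸ le_top, char_subgroupOf_top hjt frattiniJoin_char,
    fun G _ _ τ hτ hE => case_frattini hτ hE⟩
  have hphi : phi (Q : Subgroup S) = ⊥ := le_bot_iff.mp (e ▸ le_iSup (fun Q : {Q : Subgroup S //
      Cfsg.IsMinimalCentrallyLarge Q ∧
        Nat.card ↥(Cfsg.omegaOneCenter p Q) = Cfsg.maxOmegaCenterOfMinimalCL p S} =>
      (frattini ↥(Q : Subgroup S)).map (Q : Subgroup S).subtype) Q)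
  have hQp : IsPGroup p ↥(Q : Subgroup S) := hS.to_subgroup _
  have hQc : ⁅(Q : Subgroup S), (Q : Subgroup S)⁆ = ⊥ := le_bot_iff.mp (hphi ▸ commutator_le.mpr
    fun a ha b hb => commutator_mem_phi hQp ha hb)
  have hQA := (H74.minimal_iff_maxAbelian Q.2.1 hQc Q).mp Q.2.1
  refine ⟨Q, hQA, hQA.1, fun a ha => ?_⟩
  have := pow_mem_phi hQp ha
  rwa [hphi, mem_bot] at this

end Cfsg.Agent.H73.GN
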